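import Mathlib
import Cfsg.Agent.Lib.B6S.Bas2

/-! More consequences of Sylow theory in `C(t)`. -/

set_option autoImplicit false
set_option linter.unusedSectionVars false

namespace H60M.A6

open Subgroup H69 H36.SW B2

variable {G : Type*} [Group G] [Finite G]

namespace Fr
variable (F : Fr G)

/-- an element of `C(t) ∩ N(T)` fixes `W1`, `W2` or moves `u1` to `u2` -/
theorem swu {x : G} (ht : x * F.t = F.t * x) (hn : x ∈ 𝐍(F.T)) :
    x ∈ F.NN ∨ (F.dl ≠ 1 ∧ F.W1 ^ᶜ x = F.W2 ∧ x * F.u1 * x⁻¹ = F.u2 ∧ x * F.u2 * x⁻¹ = F.u1) := by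
  rcases F.permW hn with k | k
  · exact .inl ⟨hn, k⟩
  have d : F.dl ≠ 1 := fun d => F.W12 d x ht k.1
  obtain ⟨-, -, a, b, -⟩ := F.hdl.resolve_left d
  have m : x * F.dl ∈ F.NN := F.mem_NN (mul_mem hn F.dlT) (cj_eq_self_iff.1 (by rw [← cj_cj, F.dlW d, k.2]))
  have c : x * F.dl * F.t = F.t * (x * F.dl) := (Commute.mul_left ht F.dlt).eq
  have e1 := cj_of_comm (F.fixu c m.2.1)
  have e2 : x * F.dl * F.u2 * (x * F.dl)⁻¹ = F.u2 := cj_of_comm (F.sw.fixu c m.2.2)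
  refine .inr ⟨d, k.1, ?_, ?_⟩
  · rw [← e2, ← b]; group
  · rw [← e1, ← a]; group

theorem u12ne : F.u1 ≠ F.u2 := fun e => F.z1 (by
  have := F.u2_eq F.hu1
  rw [← e] at this
  simpa using this)

/-- `T` is a Sylow 2-subgroup of `C(t, u1)` -/
theorem sylTu : IsSylowIn 2 F.T (centralizer {F.t} ⊓ centralizer {F.u1}) := by
  refine ⟨le_inf F.TC fun x hx => mem_centralizer_singleton_iff.2
    (mem_centralizer_iff_commute.1 ((F.cenT F.b2_uT).2 F.b2_uZ) x hx), F.isPT, fun R h1 h2 hR => ?_⟩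
  by_contra ne
  refine (lt_inf_normalizer_of_lt hR (lt_of_le_of_ne h1 (Ne.symm ne))).2 fun x hx => ?_
  have ct := mem_centralizer_singleton_iff.1 (h2 hx.1).1
  rcases F.swu ct hx.2 with k | ⟨-, -, k, -⟩
  · exact F.p2T ct hx.2 k.2.1 (P2.of_mem hR hx.1)
  · exact (F.u12ne ((cj_of_comm (mem_centralizer_singleton_iff.1 (h2 hx.1).2)).symm.trans k)).elim

/-- a 2-element of `C(t) ∩ N(T)` that fixes `u1` lies in `T` -/
theorem p2Tu {x : G} (h : x * F.t = F.t * x) (hn : x ∈ 𝐍(F.T)) (hu : x * F.u1 = F.u1 * x) (h2 : P2 x) : x ∈ F.T :=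
  mem_of_P2_norm F.sylTu ⟨mem_centralizer_singleton_iff.2 h, mem_centralizer_singleton_iff.2 hu⟩ h2 hn

/-- with `dl = 1`, `T` is a Sylow 2-subgroup of `C(t)` -/
theorem sylT (d : F.dl = 1) : IsSylowIn 2 F.T (centralizer {F.t}) := F.TD1 d ▸ F.sylTD

end Fr

end H60M.A6
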