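import Mathlib
import Cfsg.Agent.Lib.B7S.Defs

/-! Standard subgroups of type `A₆`: the abstract frame. -/

set_option autoImplicit false

namespace H60M.A6

open Subgroup H69 H36.SW

variable {G : Type*} [Group G]

/-- The abstract frame: `T ⟨dl⟩` is a Sylow 2-subgroup of `C(t)`, `T = ⟨t⟩ × ⟨v1, v2⟩ × ⟨u1⟩`. -/
structure Fr (G : Type*) [Group G] where
  E : Subgroup G
  t : G
  z : G
  v1 : G
  v2 : G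
  u1 : G
  u2 : G
  y1 : G
  y2 : G
  dl : G
  En : E.Normal
  Es : IsSimpleGroup E
  top : ∀ g, g ∈ E ∨ g * t ∈ E
  v1E : v1 ∈ E
  v2E : v2 ∈ E
  y1E : y1 ∈ E
  y2E : y2 ∈ E
  tt : t * t = 1
  zz : z * z = 1
  v11 : v1 * v1 = 1
  v22 : v2 * v2 = 1
  u11 : u1 * u1 = 1
  u22 : u2 * u2 = 1
  hz : v1 * v2 * v1 * v2 = z
  hz' : v2 * v1 * v2 * v1 = z
  z1 : z ≠ 1
  tv1 : t * v1 = v1 * t
  tv2 : t * v2 = v2 * t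
  tu1 : t * u1 = u1 * t
  tu2 : t * u2 = u2 * t
  u1v1 : u1 * v1 = v1 * u1
  u1v2 : u1 * v2 = v2 * u1
  u2v1 : u2 * v1 = v1 * u2
  u2v2 : u2 * v2 = v2 * u2
  tD : t ∉ closure ({v1, v2, u1, u2} : Set G)
  hu : (u1 = 1 ∧ u2 = 1) ∨ (u2 = z * u1 ∧ u1 = z * u2 ∧ u1 ∉ closure ({t, v1, v2} : Set G) ∧
    u2 ∉ closure ({t, v1, v2} : Set G))
  hu1 : u1 ≠ 1
  dlt : dl * t = t * dl
  hdl : dl = 1 ∨ (dl * v1 * dl⁻¹ = v2 ∧ dl * v2 * dl⁻¹ = v1 ∧ dl * u1 * dl⁻¹ = u2 ∧ dl * u2 * dl⁻¹ = u1 ∧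
    (dl * dl = 1 ∨ dl * dl = t))
  syl : IsSylowIn 2 (closure ({t, v1, v2, u1, u2, dl} : Set G)) (centralizer {t})
  y13 : Odd (orderOf y1)
  y23 : Odd (orderOf y2)
  y1t : y1 * t = t * y1
  y2t : y2 * t = t * y2
  y1u : y1 * u1 = u1 * y1
  y2u : y2 * u2 = u2 * y2
  y1z : y1 * z * y1⁻¹ = v1
  y2z : y2 * z * y2⁻¹ = v2
  y1v : y1 * v1 * y1⁻¹ = z * v1
  y2v : y2 * v2 * y2⁻¹ = z * v2
  v2y : v2 * y1 * v2 = y1⁻¹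
  v1y : v1 * y2 * v1 = y2⁻¹
  nW1 : ∀ g, g * t = t * g → g ∈ 𝐍(closure ({t, z, v1, u1} : Set G)) →
    g * u1 = u1 * g ∧ g ∈ 𝐍(closure ({z, v1} : Set G))
  nW2 : ∀ g, g * t = t * g → g ∈ 𝐍(closure ({t, z, v2, u2} : Set G)) →
    g * u2 = u2 * g ∧ g ∈ 𝐍(closure ({z, v2} : Set G))
  W12 : dl = 1 → ∀ g, g * t = t * g → closure ({t, z, v1, u1} : Set G) ^ᶜ g ≠ closure ({t, z, v2, u2} : Set G)
  nd : dl ≠ 1 → ∀ g, g * t = t * g → ∀ x ∈ closure ({t, v1, v2, u1, u2} : Set G),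
    g * (dl * x) * g⁻¹ ∉ closure ({t, v1, v2, u1, u2} : Set G)
  zs : ∃ g, g * t * g⁻¹ ≠ t ∧ g * t * g⁻¹ * t = t * (g * t * g⁻¹)

namespace Fr
variable (F : Fr G)

/-- the Sylow 2-subgroup of `C(t)` -/
def TD : Subgroup G := closure {F.t, F.v1, F.v2, F.u1, F.u2, F.dl}
/-- the Thompson subgroup of `TD` -/
def T : Subgroup G := closure {F.t, F.v1, F.v2, F.u1, F.u2}
/-- the first elementary abelian subgroup -/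
def W1 : Subgroup G := closure {F.t, F.z, F.v1, F.u1}
/-- the second elementary abelian subgroup -/
def W2 : Subgroup G := closure {F.t, F.z, F.v2, F.u2}
/-- the four-group `V1` -/
def V1 : Subgroup G := closure {F.z, F.v1}
/-- the four-group `V2` -/
def V2 : Subgroup G := closure {F.z, F.v2}
/-- the hyperplane `W1⁰` -/
def X1 : Subgroup G := closure {F.z, F.v1, F.u1}
/-- the hyperplane `W2⁰` -/
def X2 : Subgroup G := closure {F.z, F.v2, F.u2}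
/-- `⟨z, u1⟩ = ⟨z, u2⟩` -/
def F0 : Subgroup G := closure {F.z, F.u1, F.u2}
/-- the centre of `T` -/
def ZT : Subgroup G := closure {F.t, F.z, F.u1, F.u2}
/-- the elements of `N(T)` that fix `W1` and `W2` -/
def NN : Subgroup G := 𝐍(F.T) ⊓ (𝐍(F.W1) ⊓ 𝐍(F.W2))
/-- the class of `t` -/
def Om (s : G) : Prop := ∃ g, g * F.t * g⁻¹ = s

/-- the frame with the two sides exchanged -/
def sw : Fr G where
  E := F.E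
  t := F.t
  z := F.z
  v1 := F.v2
  v2 := F.v1
  u1 := F.u2
  u2 := F.u1
  y1 := F.y2
  y2 := F.y1
  dl := F.dl
  En := F.En
  Es := F.Es
  top := F.top
  v1E := F.v2E
  v2E := F.v1E
  y1E := F.y2E
  y2E := F.y1E
  tt := F.tt
  zz := F.zz
  v11 := F.v22
  v22 := F.v11
  u11 := F.u22
  u22 := F.u11
  hz := F.hz'
  hz' := F.hz
  z1 := F.z1
  tv1 := F.tv2
  tv2 := F.tv1
  tu1 := F.tu2
  tu2 := F.tu1
  u1v1 := F.u2v2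
  u1v2 := F.u2v1
  u2v1 := F.u1v2
  u2v2 := F.u1v1
  tD := by
    rw [Set.insert_comm F.v2, Set.pair_comm F.u2]; exact F.tD
  hu := by
    rw [Set.pair_comm F.v2]
    exact F.hu.imp (fun h => ⟨h.2, h.1⟩) fun h => ⟨h.2.1, h.1, h.2.2.2, h.2.2.1⟩
  hu1 := fun k => (F.hu.resolve_left fun k => F.hu1 k.1).2.2.2 (k ▸ one_mem _)
  dlt := F.dlt
  hdl := F.hdl.imp_right fun h => ⟨h.2.1, h.1, h.2.2.2.1, h.2.2.1, h.2.2.2.2⟩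
  syl := by
    rw [Set.insert_comm F.v2, Set.insert_comm F.u2]; exact F.syl
  y13 := F.y23
  y23 := F.y13
  y1t := F.y2t
  y2t := F.y1t
  y1u := F.y2u
  y2u := F.y1u
  y1z := F.y2z
  y2z := F.y1z
  y1v := F.y2v
  y2v := F.y1v
  v2y := F.v1y
  v1y := F.v2y
  nW1 := F.nW2
  nW2 := F.nW1
  W12 := fun hd g hg e => F.W12 hd g⁻¹ (by
    rw [inv_mul_eq_iff_eq_mul, ← mul_assoc, hg, mul_inv_cancel_right]) (by rw [← e, cj_cj_inv])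
  nd := by
    rw [Set.insert_comm F.v2, Set.pair_comm F.u2]; exact F.nd
  zs := F.zs

theorem sw_T : F.sw.T = F.T := by
  show closure {F.t, F.v2, F.v1, F.u2, F.u1} = _
  rw [Set.insert_comm F.v2, Set.pair_comm F.u2]; rfl
theorem sw_TD : F.sw.TD = F.TD := by
  show closure {F.t, F.v2, F.v1, F.u2, F.u1, F.dl} = _
  rw [Set.insert_comm F.v2, Set.insert_comm F.u2]; rfl
theorem sw_F0 : F.sw.F0 = F.F0 := by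
  show closure {F.z, F.u2, F.u1} = _
  rw [Set.pair_comm F.u2]; rfl
theorem sw_ZT : F.sw.ZT = F.ZT := by
  show closure {F.t, F.z, F.u2, F.u1} = _
  rw [Set.pair_comm F.u2]; rfl
theorem sw_W1 : F.sw.W1 = F.W2 := rfl
theorem sw_W2 : F.sw.W2 = F.W1 := rfl
theorem sw_V1 : F.sw.V1 = F.V2 := rfl
theorem sw_V2 : F.sw.V2 = F.V1 := rfl
theorem sw_X1 : F.sw.X1 = F.X2 := rfl
theorem sw_X2 : F.sw.X2 = F.X1 := rfl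
theorem sw_Om : F.sw.Om = F.Om := rfl

theorem sw_NN : F.sw.NN = F.NN := by
  show 𝐍(F.sw.T) ⊓ (𝐍(F.W2) ⊓ 𝐍(F.W1)) = _
  rw [F.sw_T, inf_comm (a := 𝐍(F.W2))]; rfl

/-- `⟨t, u1⟩` and `⟨t, u2⟩` are not conjugate -/
def Typ : Prop := ∀ g, closure ({F.t, F.u1} : Set G) ^ᶜ g ≠ closure ({F.t, F.u2} : Set G)

/-- the elements that move `t` to `t z` are translations of `W1` -/
def XT : Prop := ∀ σ ∈ 𝐍(F.W1), σ * F.t * σ⁻¹ = F.t * F.z → σ * F.z = F.z * σ → σ * F.u1 = F.u1 * σ → σ ∈ 𝐍(F.V1)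

/-- the orbit of `t` under `N(W_i)` is `t V_i` -/
structure CI : Prop where
  sz : ∃ σ ∈ F.NN, σ * F.t * σ⁻¹ = F.t * F.z
  n1 : ¬ F.Om F.u1
  n2 : ¬ F.Om F.u2
  orb1 : ∀ n ∈ 𝐍(F.W1), F.t * (n * F.t * n⁻¹) ∈ F.V1
  orb2 : ∀ n ∈ 𝐍(F.W2), F.t * (n * F.t * n⁻¹) ∈ F.V2
  fx1 : ∀ g ∈ F.NN, g * F.u1 = F.u1 * g
  fx2 : ∀ g ∈ F.NN, g * F.u2 = F.u2 * g

/-- the orbit of `t` under `N(W_i)` is `t X_i` -/
structure CA : Prop where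
  sz : ∃ σ ∈ F.NN, σ * F.t * σ⁻¹ = F.t * F.z
  s1 : ∃ σ ∈ F.NN, σ * F.t * σ⁻¹ = F.t * F.u1
  s2 : ∃ σ ∈ F.NN, σ * F.t * σ⁻¹ = F.t * F.u2
  n1 : ¬ F.Om F.u1
  n2 : ¬ F.Om F.u2
  fx1 : ∀ g ∈ F.NN, g * F.u1 = F.u1 * g
  fx2 : ∀ g ∈ F.NN, g * F.u2 = F.u2 * g

theorem CI.sw {F : Fr G} (c : F.CI) : F.sw.CI :=
  ⟨F.sw_NN ▸ c.sz, c.n2, c.n1, c.orb2, c.orb1, F.sw_NN ▸ c.fx2, F.sw_NN ▸ c.fx1⟩
theorem CA.sw {F : Fr G} (c : F.CA) : F.sw.CA :=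
  ⟨F.sw_NN ▸ c.sz, F.sw_NN ▸ c.s2, F.sw_NN ▸ c.s1, c.n2, c.n1, F.sw_NN ▸ c.fx2, F.sw_NN ▸ c.fx1⟩
theorem CI.oz {F : Fr G} (c : F.CI) : F.Om (F.t * F.z) := let ⟨σ, _, e⟩ := c.sz; ⟨σ, e⟩
theorem CA.oz {F : Fr G} (c : F.CA) : F.Om (F.t * F.z) := let ⟨σ, _, e⟩ := c.sz; ⟨σ, e⟩
theorem CA.o1 {F : Fr G} (c : F.CA) : F.Om (F.t * F.u1) := let ⟨σ, _, e⟩ := c.s1; ⟨σ, e⟩
theorem CA.o2 {F : Fr G} (c : F.CA) : F.Om (F.t * F.u2) := let ⟨σ, _, e⟩ := c.s2; ⟨σ, e⟩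
theorem CA.u1 {F : Fr G} (_ : F.CA) : F.u1 ≠ 1 := F.hu1
theorem CA.u2 {F : Fr G} (_ : F.CA) : F.u2 ≠ 1 := F.sw.hu1

/-- `dl ≠ 1` and `t^G ∩ Z(T) = {t, t z}` -/
structure IIa : Prop where
  ci : F.CI
  d1 : F.dl ≠ 1
  n3 : ¬ F.Om (F.t * F.u1)
  n4 : ¬ F.Om (F.t * F.u2)

/-- `dl = 1`, but `N(T)` swaps `W1` and `W2` -/
structure SZ (γ : G) : Prop where
  ci : F.CI
  d1 : F.dl = 1
  γT : γ ∈ 𝐍(F.T)
  γ2 : P2 γ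
  γW : F.W1 ^ᶜ γ = F.W2
  γt : γ * F.t * γ⁻¹ = F.t * F.u2
  γu : γ * F.u1 * γ⁻¹ = F.u2

/-- Translations of `W1`: `g, d, v` move `t` to `t z, t v1, t u0`. -/
structure Tr (u0 ub za zc : G) (g d v η : G) : Prop where
  h0 : (u0 = 1 ∧ v = 1) ∨ (u0 = F.u1 ∧ F.u1 ≠ 1)
  hb : ub = 1 ∨ ub = F.u1
  ha : za = 1 ∨ za = F.z
  hc : zc = 1 ∨ zc = F.z
  hη : ∃ o ∈ 𝐂(F.W1), Odd (orderOf o) ∧ η = F.y1 * o
  gX : g ∈ 𝐂(F.X1)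
  dX : d ∈ 𝐂(F.X1)
  vX : v ∈ 𝐂(F.X1)
  gt : g * F.t * g⁻¹ = F.t * F.z
  dt : d * F.t * d⁻¹ = F.t * F.v1
  vt : v * F.t * v⁻¹ = F.t * u0
  ηg : η * g * η⁻¹ = d
  ηd : η * d * η⁻¹ = (g * d)⁻¹
  ηv : η * v = v * η
  vv : v * v = 1
  gg : g * g = za * ub
  gd : g * d = d * g * ub
  vg : v * g * v = g * zc
  v2g : F.v2 * g * F.v2 = g * ub
  v2d : F.v2 * d * F.v2 = (g * d)⁻¹ * ub
  v2v : F.v2 * v * F.v2 = v ∨ F.v2 * v * F.v2 = v * F.u1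
  gE : g ∈ F.E
  dE : d ∈ F.E
  isP : IsPGroup 2 (closure ({F.t, F.v1, F.v2, F.u1, g, d, v} : Set G))

/-- two elementary abelian groups `⟨v1, d1⟩ Z0`, `⟨v2, d2⟩ Z0`, `Z0 = ⟨z, u1, g, v⟩` -/
structure EE (u0 g v d1 d2 : G) : Prop where
  cs : (u0 = 1 ∧ v = 1 ∧ F.CI) ∨ (u0 = F.u1 ∧ F.CA)
  gg : g * g = 1
  vv : v * v = 1
  gv : g * v = v * g
  gT : g ∈ 𝐂(closure ({F.v1, F.v2, F.u1} : Set G))
  vT : v ∈ 𝐂(closure ({F.v1, F.v2, F.u1} : Set G))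
  gt : g * F.t * g = F.t * F.z
  vt : v * F.t * v = F.t * u0
  d1Z : d1 ∈ 𝐂(closure ({F.z, F.u1, g, v} : Set G))
  d2Z : d2 ∈ 𝐂(closure ({F.z, F.u1, g, v} : Set G))
  d11 : d1 * d1 = 1
  d22 : d2 * d2 = 1
  d1v : d1 * F.v1 = F.v1 * d1
  d2v : d2 * F.v2 = F.v2 * d2
  d1t : d1 * F.t * d1 = F.t * F.v1
  d2t : d2 * F.t * d2 = F.t * F.v2
  c1 : d1 * F.v2 * d1 * F.v2 ∈ closure ({F.z, F.u1, g, v} : Set G)
  c2 : d2 * F.v1 * d2 * F.v1 ∈ closure ({F.z, F.u1, g, v} : Set G)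
  gE : g ∈ F.E
  d1E : d1 ∈ F.E
  d2E : d2 ∈ F.E

/-- `EE` inside one 2-group -/
structure EK (u0 g v d1 d2 : G) : Prop extends F.EE u0 g v d1 d2 where
  kk : d1 * d2 * d1 * d2 ∈ closure ({F.z, F.u1, g, v} : Set G)

/-- two abelian groups `R1 = ⟨g, d1, r, u1⟩`, `R2 = ⟨g, d2, r, u1⟩` of exponent 4 inverted by `t` -/
structure ZZ (u0 g g' r r' d1 d2 η1 η2 : G) : Prop where
  cs : (u0 = 1 ∧ r = 1 ∧ r' = 1 ∧ F.CI) ∨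
    (u0 = F.u1 ∧ r' * r' = F.u2 ∧ (g * r)⁻¹ * r' ∈ F.F0 ∧ F.CA)
  hg' : g⁻¹ * g' ∈ F.F0
  gg : g * g = F.z
  rr : r * r = u0
  gr : g * r = r * g
  gT : g ∈ 𝐂(closure ({F.v1, F.v2, F.u1} : Set G))
  rT : r ∈ 𝐂(closure ({F.v1, F.v2, F.u1} : Set G))
  tg : F.t * g * F.t = g⁻¹
  tr : F.t * r * F.t = r⁻¹
  d1M : d1 ∈ 𝐂(closure ({g, r, F.u1} : Set G))
  d2M : d2 ∈ 𝐂(closure ({g, r, F.u1} : Set G))
  d11 : d1 * d1 = F.v1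
  d22 : d2 * d2 = F.v2
  td1 : F.t * d1 * F.t = d1⁻¹
  td2 : F.t * d2 * F.t = d2⁻¹
  c1 : d1⁻¹ * F.v2 * d1 = F.v2 * g * F.v1
  c2 : d2⁻¹ * F.v1 * d2 = F.v1 * g' * F.v2
  η1t : η1 * F.t = F.t * η1
  η2t : η2 * F.t = F.t * η2
  η1u : η1 * F.u1 = F.u1 * η1
  η2u : η2 * F.u2 = F.u2 * η2
  η1r : η1 * r = r * η1
  η2r : η2 * r' = r' * η2
  η1g : η1 * g * η1⁻¹ = d1
  η2g : η2 * g' * η2⁻¹ = d2
  η1d : η1 * d1 * η1⁻¹ = (g * d1)⁻¹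
  η2d : η2 * d2 * η2⁻¹ = (g' * d2)⁻¹

/-- `F'` is `F` or its twist `u ↦ t u` -/
structure Same (F' : Fr G) : Prop where
  E : F'.E = F.E
  t : F'.t = F.t
  z : F'.z = F.z
  v1 : F'.v1 = F.v1
  v2 : F'.v2 = F.v2
  y1 : F'.y1 = F.y1
  y2 : F'.y2 = F.y2
  dl : F'.dl = F.dl
  u : (F'.u1 = F.u1 ∧ F'.u2 = F.u2) ∨ (F.u1 ≠ 1 ∧ F'.u1 = F.t * F.u1 ∧ F'.u2 = F.t * F.u2)

/-- `Z0` -/
def Z0 (g v : G) : Subgroup G := closure {F.z, F.u1, g, v}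
/-- the class two group `U` -/
def U (g v d1 d2 : G) : Subgroup G := closure {F.z, F.u1, g, v, F.v1, F.v2, d1, d2}
/-- the abelian group `⟨g, d, r, u1⟩` -/
def R (g r d : G) : Subgroup G := closure {g, d, r, F.u1}
/-- the frame of `A₇S`, if `dl = 1` and `Typ` -/
def to7 (hd : F.dl = 1) (ht : F.Typ) : H60M.A7.Fr G :=
  { F with
    syl := by
      have := F.syl
      rwa [hd, show ({F.t, F.v1, F.v2, F.u1, F.u2, 1} : Set G) = insert 1 {F.t, F.v1, F.v2, F.u1, F.u2} by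
        ext x; simp only [Set.mem_insert_iff, Set.mem_singleton_iff]; tauto, closure_insert_one] at this
    W12 := F.W12 hd
    typ := fun _ _ => ht }

end Fr

end H60M.A6
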