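import Mathlib
import Cfsg.Agent.Lib.B6S.Del0

/-! The case `dl ≠ 1`, `t z ∈ t^G`. -/

set_option autoImplicit false

namespace H60M.A6

open Subgroup H69 H36.SW

variable {G : Type*} [Group G] [Finite G]

namespace Del2

theorem burnNN (F : Fr G) (d : F.dl ≠ 1) {s : G} (h : F.Om s) (hs : s ∈ F.ZT) :
    ∃ g ∈ F.NN, g * F.t * g⁻¹ = s := by
  obtain ⟨g, hg, e⟩ := F.burn h hs
  rcases F.toNN d hg with k | k
  · exact ⟨g, k, e⟩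
  · refine ⟨_, k, ?_⟩
    rw [← e, mul_assoc g, F.dlt]; group

theorem omW (F : Fr G) (n1 : ¬ F.Om F.u1) (n2 : ¬ F.Om F.u2) (n3 : ¬ F.Om (F.t * F.u1))
    (n4 : ¬ F.Om (F.t * F.u2)) {s : G} (hs : s ∈ F.W1) (o : F.Om s) : F.t * s ∈ F.V1 := by
  obtain ⟨a, ht, -, hV, -, hZ⟩ := F.b2_red hs
  rw [← F.b2_om a] at o
  rw [← F.b2_iff ht hV]
  rcases F.memZT.1 hZ with k | k
  · exact (F.b2_nF n1 n2 k o).elim
  rcases F.b2_tF k with e | e | ⟨-, e | e⟩ <;> rw [e] at o ⊢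
  · exact F.tt ▸ one_mem _
  · exact (F.b2_tt _).symm ▸ F.b2_zV
  · exact (n3 o).elim
  · exact (n4 o).elim

theorem core (F : Fr G) (d : F.dl ≠ 1) {σ : G} (hσ : σ ∈ F.NN) (ht : σ * F.t * σ⁻¹ = F.t * F.z)
    (hu : σ * F.u1 = F.u1 * σ) : F.IIa ∨ F.CA := by
  have fx := fun g hg => F.fxNN hσ ht hu (g := g) hg
  have u2Z : F.u2 ∈ F.ZT := subset_closure (by simp)
  have n : ∀ s ∈ F.ZT, s ∈ F.X1 → (∀ g ∈ F.NN, g * s = s * g) → ¬ F.Om s := fun s hs hs' hf ho => by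
    obtain ⟨g, hg, e1⟩ := burnNN F d ho hs
    rw [mul_inv_eq_iff_eq_mul, ← hf g hg, mul_right_inj] at e1
    exact F.tX1 (e1 ▸ hs')
  have n1 := n _ F.b2_uZ F.b2_uX fun g hg => (fx g hg).1
  have n2 := n _ u2Z F.u2X1 fun g hg => (fx g hg).2
  have e1 : σ * (F.t * F.u1) * σ⁻¹ = F.t * F.u2 := by
    rw [← conj_mul, ht, hu, mul_inv_cancel_right, F.u2_eq F.hu1, mul_assoc]
  by_cases n3 : F.Om (F.t * F.u1)
  · exact .inr ⟨⟨σ, hσ, ht⟩, burnNN F d n3 (mul_mem F.b2_tZ F.b2_uZ),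
      burnNN F d (e1 ▸ n3.cj σ) (mul_mem F.b2_tZ u2Z), n1, n2, fun g hg => (fx g hg).1,
      fun g hg => (fx g hg).2⟩
  · have n4 : ¬ F.Om (F.t * F.u2) := fun k => n3 (Fr.Om.of_cj σ (e1 ▸ k))
    exact .inl ⟨⟨⟨σ, hσ, ht⟩, n1, n2,
      fun m hm => omW F n1 n2 n3 n4 (conj_mem_of_mem_normalizer hm F.b2_tW) ⟨m, rfl⟩,
      fun m hm => omW F.sw n2 n1 n4 n3 (conj_mem_of_mem_normalizer hm F.sw.b2_tW) ⟨m, rfl⟩,
      fun g hg => (fx g hg).1, fun g hg => (fx g hg).2⟩, d, n3, n4⟩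

end Del2

open Del2

namespace Fr

theorem exII (F : Fr G) (d : F.dl ≠ 1) (h : F.Om (F.t * F.z)) : ∃ F' : Fr G, F.Same F' ∧ (F'.IIa ∨ F'.CA) := by
  obtain ⟨σ, hσ, ht⟩ := burnNN F d h (mul_mem F.b2_tZ F.b2_zZ)
  have hz : σ * F.z * σ⁻¹ = F.z := by rw [F.Nz hσ.1, mul_inv_cancel_right]
  have h2 : σ * σ * F.t = F.t * (σ * σ) := by
    rw [← mul_inv_eq_iff_eq_mul, show σ * σ * F.t * (σ * σ)⁻¹ = σ * (σ * F.t * σ⁻¹) * σ⁻¹ by group, ht,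
      ← conj_mul, ht, hz, mul_assoc, F.zz, mul_one]
  have h3 : σ * (σ * F.u1 * σ⁻¹) * σ⁻¹ = F.u1 := by
    rw [show σ * (σ * F.u1 * σ⁻¹) * σ⁻¹ = σ * σ * F.u1 * (σ * σ)⁻¹ by group,
      F.fixu h2 (mul_mem hσ hσ).2.1, mul_inv_cancel_right]
  have hw : σ * F.u1 * σ⁻¹ ∈ F.ZT := conj_mem_of_mem_normalizer (F.NZT hσ.1) F.b2_uZ
  rcases F.memZT.1 hw with k | k
  · rcases F.memF0.1 k with e | e | e | e
    · exact (cjne F.hu1 σ e).elim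
    · rw [e, hz] at h3
      exact (F.b2_uV F.hu1 (h3 ▸ F.b2_zV)).elim
    · exact ⟨F, ⟨rfl, rfl, rfl, rfl, rfl, rfl, rfl, rfl, .inl ⟨rfl, rfl⟩⟩,
        core F d hσ ht (mul_inv_eq_iff_eq_mul.1 e)⟩
    · obtain ⟨F', hS, e1, -, -, -, -, eN⟩ := F.exists_tw
      refine ⟨F', hS, core F' (hS.dl ▸ d) (eN ▸ hσ) (by rw [hS.t, hS.z, ht]) ?_⟩
      rw [← mul_inv_eq_iff_eq_mul, e1, ← conj_mul, ht, e, mul_assoc, F.b2_zz]
  · exfalso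
    rcases F.b2_tF k with e | e | ⟨-, e | e⟩
    · rw [e, ht] at h3
      exact F.tX1 ((mul_mem_cancel_right F.b2_zX).1 (h3 ▸ F.b2_uX))
    · rw [e, ← conj_mul, ht, hz, mul_assoc, F.zz, mul_one] at h3
      exact F.tX1 (h3 ▸ F.b2_uX)
    · rw [e, ← conj_mul, ht, e, mul_assoc, ← mul_assoc F.z, F.zt, mul_assoc, F.b2_tt, mul_eq_right] at h3
      exact F.z1 h3
    · rw [F.u2_eq F.hu1] at e
      rw [e, ← conj_mul, ← conj_mul, ht, hz, e, mul_assoc, F.b2_zz, F.b2_tt, mul_eq_right] at h3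
      exact F.z1 h3

end Fr

end H60M.A6
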