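import Mathlib
import Cfsg.Agent.Lib.B6S.EA

/-! Type `EE`: the structure of `U`. -/

set_option autoImplicit false
set_option linter.unusedSectionVars false
set_option linter.unusedVariables false
set_option linter.unnecessarySimpa false

namespace H60M.A6

open Subgroup H69 H36.SW

variable {G : Type*} [Group G] [Finite G]

namespace EB

theorem comm_closure {Z : Subgroup G} {s : Set G} (hZ : ∀ a ∈ s, a ∈ 𝐂(Z))
    (h : ∀ a ∈ s, ∀ b ∈ s, a * b * a⁻¹ * b⁻¹ ∈ Z) {a b : G} (ha : a ∈ closure s) (hb : b ∈ closure s) :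
    a * b * a⁻¹ * b⁻¹ ∈ Z := by
  have hc : closure s ≤ 𝐍(Z) := le_normalizer_of_le_centralizer ((closure_le _).2 hZ)
  have key : ∀ b : G, (∀ a ∈ s, a * b * a⁻¹ * b⁻¹ ∈ Z) → ∀ a ∈ closure s, a * b * a⁻¹ * b⁻¹ ∈ Z := by
    intro b hb a ha
    induction ha using closure_induction with
    | mem x hx => exact hb x hx
    | one => simpa using one_mem Z
    | mul x y hx _ ihx ihy =>
      have e : x * y * b * (x * y)⁻¹ * b⁻¹ = x * (y * b * y⁻¹ * b⁻¹) * x⁻¹ * (x * b * x⁻¹ * b⁻¹) := by group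
      rw [e]
      exact mul_mem (conj_mem_of_mem_normalizer (hc hx) ihy) ihx
    | inv x hx ih =>
      have e : x⁻¹ * b * x⁻¹⁻¹ * b⁻¹ = x⁻¹ * (x * b * x⁻¹ * b⁻¹)⁻¹ * x := by group
      rw [e]
      exact conj_mem_of_mem_normalizer' (hc hx) (inv_mem ih)
  refine key b (fun x hx => ?_) a ha
  have := inv_mem (key x (fun y hy => h y hy x hx) b hb)
  rwa [show (b * x * b⁻¹ * x⁻¹)⁻¹ = x * b * x⁻¹ * b⁻¹ by group] at this

theorem mem_adj' {P : Subgroup G} {x : G} (hn : x ∈ 𝐍(P)) (h2 : x * x ∈ P) {y : G} :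
    y ∈ P ⊔ zpowers x ↔ ∃ p ∈ P, ∃ i : Fin 2, y = p * x ^ (i : ℕ) := by
  constructor
  · intro hy
    rcases (mem_adj hn h2).1 hy with h | h
    · exact ⟨y, h, 0, by simp⟩
    · exact ⟨_, h, 1, by simp⟩
  · rintro ⟨p, hp, i, rfl⟩
    exact mul_mem_sup hp (pow_mem (mem_zpowers x) _)

/-- the elements of `U` on which `t` acts trivially modulo `P` -/
def tk (t : G) (U P : Subgroup G) (hn : U ≤ 𝐍(P)) (tt : t * t = 1) : Subgroup G where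
  carrier := {y | y ∈ U ∧ t * y * t * y⁻¹ ∈ P}
  one_mem' := ⟨one_mem _, by simpa [tt] using one_mem P⟩
  mul_mem' := by
    rintro a b ⟨ha, ha'⟩ ⟨hb, hb'⟩
    refine ⟨mul_mem ha hb, ?_⟩
    have e : t * (a * b) * t * (a * b)⁻¹ = t * a * t * a⁻¹ * (a * (t * b * t * b⁻¹) * a⁻¹) := by
      calc t * (a * b) * t * (a * b)⁻¹ = t * a * (t * t) * b * t * (a * b)⁻¹ := by rw [tt]; group
        _ = _ := by group
    rw [e]
    exact mul_mem ha' (conj_mem_of_mem_normalizer (hn ha) hb')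
  inv_mem' := by
    rintro a ⟨ha, ha'⟩
    refine ⟨inv_mem ha, ?_⟩
    have ti : t⁻¹ = t := inv_eq_of_mul_eq_one_right tt
    have e : t * a⁻¹ * t * a⁻¹⁻¹ = a⁻¹ * (t * a * t * a⁻¹)⁻¹ * a := by
      simp only [mul_inv_rev, ti]
      group
    rw [e]
    exact conj_mem_of_mem_normalizer' (hn ha) (inv_mem ha')

theorem mem_tk {t : G} {U P : Subgroup G} {hn : U ≤ 𝐍(P)} {tt : t * t = 1} {y : G} :
    y ∈ tk t U P hn tt ↔ y ∈ U ∧ t * y * t * y⁻¹ ∈ P := Iff.rfl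

theorem tk_eqns : True := by
  have := @tk.eq_1.{0}
  trivial

theorem inv_self {a : G} (h : a * a = 1) : a⁻¹ = a := inv_eq_of_mul_eq_one_right h

theorem comm_of_sq {a b : G} (ha : a * a = 1) (hb : b * b = 1) (h : a * b * (a * b) = 1) : a * b = b * a := by
  rw [← inv_self h, mul_inv_rev, inv_self ha, inv_self hb]

theorem cen_closure {s : Set G} {x : G} (h : ∀ a ∈ s, a * x = x * a) : x ∈ 𝐂(closure s) := by
  rw [mem_centralizer_iff_commute]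
  intro a ha
  have : closure s ≤ centralizer {x} := (closure_le _).2 fun a ha => mem_centralizer_singleton_iff.2 (h a ha)
  exact mem_centralizer_singleton_iff.1 (this ha)

end EB

open EB

namespace Fr
variable {F : Fr G} {u0 g v d1 d2 : G}

theorem EE.b_zZ (_ : F.EE u0 g v d1 d2) : F.z ∈ F.Z0 g v := subset_closure (by simp)
theorem EE.b_uZ (_ : F.EE u0 g v d1 d2) : F.u1 ∈ F.Z0 g v := subset_closure (by simp)
theorem EE.b_gZ (_ : F.EE u0 g v d1 d2) : g ∈ F.Z0 g v := subset_closure (by simp)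
theorem EE.b_vZ (_ : F.EE u0 g v d1 d2) : v ∈ F.Z0 g v := subset_closure (by simp)

theorem EE.b_Zab (h : F.EE u0 g v d1 d2) : F.Z0 g v ≤ 𝐂(F.Z0 g v) := fun x hx =>
  mem_centralizer_iff_commute.2 fun a ha => comm_of_sq (h.sqZ0 ha) (h.sqZ0 hx) (h.sqZ0 (mul_mem ha hx))

theorem EE.b_v1Z (h : F.EE u0 g v d1 d2) : F.v1 ∈ 𝐂(F.Z0 g v) := by
  refine cen_closure ?_
  rintro a (rfl | rfl | rfl | rfl)
  · exact F.zv1
  · exact F.u1v1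
  · exact (mem_centralizer_iff_commute.1 h.gT _ (subset_closure (by simp))).symm
  · exact (mem_centralizer_iff_commute.1 h.vT _ (subset_closure (by simp))).symm

theorem EE.b_v2Z (h : F.EE u0 g v d1 d2) : F.v2 ∈ 𝐂(F.Z0 g v) := by
  refine cen_closure ?_
  rintro a (rfl | rfl | rfl | rfl)
  · exact F.sw.zv1
  · exact F.u1v2
  · exact (mem_centralizer_iff_commute.1 h.gT _ (subset_closure (by simp))).symm
  · exact (mem_centralizer_iff_commute.1 h.vT _ (subset_closure (by simp))).symm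

theorem EE.b_ZU (_ : F.EE u0 g v d1 d2) : F.Z0 g v ≤ F.U g v d1 d2 := by
  refine closure_mono ?_
  rintro a (rfl | rfl | rfl | rfl) <;> simp
theorem EE.b_v1U (_ : F.EE u0 g v d1 d2) : F.v1 ∈ F.U g v d1 d2 := subset_closure (by simp)
theorem EE.b_v2U (_ : F.EE u0 g v d1 d2) : F.v2 ∈ F.U g v d1 d2 := subset_closure (by simp)
theorem EE.b_d1U (_ : F.EE u0 g v d1 d2) : d1 ∈ F.U g v d1 d2 := subset_closure (by simp)
theorem EE.b_d2U (_ : F.EE u0 g v d1 d2) : d2 ∈ F.U g v d1 d2 := subset_closure (by simp)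

theorem EE.b_U_le (h : F.EE u0 g v d1 d2) {K : Subgroup G} (h0 : F.Z0 g v ≤ K) (h1 : F.v1 ∈ K) (h2 : d1 ∈ K)
    (h3 : F.v2 ∈ K) (h4 : d2 ∈ K) : F.U g v d1 d2 ≤ K := by
  refine (closure_le _).2 ?_
  rintro a (rfl | rfl | rfl | rfl | rfl | rfl | rfl | rfl)
  exacts [h0 h.b_zZ, h0 h.b_uZ, h0 h.b_gZ, h0 h.b_vZ, h1, h3, h2, h4]

theorem EE.b_UC (h : F.EE u0 g v d1 d2) : F.U g v d1 d2 ≤ 𝐂(F.Z0 g v) := h.b_U_le h.b_Zab h.b_v1Z h.d1Z h.b_v2Z h.d2Z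

theorem EK.Zc (h : F.EK u0 g v d1 d2) : F.Z0 g v ≤ F.U g v d1 d2 ⊓ 𝐂(F.U g v d1 d2) :=
  le_inf h.toEE.b_ZU (le_centralizer_iff.1 h.toEE.b_UC)

theorem EK.comm (h : F.EK u0 g v d1 d2) {a b : G} (ha : a ∈ F.U g v d1 d2) (hb : b ∈ F.U g v d1 d2) :
    a * b * a⁻¹ * b⁻¹ ∈ F.Z0 g v := by
  have e := h.toEE
  have c0 : ∀ x y : G, x * y = y * x → x * y * x⁻¹ * y⁻¹ ∈ F.Z0 g v := fun x y c => by
    rw [c]
    simpa using one_mem _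
  have c1 : ∀ x y : G, x * x = 1 → y * y = 1 → x * y * x * y ∈ F.Z0 g v →
      x * y * x⁻¹ * y⁻¹ ∈ F.Z0 g v ∧ y * x * y⁻¹ * x⁻¹ ∈ F.Z0 g v := fun x y hx hy c => by
    have : x * y * x⁻¹ * y⁻¹ ∈ F.Z0 g v := by rwa [inv_self hx, inv_self hy]
    refine ⟨this, ?_⟩
    have := inv_mem this
    rwa [show (x * y * x⁻¹ * y⁻¹)⁻¹ = y * x * y⁻¹ * x⁻¹ by group] at this
  have hU : F.U g v d1 d2 ≤ closure ((F.Z0 g v : Set G) ∪ {F.v1, F.v2, d1, d2}) :=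
    e.b_U_le (fun x hx => subset_closure (Or.inl hx)) (subset_closure (Or.inr (by simp)))
      (subset_closure (Or.inr (by simp))) (subset_closure (Or.inr (by simp))) (subset_closure (Or.inr (by simp)))
  have hc : ∀ a ∈ (F.Z0 g v : Set G) ∪ {F.v1, F.v2, d1, d2}, a ∈ 𝐂(F.Z0 g v) := by
    rintro a (ha | rfl | rfl | rfl | rfl)
    exacts [e.b_Zab ha, e.b_v1Z, e.b_v2Z, e.d1Z, e.d2Z]
  refine comm_closure hc ?_ (hU ha) (hU hb)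
  have a12 := c1 _ _ F.v11 F.v22 (F.hz ▸ e.b_zZ)
  have b12 := c1 _ _ h.d11 F.v22 h.c1
  have b21 := c1 _ _ h.d22 F.v11 h.c2
  have dd := c1 _ _ h.d11 h.d22 h.kk
  intro x hx y hy
  rcases hx with hx | hx
  · exact c0 _ _ (mem_centralizer_iff_commute.1 (hc y hy) x hx)
  rcases hy with hy | hy
  · exact c0 _ _ (mem_centralizer_iff_commute.1 (hc x (Or.inr hx)) y hy).symm
  rcases hx with rfl | rfl | rfl | rfl <;> rcases hy with rfl | rfl | rfl | rfl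
  exacts [c0 _ _ rfl, a12.1, c0 _ _ h.d1v.symm, b21.2, a12.2, c0 _ _ rfl, b12.2, c0 _ _ h.d2v.symm,
    c0 _ _ h.d1v, b12.1, c0 _ _ rfl, dd.1, b21.1, c0 _ _ h.d2v, dd.2, c0 _ _ rfl]

theorem EK.b_nrm (h : F.EK u0 g v d1 d2) {P : Subgroup G} (h0 : F.Z0 g v ≤ P) (h1 : P ≤ F.U g v d1 d2) :
    F.U g v d1 d2 ≤ 𝐍(P) := by
  refine le_normalizer_of_cj_le fun x hx y hy => ?_
  obtain ⟨p, hp, rfl⟩ := mem_cj'.1 hy
  have := mul_mem (h0 (h.comm hx (h1 hp))) hp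
  rwa [inv_mul_cancel_right] at this

theorem EK.b_le1 (h : F.EK u0 g v d1 d2) {P : Subgroup G} (h1 : P ≤ F.U g v d1 d2) {x : G} (hx : x ∈ F.U g v d1 d2) :
    P ⊔ zpowers x ≤ F.U g v d1 d2 := sup_le h1 (zpowers_le.2 hx)

theorem EK.b_U_eq (h : F.EK u0 g v d1 d2) :
    F.U g v d1 d2 = F.Z0 g v ⊔ zpowers F.v1 ⊔ zpowers d1 ⊔ zpowers F.v2 ⊔ zpowers d2 := by
  have e := h.toEE
  refine le_antisymm (e.b_U_le ?_ ?_ ?_ ?_ ?_) (h.b_le1 (h.b_le1 (h.b_le1 (h.b_le1 e.b_ZU e.b_v1U) e.b_d1U) e.b_v2U) e.b_d2U)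
  · exact le_sup_of_le_left (le_sup_of_le_left (le_sup_of_le_left le_sup_left))
  · exact mem_sup_left (mem_sup_left (mem_sup_left (mem_sup_right (mem_zpowers _))))
  · exact mem_sup_left (mem_sup_left (mem_sup_right (mem_zpowers _)))
  · exact mem_sup_left (mem_sup_right (mem_zpowers _))
  · exact mem_sup_right (mem_zpowers _)

theorem EK.b_n0 (h : F.EK u0 g v d1 d2) : F.U g v d1 d2 ≤ 𝐍(F.Z0 g v) := h.b_nrm le_rfl h.toEE.b_ZU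
theorem EK.b_n1 (h : F.EK u0 g v d1 d2) : F.U g v d1 d2 ≤ 𝐍(F.Z0 g v ⊔ zpowers F.v1) :=
  h.b_nrm le_sup_left (h.b_le1 h.toEE.b_ZU h.toEE.b_v1U)
theorem EK.b_n2 (h : F.EK u0 g v d1 d2) : F.U g v d1 d2 ≤ 𝐍(F.Z0 g v ⊔ zpowers F.v1 ⊔ zpowers d1) :=
  h.b_nrm (le_sup_of_le_left le_sup_left) (h.b_le1 (h.b_le1 h.toEE.b_ZU h.toEE.b_v1U) h.toEE.b_d1U)
theorem EK.b_n3 (h : F.EK u0 g v d1 d2) :
    F.U g v d1 d2 ≤ 𝐍(F.Z0 g v ⊔ zpowers F.v1 ⊔ zpowers d1 ⊔ zpowers F.v2) :=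
  h.b_nrm (le_sup_of_le_left (le_sup_of_le_left le_sup_left))
    (h.b_le1 (h.b_le1 (h.b_le1 h.toEE.b_ZU h.toEE.b_v1U) h.toEE.b_d1U) h.toEE.b_v2U)

theorem EK.memU (h : F.EK u0 g v d1 d2) {x : G} : x ∈ F.U g v d1 d2 ↔ ∃ c ∈ F.Z0 g v, ∃ a b i j : Fin 2,
    x = c * F.v1 ^ (a : ℕ) * d1 ^ (b : ℕ) * F.v2 ^ (i : ℕ) * d2 ^ (j : ℕ) := by
  have e := h.toEE
  constructor
  · intro hx
    rw [h.b_U_eq] at hx
    obtain ⟨x3, h3, j, rfl⟩ := (mem_adj' (h.b_n3 e.b_d2U) (h.d22 ▸ one_mem _)).1 hx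
    obtain ⟨x2, h2, i, rfl⟩ := (mem_adj' (h.b_n2 e.b_v2U) (F.v22 ▸ one_mem _)).1 h3
    obtain ⟨x1, h1, b, rfl⟩ := (mem_adj' (h.b_n1 e.b_d1U) (h.d11 ▸ one_mem _)).1 h2
    obtain ⟨c, hc, a, rfl⟩ := (mem_adj' (h.b_n0 e.b_v1U) (F.v11 ▸ one_mem _)).1 h1
    exact ⟨c, hc, a, b, i, j, rfl⟩
  · rintro ⟨c, hc, a, b, i, j, rfl⟩
    exact mul_mem (mul_mem (mul_mem (mul_mem (e.b_ZU hc) (pow_mem e.b_v1U _)) (pow_mem e.b_d1U _)) (pow_mem e.b_v2U _))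
      (pow_mem e.b_d2U _)

theorem EK.isP (h : F.EK u0 g v d1 d2) : IsPGroup 2 (F.U g v d1 d2) := by
  have e := h.toEE
  rw [h.b_U_eq]
  exact isP_sup (isP_sup (isP_sup (isP_sup (isP_of_P2 fun x hx => P2.of_sq (e.sqZ0 hx)) (P2.of_sq F.v11)
    (h.b_n0 e.b_v1U)) (P2.of_sq h.d11) (h.b_n1 e.b_d1U)) (P2.of_sq F.v22) (h.b_n2 e.b_v2U)) (P2.of_sq h.d22) (h.b_n3 e.b_d2U)

theorem b_nc12 (F : Fr G) : F.v1 * F.v2 ≠ F.v2 * F.v1 := by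
  intro e
  apply F.z1
  have := F.v21
  rw [← e] at this
  exact (mul_eq_right.1 this.symm)

theorem EK.b_i0 (h : F.EK u0 g v d1 d2) : F.v1 ∉ F.Z0 g v := fun hx =>
  F.b_nc12 (mem_centralizer_iff_commute.1 h.toEE.b_v2Z _ hx)

theorem EK.b_i2 (h : F.EK u0 g v d1 d2) : F.v2 ∉ F.Z0 g v ⊔ zpowers F.v1 ⊔ zpowers d1 := by
  intro hx
  have : F.Z0 g v ⊔ zpowers F.v1 ⊔ zpowers d1 ≤ centralizer {F.v1} :=
    sup_le (sup_le (fun x hx => mem_centralizer_singleton_iff.2 (mem_centralizer_iff_commute.1 h.toEE.b_v1Z x hx))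
      (zpowers_le.2 (mem_centralizer_singleton_iff.2 rfl))) (zpowers_le.2 (mem_centralizer_singleton_iff.2 h.d1v))
  exact F.b_nc12 (mem_centralizer_singleton_iff.1 (this hx)).symm

theorem EK.b_td1 (h : F.EK u0 g v d1 d2) : F.t * d1 * F.t * d1⁻¹ = F.v1 := by
  rw [inv_self h.d11, mul_assoc, mul_assoc, ← mul_assoc d1, h.d1t, ← mul_assoc, F.tt, one_mul]

theorem EK.b_td2 (h : F.EK u0 g v d1 d2) : F.t * d2 * F.t * d2⁻¹ = F.v2 := by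
  rw [inv_self h.d22, mul_assoc, mul_assoc, ← mul_assoc d2, h.d2t, ← mul_assoc, F.tt, one_mul]

theorem EK.b_tZ (h : F.EK u0 g v d1 d2) {P : Subgroup G} (h0 : F.Z0 g v ≤ P) (hn : F.U g v d1 d2 ≤ 𝐍(P)) :
    F.Z0 g v ≤ tk F.t (F.U g v d1 d2) P hn F.tt := fun c hc => by
  refine mem_tk.2 ⟨h.toEE.b_ZU hc, h0 (mul_mem ?_ (inv_mem hc))⟩
  have := conj_mem_of_mem_normalizer h.toEE.tN hc
  rwa [inv_self F.tt] at this

theorem b_tk_of_comm {U P : Subgroup G} {hn : U ≤ 𝐍(P)} {x : G} (hx : x ∈ U) (c : F.t * x = x * F.t) :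
    x ∈ tk F.t U P hn F.tt := by
  refine mem_tk.2 ⟨hx, ?_⟩
  rw [c, mul_assoc x, F.tt]
  simpa using one_mem P

theorem EK.b_i1 (h : F.EK u0 g v d1 d2) : d1 ∉ F.Z0 g v ⊔ zpowers F.v1 := by
  intro hx
  have : F.Z0 g v ⊔ zpowers F.v1 ≤ tk F.t (F.U g v d1 d2) _ h.b_n0 F.tt :=
    sup_le (h.b_tZ le_rfl _) (zpowers_le.2 (b_tk_of_comm h.toEE.b_v1U F.tv1))
  exact h.b_i0 (h.b_td1 ▸ (mem_tk.1 (this hx)).2)

theorem EK.b_le3 (h : F.EK u0 g v d1 d2) :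
    F.Z0 g v ⊔ zpowers F.v1 ⊔ zpowers d1 ⊔ zpowers F.v2 ≤ tk F.t (F.U g v d1 d2) _ h.b_n1 F.tt :=
  sup_le (sup_le (sup_le (h.b_tZ le_sup_left _) (zpowers_le.2 (b_tk_of_comm h.toEE.b_v1U F.tv1)))
    (zpowers_le.2 (mem_tk.2 ⟨h.toEE.b_d1U, h.b_td1 ▸ mem_sup_right (mem_zpowers _)⟩)))
    (zpowers_le.2 (b_tk_of_comm h.toEE.b_v2U F.tv2))

theorem EK.b_i3' (h : F.EK u0 g v d1 d2) : d2 ∉ tk F.t (F.U g v d1 d2) _ h.b_n1 F.tt := fun hx =>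
  h.b_i2 (mem_sup_left (h.b_td2 ▸ (mem_tk.1 hx).2))

theorem EK.b_i3 (h : F.EK u0 g v d1 d2) : d2 ∉ F.Z0 g v ⊔ zpowers F.v1 ⊔ zpowers d1 ⊔ zpowers F.v2 := fun hx =>
  h.b_i3' (h.b_le3 hx)

theorem EK.cardU (h : F.EK u0 g v d1 d2) : Nat.card (F.U g v d1 d2) = 16 * Nat.card (F.Z0 g v) := by
  have e := h.toEE
  rw [h.b_U_eq, card_adj (h.b_n3 e.b_d2U) (h.d22 ▸ one_mem _) h.b_i3, card_adj (h.b_n2 e.b_v2U) (F.v22 ▸ one_mem _) h.b_i2,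
    card_adj (h.b_n1 e.b_d1U) (h.d11 ▸ one_mem _) h.b_i1, card_adj (h.b_n0 e.b_v1U) (F.v11 ▸ one_mem _) h.b_i0]
  ring

theorem EK.tN (h : F.EK u0 g v d1 d2) : F.t ∈ 𝐍(F.U g v d1 d2) := by
  have e := h.toEE
  have : F.U g v d1 d2 ≤ tk F.t (F.U g v d1 d2) _ le_normalizer F.tt :=
    e.b_U_le (h.b_tZ e.b_ZU _) (b_tk_of_comm e.b_v1U F.tv1) (mem_tk.2 ⟨e.b_d1U, h.b_td1 ▸ e.b_v1U⟩) (b_tk_of_comm e.b_v2U F.tv2)
      (mem_tk.2 ⟨e.b_d2U, h.b_td2 ▸ e.b_v2U⟩)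
  refine mem_normalizer_of_cj_le fun y hy => ?_
  obtain ⟨p, hp, rfl⟩ := mem_cj'.1 hy
  have := mul_mem (mem_tk.1 (this hp)).2 hp
  rw [inv_self F.tt]
  rwa [inv_mul_cancel_right] at this

theorem EK.tU (h : F.EK u0 g v d1 d2) : F.t ∉ F.U g v d1 d2 := by
  intro ht
  have c := mem_centralizer_iff_commute.1 (h.toEE.b_UC ht) g h.toEE.b_gZ
  have := h.gt
  rw [c, mul_assoc, h.gg, mul_one] at this
  exact F.z1 (left_eq_mul.1 this)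

theorem EK.b_four (h : F.EK u0 g v d1 d2) {a b : G} (ha : a ∈ F.U g v d1 d2) (hb : b ∈ F.U g v d1 d2)
    (aa : a * a = 1) (bb : b * b = 1) (ab : a * b = b * a) (h1 : a ∉ F.Z0 g v) (h2 : b ∉ F.Z0 g v ⊔ zpowers a) :
    (∀ x ∈ F.Z0 g v ⊔ zpowers a ⊔ zpowers b, x * x = 1) ∧
      Nat.card ↥(F.Z0 g v ⊔ zpowers a ⊔ zpowers b) = 4 * Nat.card (F.Z0 g v) := by
  have e := h.toEE
  have n1 := h.b_nrm le_sup_left (h.b_le1 e.b_ZU ha) hb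
  refine ⟨fun x hx => ?_, ?_⟩
  · obtain ⟨x1, h1, j, rfl⟩ := (mem_adj' n1 (bb ▸ one_mem _)).1 hx
    obtain ⟨c, hc, i, rfl⟩ := (mem_adj' (h.b_n0 ha) (aa ▸ one_mem _)).1 h1
    have ca : Commute c a := mem_centralizer_iff_commute.1 (e.b_UC ha) c hc
    have cb : Commute c b := mem_centralizer_iff_commute.1 (e.b_UC hb) c hc
    have ab' : Commute a b := ab
    rw [← pow_two, ((cb.pow_right _).mul_left (ab'.pow_pow _ _)).mul_pow, (ca.pow_right _).mul_pow, pow_two c,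
      e.sqZ0 hc, ← pow_mul, ← pow_mul, mul_comm _ 2, mul_comm _ 2, pow_mul, pow_mul, pow_two, pow_two, aa, bb]
    simp
  · rw [card_adj n1 (bb ▸ one_mem _) h2, card_adj (h.b_n0 ha) (aa ▸ one_mem _) h1]
    ring

theorem EK.big (h : F.EK u0 g v d1 d2) {s : G} (hs : s ∈ F.U g v d1 d2) (h2 : s * s = 1) :
    ∃ X : Subgroup G, (∀ x ∈ X, x * x = 1) ∧ s ∈ X ∧ Nat.card X = 4 * Nat.card (F.Z0 g v) := by
  have e := h.toEE
  obtain ⟨c, hc, a, b, i, j, rfl⟩ := h.memU.1 hs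
  have sq : ∀ {x y : G} (m n : ℕ), x * x = 1 → y * y = 1 → y * x = x * y → x ^ m * y ^ n * (x ^ m * y ^ n) = 1 := by
    intro x y m n hx hy c
    have c' : Commute x y := c.symm
    rw [← pow_two, (c'.pow_pow _ _).mul_pow, ← pow_mul, ← pow_mul, mul_comm _ 2, mul_comm _ 2, pow_mul, pow_mul,
      pow_two, pow_two, hx, hy]
    simp
  obtain ⟨e1, he1⟩ : ∃ e1, e1 = F.v1 ^ (a : ℕ) * d1 ^ (b : ℕ) := ⟨_, rfl⟩
  obtain ⟨e2, he2⟩ : ∃ e2, e2 = F.v2 ^ (i : ℕ) * d2 ^ (j : ℕ) := ⟨_, rfl⟩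
  have es : c * F.v1 ^ (a : ℕ) * d1 ^ (b : ℕ) * F.v2 ^ (i : ℕ) * d2 ^ (j : ℕ) = c * e1 * e2 := by
    rw [he1, he2]; group
  rw [es] at h2 ⊢
  have m1 : e1 ∈ F.Z0 g v ⊔ zpowers F.v1 ⊔ zpowers d1 :=
    he1 ▸ mul_mem_sup (mem_sup_right (pow_mem (mem_zpowers _) _)) (pow_mem (mem_zpowers _) _)
  have m2 : e2 ∈ F.Z0 g v ⊔ zpowers F.v2 ⊔ zpowers d2 :=
    he2 ▸ mul_mem_sup (mem_sup_right (pow_mem (mem_zpowers _) _)) (pow_mem (mem_zpowers _) _)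
  have u1 : e1 ∈ F.U g v d1 d2 := h.b_le1 (h.b_le1 e.b_ZU e.b_v1U) e.b_d1U m1
  have u2 : e2 ∈ F.U g v d1 d2 := h.b_le1 (h.b_le1 e.b_ZU e.b_v2U) e.b_d2U m2
  by_cases z1 : e1 ∈ F.Z0 g v
  · obtain ⟨p, q⟩ := h.b_four e.b_v2U e.b_d2U F.v22 h.d22 h.d2v.symm (fun x => h.b_i2 (mem_sup_left (mem_sup_left x)))
      (fun x => h.b_i3 (SetLike.le_def.1 (sup_le (le_sup_of_le_left (le_sup_of_le_left le_sup_left)) le_sup_right) x))
    exact ⟨_, p, mul_mem (mem_sup_left (mem_sup_left (mul_mem hc z1))) m2, q⟩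
  by_cases z2 : e2 ∈ F.Z0 g v ⊔ zpowers F.v1 ⊔ zpowers d1
  · obtain ⟨p, q⟩ := h.b_four e.b_v1U e.b_d1U F.v11 h.d11 h.d1v.symm h.b_i0 h.b_i1
    exact ⟨_, p, mul_mem (mul_mem (mem_sup_left (mem_sup_left hc)) m1) z2, q⟩
  have s1 : e1 * e1 = 1 := he1 ▸ sq _ _ F.v11 h.d11 h.d1v
  have s2 : e2 * e2 = 1 := he2 ▸ sq _ _ F.v22 h.d22 h.d2v
  have c12 : e1 * e2 = e2 * e1 := by
    refine comm_of_sq s1 s2 ?_
    have cc : Commute c (e1 * e2) := mem_centralizer_iff_commute.1 (e.b_UC (mul_mem u1 u2)) c hc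
    rwa [mul_assoc c, ← pow_two, cc.mul_pow, pow_two c, e.sqZ0 hc, one_mul, pow_two] at h2
  obtain ⟨p, q⟩ := h.b_four u1 u2 s1 s2 c12 z1
    (fun x => z2 (sup_le (le_sup_of_le_left le_sup_left) (zpowers_le.2 m1) x))
  exact ⟨_, p, mul_mem_sup (mul_mem_sup hc (mem_zpowers _)) (mem_zpowers _), q⟩

theorem EK.b_sqU (h : F.EK u0 g v d1 d2) {x : G} (hx : x ∈ F.U g v d1 d2) : x * x ∈ F.Z0 g v := by
  have e := h.toEE
  induction hx using closure_induction with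
  | mem x hx =>
    rcases hx with rfl | rfl | rfl | rfl | rfl | rfl | rfl | rfl
    exacts [mul_mem e.b_zZ e.b_zZ, mul_mem e.b_uZ e.b_uZ, mul_mem e.b_gZ e.b_gZ, mul_mem e.b_vZ e.b_vZ, F.v11 ▸ one_mem _,
      F.v22 ▸ one_mem _, h.d11 ▸ one_mem _, h.d22 ▸ one_mem _]
  | one => simpa using one_mem _
  | mul x y hx hy ihx ihy =>
    have := mul_mem (mul_mem ihx (h.comm (inv_mem hx) hy)) ihy
    rwa [show x * x * (x⁻¹ * y * x⁻¹⁻¹ * y⁻¹) * (y * y) = x * y * (x * y) by group] at this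
  | inv x _ ih => simpa using inv_mem ih

theorem EK.invt (h : F.EK u0 g v d1 d2) {x : G} (hx : x ∈ F.U g v d1 d2) (h2 : F.t * x * (F.t * x) = 1) :
    ∃ k ∈ F.U g v d1 d2, ∃ f ∈ F.F0, F.t * x = k * (F.t * f) * k⁻¹ := by
  have e := h.toEE
  have hτ : F.t * x * F.t * x⁻¹ ∈ F.Z0 g v := by
    have := inv_mem (h.b_sqU hx)
    rwa [show (x * x)⁻¹ = F.t * x * (F.t * x) * (x * x)⁻¹ by rw [h2, one_mul],
      show F.t * x * (F.t * x) * (x * x)⁻¹ = F.t * x * F.t * x⁻¹ by group] at this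
  have k0 : x ∈ tk F.t (F.U g v d1 d2) _ h.b_n0 F.tt := mem_tk.2 ⟨hx, hτ⟩
  have k1 : x ∈ tk F.t (F.U g v d1 d2) _ h.b_n1 F.tt := mem_tk.2 ⟨hx, mem_sup_left hτ⟩
  have stepA : ∀ c ∈ F.Z0 g v, ∀ i : Fin 2, ∃ k ∈ F.U g v d1 d2,
      F.t * (c * F.v2 ^ (i : ℕ)) = k * (F.t * c) * k⁻¹ := by
    intro c hc i
    fin_cases i
    · exact ⟨1, one_mem _, by simp⟩
    · refine ⟨d2, e.b_d2U, ?_⟩
      have c1 := mem_centralizer_iff_commute.1 h.d2Z c hc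
      have c2 := mem_centralizer_iff_commute.1 e.b_v2Z c hc
      rw [inv_self h.d22, mul_assoc d2, mul_assoc F.t, c1, ← mul_assoc, ← mul_assoc, ← mul_assoc, h.d2t]
      simp [mul_assoc, c2]
  have key : ∃ k ∈ F.U g v d1 d2, ∃ c ∈ F.Z0 g v, F.t * x = k * (F.t * c) * k⁻¹ := by
    obtain ⟨c, hc, a, b, i, j, rfl⟩ := h.memU.1 hx
    have m3 : c * F.v1 ^ (a : ℕ) * d1 ^ (b : ℕ) * F.v2 ^ (i : ℕ) ∈ tk F.t (F.U g v d1 d2) _ h.b_n1 F.tt :=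
      h.b_le3 (mul_mem_sup (mul_mem_sup (mul_mem_sup hc (pow_mem (mem_zpowers _) _)) (pow_mem (mem_zpowers _) _))
        (pow_mem (mem_zpowers _) _))
    have hj : j = 0 := by
      fin_cases j
      · rfl
      · exact absurd (by simpa using (mul_mem_cancel_left m3).1 k1) h.b_i3'
    subst hj
    have hb : b = 0 := by
      fin_cases b
      · rfl
      · exfalso
        have m0 : c * F.v1 ^ (a : ℕ) ∈ tk F.t (F.U g v d1 d2) _ h.b_n0 F.tt :=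
          mul_mem (h.b_tZ le_rfl _ hc) (pow_mem (b_tk_of_comm e.b_v1U F.tv1) _)
        have m2 : F.v2 ^ (i : ℕ) ∈ tk F.t (F.U g v d1 d2) _ h.b_n0 F.tt := pow_mem (b_tk_of_comm e.b_v2U F.tv2) _
        have k0' : c * F.v1 ^ (a : ℕ) * d1 * F.v2 ^ (i : ℕ) ∈ tk F.t (F.U g v d1 d2) _ h.b_n0 F.tt := by simpa using k0
        exact h.b_i0 (h.b_td1 ▸ (mem_tk.1 ((mul_mem_cancel_left m0).1 ((mul_mem_cancel_right m2).1 k0'))).2)
    subst hb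
    fin_cases a
    · obtain ⟨k, hk, ek⟩ := stepA c hc i
      exact ⟨k, hk, c, hc, by simpa using ek⟩
    · obtain ⟨w, hw⟩ : ∃ w, w = F.v2 ^ (i : ℕ) := ⟨_, rfl⟩
      have hm := h.comm e.b_d1U (pow_mem e.b_v2U (i : ℕ))
      obtain ⟨k, hk, ek⟩ := stepA _ (mul_mem hc (inv_mem hm)) i
      refine ⟨d1 * k, mul_mem e.b_d1U hk, _, mul_mem hc (inv_mem hm), ?_⟩
      rw [← hw] at ek hm ⊢
      have c1 := mem_centralizer_iff_commute.1 h.d1Z _ (mul_mem hc (inv_mem hm))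
      have c2 := mem_centralizer_iff_commute.1 e.b_v1Z c hc
      generalize hm' : d1 * w * d1⁻¹ * w⁻¹ = m at ek hm c1 ⊢
      have e1 : d1 * w * d1⁻¹ = m * w := by rw [← hm']; group
      have e2 : d1 * F.t * d1⁻¹ = F.t * F.v1 := by rw [inv_self h.d11, h.d1t]
      have e3 : d1 * (c * m⁻¹) * d1⁻¹ = c * m⁻¹ := by rw [← c1]; group
      calc _ = F.t * (c * F.v1 * w) := by simp
        _ = F.t * F.v1 * (c * m⁻¹) * (m * w) := by rw [c2]; group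
        _ = d1 * (F.t * (c * m⁻¹ * w)) * d1⁻¹ := by
          rw [← e1, ← e2]
          conv_lhs => rw [← e3]
          group
        _ = _ := by rw [ek]; group
  obtain ⟨k, hk, c, hc, ek⟩ := key
  refine ⟨k, hk, c, e.fix hc (comm_of_sq F.tt (e.sqZ0 hc) ?_).symm, ek⟩
  rw [ek] at h2
  calc F.t * c * (F.t * c) = k⁻¹ * (k * (F.t * c) * k⁻¹ * (k * (F.t * c) * k⁻¹)) * k := by group
    _ = 1 := by rw [h2]; group

end Fr

end H60M.A6
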