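import Mathlib
import Cfsg.Agent.Lib.B6S.EB
import Cfsg.Agent.Lib.B6S.Bas3

/-! Type `EE`: Sylow subgroup and transfer. -/

set_option autoImplicit false

namespace H60M.A6

open Subgroup H69 H36.SW

variable {G : Type*} [Group G] [Finite G]

namespace Fr
variable {F : Fr G} {u0 g v d1 d2 : G}

theorem EK.nOm (h : F.EK u0 g v d1 d2) {s : G} (hs : s ∈ F.U g v d1 d2) : ¬ F.Om s := fun o => by
  obtain ⟨X, h2, sX, c⟩ := h.big hs o.sq.1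
  have := F.ea_le o h2 fun x hx => mem_centralizer_singleton_iff.2 (comm_of_sq h2 hx sX)
  have c1 := F.cardW1
  rcases F.cardF0 with ⟨-, c2⟩ | ⟨-, c2⟩ <;> rcases h.toEE.cardZ0 with ⟨-, c3⟩ | ⟨-, -, c3⟩ <;> omega

theorem EK.c_mem (h : F.EK u0 g v d1 d2) {s : G} (hs : s ∈ F.U g v d1 d2 ⊔ zpowers F.t) :
    s ∈ F.U g v d1 d2 ∨ s * F.t ∈ F.U g v d1 d2 := by
  have := (mem_adj h.tN (F.tt ▸ one_mem _)).1 hs
  rwa [EB.inv_self F.tt] at this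

theorem EK.TU (h : F.EK u0 g v d1 d2) : F.T ≤ F.U g v d1 d2 ⊔ zpowers F.t := by
  rw [F.T_eq, closure_le]
  rintro a (rfl | rfl | rfl | rfl)
  exacts [mem_sup_right (mem_zpowers _), mem_sup_left h.toEE.b_v1U, mem_sup_left h.toEE.b_v2U,
    mem_sup_left (h.toEE.b_ZU h.toEE.b_uZ)]

/-- `C(t) ∩ U ⟨t⟩ = T` -/
theorem EK.cT (h : F.EK u0 g v d1 d2) : (F.U g v d1 d2 ⊔ zpowers F.t) ⊓ centralizer {F.t} = F.T :=
  F.sylTu.max _ (le_inf h.TU F.TC) (fun x hx => ⟨hx.2, by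
    refine (sup_le (fun y hy => ?_) (zpowers_le.2 ?_) : _ ≤ centralizer {F.u1}) hx.1
    exacts [mem_centralizer_singleton_iff.2 (h.toEE.b_UC hy _ h.toEE.b_uZ).symm,
      mem_centralizer_singleton_iff.2 F.tu1]⟩) ((isP_sup h.isP (.of_sq F.tt) h.tN).to_le inf_le_left)

/-- the conjugates of `t` in `U ⟨t⟩` -/
theorem EK.omU (h : F.EK u0 g v d1 d2) {s : G} (hs : s ∈ F.U g v d1 d2 ⊔ zpowers F.t) (o : F.Om s) :
    ∃ l ∈ F.U g v d1 d2, ∃ f ∈ F.F0, s = l * (F.t * f) * l⁻¹ := by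
  have m := conj_mem_of_mem_normalizer h.tN ((h.c_mem hs).resolve_left fun m => h.nOm m o)
  rw [mul_assoc, mul_inv_cancel_right] at m
  obtain ⟨l, hl, f, hf, e⟩ := h.invt m (by rw [F.b2_tt]; exact o.sq.1)
  rw [F.b2_tt] at e
  exact ⟨l, hl, f, hf, e⟩

end Fr

end H60M.A6
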