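import Mathlib
import Cfsg.Agent.Lib.B6S.HU

/-! `IIb`, type `EE`: involutions outside `U ⟨κ, k⟩` are not conjugate to `u1`. -/

set_option autoImplicit false
set_option linter.unusedSimpArgs false
set_option linter.unusedSectionVars false

namespace H60M.A6

open Subgroup H69 H36.SW H60M.A7

variable {G : Type*} [Group G] [Finite G]

namespace Fr
variable {F : Fr G} {u0 g g' v d1 d2 η η1 η2 κ k a b γ : G}

theorem EN.H1bas (h : F.EN F.u1 g v d1 d2 η κ) : F.CA ∧ F.dl ≠ 1 ∧ κ * F.t = F.t * κ ∧ κ * κ = 1 := by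
  have c : F.CA := by
    rcases h.ek.cs with ⟨e, -⟩ | ⟨-, c⟩
    exacts [absurd e F.hu1, c]
  rcases h.kd with ⟨d, e, -⟩ | ⟨-, e, -⟩
  · rcases h.sq with ⟨-, q⟩ | ⟨q, -⟩
    exacts [⟨c, d, e, q⟩, absurd q d]
  · exact absurd e F.hu1

theorem EN.H1ss (h : F.EN F.u1 g v d1 d2 η κ) : F.t * κ * (F.t * κ) = 1 := by
  obtain ⟨-, -, e, q⟩ := h.H1bas
  calc F.t * κ * (F.t * κ) = F.t * (κ * F.t) * κ := by group
    _ = F.t * F.t * (κ * κ) := by rw [e]; group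
    _ = 1 := by rw [F.tt, q, one_mul]

omit [Finite G] in
theorem H1cj {t κ x y w : G} (e1 : κ * x * κ⁻¹ = y) (e2 : t * y * t⁻¹ = w) : t * κ * x * (t * κ)⁻¹ = w := by
  rw [← e2, ← e1]; group

omit [Finite G] in
theorem H1t {t x w : G} (tt : t * t = 1) (xx : x * x = 1) (e : x * t * x = t * w) : t * x * t⁻¹ = w * x := by
  rw [inv_eq_of_mul_eq_one_right tt]
  calc t * x * t = t * (x * t * x) * x := by rw [mul_assoc _ _ x, mul_assoc _ x x, xx, mul_one, mul_assoc]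
    _ = w * x := by rw [e, ← mul_assoc, tt, one_mul]

theorem EN.H1κz (h : F.EN u0 g v d1 d2 η κ) : κ * F.z * κ⁻¹ = F.z := by
  calc κ * F.z * κ⁻¹ = (κ * F.v1 * κ⁻¹) * (κ * F.v2 * κ⁻¹) * (κ * F.v1 * κ⁻¹) * (κ * F.v2 * κ⁻¹) := by
        rw [← F.hz]; group
    _ = F.z := by rw [h.κv1, h.κv2, F.hz']

/-- reduction to the centre -/
theorem EN.H1red (h : F.EN F.u1 g v d1 d2 η κ) {y : G} (hy : y ∈ F.U g v d1 d2)
    (e : F.t * κ * y * (F.t * κ * y) = 1) :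
    ∃ l ∈ F.U g v d1 d2, ∃ c ∈ F.Z0 g v, F.t * κ * y = l * (F.t * κ * c) * l⁻¹ := by
  have ek := h.ek
  have ee := ek.toEE
  have ss := h.H1ss
  have sZ : F.t * κ ∈ 𝐍(F.Z0 g v) := mul_mem ee.tN h.κZ
  have s1 : F.t * κ * F.v1 * (F.t * κ)⁻¹ = F.v2 := H1cj h.κv1 (B2.cj_of_comm F.tv2)
  have s2 : F.t * κ * d1 * (F.t * κ)⁻¹ = F.v2 * d2 := H1cj h.κd (H1t F.tt ek.d22 ek.d2t)
  generalize F.t * κ = s at e ss sZ s1 s2 ⊢
  have si : s⁻¹ = s := EB.inv_self ss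
  obtain ⟨c, hc, a, b, i, j, rfl⟩ := ek.memU.1 hy
  obtain ⟨E1, hE⟩ : ∃ E1, E1 = F.Z0 g v ⊔ zpowers F.v1 ⊔ zpowers d1 := ⟨_, rfl⟩
  have mZ : F.Z0 g v ≤ E1 := hE ▸ le_sup_of_le_left le_sup_left
  have mv : F.v1 ∈ E1 := hE ▸ mem_sup_left (mem_sup_right (mem_zpowers _))
  have md : d1 ∈ E1 := hE ▸ mem_sup_right (mem_zpowers _)
  have EU : E1 ≤ F.U g v d1 d2 := hE ▸ ek.b_le1 (ek.b_le1 ee.b_ZU ee.b_v1U) ee.b_d1U
  have nE : F.U g v d1 d2 ≤ 𝐍(E1) := hE ▸ ek.b_n2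
  have s3 : s * (F.v1 * d1) * s⁻¹ = d2 := by
    rw [B2.cj_mul, s1, s2, ← mul_assoc, F.v22, one_mul]
  obtain ⟨l, hl⟩ : ∃ l, l = F.v1 ^ (i : ℕ) * (F.v1 * d1) ^ (j : ℕ) := ⟨_, rfl⟩
  have lE : l ∈ E1 := hl ▸ mul_mem (pow_mem mv _) (pow_mem (mul_mem mv md) _)
  obtain ⟨r, hr⟩ : ∃ r, r = F.v2 ^ (i : ℕ) * d2 ^ (j : ℕ) := ⟨_, rfl⟩
  have rU : r ∈ F.U g v d1 d2 := hr ▸ mul_mem (pow_mem ee.b_v2U _) (pow_mem ee.b_d2U _)
  have sl : s * l * s⁻¹ = r := by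
    rw [hl, hr, B2.cj_mul, ← conj_pow, ← conj_pow, s1, s3]
  obtain ⟨x, hx⟩ : ∃ x, x = c * F.v1 ^ (a : ℕ) * d1 ^ (b : ℕ) := ⟨_, rfl⟩
  have xE : x ∈ E1 := hx ▸ mul_mem (mul_mem (mZ hc) (pow_mem mv _)) (pow_mem md _)
  have ey : c * F.v1 ^ (a : ℕ) * d1 ^ (b : ℕ) * F.v2 ^ (i : ℕ) * d2 ^ (j : ℕ) = x * r := by
    rw [hx, hr]; group
  rw [ey] at e ⊢
  have yE : r⁻¹ * x * r * l ∈ E1 := mul_mem (conj_mem_of_mem_normalizer' (nE rU) xE) lE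
  have e1 : s * (x * r) = l * (s * (r⁻¹ * x * r * l)) * l⁻¹ := by
    rw [← sl, si]
    calc s * (x * (s * l * s)) = l * (s * s) * l⁻¹ * s * (x * (s * l * s)) := by rw [ss]; group
      _ = _ := by rw [mul_inv_rev, mul_inv_rev, si]; group
  refine ⟨l, EU lE, _, ?_, e1⟩
  generalize r⁻¹ * x * r * l = y' at yE e1
  have e2 : s * y' * s⁻¹ ∈ E1 := by
    have : s * y' * s⁻¹ = y'⁻¹ := by
      rw [e1] at e
      rw [si, eq_inv_iff_mul_eq_one]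
      calc s * y' * s * y' = l⁻¹ * (l * (s * y') * l⁻¹ * (l * (s * y') * l⁻¹)) * l := by group
        _ = 1 := by rw [e]; group
    rw [this]; exact inv_mem yE
  rw [hE] at yE
  obtain ⟨x1, h1, q, rfl⟩ := (EB.mem_adj' (ek.b_n1 ee.b_d1U) (ek.d11 ▸ one_mem _)).1 yE
  obtain ⟨c1, h2, p, rfl⟩ := (EB.mem_adj' (ek.b_n0 ee.b_v1U) (F.v11 ▸ one_mem _)).1 h1
  rw [B2.cj_mul, B2.cj_mul, ← conj_pow, ← conj_pow, s1, s2, mul_assoc,
    mul_mem_cancel_left (mZ (conj_mem_of_mem_normalizer sZ h2))] at e2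
  have hq : q = 0 := by
    fin_cases q
    · rfl
    · exfalso
      apply ek.b_i3
      have m : F.v2 ∈ E1 ⊔ zpowers F.v2 := mem_sup_right (mem_zpowers _)
      have m2 := mem_sup_left (T := zpowers F.v2) e2
      rw [mul_mem_cancel_left (pow_mem m _)] at m2
      simp only [Fin.mk_one, Fin.val_one, pow_one] at m2
      rw [mul_mem_cancel_left m] at m2
      exact hE ▸ m2
  subst hq
  have hp : p = 0 := by
    fin_cases p
    · rfl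
    · exfalso
      apply ek.b_i2
      rw [← hE]
      simpa using e2
  subst hp
  simpa using h2

/-- the involutions in `t κ Z0` -/
theorem EN.H1cen (h : F.EN F.u1 g v d1 d2 η κ) {c : G} (hc : c ∈ F.Z0 g v)
    (e : F.t * κ * c * (F.t * κ * c) = 1) : ∃ m ∈ F.Z0 g v, F.t * κ * c = m * (F.t * κ) * m⁻¹ := by
  have ek := h.ek
  have ee := ek.toEE
  have ss := h.H1ss
  obtain ⟨ca, -, -, -⟩ := h.H1bas
  have tz : F.t * F.z * F.t⁻¹ = F.z := B2.cj_of_comm F.zt.symm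
  have tg : F.t * g * F.t⁻¹ = F.z * g := H1t F.tt ek.gg ek.gt
  have tv : F.t * v * F.t⁻¹ = F.u1 * v := H1t F.tt ek.vv ek.vt
  have sz : F.t * κ * F.z * (F.t * κ)⁻¹ = F.z := H1cj h.H1κz tz
  have su : F.t * κ * F.u1 * (F.t * κ)⁻¹ = F.z * F.u1 :=
    (H1cj h.κu1 (B2.cj_of_comm F.tu2)).trans (F.u2_eq F.hu1)
  have sg : F.t * κ * g * (F.t * κ)⁻¹ = F.z * g := H1cj (B2.cj_of_comm h.κg) tg
  have ab : ∀ x ∈ F.Z0 g v, ∀ y ∈ F.Z0 g v, x * y = y * x := fun x hx y hy =>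
    mem_centralizer_iff_commute.1 (ee.b_Zab hy) x hx
  have c1 : F.u1 * F.z = F.z * F.u1 := ab _ ee.b_uZ _ ee.b_zZ
  have c2 : g * F.z = F.z * g := ab _ ee.b_gZ _ ee.b_zZ
  have c3 : v * F.z = F.z * v := ab _ ee.b_vZ _ ee.b_zZ
  have c4 : g * F.u1 = F.u1 * g := ab _ ee.b_gZ _ ee.b_uZ
  have c5 : v * F.u1 = F.u1 * v := ab _ ee.b_vZ _ ee.b_uZ
  have c6 : v * g = g * v := ab _ ee.b_vZ _ ee.b_gZ
  have l : ∀ {p q : G}, p * q = q * p → ∀ w, p * (q * w) = q * (p * w) := fun h w => by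
    rw [← mul_assoc, h, mul_assoc]
  have l2 : ∀ {p : G}, p * p = 1 → ∀ w, p * (p * w) = w := fun h w => by
    rw [← mul_assoc, h, one_mul]
  have sv : F.t * κ * v * (F.t * κ)⁻¹ = F.z * (F.u1 * (g * v)) ∨ F.t * κ * v * (F.t * κ)⁻¹ = F.u1 * (g * v) := by
    rcases h.κv ca rfl with e1 | e1
    · left
      refine H1cj e1 ?_
      rw [B2.cj_mul, tv, tg]
      simp only [mul_assoc, c1, c2, c3, c4, c5, c6, l c1, l c2, l c3, l c4, l c5, l c6]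
    · right
      refine H1cj e1 ?_
      rw [B2.cj_mul, B2.cj_mul, tv, tg, tz]
      simp only [mul_assoc, c1, c2, c3, c4, c5, c6, l c1, l c2, l c3, l c4, l c5, l c6, l2 F.zz]
  have n1 : ∀ f ∈ F.F0, f * g ≠ 1 := fun f hf q => by
    have q1 : g = f⁻¹ := (inv_eq_of_mul_eq_one_right q).symm
    have q2 := B2.cj_of_comm (EA_F0t (inv_mem hf)).symm
    rw [← q1, tg] at q2
    exact F.z1 (mul_eq_right.1 q2)
  have n2 : F.u1 * g ≠ 1 := n1 _ (F.memF0.2 (by simp))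
  have n3 : F.z * (F.u1 * g) ≠ 1 := by
    rw [← mul_assoc]; exact n1 _ (F.memF0.2 (by simp))
  have z1 := F.z1
  generalize F.t * κ = s at e ss sz su sg sv ⊢
  have si : s⁻¹ = s := EB.inv_self ss
  have e1 : s * c * s⁻¹ * c = 1 := by rw [si, mul_assoc]; exact e
  have key : ∀ m ∈ F.Z0 g v, s * m * s⁻¹ * m = c → ∃ m ∈ F.Z0 g v, s * c = m * s * m⁻¹ := fun m hm q =>
    ⟨m, hm, by rw [← q, si, EB.inv_self (ee.sqZ0 hm), mul_assoc s m, mul_assoc s, l2 ss]⟩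
  have mu := ee.b_uZ
  have mv := ee.b_vZ
  obtain ⟨f, hf, i, j, rfl⟩ := ee.memZ0.1 hc
  rcases F.memF0.1 hf with rfl | rfl | rfl | rfl <;> fin_cases i <;> fin_cases j <;>
    simp only [Fin.zero_eta, Fin.mk_one, Fin.val_zero, Fin.val_one, pow_zero, pow_one, one_mul, mul_one,
      B2.cj_mul, sz, su, sg] at e1 key ⊢ <;>
    rcases sv with sv | sv <;>
    (try simp only [sv, mul_assoc, c1, c2, c3, c4, c5, c6, l c1, l c2, l c3, l c4, l c5, l c6, l2 F.zz, l2 F.u11,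
      l2 ek.gg, l2 ek.vv, F.zz, F.u11, ek.gg, ek.vv, mul_one] at e1) <;>
    first
    | exact absurd e1 z1
    | exact absurd e1 n2
    | exact absurd e1 n3
    | (refine ⟨1, one_mem _, ?_⟩; rw [one_mul, inv_one, mul_one]; done)
    | (refine key F.u1 mu ?_; rw [su, mul_assoc, F.u11, mul_one]; done)
    | (refine key v mv ?_; rw [sv]; simp only [mul_assoc, ek.vv, mul_one]; done)
    | (refine key _ (mul_mem mu mv) ?_
       rw [B2.cj_mul, su, sv]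
       simp only [mul_assoc, c1, c2, c3, c4, c5, c6, l c1, l c2, l c3, l c4, l c5, l c6, l2 F.zz, l2 F.u11,
         l2 ek.gg, l2 ek.vv, F.zz, F.u11, ek.gg, ek.vv, mul_one]
       done)

theorem EN.invtκ (h : F.EN F.u1 g v d1 d2 η κ) (w : d1 * d2 * d1 * d2 = g) {y : G} (hy : y ∈ F.U g v d1 d2)
    (e : F.t * κ * y * (F.t * κ * y) = 1) : ∃ l ∈ F.U g v d1 d2, F.t * κ * y = l * (F.t * κ) * l⁻¹ := by
  have _ := w
  obtain ⟨l, hl, c, hc, e1⟩ := h.H1red hy e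
  obtain ⟨m, hm, e2⟩ := h.H1cen hc (by
    rw [e1] at e
    calc _ = l⁻¹ * (l * (F.t * κ * c) * l⁻¹ * (l * (F.t * κ * c) * l⁻¹)) * l := by group
      _ = 1 := by rw [e]; group)
  exact ⟨l * m, mul_mem hl (h.ek.toEE.b_ZU hm), by rw [e1, e2]; group⟩

theorem SY.H1syl (h : F.SY u0 g v d1 d2 η κ 1) (w : d1 * d2 * d1 * d2 = g) :
    IsSylowIn 2 (F.U g v d1 d2 ⊔ zpowers F.t) (centralizer {F.u1}) := by
  have ek := h.ek
  have ee := ek.toEE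
  refine ⟨sup_le (fun y hy => mem_centralizer_singleton_iff.2 (ee.b_UC hy _ ee.b_uZ).symm)
    (zpowers_le.2 (mem_centralizer_singleton_iff.2 F.tu1)), isP_sup ek.isP (.of_sq F.tt) ek.tN, fun P h1 h2 h3 => ?_⟩
  obtain ⟨x, -, hx⟩ := h.syl.exists_cj_le h3 le_top
  have xN := ek.wcN h.wc ((cj_mono x (le_sup_left.trans h1)).trans hx)
  have c0 := h.fixu w xN
  have le1 : P ^ᶜ x ≤ F.SK g v d1 d2 κ 1 ⊓ centralizer {x * F.u1 * x⁻¹} := le_inf hx fun y hy => by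
    obtain ⟨p, hp, rfl⟩ := mem_cj'.1 hy
    exact mem_centralizer_singleton_iff.2 (B2.comm_cj x (mem_centralizer_singleton_iff.1 (h2 hp)))
  have ne : F.SK g v d1 d2 κ 1 ⊓ centralizer {x * F.u1 * x⁻¹} ≠ F.SK g v d1 d2 κ 1 := fun q => by
    have m : κ ∈ F.SK g v d1 d2 κ 1 := mem_sup_right (subset_closure (by simp))
    rw [← q] at m
    have m1 := B2.cj_of_comm (mem_centralizer_singleton_iff.1 m.2)
    have m2 : κ ∈ 𝐂(F.Ud g) := B2.cent_gen (by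
      rintro y (rfl | rfl)
      exacts [(B2.comm_of_cj h.toEN.H1κz).symm, h.κg.symm])
    have m3 := B2.cj_of_comm (mem_centralizer_iff_commute.1 m2 _ c0).symm
    rw [B2.cj_mul, m1, h.κu1] at m3
    exact F.u12ne (mul_right_cancel m3).symm
  have k1 := card_le_of_le le1
  have k2 := card_dvd_of_le (inf_le_left : F.SK g v d1 d2 κ 1 ⊓ centralizer {x * F.u1 * x⁻¹} ≤ _)
  have k3 : Nat.card ↥(F.SK g v d1 d2 κ 1 ⊓ centralizer {x * F.u1 * x⁻¹}) ≠ Nat.card (F.SK g v d1 d2 κ 1) :=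
    fun q => ne (eq_of_le_of_card_ge inf_le_left q.ge)
  have k4 := h.toEN.card2
  have k5 := card_adj ek.tN (F.tt ▸ one_mem _) ek.tU
  rw [card_cj] at k1
  refine (eq_of_le_of_card_ge h1 ?_).symm
  obtain ⟨n, hn⟩ := k2
  have pos : 0 < Nat.card (F.SK g v d1 d2 κ 1) := Nat.card_pos
  generalize Nat.card ↥(F.SK g v d1 d2 κ 1 ⊓ centralizer {x * F.u1 * x⁻¹}) = A at *
  have n2 : 2 ≤ n := by
    rcases n with _ | _ | n
    · omega
    · omega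
    · omega
  have := Nat.mul_le_mul_left A n2
  omega

theorem SY.ntκ (h : F.SY F.u1 g v d1 d2 η κ k) (w : d1 * d2 * d1 * d2 = g) (s : G) : s * (F.t * κ) * s⁻¹ ≠ F.u1 := by
  intro e
  have ek := h.ek
  have ee := ek.toEE
  have ss := h.toEN.H1ss
  obtain ⟨ca, d, κt, κκ⟩ := h.toEN.H1bas
  rcases h.hk with rfl | q
  swap
  · obtain ⟨l, -, el⟩ := h.toEN.invtκ w q.kt (by
      rw [mul_inv_cancel_left]
      calc _ = k * (F.t * F.t) * k⁻¹ := by group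
        _ = 1 := by rw [F.tt]; group)
    rw [mul_inv_cancel_left] at el
    exact ca.n1 ⟨s * l⁻¹ * k, by
      rw [← e]
      calc _ = s * (l⁻¹ * (k * F.t * k⁻¹) * l) * s⁻¹ := by group
        _ = _ := by rw [el]; group⟩
  have ct : F.t * (F.t * κ) = F.t * κ * F.t := by rw [mul_assoc, κt]
  have p1 : IsPGroup 2 (zpowers (s * F.t * s⁻¹)) := ((P2.of_sq F.tt).conj s).zpowers
  obtain ⟨c, hc, hx⟩ := (h.H1syl w).exists_cj_le p1 (zpowers_le.2 (mem_centralizer_singleton_iff.2 (by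
    rw [← e]; exact B2.comm_cj s ct)))
  have cu := B2.cj_of_comm (mem_centralizer_singleton_iff.1 hc)
  obtain ⟨l, hl, f, hf, el⟩ := ek.omU (hx (mem_cj'.2 ⟨_, mem_zpowers _, rfl⟩)) ((F.om_t.cj s).cj c)
  obtain ⟨c0, h0, e0⟩ := ee.tr hf (by
    rcases F.memF0.1 hf with rfl | rfl | rfl | rfl
    · exact ⟨1, one_mem _, by simp⟩
    · obtain ⟨n, hn, en⟩ := ca.sz
      exact ⟨n, hn.2.1, en⟩
    · obtain ⟨n, hn, en⟩ := ca.s1
      exact ⟨n, hn.2.1, en⟩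
    · obtain ⟨n, hn, en⟩ := ca.s2
      exact ⟨n, hn.2.1, by rw [en, F.u2_eq F.hu1]⟩)
  obtain ⟨x, hx'⟩ : ∃ x, x = (l * c0)⁻¹ * (c * s) := ⟨_, rfl⟩
  have x1 : x * F.t * x⁻¹ = F.t := by
    calc x * F.t * x⁻¹ = (l * c0)⁻¹ * (c * (s * F.t * s⁻¹) * c⁻¹) * (l * c0) := by rw [hx']; group
      _ = F.t := by rw [el, ← e0]; group
  have x2 : x * (F.t * κ) * x⁻¹ = F.u1 := by
    have := mem_centralizer_iff_commute.1 (ee.b_UC (mul_mem hl (ee.b_ZU h0))) _ ee.b_uZ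
    calc x * (F.t * κ) * x⁻¹ = (l * c0)⁻¹ * (c * (s * (F.t * κ) * s⁻¹) * c⁻¹) * (l * c0) := by rw [hx']; group
      _ = F.u1 := by rw [e, cu, mul_assoc, this]; group
  have κT : κ ∈ 𝐍(F.T) := B2.norm_gen (by
    rintro y (rfl | rfl | rfl | rfl | rfl)
    · rw [B2.cj_of_comm κt]; exact F.b2_tT
    · rw [h.κv1]; exact F.b2_v2T
    · rw [h.κv2]; exact F.b2_v1T
    · rw [h.κu1]; exact F.b2_u2T
    · rw [h.κu2]; exact F.b2_uT)
  obtain ⟨n, hn, hT⟩ := F.sylTD.exists_cj_le (isP_sup F.isPT h.κ2 κT)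
    (sup_le F.TC (zpowers_le.2 (mem_centralizer_singleton_iff.2 κt)))
  have nT := F.wcT ((cj_mono n le_sup_left).trans hT)
  have nt := mem_centralizer_singleton_iff.1 hn
  have m : n * (F.t * κ) * n⁻¹ ∈ F.TD :=
    hT (mem_cj'.2 ⟨_, mul_mem_sup F.b2_tT (mem_zpowers _), rfl⟩)
  rcases F.memTD m with m1 | ⟨-, τ, hτ, m1⟩
  · have m2 := conj_mem_of_mem_normalizer' nT m1
    rw [show n⁻¹ * (n * (F.t * κ) * n⁻¹) * n = F.t * κ by group, mul_mem_cancel_left F.b2_tT] at m2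
    have m3 := B2.cj_of_comm (mem_centralizer_singleton_iff.1 (F.sylTu.le m2).2)
    rw [h.κu1] at m3
    exact F.u12ne m3.symm
  · refine F.nd d (x * n⁻¹) (B2.comm_of_cj ?_) τ hτ ?_
    · calc x * n⁻¹ * F.t * (x * n⁻¹)⁻¹ = x * (n⁻¹ * (F.t * n)) * x⁻¹ := by group
        _ = F.t := by rw [← nt, inv_mul_cancel_left, x1]
    · rw [← m1, show x * n⁻¹ * (n * (F.t * κ) * n⁻¹) * (x * n⁻¹)⁻¹ = x * (F.t * κ) * x⁻¹ by group, x2]
      exact F.b2_uT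

end Fr

end H60M.A6
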