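import Mathlib
import Cfsg.Agent.Lib.B6S.HF

/-! The element `k` modulo `U0`. -/

set_option autoImplicit false
set_option linter.unusedSectionVars false
set_option linter.unusedSimpArgs false

namespace H60M.A6

open Subgroup H69 H36.SW H60M.A7

variable {G : Type*} [Group G] [Finite G]

namespace HJ

theorem nm {H : Subgroup G} {x y : G} (hx : x ∈ 𝐍(H)) (hy : y ∈ H) : x * y * x⁻¹ ∈ H :=
  (mem_normalizer_iff.1 hx y).1 hy

theorem lc {a b : G} (h : a * b = b * a) (x : G) : a * (b * x) = b * (a * x) := by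
  rw [← mul_assoc, h, mul_assoc]

theorem sq' {a : G} (h : a * a = 1) (x : G) : a * (a * x) = x := by
  rw [← mul_assoc, h, one_mul]

theorem iv {a : G} (h : a * a = 1) : a⁻¹ = a := inv_eq_of_mul_eq_one_right h

/-- the four products of `p` and `q` -/
def Fo (p q x : G) : Prop := x = 1 ∨ x = p ∨ x = q ∨ x = p * q

theorem Fo.pw (p q : G) (i j : Fin 2) : Fo p q (p ^ (i : ℕ) * q ^ (j : ℕ)) := by
  fin_cases i <;> fin_cases j <;> simp [Fo]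

theorem Fo.mul {p q x y : G} (pp : p * p = 1) (qq : q * q = 1) (c : q * p = p * q) (hx : Fo p q x) (hy : Fo p q y) :
    Fo p q (x * y) := by
  rcases hx with h | h | h | h <;> rcases hy with k | k | k | k <;>
    simp [Fo, h, k, mul_assoc, pp, qq, c, sq' pp, sq' qq, lc c]

theorem Fo.sq {p q x : G} (pp : p * p = 1) (qq : q * q = 1) (c : q * p = p * q) (hx : Fo p q x) : x * x = 1 := by
  rcases hx with h | h | h | h <;> simp [h, mul_assoc, pp, qq, sq' pp, lc c]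

theorem Fo.comm {p q x y : G} (c : q * p = p * q) (hx : Fo p q x) (hy : Fo p q y) : x * y = y * x := by
  rcases hx with h | h | h | h <;> rcases hy with k | k | k | k <;> simp [h, k, mul_assoc, c, lc c]

theorem Fo.cj {p q p' q' x s : G} (hp : s * p * s⁻¹ = p') (hq : s * q * s⁻¹ = q') (hx : Fo p q x) :
    Fo p' q' (s * x * s⁻¹) := by
  rcases hx with h | h | h | h
  · exact Or.inl (by rw [h]; group)
  · exact Or.inr (Or.inl (by rw [h, hp]))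
  · exact Or.inr (Or.inr (Or.inl (by rw [h, hq])))
  · exact Or.inr (Or.inr (Or.inr (by rw [h, ← hp, ← hq]; group)))

theorem Fo.mem {p q x : G} {H : Subgroup G} (hp : p ∈ H) (hq : q ∈ H) (hx : Fo p q x) : x ∈ H := by
  rcases hx with h | h | h | h <;> rw [h]
  exacts [one_mem _, hp, hq, mul_mem hp hq]

theorem spl {s y w : G} (ss : s * s = 1) (c : s * w * s⁻¹ * y = y * (s * w * s⁻¹))
    (e : s * (y * w) * (s * (y * w)) = 1) : s * y * s⁻¹ * y * (s * w * s⁻¹ * w) = 1 := by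
  calc s * y * s⁻¹ * y * (s * w * s⁻¹ * w) = s * y * s⁻¹ * (y * (s * w * s⁻¹)) * w := by group
    _ = s * y * w * s⁻¹ * y * w := by rw [← c]; group
    _ = s * (y * w) * (s * (y * w)) := by rw [iv ss]; group
    _ = 1 := e

theorem sw {a b c : G} (aa : a * a = 1) (bb : b * b = 1) (h : a * b * a * b = c) : a * b = c * (b * a) := by
  rw [← h]; simp [mul_assoc, sq' bb, aa]

end HJ

namespace Fr
variable {F : Fr G} {u0 g g' v d1 d2 η η1 η2 κ k a b γ : G}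

theorem EN.HJc (h : F.EN u0 g v d1 d2 η κ) {c x : G} (hc : c ∈ F.Z0 g v) (hx : x ∈ F.U g v d1 d2) : c * x = x * c :=
  mem_centralizer_iff.1 (h.ek.toEE.b_UC hx) c hc

theorem EN.HJz (h : F.EN u0 g v d1 d2 η κ) {c x : G} (hc : c ∈ F.Z0 g v) (hx : x ∈ F.Z0 g v) : c * x = x * c :=
  h.HJc hc (h.ek.toEE.b_ZU hx)

theorem EN.HJU0 (h : F.EN u0 g v d1 d2 η κ) {x : G} (hx : x ∈ F.UO d1 d2) :
    ∃ c ∈ F.Ud g, ∃ a b, HJ.Fo F.v1 d1 a ∧ HJ.Fo F.v2 d2 b ∧ x = c * a * b := by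
  obtain ⟨c, hc, i, j, l, m, e⟩ := h.memU0.1 hx
  exact ⟨c, hc, _, _, HJ.Fo.pw _ _ i j, HJ.Fo.pw _ _ l m, by rw [e]; group⟩

theorem EN.HJU (h : F.EN u0 g v d1 d2 η κ) {x : G} (hx : x ∈ F.U g v d1 d2) :
    ∃ y ∈ F.UO d1 d2, ∃ w, HJ.Fo F.u1 v w ∧ x = y * w := by
  obtain ⟨y, hy, i, j, e⟩ := h.memU.1 hx
  exact ⟨y, hy, _, HJ.Fo.pw _ _ i j, by rw [e, mul_assoc]⟩

theorem EN.HJZ (h : F.EN u0 g v d1 d2 η κ) {x : G} (hx : x ∈ F.Z0 g v) :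
    ∃ c ∈ F.Ud g, ∃ w, HJ.Fo F.u1 v w ∧ x = c * w := by
  obtain ⟨y, hy, i, j, e⟩ := h.memZ.1 hx
  exact ⟨y, hy, _, HJ.Fo.pw _ _ i j, by rw [e, mul_assoc]⟩

theorem EN.HJnu (h : F.EN u0 g v d1 d2 η κ) : F.u1 ∉ F.UO d1 d2 := fun e => by
  have := (h.indZ (i := 1) (j := 0) (by simpa using e)).1
  simp at this

theorem EN.HJnv (h : F.EN u0 g v d1 d2 η κ) (hv : v ≠ 1) : v ∉ F.UO d1 d2 ∧ F.u1 * v ∉ F.UO d1 d2 := by
  refine ⟨fun e => ?_, fun e => ?_⟩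
  · have := (h.indZ (i := 0) (j := 1) (by simpa using e)).2
    simp [hv] at this
  · have := (h.indZ (i := 1) (j := 1) (by simpa using e)).1
    simp at this

theorem EN.HJw (h : F.EN u0 g v d1 d2 η κ) {w : G} (hw : HJ.Fo F.u1 v w) :
    w = 1 ∨ w = F.u1 ∨ (v ≠ 1 ∧ u0 = F.u1 ∧ F.CA ∧ (w = v ∨ w = F.u1 * v)) := by
  by_cases hv : v = 1
  · rcases hw with e | e | e | e
    · exact Or.inl e
    · exact Or.inr (Or.inl e)
    · exact Or.inl (e.trans hv)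
    · exact Or.inr (Or.inl (by rw [e, hv, mul_one]))
  · obtain ⟨h0, c⟩ := h.ek.cs.resolve_left fun k => hv k.2.1
    rcases hw with e | e | e | e
    · exact Or.inl e
    · exact Or.inr (Or.inl e)
    · exact Or.inr (Or.inr ⟨hv, h0, c, Or.inl e⟩)
    · exact Or.inr (Or.inr ⟨hv, h0, c, Or.inr e⟩)

theorem HJfix {s c : G} (sz : s * F.z = F.z * s) (sg : s * g = g * s) (hc : c ∈ F.Ud g) : s * c * s⁻¹ = c := by
  have : s ∈ 𝐂(F.Ud g) := B2.cent_gen (by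
    rintro x (rfl | rfl)
    exacts [sz.symm, sg.symm])
  rw [← mem_centralizer_iff.1 this c hc]; group

theorem HJzd : F.z ∈ F.Ud g := subset_closure (by simp)
theorem HJgd : g ∈ F.Ud g := subset_closure (by simp)
theorem HJv1 : F.v1 ∈ F.UO d1 d2 := subset_closure (by simp)
theorem HJv2 : F.v2 ∈ F.UO d1 d2 := subset_closure (by simp)
theorem HJd1 : d1 ∈ F.UO d1 d2 := subset_closure (by simp)
theorem HJd2 : d2 ∈ F.UO d1 d2 := subset_closure (by simp)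

theorem EN.HJκz (h : F.EN u0 g v d1 d2 η κ) : κ * F.z = F.z * κ := by
  apply B2.comm_of_cj
  calc κ * F.z * κ⁻¹ = (κ * F.v1 * κ⁻¹) * (κ * F.v2 * κ⁻¹) * (κ * F.v1 * κ⁻¹) * (κ * F.v2 * κ⁻¹) := by
        rw [← F.hz]; group
    _ = F.z := by rw [h.κv1, h.κv2, F.hz']

theorem EN.HJg1 (h : F.EN u0 g v d1 d2 η κ) : g ≠ 1 ∧ F.z * g ≠ 1 := by
  have e := h.ek.gt
  refine ⟨fun k => F.z1 ?_, fun k => F.z1 ?_⟩
  · rw [k] at e; simpa using e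
  · have : g = F.z := by rw [← HJ.iv F.zz]; exact (inv_eq_of_mul_eq_one_right k).symm
    rw [this, F.zt, mul_assoc, F.zz] at e
    simpa using e

theorem EN.HJκκ (h : F.EN u0 g v d1 d2 η κ) (d : F.dl ≠ 1) : κ * κ = 1 ∧ κ * F.t = F.t * κ :=
  ⟨(h.sq.resolve_right fun k => d k.1).2, (h.kd.resolve_right fun k => d k.1).2.1⟩

theorem EN.HJcore (h : F.EN u0 g v d1 d2 η κ) (d : F.dl ≠ 1) {x : G} (hx : x ∈ F.UO d1 d2)
    (e : κ * x * κ⁻¹ * x ∈ F.Z0 g v) : κ * x * κ⁻¹ * x = 1 := by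
  obtain ⟨c, hc, a, b, ha, hb, rfl⟩ := h.HJU0 hx
  have E := h.ek.toEE
  have kk := (h.HJκκ d).1
  have ha' := ha.cj h.κv1 h.κd
  have hb' := hb.cj h.κv2 h.κd2
  have hp := HJ.Fo.mul F.v11 E.d11 E.d1v hb' ha
  have a2 := ha'.sq F.v22 E.d22 E.d2v
  have p2 := hp.sq F.v11 E.d11 E.d1v
  have kp : κ * (κ * b * κ⁻¹ * a) * κ⁻¹ = b * (κ * a * κ⁻¹) := by
    simp only [HJ.iv kk, mul_assoc, HJ.sq' kk]
  have fc := HJfix h.HJκz h.κg hc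
  have cc := E.sqZ0 (h.UdZ hc)
  have aU := ha'.mem E.b_v2U E.b_d2U
  have bU := hb'.mem E.b_v1U E.b_d1U
  have hm : κ * (c * a * b) * κ⁻¹ * (c * a * b) = κ * a * κ⁻¹ * (κ * b * κ⁻¹ * a) * b := by
    calc _ = (κ * c * κ⁻¹) * (κ * a * κ⁻¹ * (κ * b * κ⁻¹)) * c * (a * b) := by group
      _ = (κ * a * κ⁻¹ * (κ * b * κ⁻¹)) * (c * c) * (a * b) := by
          rw [fc, h.HJc (h.UdZ hc) (mul_mem aU bU)]; group
      _ = _ := by rw [cc]; group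
  rw [hm] at e ⊢
  generalize κ * a * κ⁻¹ = a' at *
  generalize κ * b * κ⁻¹ * a = p at *
  have e1 : a' * p * b = p * (b * a') := by
    calc a' * p * b = a' * p * b * a' * a' := by rw [mul_assoc _ a', a2, mul_one]
      _ = a' * (a' * p * b) * a' := by rw [h.HJc e aU]
      _ = _ := by simp only [mul_assoc, HJ.sq' a2]
  have pZ := h.fixκ (hp.mem E.b_v1U E.b_d1U) p2 (by rw [kp, HJ.iv p2, ← e1]; exact e)
  have pd : p ∈ F.Ud g := h.U0Z ▸ (⟨hp.mem HJv1 HJd1, pZ⟩ : p ∈ F.UO d1 d2 ⊓ F.Z0 g v)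
  rw [e1, ← kp, HJfix h.HJκz h.κg pd, p2]

theorem EN.invκ (h : F.EN u0 g v d1 d2 η κ) (d : F.dl ≠ 1) {y : G} (hy : y ∈ F.U g v d1 d2) (e : κ * y * (κ * y) = 1) (w : d1 * d2 * d1 * d2 = g) :
    y ∈ F.UO d1 d2 := by
  obtain ⟨y0, h0, x, hx, rfl⟩ := h.HJU hy
  have E := h.ek.toEE
  have xZ := hx.mem E.b_uZ E.b_vZ
  have kx := HJ.nm h.κZ xZ
  have e1 := HJ.spl (h.HJκκ d).1 (h.HJc kx (h.U0U h0)) e
  have e2 := h.HJcore d h0 (by rw [eq_inv_of_mul_eq_one_left e1]; exact inv_mem (mul_mem kx xZ))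
  rw [e2, one_mul] at e1
  have ku : κ * F.u1 * κ⁻¹ = F.z * F.u1 := by rw [h.κu1, F.u2_eq F.hu1]
  have gz := h.HJz E.b_gZ E.b_zZ
  have uz := h.HJz E.b_uZ E.b_zZ
  have vz := h.HJz E.b_vZ E.b_zZ
  have ug := h.HJz E.b_uZ E.b_gZ
  have vg := h.HJz E.b_vZ E.b_gZ
  have vu := h.HJz E.b_vZ E.b_uZ
  rcases h.HJw hx with rfl | rfl | ⟨-, hu, c, hx⟩
  · rwa [mul_one]
  · rw [ku, mul_assoc, F.u11, mul_one] at e1
    exact absurd e1 F.z1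
  · exfalso
    rcases hx with rfl | rfl
    · rcases h.κv c hu with k | k <;> rw [k] at e1 <;>
        simp only [mul_assoc, gz, vz, vg, HJ.lc gz, HJ.lc vz, HJ.lc vg, E.vv, mul_one] at e1
      exacts [h.HJg1.1 e1, h.HJg1.2 e1]
    · rw [B2.cj_mul, ku] at e1
      rcases h.κv c hu with k | k <;> rw [k] at e1 <;>
        simp only [mul_assoc, gz, vz, vg, uz, ug, vu, HJ.lc gz, HJ.lc vz, HJ.lc vg, HJ.lc uz, HJ.lc ug, HJ.lc vu,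
          E.vv, F.u11, HJ.sq' F.u11, HJ.sq' F.zz, mul_one] at e1
      exacts [h.HJg1.2 e1, h.HJg1.1 e1]

theorem SY.HJk0 (h : F.SY u0 g v d1 d2 η κ k) {x b : G} (hx : ∃ s, s * x * s⁻¹ ∈ F.Ud g)
    (hb : b ∈ closure {F.v1, d1} ∨ b ∈ closure {F.v2, d2}) (e : b⁻¹ * (k * x * k⁻¹) ∈ F.Z0 g v) :
    k * x * k⁻¹ ∈ F.UO d1 d2 := by
  obtain ⟨s, hs⟩ := hx
  have e1 : k * x * k⁻¹ = b * (b⁻¹ * (k * x * k⁻¹)) := by group
  refine h.cls (s := s * k⁻¹) (hb.imp (fun hb => ?_) fun hb => ?_) (by convert hs using 1; group) <;>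
  · rw [e1]; exact mul_mem (mem_sup_right hb) (mem_sup_left e)

theorem SY.HJk4 (h : F.SY u0 g v d1 d2 η κ k) (q : F.KK g v d1 d2 κ k) :
    k * d1 * k⁻¹ ∈ F.UO d1 d2 ∧ k * d2 * k⁻¹ ∈ F.UO d1 d2 ∧ k * (F.v1 * d1) * k⁻¹ ∈ F.UO d1 d2 ∧
      k * (F.v2 * d2) * k⁻¹ ∈ F.UO d1 d2 := by
  obtain ⟨s, -, -, hs⟩ := h.toEN.toZ (x := d1) (subset_closure (by simp))
  obtain ⟨r, -, -, hr⟩ := h.toEN.toZ (x := F.v1 * d1) (mul_mem (subset_closure (by simp)) (subset_closure (by simp)))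
  refine ⟨h.HJk0 ⟨s, hs⟩ (Or.inr (subset_closure (by simp))) q.ke,
    h.HJk0 ⟨s * κ⁻¹, ?_⟩ (Or.inl (subset_closure (by simp))) q.kf,
    h.HJk0 ⟨r, hr⟩ (Or.inl (mul_mem (subset_closure (by simp)) (subset_closure (by simp)))) q.ke',
    h.HJk0 ⟨r * κ⁻¹, ?_⟩ (Or.inr (mul_mem (subset_closure (by simp)) (subset_closure (by simp)))) q.kf'⟩
  · rw [← h.κd]; convert hs using 1; group
  · rw [← h.κd, ← h.κv1]; convert hr using 1; group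

theorem SY.HJ1 (h : F.SY u0 g v d1 d2 η κ k) (q : F.KK g v d1 d2 κ k) : k ∈ 𝐍(F.UO d1 d2) := by
  obtain ⟨a1, a2, a3, a4⟩ := h.HJk4 q
  have E := h.ek.toEE
  refine B2.norm_gen ?_
  rintro x (rfl | rfl | rfl | rfl)
  · have := mul_mem a3 a1
    rwa [← B2.cj_mul, mul_assoc F.v1, E.d11, mul_one] at this
  · have := mul_mem a4 a2
    rwa [← B2.cj_mul, mul_assoc F.v2, E.d22, mul_one] at this
  · exact a1
  · exact a2

theorem EN.HJtv (h : F.EN u0 g v d1 d2 η κ) (hu : u0 = F.u1) : F.t * v * F.t⁻¹ = F.u1 * v := by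
  have E := h.ek.toEE
  calc F.t * v * F.t⁻¹ = F.t * (v * F.t * v) * v := by rw [HJ.iv F.tt]; simp only [mul_assoc, E.vv, mul_one]
    _ = _ := by rw [E.vt, hu]; simp only [mul_assoc, HJ.sq' F.tt]

theorem SY.HJ3 (h : F.SY u0 g v d1 d2 η κ k) (q : F.KK g v d1 d2 κ k) :
    ∃ y ∈ F.UO d1 d2, ∃ ρ, (ρ = 1 ∨ ρ = F.u1) ∧ k * F.t * k⁻¹ = F.t * κ * (y * ρ) := by
  have n := h.toEN
  obtain ⟨y, hy, x, hx, e⟩ := n.HJU q.kt
  have e0 : k * F.t * k⁻¹ = F.t * κ * (y * x) := by rw [← e]; group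
  rcases n.HJw hx with k1 | k1 | ⟨-, hu, c, k1⟩
  · exact ⟨y, hy, x, Or.inl k1, e0⟩
  · exact ⟨y, hy, x, Or.inr k1, e0⟩
  exfalso
  have E := h.ek.toEE
  obtain ⟨kk, kt⟩ := n.HJκκ q.d
  have ss : F.t * κ * (F.t * κ) = 1 := by simp only [mul_assoc, HJ.lc kt, HJ.sq' F.tt, kk]
  have xZ := hx.mem E.b_uZ E.b_vZ
  have e1 := HJ.spl ss (n.HJc (HJ.nm (mul_mem E.tN h.κZ) xZ) (n.U0U hy)) (by
    rw [← e0, ← B2.cj_mul, F.tt]; group)
  have e2 : F.t * κ * x * (F.t * κ)⁻¹ * x ∈ F.UO d1 d2 := by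
    rw [eq_inv_of_mul_eq_one_right e1]
    exact inv_mem (mul_mem (HJ.nm (mul_mem n.tU0 n.κU0) hy) hy)
  obtain ⟨c, hc, sv⟩ : ∃ c ∈ F.Ud g, F.t * κ * v * (F.t * κ)⁻¹ = F.u1 * v * c := by
    obtain ⟨c, hc, kv⟩ : ∃ c ∈ F.Ud g, κ * v * κ⁻¹ = v * c := by
      rcases n.κv c hu with k2 | k2
      · exact ⟨g, HJgd, k2⟩
      · exact ⟨g * F.z, mul_mem HJgd HJzd, by rw [k2, mul_assoc]⟩
    refine ⟨_, HJ.nm (n.NUd h.ek.tN) hc, ?_⟩
    rw [← n.HJtv hu, ← B2.cj_mul, ← kv]; group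
  have su : F.t * κ * F.u1 * (F.t * κ)⁻¹ = F.z * F.u1 := by
    calc _ = F.t * (κ * F.u1 * κ⁻¹) * F.t⁻¹ := by group
      _ = _ := by rw [h.κu1, B2.cj_of_comm F.tu2, F.u2_eq F.hu1]
  have uc := n.HJz E.b_uZ (n.UdZ hc)
  have vc := n.HJz E.b_vZ (n.UdZ hc)
  have vu := n.HJz E.b_vZ E.b_uZ
  apply n.HJnu
  rcases k1 with rfl | rfl
  · rw [sv] at e2
    simp only [mul_assoc, uc, vc, HJ.lc uc, HJ.lc vc, E.vv, mul_one] at e2
    exact (mul_mem_cancel_left (n.UdU0 hc)).1 e2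
  · rw [B2.cj_mul, sv, su] at e2
    simp only [mul_assoc, uc, vc, vu, HJ.lc uc, HJ.lc vc, HJ.lc vu, E.vv, HJ.sq' F.u11, mul_one] at e2
    exact (mul_mem_cancel_left (n.UdU0 hc)).1 ((mul_mem_cancel_left (n.UdU0 HJzd)).1 e2)

theorem SY.HJ5 (h : F.SY u0 g v d1 d2 η κ k) (q : F.KK g v d1 d2 κ k) : v * (k * v * k⁻¹) ∈ F.Ud g := by
  have n := h.toEN
  have E := h.ek.toEE
  by_cases hv : v = 1
  · rw [hv]; simp
  obtain ⟨c, hc, x, hx, e⟩ := n.HJZ (HJ.nm q.kZ E.b_vZ)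
  obtain ⟨c0, hc0, c1, -, ku⟩ := n.ku q
  have e2 : v = c * (k * x * k⁻¹) := by
    calc v = k * k * v * (k * k)⁻¹ := by rw [← n.HJc E.b_vZ q.kk]; group
      _ = k * (k * v * k⁻¹) * k⁻¹ := by group
      _ = _ := by rw [e, B2.cj_mul, HJfix q.kz q.kg hc]
  have uc := n.HJz E.b_uZ (n.UdZ hc)
  have vc := n.HJz E.b_vZ (n.UdZ hc)
  have uc0 := n.HJz E.b_uZ (n.UdZ hc0)
  have cc := n.HJz (n.UdZ hc0) (n.UdZ hc)
  rcases hx with rfl | rfl | rfl | rfl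
  · refine absurd ?_ (n.HJnv hv).1
    rw [e2]; simpa using n.UdU0 hc
  · refine absurd ?_ (n.HJnv hv).2
    rw [e2, ku]
    simp only [HJ.lc uc, HJ.sq' F.u11]
    exact n.UdU0 (mul_mem hc hc0)
  · rw [e]
    simpa only [HJ.lc vc, E.vv, mul_one] using hc
  · exfalso
    rw [B2.cj_mul, ku, e] at e2
    simp only [mul_assoc, HJ.lc uc, HJ.lc uc0, HJ.lc cc, HJ.sq' F.u11, HJ.sq' (E.sqZ0 (n.UdZ hc))] at e2
    exact c1 (by simpa using e2)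

theorem EN.HJb (h : F.EN u0 g v d1 d2 η κ) (w : d1 * d2 * d1 * d2 = g) {b : G} (hb : HJ.Fo F.v2 d2 b)
    (c : b * (F.v1 * d1) = F.v1 * d1 * b) : b = 1 ∨ b = d2 := by
  have E := h.ek.toEE
  have r1 := HJ.sw E.d22 F.v11 h.c2
  have r2 : d2 * d1 = g * (d1 * d2) := by rw [HJ.sw E.d11 E.d22 w, HJ.sq' E.gg]
  have r3 : F.v2 * d1 = g * (d1 * F.v2) := by rw [HJ.sw E.d11 F.v22 h.c1, HJ.sq' E.gg]
  have gv := (h.HJc E.b_gZ E.b_v1U).symm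
  have s1 : d2 * (F.v1 * d1) = F.v1 * d1 * d2 := by
    rw [← mul_assoc, r1, mul_assoc, mul_assoc, r2, HJ.lc gv, HJ.sq' E.gg, mul_assoc]
  have s2 : F.v2 * (F.v1 * d1) ≠ F.v1 * d1 * F.v2 := by
    rw [← mul_assoc, F.v21, mul_assoc, mul_assoc, r3, HJ.lc gv, ← mul_assoc, mul_assoc F.v1]
    intro e
    exact h.HJg1.2 (by simpa using e)
  rcases hb with rfl | rfl | rfl | rfl
  · exact Or.inl rfl
  · exact absurd c s2
  · exact Or.inr rfl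
  · refine absurd ?_ s2
    rw [mul_assoc, s1, ← mul_assoc, ← mul_assoc _ F.v2] at c
    exact mul_right_cancel c

theorem SY.HJ4 (h : F.SY u0 g v d1 d2 η κ k) (q : F.KK g v d1 d2 κ k) {x : G} (hx : x ∈ F.UO d1 d2) :
    k * k ≠ x * F.u1 := by
  intro e
  have n := h.toEN
  have E := h.ek.toEE
  obtain ⟨a1, a2, a3, a4⟩ := h.HJk4 q
  obtain ⟨c0, hc0, c1, -, ku⟩ := n.ku q
  have fx : ∀ {c}, c ∈ F.Ud g → k * c * k⁻¹ = c := fun hc => HJfix q.kz q.kg hc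
  have ud : ∀ {p r}, p ∈ F.UO d1 d2 → r ∈ F.UO d1 d2 → p⁻¹ * r ∈ F.Z0 g v → ∃ c ∈ F.Ud g, r = p * c :=
    fun {p r} hp hr hz => ⟨p⁻¹ * r, by rw [← n.U0Z]; exact mem_inf.2 ⟨mul_mem (inv_mem hp) hr, hz⟩, by group⟩
  have act : ∀ {p}, p ∈ F.U g v d1 d2 → x * p * x⁻¹ = k * (k * p * k⁻¹) * k⁻¹ := fun {p} hp => by
    calc x * p * x⁻¹ = x * F.u1 * p * (x * F.u1)⁻¹ := by rw [mul_assoc x F.u1, n.HJc E.b_uZ hp]; group
      _ = _ := by rw [← e]; group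
  have cen : ∀ {p}, p ∈ F.UO d1 d2 → k * p * k⁻¹ ∈ F.UO d1 d2 → p⁻¹ * (k * p * k⁻¹) ∈ F.Z0 g v → x * p = p * x :=
    fun {p} hp hr hz => by
      obtain ⟨c, hc, e1⟩ := ud hp hr hz
      apply B2.comm_of_cj
      rw [act (n.U0U hp), e1, B2.cj_mul, e1, fx hc, mul_assoc, E.sqZ0 (n.UdZ hc), mul_one]
  have ce := cen (mul_mem HJv1 HJd1) a3 q.ke'
  have cf := cen (mul_mem HJv2 HJd2) a4 q.kf'
  obtain ⟨c1', hc1, ke⟩ := ud HJd2 a1 q.ke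
  obtain ⟨c2', hc2, kf⟩ := ud HJd1 a2 q.kf
  have xe : x * d1 * x⁻¹ = d1 * (c2' * c1') := by rw [act E.b_d1U, ke, B2.cj_mul, kf, fx hc1, mul_assoc]
  have xf : x * d2 * x⁻¹ = d2 * (c2' * c1') := by
    rw [act E.b_d2U, kf, B2.cj_mul, ke, fx hc2, mul_assoc, n.HJz (n.UdZ hc1) (n.UdZ hc2)]
  have xk : k * x * k⁻¹ ≠ x := fun e1 => c1 (by
    have : k * (x * F.u1) * k⁻¹ = x * F.u1 := by rw [← e]; group
    rw [B2.cj_mul, e1, ku] at this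
    simpa using this)
  obtain ⟨c, hc, a, b, ha, hb, rfl⟩ := n.HJU0 hx
  have cU := fun {p} (hp : p ∈ F.U g v d1 d2) => n.HJc (n.UdZ hc) hp
  have hb1 : b = 1 ∨ b = d2 := n.HJb q.W hb (by
    have k1 := ha.comm E.d1v (Or.inr (Or.inr (Or.inr rfl)))
    rw [mul_assoc (c * a), ← mul_assoc (F.v1 * d1), ← mul_assoc (F.v1 * d1), ← cU (mul_mem E.b_v1U E.b_d1U),
      mul_assoc c (F.v1 * d1), ← k1, ← mul_assoc c, mul_assoc (c * a)] at ce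
    exact mul_left_cancel ce)
  have ha1 : a = 1 ∨ a = d1 := by
    have k1 := hb.comm E.d2v (Or.inr (Or.inr (Or.inr rfl)))
    have k2 : a * (F.v2 * d2) = F.v2 * d2 * a := by
      rw [mul_assoc (c * a), k1, ← mul_assoc (c * a), ← mul_assoc (F.v2 * d2), ← mul_assoc (F.v2 * d2),
        ← cU (mul_mem E.b_v2U E.b_d2U)] at cf
      exact mul_left_cancel (a := c) (by simpa only [mul_assoc] using mul_right_cancel cf)
    have k3 := n.HJb q.W (ha.cj h.κv1 h.κd) (by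
      rw [← h.κv2, ← n.κd2, ← B2.cj_mul, ← B2.cj_mul, ← B2.cj_mul, k2])
    refine k3.imp (fun k4 => B2.cj_inj' (g := κ) (by rw [k4]; group)) fun k4 => B2.cj_inj' (g := κ) (by rw [k4, h.κd])
  have r : d1 * d2 = g * (d2 * d1) := HJ.sw E.d11 E.d22 q.W
  have nc : d1 * d2 ≠ d2 * d1 := fun k1 => n.HJg1.1 (by rw [k1] at r; simpa using r)
  have cj1 : ∀ {y p}, y ∈ F.U g v d1 d2 → c * y * p * (c * y)⁻¹ = y * (c * p * c⁻¹) * y⁻¹ := fun hy => by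
    rw [cU hy]; group
  have f1 : c * d1 * c⁻¹ = d1 := B2.cj_of_comm (cU E.b_d1U)
  have f2 : c * d2 * c⁻¹ = d2 := B2.cj_of_comm (cU E.b_d2U)
  rcases ha1 with rfl | rfl <;> rcases hb1 with rfl | rfl
  · exact xk (by simpa using fx hc)
  · rw [mul_one, cj1 E.b_d2U] at xe xf
    rw [f2, mul_inv_cancel_right, left_eq_mul] at xf
    rw [f1, xf, mul_one] at xe
    exact nc (B2.comm_of_cj xe).symm
  · rw [mul_one, cj1 E.b_d1U] at xe xf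
    rw [f1, mul_inv_cancel_right, left_eq_mul] at xe
    rw [f2, xe, mul_one] at xf
    exact nc (B2.comm_of_cj xf)
  · apply xk
    rw [mul_assoc c, cj1 (mul_mem E.b_d1U E.b_d2U), f1] at xe
    have k1 : c2' * c1' = g := by
      apply mul_left_cancel (a := a)
      rw [← xe, mul_inv_rev, HJ.iv E.d11, HJ.iv E.d22, ← n.HJc E.b_gZ E.b_d1U, ← q.W]
      simp only [mul_assoc]
    rw [mul_assoc c, B2.cj_mul, B2.cj_mul, fx hc, ke, kf, r, ← k1]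
    congr 1
    have s1 := n.HJc (n.UdZ hc1) E.b_d1U
    have s2 := n.HJc (mul_mem (n.UdZ hc2) (n.UdZ hc1)) (mul_mem E.b_d2U E.b_d1U)
    rw [s2, n.HJz (n.UdZ hc2) (n.UdZ hc1)]
    simp only [mul_assoc, HJ.lc s1]

theorem SY.kU0 (h : F.SY u0 g v d1 d2 η κ k) (q : F.KK g v d1 d2 κ k) : k ∈ 𝐍(F.UO d1 d2) ∧ k * k ∈ F.UO d1 d2 ∧
    κ⁻¹ * (k * κ * k⁻¹) ∈ F.UO d1 d2 ∧ (F.t * κ)⁻¹ * (k * F.t * k⁻¹) ∈ F.UO d1 d2 ⊔ zpowers F.u1 ∧
    v * (k * v * k⁻¹) ∈ F.Ud g := by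
  have n := h.toEN
  have E := h.ek.toEE
  obtain ⟨kk, kt⟩ := n.HJκκ q.d
  have h1 := h.HJ1 q
  have h2 : κ⁻¹ * (k * κ * k⁻¹) ∈ F.UO d1 d2 := n.invκ q.d q.kκ (by
    rw [mul_inv_cancel_left, ← B2.cj_mul, kk]; group) q.W
  obtain ⟨y, hy, ρ, hρ, e3⟩ := h.HJ3 q
  refine ⟨h1, ?_, h2, ?_, h.HJ5 q⟩
  · obtain ⟨x, hx, w, hw, e⟩ := n.HJU q.kk
    rcases n.HJw hw with rfl | rfl | ⟨-, hu, -, k1⟩
    · rw [e, mul_one]; exact hx
    · exact absurd e (h.HJ4 q hx)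
    exfalso
    obtain ⟨c0, hc0, -, -, ku⟩ := n.ku q
    have ρZ : ρ ∈ F.Z0 g v := by
      rcases hρ with rfl | rfl
      exacts [one_mem _, E.b_uZ]
    have ρ2 : κ * ρ * κ⁻¹ * (k * ρ * k⁻¹) ∈ F.UO d1 d2 := by
      rcases hρ with rfl | rfl
      · simp
      · rw [h.κu1, F.u2_eq F.hu1, ku, mul_assoc, HJ.sq' F.u11]
        exact n.UdU0 (mul_mem HJzd hc0)
    have hm := mul_mem h2 (HJ.nm h1 hy)
    have m1 : F.t⁻¹ * (k * (k * F.t * k⁻¹) * k⁻¹) ∈ F.UO d1 d2 := by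
      have : F.t⁻¹ * (k * (k * F.t * k⁻¹) * k⁻¹) = κ * y * κ⁻¹ * (κ⁻¹ * (k * κ * k⁻¹) * (k * y * k⁻¹)) *
          (κ * ρ * κ⁻¹ * (k * ρ * k⁻¹)) := by
        calc _ = F.t⁻¹ * ((k * F.t * k⁻¹) * (k * κ * k⁻¹) * (k * y * k⁻¹) * (k * ρ * k⁻¹)) := by
              conv_lhs => rw [e3]
              group
          _ = κ * y * κ⁻¹ * (κ * ρ * κ⁻¹ * (κ⁻¹ * (k * κ * k⁻¹) * (k * y * k⁻¹))) * (k * ρ * k⁻¹) := by
              rw [e3, HJ.iv kk]; simp only [mul_assoc, HJ.sq' kk, inv_mul_cancel_left]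
          _ = _ := by rw [n.HJc (HJ.nm h.κZ ρZ) (n.U0U hm)]; group
      rw [this]
      exact mul_mem (mul_mem (HJ.nm n.κU0 hy) hm) ρ2
    have wt : w * F.t * w⁻¹ = F.t * F.u1 := by
      have vt : v * F.t * v⁻¹ = F.t * F.u1 := by rw [HJ.iv E.vv, E.vt, hu]
      rcases k1 with rfl | rfl
      · exact vt
      · calc _ = F.u1 * (v * F.t * v⁻¹) * F.u1⁻¹ := by group
          _ = _ := by rw [vt, ← mul_assoc, ← F.tu1]; group
    have m2 : F.t⁻¹ * (k * (k * F.t * k⁻¹) * k⁻¹) = F.t⁻¹ * x * F.t⁻¹⁻¹ * x⁻¹ * F.u1 := by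
      calc _ = F.t⁻¹ * (x * (w * F.t * w⁻¹) * x⁻¹) := by
            rw [show k * (k * F.t * k⁻¹) * k⁻¹ = k * k * F.t * (k * k)⁻¹ by group, e]; group
        _ = F.t⁻¹ * x * F.t * (F.u1 * x⁻¹) := by rw [wt]; group
        _ = _ := by rw [n.HJc E.b_uZ (inv_mem (n.U0U hx))]; group
    rw [m2] at m1
    exact n.HJnu ((mul_mem_cancel_left (mul_mem (HJ.nm (inv_mem n.tU0) hx) (inv_mem hx))).1 m1)
  · rw [e3, inv_mul_cancel_left]
    refine mul_mem (mem_sup_left hy) (mem_sup_right ?_)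
    rcases hρ with rfl | rfl
    exacts [one_mem _, mem_zpowers _]

end Fr

end H60M.A6
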