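import Mathlib
import Cfsg.Agent.Lib.B6S.HD
import Cfsg.Agent.Lib.B6S.Bas1
import Cfsg.Agent.Lib.Tech58.Extremal

/-! Extremal transfer, also for elements of order four. -/

set_option autoImplicit false

namespace H60M.A6

open Subgroup H69 H36.SW H60M.A7

namespace HTH

variable {K : Type*} [Group K] {S : Subgroup K} {A : Type*} [CommGroup A] {φ : S →* A} {f : K → A}

theorem ap_cj (hf : ∀ y (h : y ∈ S), φ ⟨y, h⟩ = f y) {s y : K} (hs : s ∈ S) (hy : y ∈ S) :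
    f (s⁻¹ * y * s) = f y := by
  have e : (⟨s⁻¹ * y * s, mul_mem (mul_mem (inv_mem hs) hy) hs⟩ : S) = ⟨s, hs⟩⁻¹ * ⟨y, hy⟩ * ⟨s, hs⟩ := rfl
  rw [← hf _ (mul_mem (mul_mem (inv_mem hs) hy) hs), ← hf _ hy, e, map_mul, map_mul, map_inv,
    mul_right_comm, inv_mul_cancel, one_mul]

theorem ap_sq (hf : ∀ y (h : y ∈ S), φ ⟨y, h⟩ = f y) {y : K} (hy : y ∈ S) : f y ^ 2 = f (y * y) := by
  rw [← hf _ hy, ← hf _ (mul_mem hy hy), pow_two, ← map_mul]
  rfl

theorem ap_out (hf : ∀ y (h : y ∈ S), φ ⟨y, h⟩ = f y) {x g : K} (h : g⁻¹ * x * g ∈ S) :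
    f ((g : K ⧸ S).out⁻¹ * x * (g : K ⧸ S).out) = f (g⁻¹ * x * g) := by
  obtain ⟨s, hs⟩ := QuotientGroup.mk_out_eq_mul S g
  rw [hs, ← ap_cj hf s.2 h]
  congr 1
  group

variable [Finite K]

open Classical in
theorem tr_fixed [Fintype (K ⧸ S)] (hf : ∀ y (h : y ∈ S), φ ⟨y, h⟩ = f y) {x : K} {k : ℕ} (hk : x ^ 2 ^ k = 1)
    (h : ∀ (g : K) (m : ℕ), g * (x * x) ^ m * g⁻¹ ∈ S → f (g * (x * x) ^ m * g⁻¹) = 1) :
    MonoidHom.transfer φ x =
      ∏ q ∈ Finset.univ.filter (fun q : K ⧸ S => x • q = q), f (q.out⁻¹ * x * q.out) := by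
  have : Fintype (Quotient (MulAction.orbitRel (zpowers x) (K ⧸ S))) := Fintype.ofFinite _
  rw [MonoidHom.transfer_eq_prod_quotient_orbitRel_zpowers_quot,
    ← Finset.prod_filter_mul_prod_filter_not _ fun o => x • o.out = o.out,
    Finset.prod_eq_one (s := Finset.filter (fun o => ¬ _) _), mul_one]
  · refine Finset.prod_nbij (fun o => o.out) (fun o ho => ?_) (fun o _ o' _ e => Quotient.out_injective e)
      (fun q hq => ?_) fun o ho => ?_
    · simpa using ho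
    · have hq' : x • q = q := by simpa using hq
      have e : (Quotient.mk (MulAction.orbitRel (zpowers x) (K ⧸ S)) q).out = q := by
        obtain ⟨⟨_, n, rfl⟩, hn⟩ := MulAction.orbitRel_apply.1
          (Quotient.mk_out (s := MulAction.orbitRel (zpowers x) (K ⧸ S)) q)
        rw [← hn]
        exact MulAction.fixedBy_subset_fixedBy_zpow _ x n hq'
      exact ⟨_, by simpa [e] using hq', e⟩
    · have ho' : x • o.out = o.out := by simpa using ho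
      have e : Function.minimalPeriod (fun y => x • y) o.out = 1 :=
        Function.minimalPeriod_eq_one_iff_isFixedPt.2 ho'
      rw [hf _ (QuotientGroup.out_conj_pow_minimalPeriod_mem S x o.out), e, pow_one]
  · intro o ho
    have ho' : ¬ x • o.out = o.out := by simpa using ho
    have d : Function.minimalPeriod (fun y => x • y) o.out ∣ 2 ^ k :=
      MulAction.pow_smul_eq_iff_minimalPeriod_dvd.1 (by rw [hk, one_smul])
    obtain ⟨i, -, e⟩ := (Nat.dvd_prime_pow Nat.prime_two).1 d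
    have hm := QuotientGroup.out_conj_pow_minimalPeriod_mem S x o.out
    rw [hf _ hm]
    rcases i with _ | i
    · exact absurd (Function.minimalPeriod_eq_one_iff_isFixedPt.1 e) ho'
    · rw [e, pow_succ', pow_mul, pow_two] at hm ⊢
      simpa using h (o.out.out)⁻¹ _ (by simpa using hm)

theorem tr_R (ho : ¬ 2 ∣ S.index) (hf : ∀ y (h : y ∈ S), φ ⟨y, h⟩ = f y) {x : K}
    (h : ∀ (g : K) (m : ℕ), g * (x * x) ^ m * g⁻¹ ∈ S → f (g * (x * x) ^ m * g⁻¹) = 1)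
    {R : Subgroup K} (hR : IsPGroup 2 R) (hxR : x ∈ R) (hc : ∀ u ∈ R, x * u = u * x) {ε : A}
    (hε : ∀ g, (∀ u ∈ R, g⁻¹ * u * g ∈ S) → f (g⁻¹ * x * g) = ε) :
    MonoidHom.transfer φ x = ε := by
  classical
  have : Fintype (K ⧸ S) := Fintype.ofFinite _
  obtain ⟨k, hk⟩ := hR ⟨x, hxR⟩
  let T₀ : Finset (K ⧸ S) := Finset.univ.filter fun q => ∀ u ∈ R, u • q = q
  have hsq : ∀ q : K ⧸ S, x • q = q → f (q.out⁻¹ * x * q.out) ^ 2 = 1 := fun q hq => by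
    have hm := (H58.smul_eq_iff_out S x q).1 hq
    have e : q.out⁻¹ * x * q.out * (q.out⁻¹ * x * q.out) = q.out⁻¹ * (x * x) ^ 1 * q.out⁻¹⁻¹ := by group
    rw [ap_sq hf hm, e]
    exact h _ _ (e ▸ mul_mem hm hm)
  have h4 : Odd T₀.card := by
    have := H92.card_fixed_modEq hR (T := Finset.univ) (T₀ := T₀)
      (fun _ _ _ _ => Finset.mem_univ _) (fun q => by simp [T₀])
    rw [Finset.card_univ, ← Nat.card_eq_fintype_card, ← index_eq_card] at this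
    rw [Nat.odd_iff]
    unfold Nat.ModEq at this
    omega
  have h3 : ∀ q ∈ T₀, f (q.out⁻¹ * x * q.out) = ε := fun q hq =>
    hε _ fun u hu => (H58.smul_eq_iff_out S u q).1 ((Finset.mem_filter.1 hq).2 u hu)
  obtain ⟨q, hq⟩ := Finset.card_pos.mp h4.pos
  have e2 : ε ^ 2 = 1 := h3 q hq ▸ hsq q ((Finset.mem_filter.1 hq).2 x hxR)
  rw [tr_fixed hf (congrArg Subtype.val hk) h, H92.prod_eq_prod_fixed hR (T₀ := T₀) (fun u hu q hq => ?_)
    (fun q => ?_) (fun u hu q hq => ?_) fun q hq => hsq q (Finset.mem_filter.1 hq).2]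
  · obtain ⟨k, hk⟩ := h4
    rw [Finset.prod_congr rfl h3, Finset.prod_const, hk, pow_succ, pow_mul, e2, one_pow, one_mul]
  · refine Finset.mem_filter.2 ⟨Finset.mem_univ _, ?_⟩
    rw [smul_smul, hc u hu, mul_smul, (Finset.mem_filter.1 hq).2]
  · simp only [T₀, Finset.mem_filter, Finset.mem_univ, true_and]
    exact ⟨fun h => ⟨h x hxR, h⟩, fun h => h.2⟩
  · induction q using QuotientGroup.induction_on with
    | H g =>
      have h := (H58.smul_mk_eq_iff _ _ _).1 (Finset.mem_filter.1 hq).2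
      have he : (u * g)⁻¹ * x * (u * g) = g⁻¹ * x * g := by
        calc (u * g)⁻¹ * x * (u * g) = g⁻¹ * u⁻¹ * (x * u) * g := by group
          _ = _ := by rw [hc u hu]; group
      rw [MulAction.Quotient.smul_mk, smul_eq_mul, ap_out hf h, ap_out hf (he ▸ h), he]

theorem core {M P : Subgroup K} (ho : ¬ 2 ∣ S.index) {x0 : K}
    (h2 : ∀ s ∈ S, s ∈ M ∨ s * x0 ∈ M) {x : K} (hP : IsPGroup 2 P) (hx : x ∈ P) (hc : ∀ u ∈ P, x * u = u * x)
    (h3 : ∀ y, (∀ u ∈ P, y * u * y⁻¹ ∈ S) → y * x * y⁻¹ ∉ M)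
    (h4 : ∀ (y : K) (m : ℕ), y * (x * x) ^ m * y⁻¹ ∈ S → y * (x * x) ^ m * y⁻¹ ∈ M) :
    ∃ V : K →* ℤˣ, V x = -1 := by
  classical
  have hm : ∀ a b : S, (if ((a * b : S) : K) ∈ M then 1 else -1 : ℤˣ) =
      (if (a : K) ∈ M then 1 else -1) * if (b : K) ∈ M then 1 else -1 := fun a b => by
    rw [coe_mul]
    by_cases ha : (a : K) ∈ M
    · simp [ha, mul_mem_cancel_left ha]
    by_cases hb : (b : K) ∈ M
    · simp [hb, mul_mem_cancel_right hb]
    have h1 := (h2 _ a.2).resolve_left ha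
    have h2 := (h2 _ (inv_mem b.2)).resolve_left (mt inv_mem_iff.1 hb)
    have : (a : K) * b ∈ M := by simpa using mul_mem h1 (inv_mem h2)
    simp [ha, hb, this]
  exact ⟨_, tr_R (φ := MonoidHom.mk' (fun s : S => (if (s : K) ∈ M then 1 else -1 : ℤˣ)) hm)
    (f := fun y => if y ∈ M then 1 else -1) ho (fun _ _ => rfl) (fun g m h => if_pos (h4 g m h)) hP hx hc
    fun g hg => if_neg (by simpa using h3 g⁻¹ (by simpa using hg))⟩

end HTH

variable {G : Type*} [Group G] [Finite G]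

namespace Fr
variable {F : Fr G} {u0 g g' v d1 d2 η η1 η2 κ k a b γ : G}

theorem HT_ker (F : Fr G) (V : F.E →* ℤˣ) (x : F.E) : V x = 1 := by
  have := F.Es
  rcases V.normal_ker.eq_bot_or_eq_top with h | h
  · refine absurd (fun a ha b hb => ?_) F.ncE
    exact congrArg Subtype.val ((V.ker_eq_bot_iff.1 h)
      (by rw [map_mul, map_mul, mul_comm] : V (⟨b, hb⟩ * ⟨a, ha⟩) = V (⟨a, ha⟩ * ⟨b, hb⟩)))
  · exact h.ge (mem_top x)

theorem trG (F : Fr G) {S M P : Subgroup G} (hS : IsSylowIn 2 S ⊤) (hM : M ≤ S) {x0 : G} (h0 : x0 ∈ S) (h0' : x0 ∉ M)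
    (h2 : ∀ s ∈ S, s ∈ M ∨ s * x0 ∈ M) {x : G} (hP : IsPGroup 2 P) (hx : x ∈ P) (hc : P ≤ centralizer {x})
    (h3 : ∀ y, P ^ᶜ y ≤ S → y * x * y⁻¹ ∉ M)
    (h4 : ∀ (y : G) (m : ℕ), y * (x * x) ^ m * y⁻¹ ∈ S → y * (x * x) ^ m * y⁻¹ ∈ M) :
    x ∉ F.E ∧ F.t ∉ F.E := by
  have ho := hS.not_dvd_relIndex
  rw [relIndex_top_right] at ho
  obtain ⟨V, hV⟩ := HTH.core ho h2 hP hx (fun u hu => (mem_centralizer_singleton_iff.1 (hc hu)).symm)
    (fun y hy => h3 y (by rintro _ ⟨u, hu, rfl⟩; exact hy u hu)) h4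
  have h : x ∉ F.E := fun h => by
    have := F.HT_ker (V.comp F.E.subtype) ⟨x, h⟩
    exact absurd (hV.symm.trans this) (by decide)
  exact ⟨h, fun ht => h ((F.top x).elim id fun e => (mul_mem_cancel_right ht).1 e)⟩

theorem trE (F : Fr G) {S M P : Subgroup G} (hS : IsSylowIn 2 S F.E) (hM : M ≤ S) {x0 : G} (h0 : x0 ∈ S) (h0' : x0 ∉ M)
    (h2 : ∀ s ∈ S, s ∈ M ∨ s * x0 ∈ M) {x : G} (hP : IsPGroup 2 P) (hE : P ≤ F.E) (hx : x ∈ P)
    (hc : P ≤ centralizer {x}) (h3 : ∀ y ∈ F.E, P ^ᶜ y ≤ S → y * x * y⁻¹ ∉ M)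
    (h4 : ∀ y ∈ F.E, ∀ m : ℕ, y * (x * x) ^ m * y⁻¹ ∈ S → y * (x * x) ^ m * y⁻¹ ∈ M) : False := by
  obtain ⟨V, hV⟩ := HTH.core (S := S.subgroupOf F.E) (M := M.subgroupOf F.E) (P := P.subgroupOf F.E)
    hS.not_dvd_relIndex (x0 := ⟨x0, hS.le h0⟩) (fun s hs => h2 s hs) (x := ⟨x, hE hx⟩)
    (hP.comap_subtype) hx (fun u hu => Subtype.ext (mem_centralizer_singleton_iff.1 (hc hu)).symm)
    (fun y hy => h3 y y.2 (by rintro _ ⟨u, hu, rfl⟩; exact hy ⟨u, hE hu⟩ hu)) fun y m => h4 y y.2 m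
  exact absurd (hV.symm.trans (F.HT_ker V _)) (by decide)

theorem sylE (F : Fr G) {S : Subgroup G} (hS : IsSylowIn 2 S ⊤) : IsSylowIn 2 (S ⊓ F.E) F.E :=
  hS.inf_normal le_top (normalizer_eq_top_iff.2 F.En).ge

end Fr

end H60M.A6
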