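import Mathlib
import Cfsg.Agent.Lib.B6S.HT
import Cfsg.Agent.Lib.B6S.HU
import Cfsg.Agent.Lib.B6S.HJ

/-! `IIb`, type `EE`: `v ∉ E`. -/

set_option autoImplicit false

namespace H60M.A6

open Subgroup H69 H36.SW H60M.A7

variable {G : Type*} [Group G] [Finite G]

theorem h3_nsup {A : Subgroup G} {x y : G} (hA : y ∈ 𝐍(A)) (hx : y * x * y⁻¹ ∈ A ⊔ zpowers x) :
    y ∈ 𝐍((A ⊔ zpowers x : Subgroup G)) := by
  refine mem_normalizer_of_cj_le ?_
  rw [cj_sup, cj_eq_of_mem_normalizer hA, cj_zpowers]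
  exact sup_le le_sup_left (zpowers_le.2 hx)

namespace Fr
variable {F : Fr G} {u0 g g' v d1 d2 η η1 η2 κ k a b γ : G}

theorem SY.nvE (h : F.SY F.u1 g v d1 d2 η κ k) (w : d1 * d2 * d1 * d2 = g) : v ∉ F.E := by
  have hN : F.EN F.u1 g v d1 d2 η κ := h.toEN
  have hK : F.EK F.u1 g v d1 d2 := h.ek
  have hE : F.EE F.u1 g v d1 d2 := hK.toEE
  have vv : v * v = 1 := hE.vv
  have v1 : v ≠ 1 := by
    intro e
    have := hE.vt
    rw [e, one_mul, mul_one] at this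
    exact F.hu1 (by simpa using this.symm)
  have hd : F.dl ≠ 1 ∧ κ * F.t = F.t * κ := by
    rcases h.kd with c | c
    · exact ⟨c.1, c.2.1⟩
    · exact absurd c.2.1 F.hu1
  have κκ : κ * κ = 1 := by
    rcases h.sq with c | c
    · exact c.2
    · exact absurd c.1 hd.1
  set U := F.U g v d1 d2 with hU
  set O := F.UO d1 d2 with hO
  have uZ : F.u1 ∈ F.Z0 g v := hE.b_uZ
  have vZ : v ∈ F.Z0 g v := hE.b_vZ
  have uU : F.u1 ∈ U := hE.b_ZU uZ
  have vU : v ∈ U := hE.b_ZU vZ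
  have OU : O ≤ U := hN.U0U
  have uC : F.u1 ∈ 𝐂(U) := (hK.Zc uZ).2
  have vC : v ∈ 𝐂(U) := (hK.Zc vZ).2
  have uO : F.u1 ∈ 𝐍(O) := le_normalizer_of_le_centralizer le_rfl (centralizer_anti OU uC)
  have zd : F.z ∈ F.Ud g := subset_closure (by simp)
  have dO : F.Ud g ≤ O := hN.UdU0
  set A := O ⊔ zpowers F.u1 with hA
  have OA : O ≤ A := le_sup_left
  have uA : F.u1 ∈ A := mem_sup_right (mem_zpowers _)
  have AU : A ≤ U := sup_le OU (zpowers_le.2 uU)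
  have vA : v ∉ A := by
    intro e
    obtain ⟨p, hp, i, e'⟩ := (EB.mem_adj' uO (by rw [F.u11]; exact one_mem _)).1 e
    have e2 : F.u1 ^ (i : ℕ) * v ^ ((1 : Fin 2) : ℕ) ∈ F.UO d1 d2 := by
      have c : F.u1 ^ (i : ℕ) * p = p * F.u1 ^ (i : ℕ) :=
        ((mem_centralizer_iff_commute.1 (pow_mem uC (i : ℕ))) p (OU hp)).symm
      have sq : F.u1 ^ (i : ℕ) * F.u1 ^ (i : ℕ) = 1 := by
        rw [← Commute.mul_pow (Commute.refl _), F.u11, one_pow]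
      have : F.u1 ^ (i : ℕ) * v ^ ((1 : Fin 2) : ℕ) = p := by
        rw [show ((1 : Fin 2) : ℕ) = 1 from rfl, pow_one, e', ← mul_assoc, c, mul_assoc, sq, mul_one]
      rw [this]; exact hp
    rcases (hN.indZ e2).2 with c | c
    · exact absurd c (by decide)
    · exact v1 c
  have tA : F.t ∈ 𝐍(A) := h3_nsup hN.tU0 (by rw [B2.cj_of_comm F.tu1]; exact uA)
  have κA : κ ∈ 𝐍(A) := h3_nsup hN.κU0 (by
    rw [h.κu1, F.u2_eq F.hu1]; exact mul_mem (OA (dO zd)) uA)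
  set M1 := A ⊔ zpowers F.t with hM1
  have AM1 : A ≤ M1 := le_sup_left
  have tM1 : F.t ∈ M1 := mem_sup_right (mem_zpowers _)
  have κM1 : κ ∈ 𝐍(M1) := h3_nsup κA (by rw [B2.cj_of_comm hd.2]; exact tM1)
  set M2 := M1 ⊔ zpowers κ with hM2
  have M12 : M1 ≤ M2 := le_sup_left
  have κM2 : κ ∈ M2 := mem_sup_right (mem_zpowers _)
  have kM2 : k ∈ 𝐍(M2) ∧ k * k ∈ M2 := by
    rcases h.hk with c | q
    · rw [c]; exact ⟨one_mem _, by rw [one_mul]; exact one_mem _⟩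
    · obtain ⟨k1, k2, k3, k4, -⟩ := h.kU0 q
      obtain ⟨c, hc, -, -, e⟩ := hN.ku q
      have kA : k ∈ 𝐍(A) := h3_nsup k1 (by rw [e]; exact mul_mem uA (OA (dO hc)))
      refine ⟨mem_normalizer_of_cj_le ?_, M12 (AM1 (OA k2))⟩
      rw [hM2, hM1, cj_sup, cj_sup, cj_eq_of_mem_normalizer kA, cj_zpowers, cj_zpowers]
      refine sup_le (sup_le (AM1.trans M12) (zpowers_le.2 ?_)) (zpowers_le.2 ?_)
      · have : k * F.t * k⁻¹ = F.t * κ * ((F.t * κ)⁻¹ * (k * F.t * k⁻¹)) := by group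
        rw [this]
        exact mul_mem (mul_mem (M12 tM1) κM2) (M12 (AM1 k4))
      · have : k * κ * k⁻¹ = κ * (κ⁻¹ * (k * κ * k⁻¹)) := by group
        rw [this]
        exact mul_mem κM2 (M12 (AM1 (OA k3)))
  set M := M2 ⊔ zpowers k with hM
  have M2M : M2 ≤ M := le_sup_left
  have kM : k ∈ M := mem_sup_right (mem_zpowers _)
  have ind : ∀ i j l : Fin 2, F.t ^ (i : ℕ) * κ ^ (j : ℕ) * k ^ (l : ℕ) ∈ U →
      F.t ^ (i : ℕ) * κ ^ (j : ℕ) * k ^ (l : ℕ) = 1 := by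
    intro i j l e
    rcases h.hk with c | q
    · rw [c, one_pow, mul_one] at e ⊢
      obtain ⟨rfl, rfl⟩ := hN.ind2 e
      simp
    · obtain ⟨rfl, rfl, rfl⟩ := hN.ind3 q e
      simp
  have vM : v ∉ M := by
    intro e
    obtain ⟨p2, hp2, l, e2⟩ := (EB.mem_adj' kM2.1 kM2.2).1 e
    obtain ⟨p1, hp1, j, e1⟩ := (EB.mem_adj' κM1 (by rw [κκ]; exact one_mem _)).1 hp2
    obtain ⟨p, hp, i, e0⟩ := (EB.mem_adj' tA (by rw [F.tt]; exact one_mem _)).1 hp1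
    have e3 : v = p * (F.t ^ (i : ℕ) * κ ^ (j : ℕ) * k ^ (l : ℕ)) := by
      rw [e2, e1, e0]; simp only [mul_assoc]
    have e4 : F.t ^ (i : ℕ) * κ ^ (j : ℕ) * k ^ (l : ℕ) ∈ U := by
      have : F.t ^ (i : ℕ) * κ ^ (j : ℕ) * k ^ (l : ℕ) = p⁻¹ * v := by rw [e3]; group
      rw [this]; exact mul_mem (inv_mem (AU hp)) vU
    rw [ind i j l e4, mul_one] at e3
    exact vA (e3 ▸ hp)
  have US : U ≤ F.SK g v d1 d2 κ k := le_sup_left
  have tS : F.t ∈ F.SK g v d1 d2 κ k := mem_sup_right (subset_closure (by simp))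
  have κS : κ ∈ F.SK g v d1 d2 κ k := mem_sup_right (subset_closure (by simp))
  have kS : k ∈ F.SK g v d1 d2 κ k := mem_sup_right (subset_closure (by simp))
  have MS : M ≤ F.SK g v d1 d2 κ k :=
    sup_le (sup_le (sup_le (AU.trans US) (zpowers_le.2 tS)) (zpowers_le.2 κS)) (zpowers_le.2 kS)
  have AM : A ≤ M := AM1.trans (M12.trans M2M)
  have hS : ∀ s ∈ F.SK g v d1 d2 κ k, ∃ m ∈ M, ∃ y ∈ U, s = m * y := by
    intro s hs
    rcases h.hk with c | q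
    · rw [c] at hs
      obtain ⟨y, hy, i, j, e⟩ := hN.mem2.1 hs
      exact ⟨_, mul_mem (pow_mem (M2M (M12 tM1)) _) (pow_mem (M2M κM2) _), y, hy, e⟩
    · obtain ⟨y, hy, i, j, l, e⟩ := (hN.mem3 q).1 hs
      exact ⟨_, mul_mem (mul_mem (pow_mem (M2M (M12 tM1)) _) (pow_mem (M2M κM2) _)) (pow_mem kM _), y, hy, e⟩
  refine (F.trG (P := U) h.syl MS (US vU) vM ?_ hK.isP vU ?_ ?_ ?_).1
  · intro s hs
    obtain ⟨m, hm, y, hy, rfl⟩ := hS s hs
    obtain ⟨y0, hy0, i, j, rfl⟩ := hN.memU.1 hy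
    have b : m * (y0 * F.u1 ^ (i : ℕ)) ∈ M := mul_mem hm (AM (mul_mem (OA hy0) (pow_mem uA _)))
    fin_cases j
    · left; simpa using b
    · right
      have : m * (y0 * F.u1 ^ (i : ℕ) * v ^ 1) * v = m * (y0 * F.u1 ^ (i : ℕ)) * (v * v) := by
        simp only [pow_one, mul_assoc]
      change m * (y0 * F.u1 ^ (i : ℕ) * v ^ 1) * v ∈ M
      rw [this, vv, mul_one]; exact b
  · intro x hx
    rw [mem_centralizer_singleton_iff]
    exact mem_centralizer_iff_commute.1 vC x hx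
  · intro y hy e
    have n := h.fixv w (hK.wcN h.wc hy)
    have n' : v * (y * v * y⁻¹) ∈ M := AM (sup_le_sup_right dO _ n)
    have : v = v * (y * v * y⁻¹) * (y * v * y⁻¹)⁻¹ := by group
    exact vM (this ▸ mul_mem n' (inv_mem e))
  · intro y m _
    rw [vv, one_pow, mul_one, mul_inv_cancel]
    exact one_mem _

end Fr

end H60M.A6
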