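import Mathlib
import Cfsg.Agent.Lib.B6S.HD

/-! Normalisation of `ES`. -/

set_option autoImplicit false

namespace H60M.A6

open Subgroup H69 H36.SW H60M.A7

variable {G : Type*} [Group G] [Finite G]

omit [Finite G] in
theorem HC_calc {a b c e g g' : G} (ab : b * a = a * b) (ce : e * c = c * e) (bc : b * c = g * (c * b))
    (ea : e * a = g' * (a * e)) (ag : a * g = g * a) (bg : b * g = g * b) (cg : c * g = g * c)
    (eg : e * g = g * e) (ag' : a * g' = g' * a) (bg' : b * g' = g' * b) (cg' : c * g' = g' * c)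
    (gg' : g' * g = g * g') (gg : g * g = 1) :
    a * b * (c * e) * (a * b) * (c * e) = g * g' * (a * c * a * c) * (b * e * b * e) := by
  have r : ∀ {x y p : G}, x * y = p → ∀ w, x * (y * w) = p * w := fun h w => by rw [← mul_assoc, h]
  simp only [mul_assoc, r ab, r ce, r bc, r ea, r ag, r bg, r cg, r eg, r ag', r bg', r cg', r gg', r gg,
    one_mul]

namespace Fr
variable {F : Fr G} {u0 g g' v d1 d2 η η1 η2 κ k a b γ : G}

theorem HC_tinv (F : Fr G) : F.t⁻¹ = F.t := EA_inv F.tt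

theorem HC_tx {x w : G} (e : x * F.t * x = F.t * w) (xx : x * x = 1) : F.t * x * F.t = w * x := by
  calc _ = F.t * (x * F.t * x) * x := by
        rw [show F.t * (x * F.t * x) * x = F.t * x * F.t * (x * x) by group, xx, mul_one]
    _ = _ := by rw [e, ← mul_assoc, F.tt, one_mul]

theorem EE.HC_tZ (h : F.EE u0 g v d1 d2) {c : G} (hc : c ∈ F.Z0 g v) :
    ∃ w, (w = 1 ∨ w = F.z ∨ w = u0 ∨ w = F.z * u0) ∧ F.t * c * F.t = w * c := by
  obtain ⟨f, hf, i, j, rfl⟩ := h.memZ0.1 hc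
  have tg := HC_tx h.gt h.gg
  have tv := HC_tx h.vt h.vv
  have tf : F.t * f * F.t = f := by rw [← EA_F0t hf, mul_assoc, F.tt, mul_one]
  have m : ∀ x y : G, F.t * (x * y) * F.t = F.t * x * F.t * (F.t * y * F.t) := fun x y => by
    rw [show F.t * x * F.t * (F.t * y * F.t) = F.t * x * (F.t * F.t) * y * F.t by group, F.tt]; group
  have fz : f * F.z = F.z * f := h.EA_ab (EA_z g v) _ (EA_F0Z g v hf)
  have fu : f * u0 = u0 * f := h.EA_ab (EA_F0Z g v h.EA_u0F) _ (EA_F0Z g v hf)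
  have gu : g * u0 = u0 * g := h.EA_ab (EA_F0Z g v h.EA_u0F) _ (EA_g g v)
  fin_cases i <;> fin_cases j
  · exact ⟨1, .inl rfl, by simpa using tf⟩
  · refine ⟨u0, .inr (.inr (.inl rfl)), ?_⟩
    simp only [Fin.zero_eta, Fin.val_zero, pow_zero, mul_one, Fin.mk_one, Fin.val_one, pow_one]
    rw [m, tf, tv, ← mul_assoc, fu, mul_assoc]
  · refine ⟨F.z, .inr (.inl rfl), ?_⟩
    simp only [Fin.zero_eta, Fin.val_zero, pow_zero, mul_one, Fin.mk_one, Fin.val_one, pow_one]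
    rw [m, tf, tg, ← mul_assoc, fz, mul_assoc]
  · refine ⟨F.z * u0, .inr (.inr (.inr rfl)), ?_⟩
    simp only [Fin.mk_one, Fin.val_one, pow_one]
    rw [m, m, tf, tg, tv]
    calc f * (F.z * g) * (u0 * v) = f * F.z * (g * u0) * v := by group
      _ = F.z * (f * u0) * g * v := by rw [fz, gu]; group
      _ = _ := by rw [fu]; group

theorem ES.HC_dv (h : F.ES u0 g v d1 d2 η κ) : d1 * F.v2 = g * (F.v2 * d1) := by
  have e := h.tr.dv2
  rw [h.ek.d11, mul_one, mul_one, EA_inv h.ek.d11] at e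
  have c : F.v2 * g = g * F.v2 := h.ek.gT _ (subset_closure (by simp))
  calc _ = d1 * F.v2 * d1 * d1 := by rw [mul_assoc, h.ek.d11, mul_one]
    _ = _ := by rw [e, c, mul_assoc]

theorem ES.HC_dv' (h : F.ES u0 g v d1 d2 η κ) : d2 * F.v1 = κ * g * κ⁻¹ * (F.v1 * d2) := by
  rw [← h.κd, ← h.κv2, ← B2.cj_mul, ← B2.cj_mul, ← B2.cj_mul, h.HC_dv]

theorem ES.HC_g' (h : F.ES u0 g v d1 d2 η κ) : κ * g * κ⁻¹ ∈ F.Z0 g v :=
  (mem_normalizer_iff.1 h.κZ g).1 (EA_g g v)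

theorem ES.HC_z (h : F.ES u0 g v d1 d2 η κ) : κ * F.z * κ⁻¹ = F.z := by
  conv_lhs => rw [← F.hz]
  rw [B2.cj_mul, B2.cj_mul, B2.cj_mul, h.κv1, h.κv2, F.hz']

theorem ES.HC_tk (h : F.ES u0 g v d1 d2 η κ) :
    F.t * (d1 * d2 * d1 * d2) * F.t = g * (κ * g * κ⁻¹) * F.z * (d1 * d2 * d1 * d2) := by
  have e := h.ek.toEE
  have t1 := HC_tx e.d1t e.d11
  have t2 := HC_tx e.d2t e.d22
  have m : ∀ x y : G, F.t * (x * y) * F.t = F.t * x * F.t * (F.t * y * F.t) := fun x y => by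
    rw [show F.t * x * F.t * (F.t * y * F.t) = F.t * x * (F.t * F.t) * y * F.t by group, F.tt]; group
  have gZ := EA_g (F := F) g v
  rw [m, m, m, t1, t2, ← F.hz]
  exact HC_calc e.d1v e.d2v h.HC_dv h.HC_dv' (e.b_v1Z _ gZ).symm (e.d1Z _ gZ).symm (e.b_v2Z _ gZ).symm
    (e.d2Z _ gZ).symm (e.b_v1Z _ h.HC_g').symm (e.d1Z _ h.HC_g').symm (e.b_v2Z _ h.HC_g').symm
    (e.EA_ab gZ _ h.HC_g') e.gg

/-- an element of `F0` fixed by `κ` lies in `⟨z⟩` -/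
theorem ES.HC_f (h : F.ES u0 g v d1 d2 η κ) {f : G} (hf : f ∈ F.F0) (c : κ * f * κ⁻¹ = f) :
    f = 1 ∨ f = F.z := by
  rcases F.memF0.1 hf with e | e | e | e
  · exact .inl e
  · exact .inr e
  · rw [e, h.κu1] at c
    exact absurd c.symm F.u12ne
  · rw [e, ← F.u2_eq F.hu1, h.κu2] at c
    exact absurd c F.u12ne

/-- `g^κ = g z w` -/
theorem ES.HC_w (h : F.ES u0 g v d1 d2 η κ) :
    ∃ w, (w = 1 ∨ w = F.z ∨ w = u0 ∨ w = F.z * u0) ∧ κ * g * κ⁻¹ = g * (F.z * w) := by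
  have e := h.ek.toEE
  obtain ⟨w, hw, ew⟩ := e.HC_tZ h.ek.kk
  refine ⟨w, hw, ?_⟩
  rw [h.HC_tk, mul_left_inj] at ew
  have c : κ * g * κ⁻¹ * F.z = F.z * (κ * g * κ⁻¹) := e.EA_ab (EA_z g v) _ h.HC_g'
  have c' : g * F.z = F.z * g := e.EA_ab (EA_z g v) _ (EA_g g v)
  rw [← ew]
  calc _ = g * g * (F.z * F.z) * (κ * g * κ⁻¹) := by rw [e.gg, F.zz]; group
    _ = g * (g * F.z) * (F.z * (κ * g * κ⁻¹)) := by group
    _ = _ := by rw [c', ← c]; group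

theorem ES.HC_ci (h : F.ES u0 g v d1 d2 η κ) (u : u0 = 1) :
    κ * g * κ⁻¹ = g ∨ κ * g * κ⁻¹ = g * F.z := by
  obtain ⟨w, hw, ew⟩ := h.HC_w
  rw [u, mul_one] at hw
  rcases hw with rfl | rfl | rfl | rfl
  · right; rw [ew, mul_one]
  · left; rw [ew, F.zz, mul_one]
  · right; rw [ew, mul_one]
  · left; rw [ew, F.zz, mul_one]

theorem ES.HC_one (h : F.ES u0 g v d1 d2 η κ) (q : κ * κ = 1) :
    κ * g * κ⁻¹ = g ∨ κ * g * κ⁻¹ = g * F.z := by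
  have e := h.ek.toEE
  obtain ⟨w, hw, ew⟩ := h.HC_w
  have zF : F.z ∈ F.F0 := F.memF0.2 (by simp)
  have hf : F.z * w ∈ F.F0 := by
    refine mul_mem zF ?_
    rcases hw with rfl | rfl | rfl | rfl
    exacts [one_mem _, zF, e.EA_u0F, mul_mem zF e.EA_u0F]
  have c : κ * (F.z * w) * κ⁻¹ = F.z * w := by
    have a : κ * (κ * g * κ⁻¹) * κ⁻¹ = g := by
      rw [show κ * (κ * g * κ⁻¹) * κ⁻¹ = κ * κ * g * (κ * κ)⁻¹ by group, q]; group
    rw [ew, B2.cj_mul, ew, mul_assoc, mul_eq_left] at a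
    rw [eq_inv_of_mul_eq_one_right a, EA_inv (EA_F0sq hf)]
  rcases h.HC_f hf c with a | a
  · left; rw [ew, a, mul_one]
  · right; rw [ew, a]

theorem ES.HC_gg (h : F.ES u0 g v d1 d2 η κ) (c : κ * g * κ⁻¹ = g ∨ κ * g * κ⁻¹ = g * F.z) :
    κ * κ * g = g * (κ * κ) := by
  refine B2.comm_of_cj ?_
  rw [show κ * κ * g * (κ * κ)⁻¹ = κ * (κ * g * κ⁻¹) * κ⁻¹ by group]
  rcases c with c | c
  · rw [c, c]
  · rw [c, B2.cj_mul, c, h.HC_z, mul_assoc, F.zz, mul_one]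

theorem EE.HC_tg (h : F.EE u0 g v d1 d2) : F.t * g ≠ g * F.t := fun c => by
  have e := h.gt
  rw [← c, mul_assoc, h.gg, mul_one] at e
  exact F.z1 (left_eq_mul.1 e)

theorem ES.HC_sz (h : F.ES u0 g v d1 d2 η κ) (u : u0 = 1) (s : κ * F.t * κ⁻¹ = F.t * F.u2) :
    ∃ f ∈ F.F0, κ * κ = g * f := by
  have e := h.ek.toEE
  have c := h.HC_gg (h.HC_ci u)
  have two : ∀ x : G, g * (κ * κ) * x * (g * (κ * κ))⁻¹ = g * (κ * (κ * x * κ⁻¹) * κ⁻¹) * g⁻¹ := fun x => by group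
  have gz : g * F.z = F.z * g := e.EA_ab (EA_z g v) _ (EA_g g v)
  have xt : g * (κ * κ) * F.t = F.t * (g * (κ * κ)) := by
    refine B2.comm_of_cj ?_
    rw [two, s, B2.cj_mul κ, s, h.κu2, F.u2_eq F.hu1, mul_assoc F.t, mul_assoc F.z, F.u11, mul_one, B2.cj_mul,
      B2.cj_of_comm gz, EA_inv e.gg, e.gt, mul_assoc, F.zz, mul_one]
  have x1 : g * (κ * κ) * F.v1 = F.v1 * (g * (κ * κ)) := by
    refine B2.comm_of_cj ?_
    rw [two, h.κv1, h.κv2]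
    exact B2.cj_of_comm (e.gT _ (subset_closure (by simp))).symm
  have x2 : g * (κ * κ) * F.v2 = F.v2 * (g * (κ * κ)) := by
    refine B2.comm_of_cj ?_
    rw [two, h.κv2, h.κv1]
    exact B2.cj_of_comm (e.gT _ (subset_closure (by simp))).symm
  have x3 : g * (κ * κ) * F.u1 = F.u1 * (g * (κ * κ)) := by
    refine B2.comm_of_cj ?_
    rw [two, h.κu1, h.κu2]
    exact B2.cj_of_comm (e.gT _ (subset_closure (by simp))).symm
  have xC : g * (κ * κ) ∈ 𝐂(F.T) := by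
    rw [F.T_eq]
    refine EA_cen ?_
    rintro y (rfl | rfl | rfl | rfl)
    exacts [xt.symm, x1.symm, x2.symm, x3.symm]
  have xP : P2 (g * (κ * κ)) := (P2.of_sq e.gg).mul (h.κ2.mul h.κ2 rfl) c.symm
  have xT := F.p2Tu xt (centralizer_le_normalizer _ xC) x3 xP
  rcases F.memZT.1 ((F.cenT xT).1 xC) with a | a
  · exact ⟨_, a, by rw [← mul_assoc, e.gg, one_mul]⟩
  · exfalso
    have b : F.t * (g * (κ * κ)) * g = g * (F.t * (g * (κ * κ))) := e.EA_gF _ a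
    rw [mul_assoc, mul_assoc g, c, ← mul_assoc F.t, ← mul_assoc g F.t, mul_left_inj] at b
    exact e.HC_tg b

theorem EK.HC_v (h : F.EK u0 g v d1 d2) : F.EK u0 g v d1 (F.v2 * d2) := by
  have e := h.toEE
  have q : F.v2 * d2 * (F.v2 * d2) = 1 := by
    rw [show F.v2 * d2 * (F.v2 * d2) = F.v2 * (d2 * F.v2) * d2 by group, e.d2v,
      show F.v2 * (F.v2 * d2) * d2 = F.v2 * F.v2 * (d2 * d2) by group, F.v22, e.d22, one_mul]
  have m : F.v2 * d2 ∈ F.U g v d1 d2 := mul_mem e.b_v2U e.b_d2U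
  refine { e with d2Z := mul_mem e.b_v2Z e.d2Z, d22 := q, d2v := ?_, d2t := ?_, c2 := ?_,
                  d2E := mul_mem F.v2E e.d2E, kk := ?_ }
  · rw [mul_assoc, e.d2v]
  · rw [show F.v2 * d2 * F.t * (F.v2 * d2) = F.v2 * d2 * (F.t * F.v2) * d2 by group, F.tv2,
      show F.v2 * d2 * (F.v2 * F.t) * d2 = F.v2 * (d2 * F.v2) * F.t * d2 by group, e.d2v,
      show F.v2 * (F.v2 * d2) * F.t * d2 = F.v2 * F.v2 * (d2 * F.t * d2) by group, F.v22, one_mul, e.d2t, F.tv2]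
  · have := h.comm m e.b_v1U
    rwa [EA_inv q, EA_inv F.v11] at this
  · have := h.comm e.b_d1U m
    rwa [EA_inv q, EA_inv e.d11] at this

theorem EK.HC_U (h : F.EK u0 g v d1 d2) : F.U g v d1 (F.v2 * d2) = F.U g v d1 d2 := by
  have e := h.toEE
  have e' := h.HC_v.toEE
  refine le_antisymm (e'.b_U_le e.b_ZU e.b_v1U e.b_d1U e.b_v2U (mul_mem e.b_v2U e.b_d2U))
    (e.b_U_le e'.b_ZU e'.b_v1U e'.b_d1U e'.b_v2U ?_)
  have := mul_mem e'.b_v2U e'.b_d2U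
  rwa [← mul_assoc, F.v22, one_mul] at this

/-- replace `κ` by `t κ` -/
theorem ES.HC_tw (h : F.ES u0 g v d1 d2 η κ) (q : κ * κ = 1 ∨ F.dl = 1) :
    F.ES u0 g v d1 (F.v2 * d2) η (F.t * κ) ∧ (F.t * κ * (F.t * κ) = 1 ∨ F.dl = 1) := by
  have e := h.ek.toEE
  have two : ∀ x : G, F.t * κ * x * (F.t * κ)⁻¹ = F.t * (κ * x * κ⁻¹) * F.t⁻¹ := fun x => by group
  have key : P2 (F.t * κ) ∧ ((F.dl ≠ 1 ∧ F.t * κ * F.t = F.t * (F.t * κ) ∧
      (F.t * κ * (F.t * κ) = 1 ∨ F.t * κ * (F.t * κ) = F.t) ∧ (u0 = 1 → F.IIa)) ∨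
      (F.dl = 1 ∧ u0 = 1 ∧ F.t * κ * F.t * (F.t * κ)⁻¹ = F.t * F.u2)) ∧
      (F.t * κ * (F.t * κ) = 1 ∨ F.dl = 1) := by
    rcases h.kd with ⟨d, c, -, i⟩ | ⟨d, u, s⟩
    · have k1 : κ * κ = 1 := q.resolve_right d
      have s : F.t * κ * (F.t * κ) = 1 := by
        rw [show F.t * κ * (F.t * κ) = F.t * (κ * F.t) * κ by group, c,
          show F.t * (F.t * κ) * κ = F.t * F.t * (κ * κ) by group, F.tt, k1, one_mul]
      exact ⟨.of_sq s, .inl ⟨d, by rw [mul_assoc, c], .inl s, i⟩, .inl s⟩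
    · obtain ⟨f, hf, ef⟩ := h.HC_sz u s
      refine ⟨.of_mul_self (.of_sq (e.sqZ0 ?_)), .inr ⟨d, u, ?_⟩, .inr d⟩
      · rw [show F.t * κ * (F.t * κ) = F.t * (κ * F.t * κ⁻¹) * (κ * κ) by group, s, ef, ← mul_assoc F.t, F.tt,
          one_mul, F.u2_eq F.hu1]
        exact mul_mem (mul_mem (EA_z g v) (EA_u g v)) (mul_mem (EA_g g v) (EA_F0Z g v hf))
      · rw [two, s, B2.cj_mul, B2.cj_of_comm F.tu2, mul_inv_cancel_right]
  refine ⟨⟨h.ek.HC_v, h.tr, key.1, ?_, mul_mem e.tN h.κZ, ?_, ?_, ?_, ?_, ?_, key.2.1⟩, key.2.2⟩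
  · rw [h.ek.HC_U]; exact mul_mem h.ek.tN h.κU
  · rw [two, h.κv1, B2.cj_of_comm F.tv2]
  · rw [two, h.κv2, B2.cj_of_comm F.tv1]
  · rw [two, h.κu1, B2.cj_of_comm F.tu2]
  · rw [two, h.κu2, B2.cj_of_comm F.tu1]
  · rw [two, h.κd, F.HC_tinv, HC_tx e.d2t e.d22]

theorem ES.HC_fin (h : F.ES u0 g v d1 d2 η κ) (q : κ * κ = 1 ∨ F.dl = 1) (c : κ * g * κ⁻¹ = g) :
    F.EN u0 g v d1 d2 η κ := by
  have e := h.ek.toEE
  have gZ := EA_g (F := F) g v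
  have sq : (F.dl ≠ 1 ∧ κ * κ = 1) ∨ (F.dl = 1 ∧ (κ * κ = g ∨ κ * κ = g * F.z)) := by
    rcases h.kd with ⟨d, -⟩ | ⟨d, u, s⟩
    · exact .inl ⟨d, q.resolve_right d⟩
    · obtain ⟨f, hf, ef⟩ := h.HC_sz u s
      have a : κ * (κ * κ) * κ⁻¹ = κ * κ := by group
      rw [ef, B2.cj_mul, c, mul_right_inj] at a
      refine .inr ⟨d, (h.HC_f hf a).imp (fun b => ?_) fun b => ?_⟩
      · rw [ef, b, mul_one]
      · rw [ef, b]
  have kZ : κ * κ ∈ F.Z0 g v := by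
    rcases sq with ⟨-, a⟩ | ⟨-, a | a⟩ <;> rw [a]
    exacts [one_mem _, gZ, mul_mem gZ (EA_z g v)]
  have kd2 : κ * d2 * κ⁻¹ = d1 := by
    rw [← h.κd, show κ * (κ * d1 * κ⁻¹) * κ⁻¹ = κ * κ * d1 * (κ * κ)⁻¹ by group]
    exact B2.cj_of_comm (e.d1Z _ kZ)
  have kk : d1 * d2 * d1 * d2 ∈ F.Z0 g v := h.ek.kk
  have fixk : κ * (d1 * d2 * d1 * d2) * κ⁻¹ = d1 * d2 * d1 * d2 := by
    rw [B2.cj_mul, B2.cj_mul, B2.cj_mul, h.κd, kd2, ← EA_inv (e.sqZ0 kk)]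
    simp only [mul_inv_rev, EA_inv e.d11, EA_inv e.d22, mul_assoc]
  have tk := h.HC_tk
  rw [c, e.gg, one_mul] at tk
  have ty : ∀ k : G, k ∈ F.Z0 g v → κ * k * κ⁻¹ = k → F.t * k * F.t = F.z * k → k = g ∨ k = g * F.z := by
    intro k kk fixk tk
    have gz : g * F.z = F.z * g := e.EA_ab (EA_z g v) _ gZ
    have a : g * k * F.t = F.t * (g * k) := by
      refine B2.comm_of_cj ?_
      have b : F.t * (g * k) * F.t⁻¹ = g * k := by
        rw [B2.cj_mul, F.HC_tinv, HC_tx e.gt e.gg, tk, ← gz, show g * F.z * (F.z * k) = g * (F.z * F.z) * k by group,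
          F.zz, mul_one]
      rw [← B2.comm_of_cj b, mul_inv_cancel_right]
    have hf := e.fix (mul_mem gZ kk) a
    have b : κ * (g * k) * κ⁻¹ = g * k := by rw [B2.cj_mul, c, fixk]
    refine (h.HC_f hf b).imp (fun r => ?_) fun r => ?_
    · rw [← EA_inv e.gg]; exact eq_inv_of_mul_eq_one_right r
    · rw [← r, ← mul_assoc, e.gg, one_mul]
  exact { h with κg := B2.comm_of_cj c, sq := sq, ty := ty _ kk fixk tk }

theorem ES.en (h : F.ES u0 g v d1 d2 η κ) : (∃ d2 κ, F.EN u0 g v d1 d2 η κ) ∨ (u0 = F.u1 ∧ F.CA ∧ κ * κ = F.t) := by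
  have e := h.ek.toEE
  have fin : (κ * κ = 1 ∨ F.dl = 1) → (κ * g * κ⁻¹ = g ∨ κ * g * κ⁻¹ = g * F.z) →
      ∃ d2 κ, F.EN u0 g v d1 d2 η κ := by
    rintro q (c | c)
    · exact ⟨_, _, h.HC_fin q c⟩
    · obtain ⟨h', q'⟩ := h.HC_tw q
      refine ⟨_, _, h'.HC_fin q' ?_⟩
      have gz : g * F.z = F.z * g := e.EA_ab (EA_z g v) _ (EA_g g v)
      rw [show F.t * κ * g * (F.t * κ)⁻¹ = F.t * (κ * g * κ⁻¹) * F.t⁻¹ by group, c, B2.cj_mul,
        B2.cj_of_comm F.zt.symm, F.HC_tinv, HC_tx e.gt e.gg, ← gz, mul_assoc, F.zz, mul_one]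
  rcases h.kd with ⟨d, -, q | q, -⟩ | ⟨d, u, -⟩
  · exact .inl (fin (.inl q) (h.HC_one q))
  · rcases e.cs with ⟨u, -⟩ | ⟨u, c⟩
    · have a := h.HC_gg (h.HC_ci u)
      rw [q] at a
      exact absurd a e.HC_tg
    · exact .inr ⟨u, c, q⟩
  · exact .inl (fin (.inr d) (h.HC_ci u))

end Fr

end H60M.A6
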