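import Mathlib
import Cfsg.Agent.Lib.B6S.HD

/-! Basic facts on `EN`: `U = U0 × ⟨u1, v⟩`, commutators. -/

set_option autoImplicit false
set_option linter.unusedSectionVars false
set_option linter.unusedVariables false

namespace H60M.A6

open Subgroup H69 H36.SW H60M.A7

variable {G : Type*} [Group G] [Finite G]

open EB

namespace Fr
variable {F : Fr G} {u0 g g' v d1 d2 η η1 η2 κ k a b γ : G}

theorem EN.c1 (h : F.EN u0 g v d1 d2 η κ) : d1 * F.v2 * d1 * F.v2 = g := by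
  have a := h.tr.v2d
  rw [mul_one] at a
  calc d1 * F.v2 * d1 * F.v2 = d1 * (F.v2 * d1 * F.v2) := by group
    _ = g⁻¹ := by rw [a]; group
    _ = g := inv_self h.ek.gg

theorem EN.c2 (h : F.EN u0 g v d1 d2 η κ) : d2 * F.v1 * d2 * F.v1 = g := by
  rw [← h.κd, ← h.κv2, ← B2.cj_mul, ← B2.cj_mul, ← B2.cj_mul, h.c1, B2.cj_of_comm h.κg]

theorem EN.κd2 (h : F.EN u0 g v d1 d2 η κ) : κ * d2 * κ⁻¹ = d1 := by
  have e := h.ek.toEE
  have a : κ * κ ∈ F.Z0 g v := by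
    rcases h.sq with ⟨-, k⟩ | ⟨-, k | k⟩ <;> rw [k]
    exacts [one_mem _, e.b_gZ, mul_mem e.b_gZ e.b_zZ]
  have b := mem_centralizer_iff_commute.1 e.d1Z _ a
  rw [← h.κd]
  calc _ = κ * κ * d1 * (κ * κ)⁻¹ := by group
    _ = d1 := B2.cj_of_comm b

theorem EN.HE_zg (h : F.EN u0 g v d1 d2 η κ) : F.z * g = g * F.z :=
  mem_centralizer_iff_commute.1 (h.ek.toEE.b_Zab h.ek.toEE.b_gZ) _ h.ek.toEE.b_zZ

theorem EN.HE_gt (h : F.EN u0 g v d1 d2 η κ) : g * F.t * g⁻¹ = F.t * F.z := by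
  rw [inv_self h.ek.gg, h.ek.gt]

theorem EN.HE_g1 (h : F.EN u0 g v d1 d2 η κ) : g ≠ 1 := fun e => by
  have := h.HE_gt
  rw [e] at this
  exact F.z1 (by simpa using this)

theorem EN.HE_gz (h : F.EN u0 g v d1 d2 η κ) : g ≠ F.z := fun e => by
  have := h.HE_gt
  rw [e, B2.cj_of_comm F.zt] at this
  exact F.z1 (left_eq_mul.1 this)

omit [Finite G] in
theorem HE_zUd (g : G) : F.z ∈ F.Ud g := subset_closure (by simp)
omit [Finite G] in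
theorem HE_gUd (g : G) : g ∈ F.Ud g := subset_closure (by simp)

theorem HE_memz {x : G} : x ∈ (⊥ : Subgroup G) ⊔ zpowers F.z ↔ x = 1 ∨ x = F.z := by
  rw [mem_adj (mem_normalizer_iff.2 (by simp)) (F.zz ▸ one_mem _), mem_bot, mem_bot, mul_inv_eq_one]

theorem EN.HE_Ud (h : F.EN u0 g v d1 d2 η κ) : F.Ud g = ⊥ ⊔ zpowers F.z ⊔ zpowers g := by
  refine le_antisymm ((closure_le _).2 ?_) (sup_le (sup_le bot_le (zpowers_le.2 (HE_zUd g)))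
    (zpowers_le.2 (HE_gUd g)))
  rintro x (rfl | rfl)
  · exact mem_sup_left (mem_sup_right (mem_zpowers _))
  · exact mem_sup_right (mem_zpowers _)

theorem EN.HE_gn (h : F.EN u0 g v d1 d2 η κ) : g ∈ 𝐍((⊥ : Subgroup G) ⊔ zpowers F.z) := by
  refine centralizer_le_normalizer _ (mem_centralizer_iff_commute.2 fun a ha => ?_)
  rcases HE_memz.1 ha with rfl | rfl
  · simp
  · exact h.HE_zg

theorem EN.HE_memUd (h : F.EN u0 g v d1 d2 η κ) {x : G} :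
    x ∈ F.Ud g ↔ x = 1 ∨ x = F.z ∨ x = g ∨ x = F.z * g := by
  rw [h.HE_Ud, mem_adj h.HE_gn (h.ek.gg ▸ one_mem _), HE_memz, HE_memz, mul_inv_eq_one,
    mul_inv_eq_iff_eq_mul, or_assoc]

theorem EN.cardUd (h : F.EN u0 g v d1 d2 η κ) : Nat.card (F.Ud g) = 4 := by
  rw [h.HE_Ud, card_adj h.HE_gn (h.ek.gg ▸ one_mem _) (fun e => (HE_memz.1 e).elim h.HE_g1 h.HE_gz),
    card_adj (mem_normalizer_iff.2 (by simp)) (F.zz ▸ one_mem _) (fun e => F.z1 (mem_bot.1 e)), card_bot]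

theorem EN.UdZ (h : F.EN u0 g v d1 d2 η κ) : F.Ud g ≤ F.Z0 g v := by
  refine (closure_le _).2 ?_
  rintro x (rfl | rfl)
  exacts [h.ek.toEE.b_zZ, h.ek.toEE.b_gZ]

omit [Finite G] in
theorem HE_v1 (d1 d2 : G) : F.v1 ∈ F.UO d1 d2 := subset_closure (by simp)
omit [Finite G] in
theorem HE_v2 (d1 d2 : G) : F.v2 ∈ F.UO d1 d2 := subset_closure (by simp)
omit [Finite G] in
theorem HE_d1 (d1 d2 : G) : d1 ∈ F.UO d1 d2 := subset_closure (by simp)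
omit [Finite G] in
theorem HE_d2 (d1 d2 : G) : d2 ∈ F.UO d1 d2 := subset_closure (by simp)

theorem EN.UdU0 (h : F.EN u0 g v d1 d2 η κ) : F.Ud g ≤ F.UO d1 d2 := by
  refine (closure_le _).2 ?_
  rintro x (e | e)
  · rw [e, ← F.hz]
    exact mul_mem (mul_mem (mul_mem (HE_v1 _ _) (HE_v2 _ _)) (HE_v1 _ _)) (HE_v2 _ _)
  · rw [Set.mem_singleton_iff.1 e, ← h.c1]
    exact mul_mem (mul_mem (mul_mem (HE_d1 _ _) (HE_v2 _ _)) (HE_d1 _ _)) (HE_v2 _ _)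

theorem EN.U0U (h : F.EN u0 g v d1 d2 η κ) : F.UO d1 d2 ≤ F.U g v d1 d2 := by
  have e := h.ek.toEE
  refine (closure_le _).2 ?_
  rintro x (k | k | k | k) <;> rw [k]
  exacts [e.b_v1U, e.b_v2U, e.b_d1U, e.b_d2U]

theorem EN.comm (h : F.EN u0 g v d1 d2 η κ) {x y : G} (hx : x ∈ F.U g v d1 d2) (hy : y ∈ F.U g v d1 d2) : x * y * x⁻¹ * y⁻¹ ∈ F.Ud g := by
  have e := h.ek.toEE
  have c0 : ∀ x y : G, x * y = y * x → x * y * x⁻¹ * y⁻¹ ∈ F.Ud g := fun x y c => by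
    rw [c]
    simpa using one_mem _
  have c1 : ∀ x y : G, x * x = 1 → y * y = 1 → x * y * x * y ∈ F.Ud g →
      x * y * x⁻¹ * y⁻¹ ∈ F.Ud g ∧ y * x * y⁻¹ * x⁻¹ ∈ F.Ud g := fun x y hx hy c => by
    have : x * y * x⁻¹ * y⁻¹ ∈ F.Ud g := by rwa [inv_self hx, inv_self hy]
    refine ⟨this, ?_⟩
    have := inv_mem this
    rwa [show (x * y * x⁻¹ * y⁻¹)⁻¹ = y * x * y⁻¹ * x⁻¹ by group] at this
  have hU : F.U g v d1 d2 ≤ closure ((F.Z0 g v : Set G) ∪ {F.v1, F.v2, d1, d2}) :=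
    e.b_U_le (fun x hx => subset_closure (Or.inl hx)) (subset_closure (Or.inr (by simp)))
      (subset_closure (Or.inr (by simp))) (subset_closure (Or.inr (by simp))) (subset_closure (Or.inr (by simp)))
  have hc : ∀ a ∈ (F.Z0 g v : Set G) ∪ {F.v1, F.v2, d1, d2}, a ∈ 𝐂(F.Z0 g v) := by
    rintro a (ha | k | k | k | k)
    · exact e.b_Zab ha
    all_goals rw [k]
    exacts [e.b_v1Z, e.b_v2Z, e.d1Z, e.d2Z]
  refine comm_closure (fun a ha => centralizer_anti h.UdZ (hc a ha)) ?_ (hU hx) (hU hy)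
  have a12 := c1 _ _ F.v11 F.v22 (F.hz ▸ HE_zUd g)
  have b12 := c1 _ _ e.d11 F.v22 (by rw [h.c1]; exact HE_gUd g)
  have b21 := c1 _ _ e.d22 F.v11 (by rw [h.c2]; exact HE_gUd g)
  have dd := c1 _ _ e.d11 e.d22 (by
    rcases h.ty with k | k <;> rw [k]
    exacts [HE_gUd g, mul_mem (HE_gUd g) (HE_zUd g)])
  intro x hx y hy
  rcases hx with hx | hx
  · exact c0 _ _ (mem_centralizer_iff_commute.1 (hc y hy) x hx)
  rcases hy with hy | hy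
  · exact c0 _ _ (mem_centralizer_iff_commute.1 (hc x (Or.inr hx)) y hy).symm
  rcases hx with k | k | k | k <;> rcases hy with k' | k' | k' | k' <;> rw [k, k']
  exacts [c0 _ _ rfl, a12.1, c0 _ _ e.d1v.symm, b21.2, a12.2, c0 _ _ rfl, b12.2, c0 _ _ e.d2v.symm,
    c0 _ _ e.d1v, b12.1, c0 _ _ rfl, dd.1, b21.1, c0 _ _ e.d2v, dd.2, c0 _ _ rfl]

theorem EN.sqU (h : F.EN u0 g v d1 d2 η κ) {x : G} (hx : x ∈ F.U g v d1 d2) : x * x ∈ F.Ud g := by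
  have e := h.ek.toEE
  induction hx using closure_induction with
  | mem x hx =>
    have : x * x = 1 := by
      rcases hx with k | k | k | k | k | k | k | k <;> rw [k]
      exacts [F.zz, F.u11, e.gg, e.vv, F.v11, F.v22, e.d11, e.d22]
    rw [this]; exact one_mem _
  | one => simpa using one_mem _
  | mul x y hx hy ihx ihy =>
    have := mul_mem (mul_mem ihx (h.comm (inv_mem hx) hy)) ihy
    rwa [show x * x * (x⁻¹ * y * x⁻¹⁻¹ * y⁻¹) * (y * y) = x * y * (x * y) by group] at this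
  | inv x _ ih => simpa using inv_mem ih

theorem EN.HE_UdU (h : F.EN u0 g v d1 d2 η κ) : F.Ud g ≤ F.U g v d1 d2 := h.UdU0.trans h.U0U

theorem EN.HE_nrm (h : F.EN u0 g v d1 d2 η κ) {P : Subgroup G} (h0 : F.Ud g ≤ P) (h1 : P ≤ F.U g v d1 d2) :
    F.U g v d1 d2 ≤ 𝐍(P) := by
  refine le_normalizer_of_cj_le fun x hx y hy => ?_
  obtain ⟨p, hp, rfl⟩ := mem_cj'.1 hy
  have := mul_mem (h0 (h.comm hx (h1 hp))) hp
  rwa [inv_mul_cancel_right] at this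

theorem EN.HE_two (h : F.EN u0 g v d1 d2 η κ) {P : Subgroup G} (h0 : F.Ud g ≤ P) (h1 : P ≤ F.U g v d1 d2)
    {a b : G} (ha : a ∈ F.U g v d1 d2) (hb : b ∈ F.U g v d1 d2) {x : G} :
    x ∈ P ⊔ zpowers a ⊔ zpowers b ↔ ∃ c ∈ P, ∃ i j : Fin 2, x = c * a ^ (i : ℕ) * b ^ (j : ℕ) := by
  constructor
  · intro hx
    obtain ⟨y, hy, j, rfl⟩ := (mem_adj' (h.HE_nrm (le_sup_of_le_left h0) (h.ek.b_le1 h1 ha) hb)
      (mem_sup_left (h0 (h.sqU hb)))).1 hx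
    obtain ⟨c, hc, i, rfl⟩ := (mem_adj' (h.HE_nrm h0 h1 ha) (h0 (h.sqU ha))).1 hy
    exact ⟨c, hc, i, j, rfl⟩
  · rintro ⟨c, hc, i, j, rfl⟩
    exact mul_mem_sup (mul_mem_sup hc (pow_mem (mem_zpowers _) _)) (pow_mem (mem_zpowers _) _)

theorem EN.memZ (h : F.EN u0 g v d1 d2 η κ) {x : G} : x ∈ F.Z0 g v ↔ ∃ c ∈ F.Ud g, ∃ i j : Fin 2, x = c * F.u1 ^ (i : ℕ) * v ^ (j : ℕ) := by
  have e := h.ek.toEE
  rw [← h.HE_two le_rfl h.HE_UdU (e.b_ZU e.b_uZ) (e.b_ZU e.b_vZ)]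
  refine SetLike.ext_iff.1 (le_antisymm ((closure_le _).2 ?_)
    (sup_le (sup_le h.UdZ (zpowers_le.2 e.b_uZ)) (zpowers_le.2 e.b_vZ))) x
  rintro y (k | k | k | k) <;> rw [k]
  · exact mem_sup_left (mem_sup_left (HE_zUd g))
  · exact mem_sup_left (mem_sup_right (mem_zpowers _))
  · exact mem_sup_left (mem_sup_left (HE_gUd g))
  · exact mem_sup_right (mem_zpowers _)

theorem EN.HE_U0 (h : F.EN u0 g v d1 d2 η κ) :
    F.UO d1 d2 = F.Ud g ⊔ zpowers F.v1 ⊔ zpowers d1 ⊔ zpowers F.v2 ⊔ zpowers d2 := by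
  refine le_antisymm ((closure_le _).2 ?_) (sup_le (sup_le (sup_le (sup_le h.UdU0 (zpowers_le.2 (HE_v1 _ _)))
    (zpowers_le.2 (HE_d1 _ _))) (zpowers_le.2 (HE_v2 _ _))) (zpowers_le.2 (HE_d2 _ _)))
  rintro y (k | k | k | k) <;> rw [k]
  · exact mem_sup_left (mem_sup_left (mem_sup_left (mem_sup_right (mem_zpowers _))))
  · exact mem_sup_left (mem_sup_right (mem_zpowers _))
  · exact mem_sup_left (mem_sup_left (mem_sup_right (mem_zpowers _)))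
  · exact mem_sup_right (mem_zpowers _)

theorem EN.memU0 (h : F.EN u0 g v d1 d2 η κ) {x : G} : x ∈ F.UO d1 d2 ↔ ∃ c ∈ F.Ud g, ∃ i j l m : Fin 2,
    x = c * F.v1 ^ (i : ℕ) * d1 ^ (j : ℕ) * F.v2 ^ (l : ℕ) * d2 ^ (m : ℕ) := by
  have e := h.ek.toEE
  rw [h.HE_U0, h.HE_two (le_sup_of_le_left le_sup_left) (h.ek.b_le1 (h.ek.b_le1 h.HE_UdU e.b_v1U) e.b_d1U)
    e.b_v2U e.b_d2U]
  constructor
  · rintro ⟨y, hy, l, m, rfl⟩
    obtain ⟨c, hc, i, j, rfl⟩ := (h.HE_two le_rfl h.HE_UdU e.b_v1U e.b_d1U).1 hy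
    exact ⟨c, hc, i, j, l, m, rfl⟩
  · rintro ⟨c, hc, i, j, l, m, rfl⟩
    exact ⟨_, (h.HE_two le_rfl h.HE_UdU e.b_v1U e.b_d1U).2 ⟨c, hc, i, j, rfl⟩, l, m, rfl⟩

theorem EN.memU (h : F.EN u0 g v d1 d2 η κ) {x : G} : x ∈ F.U g v d1 d2 ↔ ∃ y ∈ F.UO d1 d2, ∃ i j : Fin 2, x = y * F.u1 ^ (i : ℕ) * v ^ (j : ℕ) := by
  have e := h.ek.toEE
  rw [← h.HE_two h.UdU0 h.U0U (e.b_ZU e.b_uZ) (e.b_ZU e.b_vZ)]
  refine SetLike.ext_iff.1 (le_antisymm ((closure_le _).2 ?_)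
    (sup_le (sup_le h.U0U (zpowers_le.2 (e.b_ZU e.b_uZ))) (zpowers_le.2 (e.b_ZU e.b_vZ)))) x
  rintro y (k | k | k | k | k | k | k | k) <;> rw [k]
  · exact mem_sup_left (mem_sup_left (h.UdU0 (HE_zUd g)))
  · exact mem_sup_left (mem_sup_right (mem_zpowers _))
  · exact mem_sup_left (mem_sup_left (h.UdU0 (HE_gUd g)))
  · exact mem_sup_right (mem_zpowers _)
  · exact mem_sup_left (mem_sup_left (HE_v1 _ _))
  · exact mem_sup_left (mem_sup_left (HE_v2 _ _))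
  · exact mem_sup_left (mem_sup_left (HE_d1 _ _))
  · exact mem_sup_left (mem_sup_left (HE_d2 _ _))

theorem HE_cut {P : Subgroup G} {a y : G} {i : Fin 2} (ha : a ∉ P) (hy : y ∈ P) (e : y * a ^ (i : ℕ) ∈ P) :
    i = 0 := by
  fin_cases i
  · rfl
  · exact absurd (by simpa using (mul_mem_cancel_left hy).1 e) ha

theorem EN.HE_U0Z (h : F.EN u0 g v d1 d2 η κ) {x : G} (h1 : x ∈ F.UO d1 d2) (h2 : x ∈ F.Z0 g v) :
    x ∈ F.Ud g := by
  obtain ⟨c, hc, i, j, l, m, rfl⟩ := h.memU0.1 h1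
  have m0 := h.UdZ hc
  have m1 := mul_mem_sup m0 (pow_mem (mem_zpowers F.v1) (i : ℕ))
  have m2 := mul_mem_sup m1 (pow_mem (mem_zpowers d1) (j : ℕ))
  have m3 := mul_mem_sup m2 (pow_mem (mem_zpowers F.v2) (l : ℕ))
  obtain rfl := HE_cut h.ek.b_i3 m3 (mem_sup_left (mem_sup_left (mem_sup_left h2)))
  simp only [Fin.val_zero, pow_zero, mul_one] at h2 ⊢
  obtain rfl := HE_cut h.ek.b_i2 m2 (mem_sup_left (mem_sup_left h2))
  simp only [Fin.val_zero, pow_zero, mul_one] at h2 ⊢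
  obtain rfl := HE_cut h.ek.b_i1 m1 (mem_sup_left h2)
  simp only [Fin.val_zero, pow_zero, mul_one] at h2 ⊢
  obtain rfl := HE_cut h.ek.b_i0 m0 h2
  simpa using hc

theorem EN.HE_act (h : F.EN u0 g v d1 d2 η κ) {x w : G} (hx : x ∈ F.Ud g) (e : x * F.t * x⁻¹ = F.t * w) :
    (w = 1 ∧ (x = 1 ∨ x = F.z)) ∨ w = F.z := by
  have k : F.z * g * F.t * (F.z * g)⁻¹ = F.t * F.z := by
    calc _ = F.z * (g * F.t * g⁻¹) * F.z⁻¹ := by group
      _ = _ := by rw [h.HE_gt, B2.cj_mul, B2.cj_of_comm F.zt, mul_inv_cancel_right]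
  rcases h.HE_memUd.1 hx with a | a | a | a <;> rw [a] at e
  · exact .inl ⟨by simpa using e, .inl a⟩
  · rw [B2.cj_of_comm F.zt] at e
    exact .inl ⟨left_eq_mul.1 e, .inr a⟩
  · rw [h.HE_gt] at e
    exact .inr (mul_left_cancel e).symm
  · rw [k] at e
    exact .inr (mul_left_cancel e).symm

theorem HE_uz (F : Fr G) : F.u1 ≠ F.z := fun e => F.b2_uV F.hu1 (e ▸ F.b2_zV)

theorem EN.HE_uUd (h : F.EN u0 g v d1 d2 η κ) : F.u1 ∉ F.Ud g := fun k => by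
  rcases h.HE_act (w := 1) k (by rw [B2.cj_of_comm F.tu1.symm, mul_one]) with ⟨-, a | a⟩ | a
  exacts [F.hu1 a, F.HE_uz a, F.z1 a.symm]

theorem EN.indZ (h : F.EN u0 g v d1 d2 η κ) {i j : Fin 2} (e : F.u1 ^ (i : ℕ) * v ^ (j : ℕ) ∈ F.UO d1 d2) : i = 0 ∧ (j = 0 ∨ v = 1) := by
  have e' := h.ek.toEE
  have k := h.HE_U0Z e (mul_mem (pow_mem e'.b_uZ _) (pow_mem e'.b_vZ _))
  have hj : j = 0 ∨ v = 1 := by
    rcases e'.cs with ⟨-, a, -⟩ | ⟨a, -⟩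
    · exact .inr a
    refine .inl ?_
    fin_cases j
    · rfl
    exfalso
    have vt : v * F.t * v⁻¹ = F.t * F.u1 := by rw [inv_self e'.vv, e'.vt, a]
    have c1 : Commute (F.u1 ^ (i : ℕ)) (F.t * F.u1) :=
      ((show Commute F.u1 F.t from F.tu1.symm).mul_right (Commute.refl _)).pow_left _
    simp only [Fin.mk_one, Fin.val_one, pow_one, Fin.isValue] at k
    have := h.HE_act (w := F.u1) k (by
      calc _ = F.u1 ^ (i : ℕ) * (v * F.t * v⁻¹) * (F.u1 ^ (i : ℕ))⁻¹ := by group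
        _ = _ := by rw [vt, B2.cj_of_comm c1])
    rcases this with ⟨b, -⟩ | b
    exacts [F.hu1 b, F.HE_uz b]
  refine ⟨?_, hj⟩
  have k' : 1 * F.u1 ^ (i : ℕ) ∈ F.Ud g := by
    rcases hj with a | a <;> rw [a] at k <;> simpa using k
  exact HE_cut h.HE_uUd (one_mem _) k'

theorem EN.U0Z (h : F.EN u0 g v d1 d2 η κ) : F.UO d1 d2 ⊓ F.Z0 g v = F.Ud g := by
  exact le_antisymm (fun x hx => h.HE_U0Z hx.1 hx.2) (le_inf h.UdU0 h.UdZ)

theorem EN.cardU0 (h : F.EN u0 g v d1 d2 η κ) : Nat.card (F.UO d1 d2) = 64 := by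
  have e := h.ek.toEE
  have l0 := h.HE_UdU
  have l1 := h.ek.b_le1 l0 e.b_v1U
  have l2 := h.ek.b_le1 l1 e.b_d1U
  have l3 := h.ek.b_le1 l2 e.b_v2U
  have s1 := sup_le_sup_right h.UdZ (zpowers F.v1)
  have s2 := sup_le_sup_right s1 (zpowers d1)
  have s3 := sup_le_sup_right s2 (zpowers F.v2)
  rw [h.HE_U0,
    card_adj (h.HE_nrm (le_sup_of_le_left (le_sup_of_le_left le_sup_left)) l3 e.b_d2U) (e.d22 ▸ one_mem _)
      (fun k => h.ek.b_i3 (s3 k)),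
    card_adj (h.HE_nrm (le_sup_of_le_left le_sup_left) l2 e.b_v2U) (F.v22 ▸ one_mem _) (fun k => h.ek.b_i2 (s2 k)),
    card_adj (h.HE_nrm le_sup_left l1 e.b_d1U) (e.d11 ▸ one_mem _) (fun k => h.ek.b_i1 (s1 k)),
    card_adj (h.HE_nrm le_rfl l0 e.b_v1U) (F.v11 ▸ one_mem _) (fun k => h.ek.b_i0 (h.UdZ k)), h.cardUd]

omit [Finite G] in
theorem HE_nc {p q e z g : G} (pp : p * p = 1) (qq : q * q = 1) (ee : e * e = 1) (hz : p * q * p * q = z)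
    (hg : e * q * e * q = g) (z1 : z ≠ 1) (g1 : g ≠ 1) (gz : g ≠ z) {i j : Fin 2}
    (c : p ^ (i : ℕ) * e ^ (j : ℕ) * q = q * (p ^ (i : ℕ) * e ^ (j : ℕ))) : i = 0 ∧ j = 0 := by
  have k : ∀ x y : G, x * x = 1 → x * q = q * x → x * q * x * q = 1 := fun x y a b => by
    rw [b, mul_assoc q, a, mul_one, qq]
  fin_cases i <;> fin_cases j <;> simp only [Nat.cast_zero, Nat.cast_one, pow_zero, pow_one, mul_one, one_mul,
    Fin.zero_eta, Fin.mk_one, Fin.val_zero, Fin.val_one, Fin.isValue] at c ⊢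
  · exact ⟨trivial, trivial⟩
  · exact absurd (hg ▸ k e e ee c) g1
  · exact absurd (hz ▸ k p p pp c) z1
  · refine absurd ?_ gz
    have a : e * q = p * q * p * e := by
      calc e * q = p * (p * e * q) := by rw [← mul_assoc, ← mul_assoc, pp, one_mul]
        _ = _ := by rw [c]; group
    rw [← hg, ← hz, a, mul_assoc _ e e, ee, mul_one]

theorem EN.cenU (h : F.EN u0 g v d1 d2 η κ) : F.U g v d1 d2 ⊓ 𝐂(F.U g v d1 d2) = F.Z0 g v := by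
  have e := h.ek.toEE
  refine le_antisymm (fun x hx => ?_) h.ek.Zc
  obtain ⟨c, hc, i, j, l, m, rfl⟩ := h.ek.memU.1 hx.1
  have k1 := mem_centralizer_iff_commute.1 hx.2 _ e.b_v1U
  have k2 := mem_centralizer_iff_commute.1 hx.2 _ e.b_v2U
  have c1 : Commute (c * F.v1 ^ (i : ℕ) * d1 ^ (j : ℕ)) F.v1 :=
    ((show Commute c F.v1 from mem_centralizer_iff_commute.1 e.b_v1Z c hc).mul_left
      ((Commute.refl _).pow_left _)).mul_left ((show Commute d1 F.v1 from e.d1v).pow_left _)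
  obtain ⟨rfl, rfl⟩ := HE_nc F.v22 F.v11 e.d22 F.hz' h.c2 F.z1 h.HE_g1 h.HE_gz (i := l) (j := m) (by
    refine mul_left_cancel (a := c * F.v1 ^ (i : ℕ) * d1 ^ (j : ℕ)) ?_
    rw [← mul_assoc, ← mul_assoc, ← k1, ← mul_assoc _ F.v1, c1.eq]
    group)
  simp only [Fin.val_zero, pow_zero, mul_one] at k2 ⊢
  have c2 : c * F.v2 = F.v2 * c := mem_centralizer_iff_commute.1 e.b_v2Z c hc
  obtain ⟨rfl, rfl⟩ := HE_nc F.v11 F.v22 e.d11 F.hz h.c1 F.z1 h.HE_g1 h.HE_gz (i := i) (j := j) (by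
    refine mul_left_cancel (a := c) ?_
    rw [← mul_assoc, ← mul_assoc, ← k2, ← mul_assoc _ F.v2, c2]
    group)
  simpa using hc

theorem EN.tU0 (h : F.EN u0 g v d1 d2 η κ) : F.t ∈ 𝐍(F.UO d1 d2) := by
  have k : ∀ x w : G, F.t * x * F.t * x⁻¹ = w → F.t * x * F.t⁻¹ = w * x := fun x w a => by
    rw [← a, inv_self F.tt, inv_mul_cancel_right]
  refine B2.norm_gen ?_
  rintro x (a | a | a | a) <;> rw [a]
  · rw [B2.cj_of_comm F.tv1]; exact HE_v1 _ _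
  · rw [B2.cj_of_comm F.tv2]; exact HE_v2 _ _
  · rw [k _ _ h.ek.b_td1]; exact mul_mem (HE_v1 _ _) (HE_d1 _ _)
  · rw [k _ _ h.ek.b_td2]; exact mul_mem (HE_v2 _ _) (HE_d2 _ _)

theorem EN.κU0 (h : F.EN u0 g v d1 d2 η κ) : κ ∈ 𝐍(F.UO d1 d2) := by
  refine B2.norm_gen ?_
  rintro x (a | a | a | a) <;> rw [a]
  · rw [h.κv1]; exact HE_v2 _ _
  · rw [h.κv2]; exact HE_v1 _ _
  · rw [h.κd]; exact HE_d2 _ _
  · rw [h.κd2]; exact HE_d1 _ _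

theorem EN.κv (h : F.EN u0 g v d1 d2 η κ) (c : F.CA) (h0 : u0 = F.u1) : κ * v * κ⁻¹ = v * g ∨ κ * v * κ⁻¹ = v * g * F.z := by
  have e := h.ek.toEE
  obtain ⟨hd, kt, -⟩ := h.kd.resolve_right fun k => F.hu1 (h0 ▸ k.2.1)
  have kk : κ * κ = 1 := (h.sq.resolve_right fun k => hd k.1).2
  have u2 := F.u2_eq F.hu1
  have m : κ * v * κ⁻¹ ∈ F.Z0 g v := conj_mem_of_mem_normalizer h.κZ e.b_vZ
  have a1 : κ * v * κ⁻¹ * F.t * (κ * v * κ⁻¹)⁻¹ = F.t * (F.z * u0) := by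
    have vt : v * F.t * v⁻¹ = F.t * F.u1 := by rw [inv_self e.vv, e.vt, h0]
    calc _ = κ * v * κ⁻¹ * (κ * F.t * κ⁻¹) * (κ * v * κ⁻¹)⁻¹ := by rw [B2.cj_of_comm kt]
      _ = κ * (v * F.t * v⁻¹) * κ⁻¹ := by group
      _ = _ := by rw [vt, B2.cj_mul, B2.cj_of_comm kt, h.κu1, u2, h0]
  obtain ⟨w, hw⟩ : ∃ w, w = (g * v)⁻¹ * (κ * v * κ⁻¹) := ⟨_, rfl⟩
  have hw' : κ * v * κ⁻¹ = g * v * w := by rw [hw, mul_inv_cancel_left]
  have mw : w ∈ F.Z0 g v := hw ▸ mul_mem (inv_mem (mul_mem e.b_gZ e.b_vZ)) m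
  have wF : w ∈ F.F0 := e.fix mw (B2.comm_of_cj (by
    calc _ = (g * v)⁻¹ * (κ * v * κ⁻¹ * F.t * (κ * v * κ⁻¹)⁻¹) * (g * v) := by rw [hw]; group
      _ = _ := by rw [a1, ← e.EA_gvt]; group))
  have a2 : w * (κ * w * κ⁻¹) = 1 := by
    have b1 : κ * (κ * v * κ⁻¹) * κ⁻¹ = v := by
      calc _ = κ * κ * v * (κ * κ)⁻¹ := by group
        _ = _ := by rw [kk]; group
    rw [hw', B2.cj_mul, B2.cj_mul, B2.cj_of_comm h.κg, hw'] at b1
    refine mul_left_cancel (a := g * g * v) ?_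
    calc _ = g * (g * v * w) * (κ * w * κ⁻¹) := by group
      _ = _ := by rw [b1, e.gg, one_mul, mul_one]
  have uu : F.u1 * F.u2 = F.z := by rw [u2, F.zu1, ← mul_assoc, F.u11, one_mul]
  rcases F.memF0.1 wF with a | a | a | a
  · left; rw [hw', a, mul_one, e.gv]
  · right; rw [hw', a, e.gv]
  · rw [a, h.κu1, uu] at a2
    exact absurd a2 F.z1
  · rw [a, ← u2, h.κu2, ← F.u12, uu] at a2
    exact absurd a2 F.z1

theorem EN.NZ (h : F.EN u0 g v d1 d2 η κ) : 𝐍(F.U g v d1 d2) ≤ 𝐍(F.Z0 g v) := by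
  rw [← h.cenU]
  exact le_normalizer_inf le_rfl (normalizer_le_normalizer_centralizer _)

theorem EN.NUd (h : F.EN u0 g v d1 d2 η κ) : 𝐍(F.U g v d1 d2) ≤ 𝐍(F.Ud g) := by
  have e := h.ek.toEE
  intro n hn
  have k : ∀ x y : G, x ∈ F.U g v d1 d2 → y ∈ F.U g v d1 d2 → x * x = 1 → y * y = 1 →
      n * (x * y * x * y) * n⁻¹ ∈ F.Ud g := fun x y hx hy a b => by
    have := h.comm (conj_mem_of_mem_normalizer hn hx) (conj_mem_of_mem_normalizer hn hy)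
    rwa [show n * x * n⁻¹ * (n * y * n⁻¹) * (n * x * n⁻¹)⁻¹ * (n * y * n⁻¹)⁻¹ = n * (x * y * x⁻¹ * y⁻¹) * n⁻¹ by
      group, inv_self a, inv_self b] at this
  refine B2.norm_gen ?_
  rintro x (a | a) <;> rw [a]
  · have := k _ _ e.b_v1U e.b_v2U F.v11 F.v22
    rwa [F.hz] at this
  · have := k _ _ e.b_d1U e.b_v2U e.d11 F.v22
    rwa [h.c1] at this

end Fr

end H60M.A6
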