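import Mathlib
import Cfsg.Agent.Lib.B6S.GI
import Cfsg.Agent.Lib.A6C.SR

/-! If `u1 ∉ E`, a self-centralising eight-group bounds the sectional rank. -/

set_option autoImplicit false

namespace H60M.A6

open Subgroup H69 H36.SW H60M.A7

variable {G : Type*} [Group G] [Finite G]

namespace Fr
variable {F : Fr G} {u0 g g' v d1 d2 η η1 η2 κ k a b γ : G}

theorem HH_tr (c : F.CI) {w : G} (hw : w ∈ F.V1) : ∃ q ∈ 𝐂(F.X1), q * F.t * q⁻¹ = F.t * w := by
  obtain ⟨σ, hσ, e⟩ := GI.hz c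
  have h2 : F.y1 * σ * F.y1⁻¹ ∈ 𝐂(F.X1) := conj_mem_of_mem_normalizer
    (normalizer_le_normalizer_centralizer _ (F.b2_NX F.b2_y1V F.y1u)) hσ
  have e2 : F.y1 * σ * F.y1⁻¹ * F.t * (F.y1 * σ * F.y1⁻¹)⁻¹ = F.t * F.v1 := by
    rw [← F.y1z]
    conv_lhs => rw [← B2.cj_of_comm F.y1t]
    conv_rhs => rw [← B2.cj_of_comm F.y1t, conj_mul, ← e]
    group
  rcases F.memV1.1 hw with rfl | rfl | rfl | rfl
  · exact ⟨1, one_mem _, by group⟩
  · exact ⟨σ, hσ, e⟩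
  · exact ⟨_, h2, e2⟩
  · refine ⟨_, mul_mem hσ h2, ?_⟩
    generalize F.y1 * σ * F.y1⁻¹ = τ at e2
    calc σ * τ * F.t * (σ * τ)⁻¹ = σ * (τ * F.t * τ⁻¹) * σ⁻¹ := by group
      _ = _ := by rw [e2, B2.cj_mul, e, B2.cj_of_comm (hσ _ F.b2_vX).symm, mul_assoc]

theorem HH_le : closure ({F.t * F.u1, F.z, F.v1} : Set G) ≤ F.W1 := (closure_le _).2 (by
  rintro _ (rfl | rfl | rfl)
  exacts [mul_mem F.b2_tW (F.X1W1 F.b2_uX), F.X1W1 F.b2_zX, F.b2_vW])

theorem HH_syl (c : F.CI) : IsSylowIn 2 F.W1 𝐂(closure ({F.t * F.u1, F.z, F.v1} : Set G)) := by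
  have l := F.b2_WC.trans (centralizer_anti (HH_le (F := F)))
  refine isSylowIn_of_normalizer l ⟨le_inf l le_normalizer, F.sylW1.isP, fun R h1 h2 h3 =>
    le_antisymm (fun x hx => ?_) h1⟩
  obtain ⟨hc, hn⟩ := h2 hx
  obtain ⟨q, hq, e⟩ := HH_tr c (c.orb1 x hn)
  rw [F.b2_tt] at e
  have qu := hq _ F.b2_uX
  have qN : q ∈ 𝐍(F.W1) := B2.norm_gen (by
    rintro _ (rfl | rfl | rfl | rfl)
    · exact e ▸ conj_mem_of_mem_normalizer hn F.b2_tW
    · rw [B2.cj_of_comm (hq _ F.b2_zX).symm]; exact F.X1W1 F.b2_zX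
    · rw [B2.cj_of_comm (hq _ F.b2_vX).symm]; exact F.b2_vW
    · rw [B2.cj_of_comm qu.symm]; exact F.X1W1 F.b2_uX)
  have k := F.fixu (g := q⁻¹ * x) (B2.comm_of_cj (by
    calc q⁻¹ * x * F.t * (q⁻¹ * x)⁻¹ = q⁻¹ * (x * F.t * x⁻¹) * q := by group
      _ = F.t := by rw [← e]; group)) (mul_mem (inv_mem qN) hn)
  have xu : F.u1 * x = x * F.u1 := by
    calc F.u1 * x = F.u1 * q * (q⁻¹ * x) := by group
      _ = q * (q⁻¹ * x * F.u1) := by rw [qu, k, mul_assoc]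
      _ = x * F.u1 := by group
  have xt : F.t * x = x * F.t := by
    have := hc _ (subset_closure (Or.inl rfl))
    rwa [mul_assoc, xu, ← mul_assoc, ← mul_assoc, mul_left_inj] at this
  exact F.p2W1 (GI.cen4 xt (hc _ (subset_closure (by simp))) (hc _ (subset_closure (by simp))) xu)
    (P2.of_mem h3 hx)

theorem CI.har (c : F.CI) (hu : F.u1 ∉ F.E) : Cfsg.SectionalPRankLE 2 4 F.E := by
  have tu : F.t * F.u1 ∈ F.E := F.tu1 ▸ (F.top _).resolve_left hu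
  have tE : F.t ∉ F.E := fun h => hu ((mul_mem_cancel_left h).1 tu)
  have hs := HH_syl c
  have hl := HH_le (F := F)
  have nX : F.t * F.u1 ∉ F.X1 := F.b2_tX F.b2_uX
  have h8 : Nat.card (closure ({F.t * F.u1, F.z, F.v1} : Set G)) = 8 := by
    have m : ∀ {x y}, x ∈ F.W1 → y ∈ F.W1 → x * y = y * x := fun hx hy => F.b2_WC hy _ hx
    have a := hl (subset_closure (Or.inl rfl))
    exact (H80.A6C.SR.e8 (F.sqW1 a) F.zz F.v11 (m a (F.X1W1 F.b2_zX)) (m a F.b2_vW) F.zv1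
      (fun e => nX (e ▸ one_mem _)) F.z1 (fun e => nX (e ▸ F.b2_zX)) F.b2_v1 (fun e => nX (e ▸ F.b2_vX)) F.b2_vz
      fun e => nX ((mul_mem_cancel_right F.b2_zX).1 (e ▸ F.b2_vX))).2
  have hE : closure ({F.t * F.u1, F.z, F.v1} : Set G) ≤ F.E := (closure_le _).2 (by
    rintro _ (rfl | rfl | rfl)
    exacts [tu, F.zE, F.v1E])
  have hW : F.W1 ≤ closure ({F.t * F.u1, F.z, F.v1} : Set G) ⊔ zpowers F.t := (closure_le _).2 (by
    rintro _ (rfl | rfl | rfl | rfl)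
    · exact mem_sup_right (mem_zpowers _)
    · exact mem_sup_left (subset_closure (by simp))
    · exact mem_sup_left (subset_closure (by simp))
    · rw [← F.b2_tt F.u1]
      exact mul_mem (mem_sup_right (mem_zpowers _)) (mem_sup_left (subset_closure (by rw [F.b2_tt]; simp))))
  generalize closure ({F.t * F.u1, F.z, F.v1} : Set G) = A at hs hl h8 hE hW
  have key : ∀ x ∈ F.E, x ∈ 𝐂(A) → P2 x → x ∈ A := fun x hx hc h2 => by
    obtain ⟨g, hg, e⟩ := hs.exists_cj_le h2.zpowers (zpowers_le.2 hc)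
    rcases (mem_adj (centralizer_le_normalizer _ (hs.le F.b2_tW)) (F.tt ▸ one_mem _)).1
      (hW (e (cj_mem g (mem_zpowers x)))) with h | h
    · exact (mem_normalizer_iff.1 (centralizer_le_normalizer _ hg) x).2 h
    · exact absurd (inv_mem_iff.1 ((mul_mem_cancel_left (F.En.conj_mem x hx g)).1 (hE h))) tE
  obtain ⟨S, hS, l⟩ := exists_isSylowIn_le (hs.isP.to_le hl) hE
  refine H80.A6C.sr8 hS.subgroupOf_top (W := A.subgroupOf F.E) (comap_mono l)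
    (fun a ha => Subtype.ext (F.sqW1 (hl ha))) (by rw [Nat.card_congr (subgroupOfEquivOfLe hE).toEquiv, h8])
    fun x hx hc => key x x.2 (fun a ha => congrArg Subtype.val (hc ⟨a, hE ha⟩ ha)) (P2.of_mem hS.isP hx)

end Fr

end H60M.A6
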