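import Mathlib
import Cfsg.Agent.Lib.B6S.HT
import Cfsg.Agent.Lib.B6S.HU
import Cfsg.Agent.Lib.B6S.HJ

/-! End of `IIa`, type `EE`. -/

set_option autoImplicit false

namespace H60M.A6

open Subgroup H69 H36.SW H60M.A7

variable {G : Type*} [Group G] [Finite G]

theorem hi_adj {P : Subgroup G} {x n : G} (hn : n ∈ 𝐍(P)) (c : n * x * n⁻¹ ∈ P ⊔ zpowers x) :
    n ∈ 𝐍((P ⊔ zpowers x : Subgroup G)) := by
  refine mem_normalizer_of_cj_le ?_
  rw [cj_sup, cj_eq_of_mem_normalizer hn, cj_zpowers]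
  exact sup_le le_sup_left (zpowers_le.2 c)

namespace Fr
variable {F : Fr G} {u0 g g' v d1 d2 η η1 η2 κ k a b γ : G}

theorem EN.hi_v (h : F.EN 1 g v d1 d2 η κ) : v = 1 := by
  rcases h.tr.h0 with e | e
  · exact e.2
  · exact absurd e.1.symm e.2

theorem EN.hi_uU (h : F.EN u0 g v d1 d2 η κ) : F.u1 ∈ F.U g v d1 d2 :=
  h.ek.toEE.b_ZU h.ek.toEE.b_uZ

theorem EN.hi_cen (h : F.EN u0 g v d1 d2 η κ) {x : G} (hx : x ∈ F.U g v d1 d2) :
    x * F.u1 = F.u1 * x :=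
  (mem_centralizer_iff.1 (h.ek.toEE.b_UC hx) _ h.ek.toEE.b_uZ).symm

theorem EN.hi_uN (h : F.EN u0 g v d1 d2 η κ) : F.u1 ∈ 𝐍(F.UO d1 d2) :=
  mem_normalizer_iff.2 fun x => by
    constructor
    · intro hx
      rwa [← h.hi_cen (h.U0U hx), mul_inv_cancel_right]
    · intro hx
      have := h.hi_cen (h.U0U hx)
      rw [inv_mul_cancel_right, mul_assoc, mul_right_inj] at this
      rwa [this, ← mul_assoc]

theorem EN.hi_uO (h : F.EN u0 g v d1 d2 η κ) : F.u1 ∉ F.UO d1 d2 := fun m =>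
  absurd (h.indZ (i := 1) (j := 0) (by simpa using m)).1 (by decide)

theorem EN.hi_zO (h : F.EN u0 g v d1 d2 η κ) : F.z ∈ F.UO d1 d2 :=
  h.UdU0 (subset_closure (by simp))

theorem SY.hi_end (h : F.SY 1 g v d1 d2 η κ k) (w : d1 * d2 * d1 * d2 = g) {M : Subgroup G}
    (hM : M ≤ F.SK g v d1 d2 κ k) (OM : F.UO d1 d2 ≤ M) (uN : F.u1 ∈ 𝐍(M)) (tM : F.t ∈ M)
    (κM : κ ∈ M ⊔ zpowers F.u1) (kM : k ∈ M) (uM : F.u1 ∉ M) : F.u1 ∉ F.E := by
  have n := h.toEN
  have hS : F.SK g v d1 d2 κ k ≤ M ⊔ zpowers F.u1 := by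
    refine sup_le (fun x hx => ?_) ((closure_le _).2 ?_)
    · obtain ⟨y, hy, i, j, rfl⟩ := n.memU.1 hx
      rw [n.hi_v, one_pow, mul_one]
      exact mul_mem (mem_sup_left (OM hy)) (mem_sup_right (pow_mem (mem_zpowers _) _))
    · rintro x (rfl | rfl | rfl)
      · exact mem_sup_left tM
      · exact κM
      · exact mem_sup_left kM
  refine (F.trG h.syl hM (x0 := F.u1) (mem_sup_left n.hi_uU) uM (fun s hs => ?_) n.ek.isP n.hi_uU
    (fun x hx => mem_centralizer_singleton_iff.2 (n.hi_cen hx)) (fun y hy m => uM ?_)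
    (fun y m _ => ?_)).1
  · have := (mem_adj uN (F.u11 ▸ one_mem M)).1 (hS hs)
    rwa [inv_eq_of_mul_eq_one_right F.u11] at this
  · exact (M.mul_mem_cancel_right m).1 (OM (n.UdU0 (h.fixu w (n.ek.wcN h.wc hy))))
  · rw [F.u11, one_pow, mul_one, mul_inv_cancel]
    exact one_mem M

theorem EN.hi_m2 (h : F.EN 1 g v d1 d2 η κ) (d : F.dl ≠ 1) {κ' : G} (hκ : κ' = κ ∨ κ' = κ * F.u1) :
    F.u1 ∈ 𝐍((F.UO d1 d2 ⊔ zpowers F.t ⊔ zpowers κ' : Subgroup G)) ∧
    F.u1 ∉ F.UO d1 d2 ⊔ zpowers F.t ⊔ zpowers κ' ∧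
    F.UO d1 d2 ⊔ zpowers F.t ⊔ zpowers κ' ≤ F.SK g v d1 d2 κ 1 ∧
    κ ∈ F.UO d1 d2 ⊔ zpowers F.t ⊔ zpowers κ' ⊔ zpowers F.u1 := by
  have κκ : κ * κ = 1 := (h.sq.resolve_right fun e => d e.1).2
  have κt : κ * F.t = F.t * κ := (h.kd.resolve_right fun e => d e.1).2.1
  have ui : F.u1⁻¹ = F.u1 := inv_eq_of_mul_eq_one_right F.u11
  have κu : κ * F.u1 = F.z * F.u1 * κ := by
    rw [← F.u2_eq F.hu1, ← h.κu1, inv_mul_cancel_right]
  have uκ : F.u1 * κ = F.z * (κ * F.u1) := by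
    rw [κu, ← mul_assoc, ← mul_assoc, F.zz, one_mul]
  have uU := h.hi_uU
  have n1 : κ' ∈ 𝐍(F.UO d1 d2) := by
    rcases hκ with rfl | rfl
    · exact h.κU0
    · exact mul_mem h.κU0 h.hi_uN
  have c1 : κ' * F.t = F.t * κ' := by
    rcases hκ with rfl | rfl
    · exact κt
    · rw [mul_assoc, ← F.tu1, ← mul_assoc, κt, mul_assoc]
  have s1 : κ' * κ' ∈ F.UO d1 d2 := by
    rcases hκ with rfl | rfl
    · exact κκ ▸ one_mem _
    · have : κ * F.u1 * (κ * F.u1) = F.z := by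
        nth_rw 1 [κu]
        calc F.z * F.u1 * κ * (κ * F.u1) = F.z * (F.u1 * (κ * κ) * F.u1) := by group
          _ = F.z := by rw [κκ, mul_one, F.u11, mul_one]
      exact this ▸ h.hi_zO
  have e1 : F.u1 * κ' * F.u1⁻¹ = F.z * κ' := by
    rcases hκ with rfl | rfl
    · rw [uκ]; group
    · rw [← mul_assoc, mul_inv_cancel_right, uκ]
  have kU : ∀ {x : G}, x * κ' ∈ F.U g v d1 d2 → x * κ ∈ F.U g v d1 d2 := by
    intro x hx
    rcases hκ with rfl | rfl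
    · exact hx
    · rwa [← mul_assoc, Subgroup.mul_mem_cancel_right _ uU] at hx
  have tS : F.t ∈ F.SK g v d1 d2 κ 1 := mem_sup_right (subset_closure (by simp))
  have κS : κ ∈ F.SK g v d1 d2 κ 1 := mem_sup_right (subset_closure (by simp))
  have n2 : κ' ∈ 𝐍((F.UO d1 d2 ⊔ zpowers F.t : Subgroup G)) :=
    hi_adj n1 (by rw [c1, mul_inv_cancel_right]; exact mem_sup_right (mem_zpowers _))
  have a1 : ∀ {y : G}, y ∈ F.UO d1 d2 ⊔ zpowers F.t → y ∈ F.UO d1 d2 ∨ y * F.t⁻¹ ∈ F.UO d1 d2 :=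
    fun hy => (mem_adj h.tU0 (F.tt ▸ one_mem _)).1 hy
  refine ⟨hi_adj (hi_adj h.hi_uN ?_) ?_, fun m => ?_,
    sup_le (sup_le (h.U0U.trans le_sup_left) (zpowers_le.2 tS)) (zpowers_le.2 ?_), ?_⟩
  · rw [← F.tu1, mul_inv_cancel_right]
    exact mem_sup_right (mem_zpowers _)
  · rw [e1]
    exact mul_mem (mem_sup_left (mem_sup_left h.hi_zO)) (mem_sup_right (mem_zpowers _))
  · rcases (mem_adj n2 (mem_sup_left s1)).1 m with m | m <;> rcases a1 m with m | m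
    · exact h.hi_uO m
    · have := h.U0U m
      rw [Subgroup.mul_mem_cancel_left _ uU, inv_mem_iff] at this
      exact absurd (h.ind2 (i := 1) (j := 0) (by simpa using this)).1 (by decide)
    · have := h.U0U m
      rw [Subgroup.mul_mem_cancel_left _ uU, inv_mem_iff, ← one_mul κ'] at this
      exact absurd (h.ind2 (i := 0) (j := 1) (by simpa using kU this)).2 (by decide)
    · have := h.U0U m
      rw [mul_assoc, Subgroup.mul_mem_cancel_left _ uU, ← mul_inv_rev, inv_mem_iff] at this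
      exact absurd (h.ind2 (i := 1) (j := 1) (by simpa using kU this)).2 (by decide)
  · rcases hκ with rfl | rfl
    · exact κS
    · exact mul_mem κS (mem_sup_left uU)
  · rcases hκ with rfl | rfl
    · exact mem_sup_left (mem_sup_right (mem_zpowers _))
    · exact (Subgroup.mul_mem_cancel_right _ (mem_sup_right (mem_zpowers F.u1))).1
        (mem_sup_left (mem_sup_right (mem_zpowers _)))

theorem SY.iia (h : F.SY 1 g v d1 d2 η κ k) (w : d1 * d2 * d1 * d2 = g) (d : F.dl ≠ 1) : F.u1 ∉ F.E := by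
  have n := h.toEN
  rcases h.hk with rfl | q
  · obtain ⟨a1, a2, a3, a4⟩ := n.hi_m2 d (Or.inl rfl)
    exact h.hi_end w a3 (le_sup_left.trans le_sup_left) a1
      (mem_sup_left (mem_sup_right (mem_zpowers _))) a4 (one_mem _) a2
  obtain ⟨kN, kk, kκ, kt, -⟩ := h.kU0 q
  obtain ⟨c, hc, -, -, ku⟩ := n.ku q
  have cO := n.UdU0 hc
  obtain ⟨κ', hκ, kt', kκ'⟩ : ∃ κ', (κ' = κ ∨ κ' = κ * F.u1) ∧
      (F.t * κ')⁻¹ * (k * F.t * k⁻¹) ∈ F.UO d1 d2 ∧ κ'⁻¹ * (k * κ' * k⁻¹) ∈ F.UO d1 d2 := by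
    rcases (mem_adj n.hi_uN (F.u11 ▸ one_mem _)).1 kt with m | m
    · exact ⟨κ, Or.inl rfl, m, kκ⟩
    · refine ⟨κ * F.u1, Or.inr rfl, ?_, ?_⟩
      · have := conj_mem_of_mem_normalizer' n.hi_uN m
        convert this using 1
        group
      · have := mul_mem (conj_mem_of_mem_normalizer' n.hi_uN kκ) cO
        convert this using 1
        rw [← conj_mul, ku]
        group
  obtain ⟨a1, a2, a3, a4⟩ := n.hi_m2 d hκ
  set M2 := F.UO d1 d2 ⊔ zpowers F.t ⊔ zpowers κ' with hM2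
  have OM : F.UO d1 d2 ≤ M2 := le_sup_left.trans le_sup_left
  have tM : F.t ∈ M2 := mem_sup_left (mem_sup_right (mem_zpowers _))
  have κM : κ' ∈ M2 := mem_sup_right (mem_zpowers _)
  have kM : k ∈ 𝐍(M2) := by
    refine mem_normalizer_of_cj_le ?_
    rw [hM2, cj_sup, cj_sup, cj_eq_of_mem_normalizer kN, cj_zpowers, cj_zpowers]
    exact sup_le (sup_le OM (zpowers_le.2 ((M2.mul_mem_cancel_left (inv_mem (mul_mem tM κM))).1
      (OM kt')))) (zpowers_le.2 ((M2.mul_mem_cancel_left (inv_mem κM)).1 (OM kκ')))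
  have S1 : F.SK g v d1 d2 κ 1 ≤ F.SK g v d1 d2 κ k := by
    refine sup_le_sup_left ((closure_le _).2 ?_) _
    rintro x (rfl | rfl | rfl)
    · exact subset_closure (by simp)
    · exact subset_closure (by simp)
    · exact one_mem _
  refine h.hi_end w (M := M2 ⊔ zpowers k)
    (sup_le (a3.trans S1) (zpowers_le.2 (mem_sup_right (subset_closure (by simp)))))
    (OM.trans le_sup_left) (hi_adj a1 ?_) (mem_sup_left tM)
    ((sup_le_sup_right le_sup_left _ : M2 ⊔ zpowers F.u1 ≤ _) a4) (mem_sup_right (mem_zpowers _)) fun m => ?_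
  · have ui : F.u1⁻¹ = F.u1 := inv_eq_of_mul_eq_one_right F.u11
    have : F.u1 * k * F.u1⁻¹ = c * k := by
      calc F.u1 * k * F.u1⁻¹ = F.u1 * (k * F.u1 * k⁻¹) * k := by rw [ui]; group
        _ = F.u1 * F.u1 * c * k := by rw [ku]; group
        _ = c * k := by rw [F.u11, one_mul]
    rw [this]
    exact mul_mem (mem_sup_left (OM cO)) (mem_sup_right (mem_zpowers _))
  · rcases (mem_adj kM (OM kk)).1 m with m | m
    · exact a2 m
    · have := a3 m
      have uS : F.u1 ∈ F.SK g v d1 d2 κ 1 := mem_sup_left n.hi_uU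
      rw [Subgroup.mul_mem_cancel_left _ uS, inv_mem_iff] at this
      obtain ⟨y, hy, i, j, e⟩ := n.mem2.1 this
      have m3 := mul_mem (conj_mem_of_mem_normalizer q.kU (inv_mem hy)) q.kk
      refine absurd (n.ind3 q (i := i) (j := j) (l := 1) ?_).2.2 (by decide)
      convert m3 using 1
      rw [eq_mul_inv_of_mul_eq e.symm]
      simp [mul_assoc]

end Fr

end H60M.A6
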