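import Mathlib
import Cfsg.Agent.Lib.B6S.HF

/-! The `L₃(4)` type is impossible. -/

set_option autoImplicit false

namespace H60M.A6

open Subgroup H69 H36.SW H60M.A7

variable {G : Type*} [Group G] [Finite G]

omit [Finite G] in
theorem HL_four {a b x : G} (aa : a * a = 1) (bb : b * b = 1) (ab : b * a = a * b)
    (hx : x ∈ closure ({a, b} : Set G)) : x = 1 ∨ x = a ∨ x = b ∨ x = a * b := by
  have aa' : ∀ y, a * (a * y) = y := fun y => by rw [← mul_assoc, aa, one_mul]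
  have bb' : ∀ y, b * (b * y) = y := fun y => by rw [← mul_assoc, bb, one_mul]
  have ab' : ∀ y, b * (a * y) = a * (b * y) := fun y => by rw [← mul_assoc, ab, mul_assoc]
  have ai : a⁻¹ = a := inv_eq_of_mul_eq_one_right aa
  have bi : b⁻¹ = b := inv_eq_of_mul_eq_one_right bb
  induction hx using closure_induction with
  | mem y hy =>
    rcases hy with rfl | rfl
    · exact Or.inr (Or.inl rfl)
    · exact Or.inr (Or.inr (Or.inl rfl))
  | one => exact Or.inl rfl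
  | mul x y _ _ hx hy =>
    rcases hx with e | e | e | e <;> rcases hy with e' | e' | e' | e' <;> rw [e, e'] <;>
      simp only [mul_assoc, one_mul, mul_one, aa, bb, ab, aa', bb', ab', true_or, or_true]
  | inv x _ hx =>
    rcases hx with e | e | e | e <;> rw [e] <;>
      simp only [inv_one, mul_inv_rev, ai, bi, ab, true_or, or_true]

namespace Fr
variable {F : Fr G} {u0 g g' v d1 d2 η η1 η2 κ k a b γ : G}

/-- in type `L` all of `u Ud` is fused -/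
theorem EN.HL_cj (h : F.EN u0 g v d1 d2 η κ) (ty : d1 * d2 * d1 * d2 = g * F.z) {c : G} (hc : c ∈ F.Ud g) :
    IsConj F.u1 (F.u1 * c) := by
  have ee := h.ek.toEE
  have cz : ∀ x ∈ F.U g v d1 d2, ∀ y ∈ F.Z0 g v, x * y * x⁻¹ = y := fun x hx y hy =>
    B2.cj_of_comm (ee.b_UC hx y hy).symm
  have zab : ∀ x ∈ F.Z0 g v, ∀ y ∈ F.Z0 g v, x * y = y * x := fun x hx y hy => ee.b_Zab hy x hx
  have zZ := ee.b_zZ
  have uZ := ee.b_uZ
  have gZ := ee.b_gZ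
  have zW : F.z ∈ F.W1 := F.X1W1 F.b2_zX
  have ηz : η * F.z * η⁻¹ = F.v1 := (h.tr.act zW).trans F.y1z
  have ηv : η * F.v1 * η⁻¹ = F.z * F.v1 := (h.tr.act F.b2_vW).trans F.y1v
  have ηw : η * (F.z * F.v1) * η⁻¹ = F.z := (h.tr.act (mul_mem zW F.b2_vW)).trans F.y1z'
  have ηu' : η * F.u1 * η⁻¹ = F.u1 := B2.cj_of_comm (GI.ηu h.tr)
  have ηg := h.tr.ηg
  have d2v : d2 * F.v1 * d2⁻¹ = g * F.v1 := by
    rw [EA_inv ee.d22, ← h.c2, mul_assoc (d2 * F.v1 * d2), F.v11, mul_one]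
  have d2d : d2 * d1 * d2⁻¹ = d1 * (g * F.z) := by
    rw [EA_inv ee.d22, ← ty, ← mul_assoc, ← mul_assoc, ← mul_assoc, ee.d11, one_mul]
  have v2d : F.v2 * d1 * F.v2⁻¹ = d1 * g := by
    rw [EA_inv F.v22, ← h.c1, ← mul_assoc, ← mul_assoc, ← mul_assoc, ee.d11, one_mul]
  have gzg : g * F.z * g = F.z := by rw [zab _ gZ _ zZ, mul_assoc, ee.gg, mul_one]
  have sA : IsConj F.u1 (F.z * F.u1) := isConj_iff.2 ⟨κ, h.κu1.trans (F.u2_eq F.hu1)⟩
  have sB : IsConj (F.z * F.u1) (F.v1 * F.u1) := isConj_iff.2 ⟨η, by rw [B2.cj_mul, ηz, ηu']⟩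
  have sC : IsConj (F.v1 * F.u1) (g * F.v1 * F.u1) :=
    isConj_iff.2 ⟨d2, by rw [B2.cj_mul, d2v, cz _ ee.b_d2U _ uZ]⟩
  have sD : IsConj (g * F.v1 * F.u1) (d1 * (F.z * F.v1) * F.u1) :=
    isConj_iff.2 ⟨η, by rw [B2.cj_mul, B2.cj_mul, ηg, ηv, ηu']⟩
  have sE : IsConj (g * F.z * F.u1) (d1 * F.v1 * F.u1) :=
    isConj_iff.2 ⟨η, by rw [B2.cj_mul, B2.cj_mul, ηg, ηz, ηu']⟩
  have sF : IsConj (d1 * F.v1 * F.u1) (d1 * (F.z * F.v1) * F.u1) :=
    isConj_iff.2 ⟨d2, by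
      rw [B2.cj_mul, B2.cj_mul, d2d, d2v, cz _ ee.b_d2U _ uZ, mul_assoc d1, ← mul_assoc (g * F.z), gzg]⟩
  have sG : IsConj (g * F.u1) (d1 * F.u1) := isConj_iff.2 ⟨η, by rw [B2.cj_mul, ηg, ηu']⟩
  have sH : IsConj (d1 * F.u1) (d1 * (g * F.z) * F.u1) :=
    isConj_iff.2 ⟨d2, by rw [B2.cj_mul, d2d, cz _ ee.b_d2U _ uZ]⟩
  have sI : IsConj (d1 * (g * F.z) * F.u1) (d1 * F.z * F.u1) :=
    isConj_iff.2 ⟨F.v2, by
      rw [B2.cj_mul, B2.cj_mul, v2d, cz _ ee.b_v2U _ uZ, cz _ ee.b_v2U _ (mul_mem gZ zZ), mul_assoc d1,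
        ← mul_assoc g, ee.gg, one_mul]⟩
  have sJ : IsConj (g * F.v1 * F.u1) (g * (F.z * F.v1) * F.u1) :=
    isConj_iff.2 ⟨F.v2, by rw [B2.cj_mul, B2.cj_mul, F.b2_v2v, cz _ ee.b_v2U _ uZ, cz _ ee.b_v2U _ gZ]⟩
  have sK : IsConj (g * (F.z * F.v1) * F.u1) (d1 * F.z * F.u1) :=
    isConj_iff.2 ⟨η, by rw [B2.cj_mul, B2.cj_mul η g, ηg, ηw, ηu']⟩
  have s0 := (sA.trans sB).trans sC
  rcases HL_four F.zz ee.gg (zab _ gZ _ zZ) hc with e | e | e | e <;> rw [e]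
  · rw [mul_one]
  · rw [zab _ uZ _ zZ]; exact sA
  · rw [zab _ uZ _ gZ]
    exact ((s0.trans sJ).trans sK).trans ((sG.trans sH).trans sI).symm
  · rw [zab _ uZ _ (mul_mem zZ gZ), zab _ zZ _ gZ]
    exact (s0.trans sD).trans (sE.trans sF).symm

/-- the stabiliser of the coset `u Ud` in `N(U)` -/
def HL_H {U D : Subgroup G} (u : G) (uu : u * u = 1) (hn : 𝐍(U) ≤ 𝐍(D)) : Subgroup G where
  carrier := {n | n ∈ 𝐍(U) ∧ u * (n * u * n⁻¹) ∈ D}
  one_mem' := ⟨one_mem _, by rw [one_mul, inv_one, mul_one, uu]; exact one_mem _⟩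
  mul_mem' := by
    rintro n m ⟨h1, h2⟩ ⟨h3, h4⟩
    refine ⟨mul_mem h1 h3, ?_⟩
    have e : u * (n * m * u * (n * m)⁻¹) = u * (n * u * n⁻¹) * (n * (u * (m * u * m⁻¹)) * n⁻¹) := by
      calc u * (n * m * u * (n * m)⁻¹) = u * n * (u * u) * (m * u * m⁻¹) * n⁻¹ := by rw [uu]; group
        _ = _ := by group
    rw [e]
    exact mul_mem h2 ((mem_normalizer_iff.1 (hn h1) _).1 h4)
  inv_mem' := by
    rintro n ⟨h1, h2⟩
    refine ⟨inv_mem h1, ?_⟩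
    have ui : u⁻¹ = u := inv_eq_of_mul_eq_one_right uu
    have e : u * (n⁻¹ * u * n⁻¹⁻¹) = n⁻¹ * (u * (n * u * n⁻¹))⁻¹ * n⁻¹⁻¹ := by
      rw [mul_inv_rev, mul_inv_rev, mul_inv_rev, ui]; group
    rw [e]
    exact (mem_normalizer_iff.1 (hn (inv_mem h1)) _).1 (inv_mem h2)

theorem SY.W (h : F.SY u0 g v d1 d2 η κ k) : d1 * d2 * d1 * d2 = g := by
  rcases h.hk with rfl | q
  swap
  · exact q.W
  refine h.ty.resolve_right fun ty => ?_
  have en := h.toEN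
  have ee := h.ek.toEE
  have uZ := ee.b_uZ
  have cu : ∀ x ∈ F.U g v d1 d2, x * F.u1 * x⁻¹ = F.u1 := fun x hx => B2.cj_of_comm (ee.b_UC hx _ uZ).symm
  have uu' : ∀ y, F.u1 * (F.u1 * y) = y := fun y => by rw [← mul_assoc, F.u11, one_mul]
  have zU : F.z ∈ F.Ud g := subset_closure (by simp)
  have gU : g ∈ F.Ud g := subset_closure (by simp)
  have hS : F.SK g v d1 d2 κ 1 ≤ HL_H F.u1 F.u11 en.NUd := by
    refine sup_le (fun x hx => ⟨le_normalizer hx, ?_⟩) ((closure_le _).2 ?_)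
    · rw [cu x hx, F.u11]; exact one_mem _
    · rintro x (rfl | rfl | rfl)
      · exact ⟨h.ek.tN, by rw [B2.cj_of_comm F.tu1, F.u11]; exact one_mem _⟩
      · exact ⟨h.κU, by rw [h.κu1, F.u2_eq F.hu1, F.zu1, uu']; exact zU⟩
      · exact one_mem _
  have orb : ∀ c ∈ F.Ud g, ∃ n ∈ HL_H F.u1 F.u11 en.NUd, n * F.u1 * n⁻¹ = F.u1 * c := fun c hc => by
    obtain ⟨s, e⟩ := isConj_iff.1 (en.HL_cj ty hc)
    obtain ⟨n, hn, e'⟩ := h.burn uZ (mul_mem uZ (en.UdZ hc)) e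
    exact ⟨n, ⟨hn, by rw [e', uu']; exact hc⟩, e'⟩
  have ho : {s | ∃ n ∈ HL_H F.u1 F.u11 en.NUd, n * F.u1 * n⁻¹ = s} = (fun c => F.u1 * c) '' (F.Ud g : Set G) := by
    ext s
    constructor
    · rintro ⟨n, hn, rfl⟩
      exact ⟨_, hn.2, uu' _⟩
    · rintro ⟨c, hc, rfl⟩
      exact orb c hc
  have hc : Set.ncard {s | ∃ n ∈ HL_H F.u1 F.u11 en.NUd, n * F.u1 * n⁻¹ = s} = 2 ^ 2 := by
    rw [ho, Set.ncard_image_of_injective _ (mul_right_injective F.u1)]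
    exact en.cardUd
  obtain ⟨S, hS1, hS2, hS3⟩ := ret h.syl.isP hS hc
  have e0 := h.syl.max S hS2 le_top hS1.isP
  obtain ⟨n, hn, e⟩ := orb g gU
  obtain ⟨s, hs, e'⟩ := hS3 n hn
  rw [e0] at hs
  have hN : F.SK g v d1 d2 κ 1 ≤ 𝐍(F.F0) := by
    refine sup_le (fun x hx => ?_) ((closure_le _).2 ?_)
    · exact centralizer_le_normalizer _ fun y hy => ee.b_UC hx y (EA_F0Z g v hy)
    · rintro x (rfl | rfl | rfl)
      · exact centralizer_le_normalizer _ fun y hy => EA_F0t hy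
      · refine B2.norm_gen ?_
        rintro y (rfl | rfl | rfl)
        · have : x * F.z * x⁻¹ = F.z := by
            conv_lhs => rw [← F.hz]
            rw [B2.cj_mul, B2.cj_mul, B2.cj_mul, h.κv1, h.κv2, F.hz']
          rw [this]; exact subset_closure (by simp)
        · rw [h.κu1]; exact subset_closure (by simp)
        · rw [h.κu2]; exact subset_closure (by simp)
      · exact one_mem _
  have uF : F.u1 ∈ F.F0 := subset_closure (by simp)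
  have m : F.u1 * g ∈ F.F0 := by
    rw [← e, ← e']; exact (mem_normalizer_iff.1 (hN hs) _).1 uF
  have c := EA_F0t ((mul_mem_cancel_left uF).1 m)
  have e2 := ee.gt
  rw [c, mul_assoc, ee.gg, mul_one] at e2
  exact F.z1 (left_eq_mul.1 e2)

end Fr

end H60M.A6
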