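import Mathlib
import Cfsg.Agent.Lib.B6S.HD

/-! Case `SZ`: normalising the swap. -/

set_option autoImplicit false

namespace H60M.A6

open Subgroup H69 H36.SW H60M.A7

variable {G : Type*} [Group G] [Finite G]

namespace Fr
variable {F : Fr G} {u0 g g' v d1 d2 η η1 η2 κ k a b γ : G}

theorem HNu2 (F : Fr G) : F.u2 = F.z * F.u1 := F.u2_eq F.hu1

theorem HNu1 (F : Fr G) : F.z * F.u2 = F.u1 := by rw [F.HNu2, F.b2_zz]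

theorem HNsw {x : G} (hT : x ∈ 𝐍(F.T)) (hW : F.W1 ^ᶜ x = F.W2) : F.W2 ^ᶜ x = F.W1 := by
  rcases F.permW hT with h | h
  · exact absurd ((cj_eq_of_mem_normalizer h.1).symm.trans hW) F.W1ne
  · exact h.2

omit [Finite G] in
theorem HNmul {x n : G} (hW : F.W1 ^ᶜ x = F.W2) (hn : n ∈ F.NN) : F.W1 ^ᶜ (n * x) = F.W2 := by
  rw [← cj_cj, hW]; exact cj_eq_of_mem_normalizer hn.2.2

omit [Finite G] in
theorem HNmul' {x n : G} (hW : F.W1 ^ᶜ x = F.W2) (hn : n ∈ 𝐍(F.W1)) : F.W1 ^ᶜ (x * n) = F.W2 := by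
  rw [← cj_cj, cj_eq_of_mem_normalizer hn, hW]

theorem HNodd {x : G} (hT : x ∈ 𝐍(F.T)) (hW : F.W1 ^ᶜ x = F.W2) {m : ℕ} (hm : Odd m) :
    F.W1 ^ᶜ (x ^ m) = F.W2 := by
  obtain ⟨j, rfl⟩ := hm
  have h2 : x ^ 2 ∈ 𝐍(F.W1) := by
    rw [← cj_eq_self_iff, pow_two, ← cj_cj, hW, HNsw hT hW]
  rw [pow_succ', pow_mul]
  exact HNmul' hW (pow_mem h2 j)

theorem HNact (c : F.SZ γ) {x : G} (hT : x ∈ 𝐍(F.T)) (hW : F.W1 ^ᶜ x = F.W2) :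
    x * F.u1 * x⁻¹ = F.u2 ∧ x * F.u2 * x⁻¹ = F.u1 ∧
      (x * F.t * x⁻¹ = F.t * F.u2 ∨ x * F.t * x⁻¹ = F.t * F.u1) := by
  have hn : γ⁻¹ * x ∈ F.NN := by
    refine F.mem_NN (mul_mem (inv_mem c.γT) hT) ?_
    rw [← cj_eq_self_iff, ← cj_cj, hW, ← c.γW, cj_cj_inv]
  have e : ∀ s, x * s * x⁻¹ = γ * (γ⁻¹ * x * s * (γ⁻¹ * x)⁻¹) * γ⁻¹ := fun s => by group
  have h1 : x * F.u1 * x⁻¹ = F.u2 := by
    rw [e, B2.cj_of_comm (c.ci.fx1 _ hn), c.γu]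
  have hz : x * F.z * x⁻¹ = F.z := B2.cj_of_comm (F.Nz hT)
  refine ⟨h1, ?_, ?_⟩
  · rw [F.HNu2, B2.cj_mul, hz, h1, F.HNu1]
  · rcases c.ci.tz hn with h | h
    · left; rw [e, h, c.γt]
    · right
      rw [e, h, B2.cj_mul, c.γt, B2.cj_of_comm (F.Nz c.γT), mul_assoc, F.HNu2, mul_assoc, ← F.zu1, F.b2_zz]

theorem HNv (F : Fr G) {x : G} (hz : x * F.z = F.z * x) (hW : F.W1 ^ᶜ x = F.W2)
    (ht : x * F.t * x⁻¹ = F.t * F.u2) (hu : x * F.u1 * x⁻¹ = F.u2) :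
    x * F.v1 * x⁻¹ = F.v2 ∨ x * F.v1 * x⁻¹ = F.z * F.v2 := by
  have a1 := B2.comm_cj x F.y1t
  have a2 := B2.comm_cj x F.y1u
  rw [ht] at a1
  rw [hu] at a2
  have hN : x * F.y1 * x⁻¹ ∈ 𝐍(F.W2) := B2.norm_cj hW F.y1N
  have e : x * F.y1 * x⁻¹ * F.z * (x * F.y1 * x⁻¹)⁻¹ = x * F.v1 * x⁻¹ := by
    rw [← F.y1z]
    conv_lhs => rw [← B2.cj_of_comm hz]
    group
  generalize x * F.y1 * x⁻¹ = y at a1 a2 hN e
  have a3 : y * F.t = F.t * y := by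
    apply mul_right_cancel (b := F.u2)
    rw [mul_assoc, a1, mul_assoc, mul_assoc, a2]
  have hV : y ∈ 𝐍(F.sw.V1) := (F.nW2 y a3 hN).2
  have hm : x * F.v1 * x⁻¹ ∈ F.sw.V1 := e ▸ conj_mem_of_mem_normalizer hV F.sw.b2_zV
  rcases F.sw.memV1.1 hm with h | h | h | h
  · exact absurd h (cjne F.b2_v1 x)
  · exact absurd (B2.cj_inj' (h.trans (B2.cj_of_comm hz).symm)) F.b2_vz
  · exact Or.inl h
  · exact Or.inr h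

theorem HNv' (F : Fr G) {x : G} (hz : x * F.z = F.z * x) (hW : F.W2 ^ᶜ x = F.W1)
    (ht : x * F.t * x⁻¹ = F.t * F.u1) (hu : x * F.u2 * x⁻¹ = F.u1) :
    x * F.v2 * x⁻¹ = F.v1 ∨ x * F.v2 * x⁻¹ = F.z * F.v1 :=
  F.sw.HNv (x := x) hz hW ht hu

theorem HNg (gT : g ∈ 𝐂(closure ({F.v1, F.v2, F.u1} : Set G))) :
    g * F.v1 * g⁻¹ = F.v1 ∧ g * F.v2 * g⁻¹ = F.v2 ∧ g * F.u1 * g⁻¹ = F.u1 ∧ g * F.z * g⁻¹ = F.z := by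
  have h1 : F.v1 ∈ closure ({F.v1, F.v2, F.u1} : Set G) := subset_closure (by simp)
  have h2 : F.v2 ∈ closure ({F.v1, F.v2, F.u1} : Set G) := subset_closure (by simp)
  have h3 : F.u1 ∈ closure ({F.v1, F.v2, F.u1} : Set G) := subset_closure (by simp)
  exact ⟨conj_eq_of_mem_centralizer gT h1, conj_eq_of_mem_centralizer gT h2,
    conj_eq_of_mem_centralizer gT h3, conj_eq_of_mem_centralizer gT (F.B1z h1 h2)⟩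

theorem HNgN (gT : g ∈ 𝐂(closure ({F.v1, F.v2, F.u1} : Set G))) (gt : g * F.t * g⁻¹ = F.t * F.z) :
    g ∈ F.NN := by
  obtain ⟨h1, h2, h3, h4⟩ := HNg gT
  refine F.mem_NN ?_ ?_
  · rw [F.T_eq]
    refine B2.norm_gen fun x hx => ?_
    rw [← F.T_eq]
    simp only [Set.mem_insert_iff, Set.mem_singleton_iff] at hx
    rcases hx with rfl | rfl | rfl | rfl
    · rw [gt]; exact mul_mem F.b2_tT (F.B1z F.b2_v1T F.b2_v2T)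
    · rw [h1]; exact F.b2_v1T
    · rw [h2]; exact F.b2_v2T
    · rw [h3]; exact F.b2_uT
  · refine B2.norm_gen (s := {F.t, F.z, F.v1, F.u1}) fun x hx => ?_
    change _ ∈ F.W1
    simp only [Set.mem_insert_iff, Set.mem_singleton_iff] at hx
    rcases hx with rfl | rfl | rfl | rfl
    · rw [gt]; exact mul_mem F.b2_tW (F.X1W1 F.b2_zX)
    · rw [h4]; exact F.X1W1 F.b2_zX
    · rw [h1]; exact F.b2_vW
    · rw [h3]; exact F.X1W1 F.b2_uX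

omit [Finite G] in
theorem HNcj (n x s : G) : n * x * s * (n * x)⁻¹ = n * (x * s * x⁻¹) * n⁻¹ := by group

omit [Finite G] in
theorem HNback {y s s' : G} (e1 : g * s * g⁻¹ = s') (e2 : y * y * s * (y * y)⁻¹ = s') :
    s * (g⁻¹ * (y * y)) = g⁻¹ * (y * y) * s := by
  refine (B2.comm_of_cj ?_).symm
  rw [HNcj, e2, ← e1]; group

theorem HN1 (c : F.SZ γ) {Q : Subgroup G} {x : G} (xQ : x ∈ Q) (xT : x ∈ 𝐍(F.T)) (xW : F.W1 ^ᶜ x = F.W2)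
    (gQ : g ∈ Q) (gT : g ∈ 𝐂(closure ({F.v1, F.v2, F.u1} : Set G))) (gt : g * F.t * g⁻¹ = F.t * F.z) :
    ∃ y ∈ Q, y ∈ 𝐍(F.T) ∧ F.W1 ^ᶜ y = F.W2 ∧ y * F.t * y⁻¹ = F.t * F.u2 := by
  have gN := HNgN gT gt
  rcases (HNact c xT xW).2.2 with h | h
  · exact ⟨x, xQ, xT, xW, h⟩
  · refine ⟨g * x, mul_mem gQ xQ, mul_mem gN.1 xT, HNmul xW gN, ?_⟩
    rw [HNcj, h, B2.cj_mul, gt, (HNg gT).2.2.1, mul_assoc, ← F.HNu2]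

theorem HN2 (c : F.SZ γ) {Q : Subgroup G} {x : G} (xQ : x ∈ Q) (xT : x ∈ 𝐍(F.T)) (xW : F.W1 ^ᶜ x = F.W2)
    (xt : x * F.t * x⁻¹ = F.t * F.u2) (hT : F.T ≤ Q) :
    ∃ y ∈ Q, y ∈ 𝐍(F.T) ∧ F.W1 ^ᶜ y = F.W2 ∧ y * F.t * y⁻¹ = F.t * F.u2 ∧ y * F.v1 * y⁻¹ = F.v2 := by
  have v1i : F.v1⁻¹ = F.v1 := F.sw.b2_v2i
  rcases F.HNv (F.Nz xT) xW xt (HNact c xT xW).1 with h | h
  · exact ⟨x, xQ, xT, xW, xt, h⟩
  · have n := F.TNN F.b2_v1T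
    refine ⟨F.v1 * x, mul_mem (hT F.b2_v1T) xQ, mul_mem n.1 xT, HNmul xW n, ?_, ?_⟩
    · rw [HNcj, xt, B2.cj_mul, B2.cj_of_comm F.tv1.symm, B2.cj_of_comm F.u2v1.symm]
    · rw [HNcj, h, B2.cj_mul, B2.cj_of_comm F.zv1.symm, v1i, F.v121, F.b2_zz]

theorem HN3 (c : F.SZ γ) {Q : Subgroup G} {x : G} (xQ : x ∈ Q) (xT : x ∈ 𝐍(F.T)) (xW : F.W1 ^ᶜ x = F.W2)
    (xt : x * F.t * x⁻¹ = F.t * F.u2) (xv : x * F.v1 * x⁻¹ = F.v2) (hT : F.T ≤ Q)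
    (gT : g ∈ 𝐂(closure ({F.v1, F.v2, F.u1} : Set G))) (gt : g * F.t * g⁻¹ = F.t * F.z) :
    ∃ y ∈ Q, y ∈ 𝐍(F.T) ∧ F.W1 ^ᶜ y = F.W2 ∧ y * F.t * y⁻¹ = F.t * F.u2 ∧ y * F.v1 * y⁻¹ = F.v2 ∧
      y * F.v2 * y⁻¹ = F.v1 := by
  obtain ⟨g1, g2, g3, g4⟩ := HNg gT
  have gN := HNgN gT gt
  have g5 : g * F.u2 * g⁻¹ = F.u2 := by rw [F.HNu2, B2.cj_mul, g4, g3]
  have T' : g * x ∈ 𝐍(F.T) := mul_mem gN.1 xT
  have W' := HNmul xW gN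
  have t' : g * x * F.t * (g * x)⁻¹ = F.t * F.u1 := by
    rw [HNcj, xt, B2.cj_mul, gt, g5, mul_assoc, F.HNu1]
  have hk := F.HNv' (F.Nz T') (HNsw T' W') t' (HNact c T' W').2.1
  rw [HNcj] at hk
  rcases hk with h | h
  · exact ⟨x, xQ, xT, xW, xt, xv, B2.cj_inj' (h.trans g1.symm)⟩
  · have h0 : g * (F.z * F.v1) * g⁻¹ = F.z * F.v1 := by rw [B2.cj_mul, g4, g1]
    have h' : x * F.v2 * x⁻¹ = F.z * F.v1 := B2.cj_inj' (h.trans h0.symm)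
    have n := F.TNN F.b2_v2T
    refine ⟨F.v2 * x, mul_mem (hT F.b2_v2T) xQ, mul_mem n.1 xT, HNmul xW n, ?_, ?_, ?_⟩
    · rw [HNcj, xt, B2.cj_mul, B2.cj_of_comm F.tv2.symm, B2.cj_of_comm F.u2v2.symm]
    · rw [HNcj, xv, mul_inv_cancel_right]
    · rw [HNcj, h', B2.cj_mul, B2.cj_of_comm F.B1zv2.symm, F.b2_v2v, F.b2_zz]

theorem HN4 (c : F.SZ γ) {y : G} (yT : y ∈ 𝐍(F.T)) (yW : F.W1 ^ᶜ y = F.W2)
    (yt : y * F.t * y⁻¹ = F.t * F.u2) (p : y * F.v1 * y⁻¹ = F.v2) (q : y * F.v2 * y⁻¹ = F.v1)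
    (gT : g ∈ 𝐂(closure ({F.v1, F.v2, F.u1} : Set G))) (gt : g * F.t * g⁻¹ = F.t * F.z)
    (h2 : P2 (g⁻¹ * (y * y))) : g⁻¹ * (y * y) ∈ F.ZT := by
  obtain ⟨g1, g2, g3, g4⟩ := HNg gT
  have gN := HNgN gT gt
  obtain ⟨r1, r2, -⟩ := HNact c yT yW
  have wt : F.t * (g⁻¹ * (y * y)) = g⁻¹ * (y * y) * F.t := by
    refine HNback gt ?_
    rw [HNcj, yt, B2.cj_mul, yt, r2, mul_assoc, F.HNu2, mul_assoc, F.u11, mul_one]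
  have w1 := HNback (y := y) g1 (by rw [HNcj, p, q])
  have w2 := HNback (y := y) g2 (by rw [HNcj, q, p])
  have w3 := HNback (y := y) g3 (by rw [HNcj, r1, r2])
  have wN : g⁻¹ * (y * y) ∈ 𝐍(F.T) := mul_mem (inv_mem gN.1) (mul_mem yT yT)
  generalize g⁻¹ * (y * y) = w at h2 wt w1 w2 w3 wN
  have wC : w ∈ 𝐂(F.T) := by
    rw [F.T_eq]
    refine B2.cent_gen fun s hs => ?_
    simp only [Set.mem_insert_iff, Set.mem_singleton_iff] at hs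
    rcases hs with h | h | h | h <;> rw [h] <;> assumption
  exact (F.cenT (mem_of_P2_norm (F.sylT c.d1) (mem_centralizer_singleton_iff.2 wt.symm) h2 wN)).1 wC

theorem SZ.nrm (c : F.SZ γ) {P : Subgroup G} (hP : IsPGroup 2 P) (hT : F.T ≤ P) {x : G} (hx : x ∈ 𝐍(P)) (hxT : x ∈ 𝐍(F.T))
    (hW : F.W1 ^ᶜ x = F.W2) (gP : g ∈ P) (gT : g ∈ 𝐂(closure ({F.v1, F.v2, F.u1} : Set G)))
    (gt : g * F.t * g⁻¹ = F.t * F.z) :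
    ∃ y ∈ 𝐍(P), F.SZ y ∧ y * F.v1 * y⁻¹ = F.v2 ∧ y * F.v2 * y⁻¹ = F.v1 ∧ y * F.u2 * y⁻¹ = F.u1 ∧
      g⁻¹ * (y * y) ∈ F.ZT := by
  obtain ⟨m, hm, h2⟩ := exists_odd_P2 x
  have hQ := isP_sup hP h2 (pow_mem hx m)
  have QN : P ⊔ zpowers (x ^ m) ≤ 𝐍(P) := sup_le le_normalizer (zpowers_le.2 (pow_mem hx m))
  have PQ : P ≤ P ⊔ zpowers (x ^ m) := le_sup_left
  have xQ : x ^ m ∈ P ⊔ zpowers (x ^ m) := mem_sup_right (mem_zpowers _)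
  obtain ⟨x1, Q1, T1, W1, t1⟩ := HN1 c xQ (pow_mem hxT m) (HNodd hxT hW hm) (PQ gP) gT gt
  obtain ⟨x2, Q2, T2, W2, t2, p2⟩ := HN2 c Q1 T1 W1 t1 (hT.trans PQ)
  obtain ⟨y, Q3, T3, W3, t3, p3, q3⟩ := HN3 c Q2 T2 W2 t2 p2 (hT.trans PQ) gT gt
  obtain ⟨r1, r2, -⟩ := HNact c T3 W3
  exact ⟨y, QN Q3, ⟨c.ci, c.d1, T3, P2.of_mem hQ Q3, W3, t3, r1⟩, p3, q3, r2,
    HN4 c T3 W3 t3 p3 q3 gT gt (P2.of_mem hQ (mul_mem (inv_mem (PQ gP)) (mul_mem Q3 Q3)))⟩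

theorem SZ.exT1 (c : F.SZ γ) (gT : g ∈ 𝐂(closure ({F.v1, F.v2, F.u1} : Set G))) (gt : g * F.t * g⁻¹ = F.t * F.z)
    (gg : g * g = 1 ∨ g * g = F.z) :
    ∃ x ∈ 𝐍((F.T ⊔ zpowers g : Subgroup G)), x ∈ 𝐍(F.T) ∧ F.W1 ^ᶜ x = F.W2 := by
  have gN := HNgN gT gt
  have g2 : P2 g := by
    rcases gg with h | h
    · exact P2.of_sq h
    · exact P2.of_mul_self (h ▸ P2.of_sq F.zz)
  have hP := isP_sup F.isPT g2 gN.1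
  have hL : F.T ⊔ zpowers g ≤ F.NN := sup_le F.TNN (zpowers_le.2 gN)
  have hS := F.sylT c.d1
  have e : (F.T ⊔ zpowers g) ⊓ centralizer {F.t} = F.T := by
    refine le_antisymm ?_ (le_inf le_sup_left F.TC)
    exact hS.le_of_le_normalizer' (hP.to_le inf_le_left) inf_le_right
      (inf_le_left.trans (hL.trans inf_le_left))
  have syl : IsSylowIn 2 (F.T ⊔ zpowers g) F.NN := by
    refine syl_of_norm (t := F.t) hP hL ?_ fun n hn _ => ?_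
    · rw [e]; exact hS.mono (le_inf F.TNN F.TC) inf_le_right
    · rcases c.ci.tz hn with h | h
      · exact ⟨1, one_mem _, by rw [h]; group⟩
      · exact ⟨g, mem_sup_right (mem_zpowers g), by rw [h, gt]⟩
  have γN : γ ∈ 𝐍(F.NN) := by
    rw [← cj_eq_self_iff, NN, cj_inf, cj_inf, cj_normalizer, cj_normalizer, cj_normalizer,
      cj_eq_of_mem_normalizer c.γT, c.γW, HNsw c.γT c.γW, inf_comm 𝐍(F.W2)]
  obtain ⟨x, hx, n, hn, h⟩ := syl.frattini' γN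
  have hx' : x = γ * n⁻¹ := by rw [h]; group
  refine ⟨x, hx, ?_, ?_⟩
  · rw [hx']; exact mul_mem c.γT (inv_mem hn.1)
  · rw [hx']; exact HNmul' c.γW (inv_mem hn.2.1)

theorem SZ.om (c : F.SZ γ) {f : G} (hf : f ∈ F.F0) : F.Om (F.t * f) := by
  rcases F.memF0.1 hf with rfl | rfl | rfl | rfl
  · rw [mul_one]; exact F.om_t
  · exact c.ci.oz
  · obtain ⟨σ, hσ, e⟩ := c.ci.sz
    refine ⟨σ * γ, ?_⟩
    rw [HNcj, c.γt, B2.cj_mul, e, B2.cj_of_comm (c.ci.fx2 σ hσ), mul_assoc, F.HNu1]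
  · exact ⟨γ, by rw [c.γt, F.HNu2]⟩

end Fr

end H60M.A6
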