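import Mathlib
import Cfsg.Agent.Lib.B6S.HE

/-! Coordinates on `U / Z0`, the quadratic map, and the singular vectors fixed by `t`, `κ`, `t κ`, `k`, `κ k`. -/

set_option autoImplicit false
set_option linter.unusedSectionVars false

namespace H60M.A6

open Subgroup H69 H36.SW H60M.A7

variable {G : Type*} [Group G] [Finite G]

namespace HVb

/-- coordinates on `U / Z0` -/
abbrev V4 := Fin 2 × Fin 2 × Fin 2 × Fin 2

/-- `z ^ i * g ^ j` -/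
def ze (z g : G) (w : Fin 2 × Fin 2) : G := z ^ (w.1 : ℕ) * g ^ (w.2 : ℕ)

/-- the normal form -/
def nf (v1 d1 v2 d2 : G) (a : V4) : G :=
  v1 ^ (a.1 : ℕ) * d1 ^ (a.2.1 : ℕ) * v2 ^ (a.2.2.1 : ℕ) * d2 ^ (a.2.2.2 : ℕ)

/-- the cocycle -/
def be (ε : Fin 2) (a b : V4) : Fin 2 × Fin 2 :=
  (a.2.2.1 * b.1 + ε * (a.2.2.2 * b.2.1), a.2.2.2 * b.1 + a.2.2.2 * b.2.1 + a.2.2.1 * b.2.1)

/-- scalar multiple -/
def sm (i : Fin 2) (a : V4) : V4 := (i * a.1, i * a.2.1, i * a.2.2.1, i * a.2.2.2)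

/-- the linear map with the given images of the basis -/
def ln (w1 w2 w3 w4 a : V4) : V4 := sm a.1 w1 + sm a.2.1 w2 + sm a.2.2.1 w3 + sm a.2.2.2 w4

omit [Finite G] in
theorem ze_add {z g : G} (zz : z * z = 1) (gg : g * g = 1) (c : z * g = g * z) (x y : Fin 2 × Fin 2) :
    ze z g (x + y) = ze z g x * ze z g y := by
  have c' : Commute (g ^ (x.2 : ℕ)) (z ^ (y.1 : ℕ)) := (Commute.pow_pow (show Commute g z from c.symm) _ _)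
  simp only [ze, Prod.fst_add, Prod.snd_add, B1.pw zz, B1.pw gg]
  calc _ = z ^ (x.1 : ℕ) * (z ^ (y.1 : ℕ) * g ^ (x.2 : ℕ)) * g ^ (y.2 : ℕ) := by simp only [mul_assoc]
    _ = _ := by rw [← c'.eq]; simp only [mul_assoc]

omit [Finite G] in
theorem swp {z g x y : G} {w : Fin 2 × Fin 2} (h : x * y = ze z g w * (y * x)) (a b : Fin 2) :
    x ^ (a : ℕ) * y ^ (b : ℕ) = ze z g (w.1 * (a * b), w.2 * (a * b)) * (y ^ (b : ℕ) * x ^ (a : ℕ)) := by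
  fin_cases a <;> fin_cases b <;> simp [ze] at h ⊢
  exact h

omit [Finite G] in
theorem key {A B C D A' B' C' D' p q r s : G} (h1 : D * A' = p * (A' * D)) (h2 : C * A' = q * (A' * C))
    (h3 : B * A' = A' * B) (h4 : D * B' = r * (B' * D)) (h5 : C * B' = s * (B' * C)) (h6 : D * C' = C' * D)
    (hp : A * B * C * p = p * (A * B * C)) (hq : A * B * q = q * (A * B))
    (hr : A * A' * B * C * r = r * (A * A' * B * C)) (hs : A * A' * B * s = s * (A * A' * B)) :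
    A * B * C * D * (A' * B' * C' * D') = p * q * r * s * (A * A' * (B * B') * (C * C') * (D * D')) := by
  calc _ = A * B * C * (D * A') * B' * C' * D' := by simp only [mul_assoc]
    _ = A * B * C * p * A' * D * B' * C' * D' := by rw [h1]; simp only [mul_assoc]
    _ = p * (A * B * (C * A') * D * B' * C' * D') := by rw [hp]; simp only [mul_assoc]
    _ = p * (A * B * q * A' * C * D * B' * C' * D') := by rw [h2]; simp only [mul_assoc]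
    _ = p * q * (A * (B * A') * C * (D * B') * C' * D') := by rw [hq]; simp only [mul_assoc]
    _ = p * q * (A * A' * B * C * r * B' * D * C' * D') := by rw [h3, h4]; simp only [mul_assoc]
    _ = p * q * r * (A * A' * B * (C * B') * (D * C') * D') := by rw [hr]; simp only [mul_assoc]
    _ = p * q * r * (A * A' * B * s * B' * C * C' * D * D') := by rw [h5, h6]; simp only [mul_assoc]
    _ = _ := by rw [hs]; simp only [mul_assoc]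

omit [Finite G] in
theorem swap_of {x y c : G} (hx : x * x = 1) (hy : y * y = 1) (h : x * y * x * y = c) : x * y = c * (y * x) := by
  rw [← h]
  calc x * y = x * y * (x * (y * y) * x) := by rw [hy, mul_one, hx, mul_one]
    _ = _ := by simp only [mul_assoc]

omit [Finite G] in
theorem swap_of' {x y c : G} (hx : x * x = 1) (hy : y * y = 1) (hc : c * c = 1) (h : x * y * x * y = c) :
    y * x = c * (x * y) := by
  rw [swap_of hx hy h, ← mul_assoc, hc, one_mul]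

/-- `x` has coordinates `a` modulo `Z` -/
def Rl (Z : Subgroup G) (v1 d1 v2 d2 x : G) (a : V4) : Prop := ∃ c ∈ Z, x = c * nf v1 d1 v2 d2 a

end HVb

open HVb

namespace Fr
variable {F : Fr G} {u0 g g' v d1 d2 η η1 η2 κ k a b γ : G}

theorem EN.HVb_zg (h : F.EN u0 g v d1 d2 η κ) : F.z * g = g * F.z :=
  h.ek.toEE.b_Zab h.ek.toEE.b_gZ _ h.ek.toEE.b_zZ

theorem EN.HVb_zeZ (h : F.EN u0 g v d1 d2 η κ) (w : Fin 2 × Fin 2) : ze F.z g w ∈ F.Z0 g v :=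
  mul_mem (pow_mem h.ek.toEE.b_zZ _) (pow_mem h.ek.toEE.b_gZ _)

theorem EN.HVb_ze1 (h : F.EN u0 g v d1 d2 η κ) {w : Fin 2 × Fin 2} (e : ze F.z g w = 1) : w = 0 := by
  have gt := h.ek.gt
  have hz : ∀ x : G, x * F.t = F.t * x → g ≠ x := by
    rintro x c rfl
    rw [c, mul_assoc, h.ek.gg, mul_one] at gt
    exact F.z1 (by simpa using gt)
  obtain ⟨i, j⟩ := w
  fin_cases i <;> fin_cases j <;> simp [ze] at e ⊢
  · exact hz 1 (by simp) e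
  · exact F.z1 e
  · refine hz F.z F.zt ?_
    rw [← inv_eq_of_mul_eq_one_right e, B1.iv' F.zz]

theorem EN.HVb_zeinj (h : F.EN u0 g v d1 d2 η κ) {w w' : Fin 2 × Fin 2} (e : ze F.z g w = ze F.z g w') : w = w' := by
  have h1 : ze F.z g (w + w') = 1 := by
    rw [ze_add F.zz h.ek.gg h.HVb_zg, e]
    exact h.ek.toEE.sqZ0 (h.HVb_zeZ _)
  have h2 := h.HVb_ze1 h1
  revert h2; generalize w = x; generalize w' = y; revert x y; decide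

theorem EN.HVb_nfU (h : F.EN u0 g v d1 d2 η κ) (x : V4) : nf F.v1 d1 F.v2 d2 x ∈ F.U g v d1 d2 :=
  mul_mem (mul_mem (mul_mem (pow_mem h.ek.toEE.b_v1U _) (pow_mem h.ek.toEE.b_d1U _)) (pow_mem h.ek.toEE.b_v2U _))
    (pow_mem h.ek.toEE.b_d2U _)

theorem EN.HVb_c (h : F.EN u0 g v d1 d2 η κ) {x c : G} (hx : x ∈ F.U g v d1 d2) (hc : c ∈ F.Z0 g v) : x * c = c * x :=
  (h.ek.toEE.b_UC hx c hc).symm

theorem EN.HVb_ε (h : F.EN u0 g v d1 d2 η κ) : ∃ ε : Fin 2, d1 * d2 * d1 * d2 = ze F.z g (ε, 1) := by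
  rcases h.ty with e | e
  · exact ⟨0, by simp [ze, e]⟩
  · exact ⟨1, by simp [ze, e, h.HVb_zg]⟩

theorem EN.HVb_mul (h : F.EN u0 g v d1 d2 η κ) {ε : Fin 2} (hε : d1 * d2 * d1 * d2 = ze F.z g (ε, 1)) (x y : V4) :
    nf F.v1 d1 F.v2 d2 x * nf F.v1 d1 F.v2 d2 y = ze F.z g (be ε x y) * nf F.v1 d1 F.v2 d2 (x + y) := by
  have E := h.ek.toEE
  have s1 : d2 * F.v1 = ze F.z g (0, 1) * (F.v1 * d2) := by
    simpa [ze] using swap_of E.d22 F.v11 h.c2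
  have s2 : F.v2 * F.v1 = ze F.z g (1, 0) * (F.v1 * F.v2) := by
    simpa [ze] using F.v21
  have s4 : d2 * d1 = ze F.z g (ε, 1) * (d1 * d2) := swap_of' E.d11 E.d22 (E.sqZ0 (h.HVb_zeZ _)) hε
  have s5 : F.v2 * d1 = ze F.z g (0, 1) * (d1 * F.v2) := by
    simpa [ze] using swap_of' E.d11 F.v22 E.gg h.c1
  have m1 := fun n : ℕ => pow_mem E.b_v1U n
  have m2 := fun n : ℕ => pow_mem E.b_d1U n
  have m3 := fun n : ℕ => pow_mem E.b_v2U n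
  simp only [nf, Prod.fst_add, Prod.snd_add, B1.pw F.v11, B1.pw F.v22, B1.pw E.d11, B1.pw E.d22]
  rw [key (swp s1 _ _) (swp s2 _ _) (Commute.pow_pow (show Commute d1 F.v1 from E.d1v) _ _).eq (swp s4 _ _) (swp s5 _ _)
    (Commute.pow_pow (show Commute d2 F.v2 from E.d2v) _ _).eq
    (h.HVb_c (mul_mem (mul_mem (m1 _) (m2 _)) (m3 _)) (h.HVb_zeZ _))
    (h.HVb_c (mul_mem (m1 _) (m2 _)) (h.HVb_zeZ _))
    (h.HVb_c (mul_mem (mul_mem (mul_mem (m1 _) (m1 _)) (m2 _)) (m3 _)) (h.HVb_zeZ _))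
    (h.HVb_c (mul_mem (mul_mem (m1 _) (m1 _)) (m2 _)) (h.HVb_zeZ _))]
  simp only [← ze_add F.zz E.gg h.HVb_zg]
  congr 2
  generalize ε = e
  revert e x y; decide

theorem EN.HVb_ind (h : F.EN u0 g v d1 d2 η κ) {x : V4} (e : nf F.v1 d1 F.v2 d2 x ∈ F.Z0 g v) : x = 0 := by
  obtain ⟨i, j, l, m⟩ := x
  have K := h.ek
  have a0 : F.Z0 g v ≤ F.Z0 g v ⊔ zpowers F.v1 := le_sup_left
  have a1 : F.Z0 g v ⊔ zpowers F.v1 ≤ F.Z0 g v ⊔ zpowers F.v1 ⊔ zpowers d1 := le_sup_left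
  have a2 : F.Z0 g v ⊔ zpowers F.v1 ⊔ zpowers d1 ≤ F.Z0 g v ⊔ zpowers F.v1 ⊔ zpowers d1 ⊔ zpowers F.v2 := le_sup_left
  have b0 : F.v1 ∈ F.Z0 g v ⊔ zpowers F.v1 := mem_sup_right (mem_zpowers _)
  have b1 : d1 ∈ F.Z0 g v ⊔ zpowers F.v1 ⊔ zpowers d1 := mem_sup_right (mem_zpowers _)
  have b2 : F.v2 ∈ F.Z0 g v ⊔ zpowers F.v1 ⊔ zpowers d1 ⊔ zpowers F.v2 := mem_sup_right (mem_zpowers _)
  simp only [nf] at e
  have hm : m = 0 := by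
    by_contra hm
    obtain rfl : m = 1 := Fin.eq_one_of_ne_zero m hm
    refine K.b_i3 ?_
    have := (mul_mem_cancel_left (mul_mem (mul_mem (pow_mem (a2 (a1 b0)) i) (pow_mem (a2 b1) j)) (pow_mem b2 l))).1
      (a2 (a1 (a0 e)))
    simpa using this
  subst hm
  have hl : l = 0 := by
    by_contra hl
    obtain rfl : l = 1 := Fin.eq_one_of_ne_zero l hl
    refine K.b_i2 ?_
    have e' := a1 (a0 e)
    simp only [Fin.val_zero, pow_zero, mul_one] at e'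
    simpa using (mul_mem_cancel_left (mul_mem (pow_mem (a1 b0) i) (pow_mem b1 j))).1 e'
  subst hl
  have hj : j = 0 := by
    by_contra hj
    obtain rfl : j = 1 := Fin.eq_one_of_ne_zero j hj
    refine K.b_i1 ?_
    have e' := a0 e
    simp only [Fin.val_zero, pow_zero, mul_one] at e'
    simpa using (mul_mem_cancel_left (pow_mem b0 i)).1 e'
  subst hj
  have hi : i = 0 := by
    by_contra hi
    obtain rfl : i = 1 := Fin.eq_one_of_ne_zero i hi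
    exact K.b_i0 (by simpa using e)
  subst hi
  rfl

theorem EN.HVb_ex (h : F.EN u0 g v d1 d2 η κ) {x : G} (hx : x ∈ F.U g v d1 d2) :
    ∃ w, Rl (F.Z0 g v) F.v1 d1 F.v2 d2 x w := by
  obtain ⟨c, hc, i, j, l, m, e⟩ := h.ek.memU.1 hx
  exact ⟨(i, j, l, m), c, hc, by simp only [e, nf, mul_assoc]⟩

theorem EN.HVb_rU (h : F.EN u0 g v d1 d2 η κ) {x : G} {w : V4} (r : Rl (F.Z0 g v) F.v1 d1 F.v2 d2 x w) :
    x ∈ F.U g v d1 d2 := by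
  obtain ⟨c, hc, rfl⟩ := r
  exact mul_mem (h.ek.toEE.b_ZU hc) (h.HVb_nfU _)

theorem EN.HVb_prod (h : F.EN u0 g v d1 d2 η κ) {ε : Fin 2} (hε : d1 * d2 * d1 * d2 = ze F.z g (ε, 1)) {c c' : G}
    (hc' : c' ∈ F.Z0 g v) (x y : V4) : c * nf F.v1 d1 F.v2 d2 x * (c' * nf F.v1 d1 F.v2 d2 y) =
      c * c' * ze F.z g (be ε x y) * nf F.v1 d1 F.v2 d2 (x + y) := by
  calc _ = c * (nf F.v1 d1 F.v2 d2 x * c') * nf F.v1 d1 F.v2 d2 y := by simp only [mul_assoc]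
    _ = c * c' * (nf F.v1 d1 F.v2 d2 x * nf F.v1 d1 F.v2 d2 y) := by
      rw [h.HVb_c (h.HVb_nfU _) hc']; simp only [mul_assoc]
    _ = _ := by rw [h.HVb_mul hε]; simp only [mul_assoc]

theorem EN.HVb_rmul (h : F.EN u0 g v d1 d2 η κ) {x y : G} {w w' : V4} (r : Rl (F.Z0 g v) F.v1 d1 F.v2 d2 x w)
    (r' : Rl (F.Z0 g v) F.v1 d1 F.v2 d2 y w') : Rl (F.Z0 g v) F.v1 d1 F.v2 d2 (x * y) (w + w') := by
  obtain ⟨ε, hε⟩ := h.HVb_ε
  obtain ⟨c, hc, rfl⟩ := r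
  obtain ⟨c', hc', rfl⟩ := r'
  exact ⟨_, mul_mem (mul_mem hc hc') (h.HVb_zeZ _), h.HVb_prod hε hc' w w'⟩

theorem EN.HVb_r0 (h : F.EN u0 g v d1 d2 η κ) {x : G} : Rl (F.Z0 g v) F.v1 d1 F.v2 d2 x 0 ↔ x ∈ F.Z0 g v := by
  have _ := h
  constructor
  · rintro ⟨c, hc, rfl⟩
    simpa [nf] using hc
  · exact fun hx => ⟨x, hx, by simp [nf]⟩

theorem EN.HVb_rZ (h : F.EN u0 g v d1 d2 η κ) {x : G} {w : V4} (r : Rl (F.Z0 g v) F.v1 d1 F.v2 d2 x w)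
    (hx : x ∈ F.Z0 g v) : w = 0 := by
  obtain ⟨c, hc, rfl⟩ := r
  exact h.HVb_ind ((mul_mem_cancel_left hc).1 hx)

theorem EN.HVb_runi (h : F.EN u0 g v d1 d2 η κ) {x : G} {w w' : V4} (r : Rl (F.Z0 g v) F.v1 d1 F.v2 d2 x w)
    (r' : Rl (F.Z0 g v) F.v1 d1 F.v2 d2 x w') : w = w' := by
  have := h.HVb_rZ (h.HVb_rmul r r') (h.ek.b_sqU (h.HVb_rU r))
  revert this; generalize w = x; generalize w' = y; revert x y; decide

theorem EN.HVb_rcos (h : F.EN u0 g v d1 d2 η κ) {x y : G} {w : V4} (r : Rl (F.Z0 g v) F.v1 d1 F.v2 d2 x w)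
    (e : x⁻¹ * y ∈ F.Z0 g v) : Rl (F.Z0 g v) F.v1 d1 F.v2 d2 y w := by
  simpa using h.HVb_rmul r (h.HVb_r0.2 e)

theorem EN.HVb_rsq (h : F.EN u0 g v d1 d2 η κ) {ε : Fin 2} (hε : d1 * d2 * d1 * d2 = ze F.z g (ε, 1)) {x : G} {w : V4}
    (r : Rl (F.Z0 g v) F.v1 d1 F.v2 d2 x w) : x * x = ze F.z g (be ε w w) := by
  obtain ⟨c, hc, rfl⟩ := r
  rw [h.HVb_prod hε hc, h.ek.toEE.sqZ0 hc, show w + w = 0 by revert w; decide]
  simp [nf]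

theorem EN.HVb_rcomm (h : F.EN u0 g v d1 d2 η κ) {ε : Fin 2} (hε : d1 * d2 * d1 * d2 = ze F.z g (ε, 1)) {x y : G}
    {w w' : V4} (r : Rl (F.Z0 g v) F.v1 d1 F.v2 d2 x w) (r' : Rl (F.Z0 g v) F.v1 d1 F.v2 d2 y w') :
    x * y = y * x ↔ be ε w w' = be ε w' w := by
  obtain ⟨c, hc, rfl⟩ := r
  obtain ⟨c', hc', rfl⟩ := r'
  rw [h.HVb_prod hε hc', h.HVb_prod hε hc, add_comm w' w, h.HVb_c (h.ek.toEE.b_ZU hc) hc', mul_left_inj, mul_right_inj]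
  exact ⟨h.HVb_zeinj, fun e => by rw [e]⟩

theorem EN.HVb_rpow (h : F.EN u0 g v d1 d2 η κ) {x : G} {w : V4} (r : Rl (F.Z0 g v) F.v1 d1 F.v2 d2 x w) (i : Fin 2) :
    Rl (F.Z0 g v) F.v1 d1 F.v2 d2 (x ^ (i : ℕ)) (sm i w) := by
  fin_cases i
  · exact ⟨1, one_mem _, by simp [sm, nf]⟩
  · simpa [sm] using r

theorem EN.HVb_rconj (h : F.EN u0 g v d1 d2 η κ) {s : G} (hs : s ∈ 𝐍(F.Z0 g v)) {w1 w2 w3 w4 : V4}
    (r1 : Rl (F.Z0 g v) F.v1 d1 F.v2 d2 (s * F.v1 * s⁻¹) w1) (r2 : Rl (F.Z0 g v) F.v1 d1 F.v2 d2 (s * d1 * s⁻¹) w2)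
    (r3 : Rl (F.Z0 g v) F.v1 d1 F.v2 d2 (s * F.v2 * s⁻¹) w3) (r4 : Rl (F.Z0 g v) F.v1 d1 F.v2 d2 (s * d2 * s⁻¹) w4)
    {x : G} {w : V4} (r : Rl (F.Z0 g v) F.v1 d1 F.v2 d2 x w) :
    Rl (F.Z0 g v) F.v1 d1 F.v2 d2 (s * x * s⁻¹) (ln w1 w2 w3 w4 w) := by
  obtain ⟨c, hc, rfl⟩ := r
  have hc' : s * c * s⁻¹ ∈ F.Z0 g v := (mem_normalizer_iff.1 hs c).1 hc
  have := h.HVb_rmul (h.HVb_r0.2 hc') (h.HVb_rmul (h.HVb_rmul (h.HVb_rmul (h.HVb_rpow r1 w.1) (h.HVb_rpow r2 w.2.1))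
    (h.HVb_rpow r3 w.2.2.1)) (h.HVb_rpow r4 w.2.2.2))
  rw [zero_add] at this
  have e : s * (c * nf F.v1 d1 F.v2 d2 w) * s⁻¹ = s * c * s⁻¹ * ((s * F.v1 * s⁻¹) ^ (w.1 : ℕ) * (s * d1 * s⁻¹) ^ (w.2.1 : ℕ) *
      (s * F.v2 * s⁻¹) ^ (w.2.2.1 : ℕ) * (s * d2 * s⁻¹) ^ (w.2.2.2 : ℕ)) := by
    simp only [nf, conj_pow]
    group
  rw [e]
  exact this

theorem EN.HVb_v1 (h : F.EN u0 g v d1 d2 η κ) : Rl (F.Z0 g v) F.v1 d1 F.v2 d2 F.v1 (1, 0, 0, 0) :=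
  have _ := h; ⟨1, one_mem _, by simp [nf]⟩

theorem EN.HVb_d1 (h : F.EN u0 g v d1 d2 η κ) : Rl (F.Z0 g v) F.v1 d1 F.v2 d2 d1 (0, 1, 0, 0) :=
  have _ := h; ⟨1, one_mem _, by simp [nf]⟩

theorem EN.HVb_v2 (h : F.EN u0 g v d1 d2 η κ) : Rl (F.Z0 g v) F.v1 d1 F.v2 d2 F.v2 (0, 0, 1, 0) :=
  have _ := h; ⟨1, one_mem _, by simp [nf]⟩

theorem EN.HVb_d2 (h : F.EN u0 g v d1 d2 η κ) : Rl (F.Z0 g v) F.v1 d1 F.v2 d2 d2 (0, 0, 0, 1) :=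
  have _ := h; ⟨1, one_mem _, by simp [nf]⟩

theorem EN.HVb_t (h : F.EN u0 g v d1 d2 η κ) {x : G} {w : V4} (r : Rl (F.Z0 g v) F.v1 d1 F.v2 d2 x w) :
    Rl (F.Z0 g v) F.v1 d1 F.v2 d2 (F.t * x * F.t⁻¹) (w.1 + w.2.1, w.2.1, w.2.2.1 + w.2.2.2, w.2.2.2) := by
  have e1 : F.t * d1 * F.t⁻¹ = F.v1 * d1 := by rw [B1.iv' F.tt, ← h.ek.b_td1]; group
  have e2 : F.t * d2 * F.t⁻¹ = F.v2 * d2 := by rw [B1.iv' F.tt, ← h.ek.b_td2]; group
  have := h.HVb_rconj h.ek.toEE.tN (w1 := (1, 0, 0, 0)) (w3 := (0, 0, 1, 0))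
    (by rw [F.tv1, mul_inv_cancel_right]; exact h.HVb_v1) (by rw [e1]; exact h.HVb_rmul h.HVb_v1 h.HVb_d1)
    (by rw [F.tv2, mul_inv_cancel_right]; exact h.HVb_v2) (by rw [e2]; exact h.HVb_rmul h.HVb_v2 h.HVb_d2) r
  convert this using 1
  clear this r; revert w; decide

theorem EN.HVb_κ (h : F.EN u0 g v d1 d2 η κ) {x : G} {w : V4} (r : Rl (F.Z0 g v) F.v1 d1 F.v2 d2 x w) :
    Rl (F.Z0 g v) F.v1 d1 F.v2 d2 (κ * x * κ⁻¹) (w.2.2.1, w.2.2.2, w.1, w.2.1) := by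
  have := h.HVb_rconj h.κZ (by rw [h.κv1]; exact h.HVb_v2) (by rw [h.κd]; exact h.HVb_d2)
    (by rw [h.κv2]; exact h.HVb_v1) (by rw [h.κd2]; exact h.HVb_d1) r
  convert this using 1
  clear this r; revert w; decide

theorem EN.HVb_k (h : F.EN u0 g v d1 d2 η κ) (q : F.KK g v d1 d2 κ k) {x : G} {w : V4}
    (r : Rl (F.Z0 g v) F.v1 d1 F.v2 d2 x w) :
    Rl (F.Z0 g v) F.v1 d1 F.v2 d2 (k * x * k⁻¹) (w.1, w.1 + w.2.2.1 + w.2.2.2, w.2.2.1, w.1 + w.2.1 + w.2.2.1) := by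
  have r2 := h.HVb_rcos h.HVb_d2 q.ke
  have r4 := h.HVb_rcos h.HVb_d1 q.kf
  have r1 := h.HVb_rmul (h.HVb_rcos (h.HVb_rmul h.HVb_v1 h.HVb_d1) q.ke') r2
  have r3 := h.HVb_rmul (h.HVb_rcos (h.HVb_rmul h.HVb_v2 h.HVb_d2) q.kf') r4
  have e1 : k * (F.v1 * d1) * k⁻¹ * (k * d1 * k⁻¹) = k * F.v1 * k⁻¹ := by
    calc _ = k * F.v1 * (d1 * d1) * k⁻¹ := by group
      _ = _ := by rw [h.ek.d11, mul_one]
  have e3 : k * (F.v2 * d2) * k⁻¹ * (k * d2 * k⁻¹) = k * F.v2 * k⁻¹ := by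
    calc _ = k * F.v2 * (d2 * d2) * k⁻¹ := by group
      _ = _ := by rw [h.ek.d22, mul_one]
  rw [e1] at r1
  rw [e3] at r3
  have := h.HVb_rconj q.kZ r1 r2 r3 r4 r
  convert this using 1
  clear this r; revert w; decide

theorem EN.HVb_fixκ (h : F.EN u0 g v d1 d2 η κ) {x : G} (hx : x ∈ F.U g v d1 d2) (h2 : x * x = 1)
    (e : x⁻¹ * (κ * x * κ⁻¹) ∈ F.Z0 g v) : x ∈ F.Z0 g v := by
  obtain ⟨ε, hε⟩ := h.HVb_ε
  obtain ⟨w, r⟩ := h.HVb_ex hx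
  have a1 := h.HVb_ze1 ((h.HVb_rsq hε r).symm.trans h2)
  have a2 := h.HVb_runi (h.HVb_rcos r e) (h.HVb_κ r)
  have : w = 0 := by clear r hε; revert w ε; decide
  exact h.HVb_r0.1 (this ▸ r)

set_option synthInstance.maxSize 2000 in
theorem EN.HVb_fix1 (h : F.EN u0 g v d1 d2 η κ) {s : G} (hs : s = F.t ∨ s = F.t * κ ∨ (F.KK g v d1 d2 κ k ∧ (s = k ∨ s = κ * k))) {x y : G}
    (hx : x ∈ F.U g v d1 d2) (hy : y ∈ F.U g v d1 d2) (x2 : x * x = 1) (y2 : y * y = 1) (c : x * y = y * x)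
    (ex : x⁻¹ * (s * x * s⁻¹) ∈ F.Z0 g v) (ey : y⁻¹ * (s * y * s⁻¹) ∈ F.Z0 g v) : x ∈ F.Z0 g v ∨ y ∈ F.Z0 g v ∨ x * y ∈ F.Z0 g v := by
  obtain ⟨ε, hε⟩ := h.HVb_ε
  obtain ⟨w, r⟩ := h.HVb_ex hx
  obtain ⟨w', r'⟩ := h.HVb_ex hy
  have a1 := h.HVb_ze1 ((h.HVb_rsq hε r).symm.trans x2)
  have a2 := h.HVb_ze1 ((h.HVb_rsq hε r').symm.trans y2)
  have a3 := (h.HVb_rcomm hε r r').1 c
  have b1 := h.HVb_rcos r ex
  have b2 := h.HVb_rcos r' ey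
  have cj : ∀ p q x : G, p * q * x * (p * q)⁻¹ = p * (q * x * q⁻¹) * p⁻¹ := fun p q x => by group
  suffices w = 0 ∨ w' = 0 ∨ w + w' = 0 by
    rcases this with e | e | e
    · exact Or.inl (h.HVb_r0.1 (e ▸ r))
    · exact Or.inr (Or.inl (h.HVb_r0.1 (e ▸ r')))
    · exact Or.inr (Or.inr (h.HVb_r0.1 (e ▸ h.HVb_rmul r r')))
  rcases hs with rfl | rfl | ⟨q, rfl | rfl⟩
  · have c1 := h.HVb_runi b1 (h.HVb_t r)
    have c2 := h.HVb_runi b2 (h.HVb_t r')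
    clear r r' b1 b2 hε; fin_cases ε <;> (revert w w'; decide)
  · rw [cj] at b1 b2
    have c1 := h.HVb_runi b1 (h.HVb_t (h.HVb_κ r))
    have c2 := h.HVb_runi b2 (h.HVb_t (h.HVb_κ r'))
    clear r r' b1 b2 hε; fin_cases ε <;> (revert w w'; decide)
  · have c1 := h.HVb_runi b1 (h.HVb_k q r)
    have c2 := h.HVb_runi b2 (h.HVb_k q r')
    have hε0 : ε = 0 := by
      have : ze F.z g (ε, 1) = ze F.z g (0, 1) := by rw [← hε, q.W]; simp [ze]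
      exact congrArg Prod.fst (h.HVb_zeinj this)
    subst hε0
    clear r r' b1 b2 hε; revert w w'; decide
  · rw [cj] at b1 b2
    have c1 := h.HVb_runi b1 (h.HVb_κ (h.HVb_k q r))
    have c2 := h.HVb_runi b2 (h.HVb_κ (h.HVb_k q r'))
    have hε0 : ε = 0 := by
      have : ze F.z g (ε, 1) = ze F.z g (0, 1) := by rw [← hε, q.W]; simp [ze]
      exact congrArg Prod.fst (h.HVb_zeinj this)
    subst hε0
    clear r r' b1 b2 hε; revert w w'; decide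

end Fr

end H60M.A6
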