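import Mathlib
import Cfsg.Agent.Lib.B6S.HK
import Cfsg.Agent.Lib.B6S.HK3
import Cfsg.Agent.Lib.B6S.HL
import Cfsg.Agent.Lib.B6S.HC
import Cfsg.Agent.Lib.B6S.H4

/-! From `ES` to a Sylow subgroup of type `D₈ × D₈`. -/

set_option autoImplicit false

namespace H60M.A6

open Subgroup H69 H36.SW H60M.A7

variable {G : Type*} [Group G] [Finite G]

namespace Fr
variable {F : Fr G} {u0 g v d1 d2 η κ γ : G}

theorem EN.sy (h : F.EN u0 g v d1 d2 η κ) : ∃ k, F.SY u0 g v d1 d2 η κ k := by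
  rcases h.syl2 with s | ⟨k, q⟩
  · exact ⟨1, h, Or.inl rfl, s, h.wc (Or.inl rfl)⟩
  · exact ⟨k, h, Or.inr q, h.syl3 q, h.wc (Or.inr q)⟩

theorem ES.sy (h : F.ES u0 g v d1 d2 η κ) :
    ∃ d2 κ k, F.SY u0 g v d1 d2 η κ k ∧ d1 * d2 * d1 * d2 = g := by
  rcases h.en with ⟨d2, κ, e⟩ | ⟨a, b, c⟩
  · obtain ⟨k, s⟩ := e.sy
    exact ⟨d2, κ, k, s, s.W⟩
  · exact (h.four b a c).elim

end Fr

end H60M.A6
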