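import Mathlib
import Cfsg.Agent.Lib.B6S.HD

/-! Type `ZZ`, `CI`: an element moving `t` to `t e`, `e² = z`, and `u1` to `u2`. -/

set_option autoImplicit false

namespace H60M.A6

open Subgroup H69 H36.SW H60M.A7

variable {G : Type*} [Group G] [Finite G]

namespace Fr
variable {F : Fr G} {u0 g g' v d1 d2 η η1 η2 κ k a b γ : G}

theorem ZZ.Y1sq (h : F.ZZ 1 g g' 1 1 d1 d2 η1 η2) {x : G} (hx : x ∈ F.R g 1 d1) : x * x ∈ F.V1 := by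
  obtain ⟨w, hw, i, j, k, rfl⟩ := h.memR.1 hx
  rw [h.zasq hw, one_pow, mul_one]
  exact mul_mem (pow_mem F.b2_vV _) (pow_mem F.b2_zV _)

theorem ZZ.Y1VR (h : F.ZZ 1 g g' 1 1 d1 d2 η1 η2) : F.V1 ≤ F.R g 1 d1 := F.V1X1.trans h.XR

theorem ZZ.Y1NV (h : F.ZZ 1 g g' 1 1 d1 d2 η1 η2) {n : G} (hn : n ∈ 𝐍(F.R g 1 d1)) : n ∈ 𝐍(F.V1) :=
  ZA.nrm (by
    rintro _ (rfl | rfl)
    · have := h.Y1sq (conj_mem_of_mem_normalizer hn h.zaG)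
      rwa [conj_mul, h.gg] at this
    · have := h.Y1sq (conj_mem_of_mem_normalizer hn h.zad)
      rwa [conj_mul, h.d11] at this)

theorem ZZ.Y1rt (h : F.ZZ 1 g g' 1 1 d1 d2 η1 η2) {w : G} (hw : w ∈ F.V1) : ∃ a ∈ F.K4 g d1, a * a = w := by
  have gK : g ∈ F.K4 g d1 := subset_closure (by simp)
  have dK : d1 ∈ F.K4 g d1 := subset_closure (by simp)
  rcases F.memV1.1 hw with rfl | rfl | rfl | rfl
  exacts [⟨1, one_mem _, mul_one _⟩, ⟨g, gK, h.gg⟩, ⟨d1, dK, h.d11⟩,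
    ⟨g * d1, mul_mem gK dK, by rw [ZA.mm (h.zac h.zaG h.zad), h.gg, h.d11]⟩]

theorem ZZ.Y1KR (h : F.ZZ 1 g g' 1 1 d1 d2 η1 η2) : F.K4 g d1 ≤ F.R g 1 d1 :=
  (closure_le _).2 (by rintro _ (rfl | rfl); exacts [h.zaG, h.zad])

/-- an element of `N(R) ∩ C(V1)` moving `t` inside `t X1` acts on `R` as `±1` and moves `t` inside `t V1` -/
theorem ZZ.Y1pm (h : F.ZZ 1 g g' 1 1 d1 d2 η1 η2) {n e : G} (hn : n ∈ 𝐍(F.R g 1 d1)) (he : e ∈ F.R g 1 d1)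
    (h1 : n * F.t * n⁻¹ = F.t * e) (h2 : e * e = 1) (h3 : n ∈ 𝐂(F.V1)) :
    e ∈ F.V1 ∧ ((∀ x ∈ F.R g 1 d1, n * x * n⁻¹ = x) ∨ ∀ x ∈ F.R g 1 d1, n * x * n⁻¹ = x⁻¹) := by
  obtain ⟨q, hq, o, ho, -, rfl⟩ := h.SP' hn he h1 h2 h3
  have c : ∀ x ∈ F.R g 1 d1 ⊔ zpowers F.t, q * o * x * (q * o)⁻¹ = q * x * q⁻¹ := fun x hx => by
    conv_rhs => rw [← conj_eq_of_mem_centralizer ho hx]
    group
  rw [c _ (ZA.zr _ _)] at h1
  have ti : F.t⁻¹ = F.t := inv_eq_of_mul_eq_one_right F.tt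
  rcases ZD.memQ h hq with k | ⟨a, ha, rfl⟩
  · rw [h.zat k, mul_right_inj] at h1
    exact ⟨h1 ▸ h.Y1sq k, Or.inl fun x hx => by rw [c x (mem_sup_left hx), h.zac k hx, mul_inv_cancel_right]⟩
  · rw [show a * F.t * F.t * (a * F.t)⁻¹ = a * F.t * a⁻¹ by group, h.zat ha, mul_right_inj] at h1
    refine ⟨h1 ▸ h.Y1sq ha, Or.inr fun x hx => ?_⟩
    rw [c x (mem_sup_left hx), show a * F.t * x * (a * F.t)⁻¹ = a * (F.t * x * F.t⁻¹) * a⁻¹ by group, ti,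
      h.inv hx, h.zac ha (inv_mem hx), mul_inv_cancel_right]

theorem ZZ.Y1tr (h : F.ZZ 1 g g' 1 1 d1 d2 η1 η2) {f e : G} (hf : f ∈ 𝐍(F.R g 1 d1)) (hV : f ∈ 𝐂(F.V1))
    (he : e ∈ F.R g 1 d1) (h3 : f * F.t * f⁻¹ = F.t * e) (h4 : e * e = F.z) (hu : f * F.u1 * f⁻¹ = F.u2) :
    ∀ y ∈ F.R g 1 d1, ∃ w ∈ F.V1, f * y * f⁻¹ = y * w := by
  have he' := conj_mem_of_mem_normalizer hf he
  have k := (h.Y1pm (n := f * f) (mul_mem hf hf) (mul_mem he he') (by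
      calc f * f * F.t * (f * f)⁻¹ = f * (f * F.t * f⁻¹) * f⁻¹ := by group
        _ = f * (F.t * e) * f⁻¹ := by rw [h3]
        _ = f * F.t * f⁻¹ * (f * e * f⁻¹) := by group
        _ = _ := by rw [h3, mul_assoc])
    (by rw [ZA.mm (h.zac he he'), conj_mul, h4, conj_eq_of_mem_centralizer hV F.b2_zV, F.zz])
    (mul_mem hV hV)).2
  have st : ∀ y ∈ F.R g 1 d1, (y⁻¹ * (f * y * f⁻¹) ∈ F.V1 ∧ f * f * y * (f * f)⁻¹ = y) ∨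
      f * f * y * (f * f)⁻¹ = y * F.z := fun y hy => by
    have hy' := conj_mem_of_mem_normalizer hf hy
    have hx := mul_mem (inv_mem hy) hy'
    have x2 : y⁻¹ * (f * y * f⁻¹) * (y⁻¹ * (f * y * f⁻¹)) = 1 := by
      rw [ZA.mm (h.zac (inv_mem hy) hy'), conj_mul, conj_eq_of_mem_centralizer hV (h.Y1sq hy)]; group
    have e1 : f * f * y * (f * f)⁻¹ = y * (y⁻¹ * (f * y * f⁻¹) * (f * (y⁻¹ * (f * y * f⁻¹)) * f⁻¹)) := by group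
    have xX := (h.sq hx).2.1 x2
    generalize y⁻¹ * (f * y * f⁻¹) = x at hx x2 e1 xX
    rcases ZD.Xmem F xX with k | k
    · exact Or.inl ⟨k, by rw [e1, conj_eq_of_mem_centralizer hV k, x2, mul_one]⟩
    · refine Or.inr ?_
      have e2 := conj_eq_of_mem_centralizer hV k
      rw [← conj_mul, hu, F.u2_eq F.hu1, ← mul_assoc, mul_left_inj] at e2
      rw [e1, eq_mul_inv_of_mul_eq e2, ← mul_assoc x, x2, one_mul, inv_eq_of_mul_eq_one_right F.zz]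
  have k1 : ∀ x ∈ F.R g 1 d1, f * f * x * (f * f)⁻¹ = x := k.resolve_right fun k => by
    have e1 := k d1 h.zad
    rcases st d1 h.zad with e2 | e2
    · exact F.b2_v1 (by rw [← h.d11]; exact mul_eq_one_iff_eq_inv.2 (e2.2.symm.trans e1))
    · refine F.b2_vz ?_
      have e3 : d1 * d1 * F.z = 1 := by rw [mul_assoc, ← e2, e1, mul_inv_cancel]
      rw [h.d11] at e3
      rw [eq_inv_of_mul_eq_one_left e3, inv_eq_of_mul_eq_one_right F.zz]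
  intro y hy
  rcases st y hy with e2 | e2
  · exact ⟨_, e2.1, by group⟩
  · rw [k1 y hy] at e2
    exact absurd (left_eq_mul.1 e2) F.z1

theorem ZZ.eps (h : F.ZZ 1 g g' 1 1 d1 d2 η1 η2) {f e : G} (hf : f ∈ 𝐍(F.R g 1 d1)) (hV : f ∈ 𝐂(F.V1)) (he : e ∈ F.R g 1 d1)
    (h3 : f * F.t * f⁻¹ = F.t * e) (h4 : e * e = F.z) (hu : f * F.u1 * f⁻¹ = F.u2) :
    g⁻¹ * e ∈ F.V1 ∧ f ∈ 𝐍(F.K4 g d1) := by
  have tr := h.Y1tr hf hV he h3 h4 hu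
  have VK : F.V1 ≤ F.K4 g d1 := fun w hw => by
    obtain ⟨a, ha, rfl⟩ := h.Y1rt hw
    exact mul_mem ha ha
  refine ⟨?_, ZA.nrm ?_⟩
  swap
  · rintro _ (rfl | rfl)
    · obtain ⟨w, hw, e⟩ := tr _ h.zaG
      rw [e]; exact mul_mem (subset_closure (by simp)) (VK hw)
    · obtain ⟨w, hw, e⟩ := tr _ h.zad
      rw [e]; exact mul_mem (subset_closure (by simp)) (VK hw)
  have uR : F.u1 ∈ F.R g 1 d1 := h.XR F.b2_uX
  have xX : g⁻¹ * e ∈ F.X1 := (h.sq (mul_mem (inv_mem h.zaG) he)).2.1 (by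
    rw [ZA.mm (h.zac (inv_mem h.zaG) he), h4, ← mul_inv_rev, h.gg, inv_mul_cancel])
  refine (ZD.Xmem F xX).resolve_right fun hw => F.b2_uV F.hu1 ?_
  obtain ⟨w0, e0⟩ : ∃ w0, w0 = g⁻¹ * e * F.u1 := ⟨_, rfl⟩
  rw [← e0] at hw
  have ee : e = g * w0 * F.u1 := by rw [e0, mul_assoc, mul_assoc, F.u11]; group
  have ηR := h.ηN
  have ηV := h.Y1NV ηR
  have ηC : ∀ n ∈ 𝐂(F.V1), η1 * n * η1⁻¹ ∈ 𝐂(F.V1) := fun n hn =>
    conj_mem_of_mem_normalizer (normalizer_le_normalizer_centralizer _ ηV) hn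
  have ηN : ∀ n ∈ 𝐍(F.R g 1 d1), η1 * n * η1⁻¹ ∈ 𝐍(F.R g 1 d1) := fun n hn =>
    mul_mem (mul_mem ηR hn) (inv_mem ηR)
  have ηt : ∀ n x, n * F.t * n⁻¹ = F.t * x →
      η1 * n * η1⁻¹ * F.t * (η1 * n * η1⁻¹)⁻¹ = F.t * (η1 * x * η1⁻¹) := fun n x k => by
    have c : η1 * F.t * η1⁻¹ = F.t := by rw [h.η1t, mul_inv_cancel_right]
    calc η1 * n * η1⁻¹ * F.t * (η1 * n * η1⁻¹)⁻¹ = η1 * n * η1⁻¹ * (η1 * F.t * η1⁻¹) * (η1 * n * η1⁻¹)⁻¹ := by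
          rw [c]
      _ = η1 * (n * F.t * n⁻¹) * η1⁻¹ := by group
      _ = η1 * F.t * η1⁻¹ * (η1 * x * η1⁻¹) := by rw [k]; group
      _ = _ := by rw [c]
  have ηu : η1 * F.u1 * η1⁻¹ = F.u1 := by rw [h.η1u, mul_inv_cancel_right]
  have w1V := conj_mem_of_mem_normalizer ηV hw
  have w2V := conj_mem_of_mem_normalizer ηV w1V
  have e1 : η1 * e * η1⁻¹ = d1 * (η1 * w0 * η1⁻¹) * F.u1 := by
    rw [ee, ← conj_mul, ← conj_mul, h.η1g, ηu]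
  have e2 : η1 * (η1 * e * η1⁻¹) * η1⁻¹ = (g * d1)⁻¹ * (η1 * (η1 * w0 * η1⁻¹) * η1⁻¹) * F.u1 := by
    rw [e1, ← conj_mul, ← conj_mul, h.η1d, ηu]
  have t1 := ηt _ _ h3
  have t2 := ηt _ _ t1
  have N1 := ηN _ hf
  have N2 := ηN _ N1
  have C1 := ηC _ hV
  have C2 := ηC _ C1
  have R1 := conj_mem_of_mem_normalizer ηR he
  have R2 := conj_mem_of_mem_normalizer ηR R1
  have tr1 : ∃ w ∈ F.V1, η1 * f * η1⁻¹ * (η1 * (η1 * e * η1⁻¹) * η1⁻¹) * (η1 * f * η1⁻¹)⁻¹ =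
      η1 * (η1 * e * η1⁻¹) * η1⁻¹ * w := by
    obtain ⟨w, hw, k⟩ := tr _ R1
    refine ⟨_, conj_mem_of_mem_normalizer ηV hw, ?_⟩
    calc _ = η1 * (f * (η1 * e * η1⁻¹) * f⁻¹) * η1⁻¹ := by group
      _ = _ := by rw [k]; group
  obtain ⟨w', hw', k1⟩ := tr1
  generalize η1 * (η1 * f * η1⁻¹) * η1⁻¹ = f2 at t2 N2 C2
  generalize η1 * f * η1⁻¹ = f1 at t1 N1 C1 k1
  generalize η1 * (η1 * e * η1⁻¹) * η1⁻¹ = x2 at t2 R2 e2 k1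
  generalize η1 * e * η1⁻¹ = x1 at t1 R1 e1
  generalize η1 * (η1 * w0 * η1⁻¹) * η1⁻¹ = w2 at w2V e2
  generalize η1 * w0 * η1⁻¹ = w1 at w1V e1
  obtain ⟨w'', hw'', k2⟩ := tr _ (mul_mem R1 (mul_mem R2 (h.Y1VR hw')))
  have tn : f * (f1 * f2) * F.t * (f * (f1 * f2))⁻¹ = F.t * (e * (x1 * (x2 * w') * w'')) := by
    calc f * (f1 * f2) * F.t * (f * (f1 * f2))⁻¹ = f * (f1 * (f2 * F.t * f2⁻¹) * f1⁻¹) * f⁻¹ := by group
      _ = f * (f1 * F.t * f1⁻¹ * (f1 * x2 * f1⁻¹)) * f⁻¹ := by rw [t2]; group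
      _ = f * F.t * f⁻¹ * (f * (x1 * (x2 * w')) * f⁻¹) := by rw [t1, k1]; group
      _ = _ := by rw [h3, k2, mul_assoc]
  have ev : e * (x1 * (x2 * w') * w'') = w0 * w1 * w2 * F.u1 * (w' * w'') := by
    have c1 := h.zac (mul_mem (h.Y1VR hw) uR) h.zad
    have c2 := h.zac uR (h.Y1VR w1V)
    have c3 := h.zac (mul_mem h.zaG h.zad) (mul_mem (h.Y1VR hw) (h.Y1VR w1V))
    calc e * (x1 * (x2 * w') * w'') =
          g * (w0 * F.u1 * d1) * w1 * F.u1 * (g * d1)⁻¹ * w2 * F.u1 * (w' * w'') := by rw [ee, e1, e2]; group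
      _ = g * d1 * w0 * (F.u1 * w1) * F.u1 * (g * d1)⁻¹ * w2 * F.u1 * (w' * w'') := by rw [c1]; group
      _ = g * d1 * (w0 * w1) * (F.u1 * F.u1) * (g * d1)⁻¹ * w2 * F.u1 * (w' * w'') := by rw [c2]; group
      _ = _ := by rw [c3, F.u11]; group
  rw [ev] at tn
  have a1 := mul_mem (mul_mem hw w1V) w2V
  have a2 := mul_mem hw' hw''
  have mX := mul_mem (mul_mem (F.V1X1 a1) F.b2_uX) (F.V1X1 a2)
  have := (h.Y1pm (mul_mem hf (mul_mem N1 N2)) (h.XR mX) tn (F.sqW1 (F.X1W1 mX)) (mul_mem hV (mul_mem C1 C2))).1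
  exact (F.V1.mul_mem_cancel_left a1).1 ((F.V1.mul_mem_cancel_right a2).1 this)

theorem ZZ.eps' (h : F.ZZ 1 g g' 1 1 d1 d2 η1 η2) {f e : G} (h1 : f ∈ 𝐍((F.R g 1 d1 ⊔ closure {F.t, F.v2} : Subgroup G)))
    (hf : f ∈ 𝐍(F.R g 1 d1)) (he : e ∈ F.R g 1 d1) (h3 : f * F.t * f⁻¹ = F.t * e) (h4 : e * e = F.z)
    (hu : f * F.u1 * f⁻¹ = F.u2) : g⁻¹ * e ∈ F.V1 ∧ ∃ f' ∈ 𝐍(F.R g 1 d1), f' ∈ 𝐂(F.V1) ∧ f' ∈ 𝐍(F.K4 g d1) ∧
      f' * F.t * f'⁻¹ = F.t * g ∧ f' * F.u1 * f'⁻¹ = F.u2 := by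
  have fV := h.Y1NV hf
  have zS : (F.R g 1 d1 ⊔ closure {F.t, F.v2} : Subgroup G) ≤ centralizer {F.z} :=
    sup_le (fun x hx => mem_centralizer_singleton_iff.2 (h.zac hx (h.Y1VR F.b2_zV))) ((closure_le _).2 (by
      rintro x (rfl | rfl)
      exacts [mem_centralizer_singleton_iff.2 F.zt.symm, mem_centralizer_singleton_iff.2 F.B1zv2.symm]))
  have fz : f * F.z = F.z * f := by
    have c := mem_centralizer_singleton_iff.1 (zS (conj_mem_of_mem_normalizer' h1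
      (mem_sup_right (subset_closure (by simp)) : F.v2 ∈ (F.R g 1 d1 ⊔ closure {F.t, F.v2} : Subgroup G))))
    have c' : F.v2 * (f * F.z * f⁻¹) = f * F.z * f⁻¹ * F.v2 := by
      calc F.v2 * (f * F.z * f⁻¹) = f * (f⁻¹ * F.v2 * f * F.z) * f⁻¹ := by group
        _ = _ := by rw [c]; group
    rcases F.memV1.1 (conj_mem_of_mem_normalizer fV F.b2_zV) with k | k | k | k
    · exact absurd (conj_eq_one_iff.1 k) F.z1
    · exact mul_inv_eq_iff_eq_mul.1 k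
    · rw [k] at c'; exact absurd c' F.zanc
    · rw [k, ← mul_assoc, ← F.B1zv2, mul_assoc, mul_assoc, mul_right_inj] at c'
      exact absurd c' F.zanc
  obtain ⟨f0, n0, c0, t0, u0⟩ : ∃ f0 ∈ 𝐍(F.R g 1 d1), f0 ∈ 𝐂(F.V1) ∧ f0 * F.t * f0⁻¹ = F.t * e ∧
      f0 * F.u1 * f0⁻¹ = F.u2 := by
    rcases F.b2_pure fz fV with k | k
    · exact ⟨f, hf, ZA.cen (by rintro _ (rfl | rfl); exacts [fz.symm, k.symm]), h3, hu⟩
    · refine ⟨f * F.v2, mul_mem hf h.v2N, ZA.cen ?_, ?_, ?_⟩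
      · rintro _ (rfl | rfl)
        · rw [← mul_assoc, ← fz, mul_assoc, F.B1zv2, mul_assoc]
        · exact k.1.symm
      · rw [← h3, mul_assoc f, ← F.tv2]; group
      · rw [← hu, mul_assoc f, ← F.u1v2]; group
  obtain ⟨m, nK⟩ := h.eps n0 c0 he t0 h4 u0
  obtain ⟨a, ha, e1⟩ := h.Y1rt m
  have aR := h.Y1KR ha
  refine ⟨m, a * f0, mul_mem (le_normalizer aR) n0, mul_mem (centralizer_anti h.Y1VR (h.ab aR)) c0,
    mul_mem (le_normalizer ha) nK, ?_, ?_⟩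
  · have c := h.zac aR he
    have c2 := h.zac (h.Y1VR m) h.zaG
    have s := F.sqW1 (F.X1W1 (F.V1X1 m))
    calc a * f0 * F.t * (a * f0)⁻¹ = a * (f0 * F.t * f0⁻¹) * a⁻¹ := by group
      _ = a * F.t * a⁻¹ * (a * e) * a⁻¹ := by rw [t0]; group
      _ = F.t * (g⁻¹ * e * g) * (g⁻¹ * e) := by rw [h.zat aR, c, e1]; group
      _ = F.t * g * (g⁻¹ * e * (g⁻¹ * e)) := by rw [c2]; group
      _ = _ := by rw [s, mul_one]
  · calc a * f0 * F.u1 * (a * f0)⁻¹ = a * (f0 * F.u1 * f0⁻¹) * a⁻¹ := by group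
      _ = _ := by rw [u0, h.zac aR (h.XR F.u2X1), mul_inv_cancel_right]

end Fr

end H60M.A6
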