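import Mathlib
import Cfsg.Agent.Lib.B6S.Y1

/-! Normalisation of `ZQ`. -/

set_option autoImplicit false

namespace H60M.A6

open Subgroup H69 H36.SW H60M.A7

variable {G : Type*} [Group G] [Finite G]

namespace Y5H

omit [Finite G] in
theorem phi {z v φ1 φ2 : G} (θ σ : MulAut G) (zz : z * z = 1) (vv : v * v = 1) (c : v * z = z * v) (z1 : z ≠ 1)
    (v1 : v ≠ 1) (zv1 : z * v ≠ 1) (θz : θ z = v) (θv : θ v = z * v) (σz : σ z = z) (σv : σ v = z * v)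
    (h1 : φ1 = 1 ∨ φ1 = z ∨ φ1 = v ∨ φ1 = z * v) (h2 : φ2 = 1 ∨ φ2 = z ∨ φ2 = v ∨ φ2 = z * v)
    (e1 : φ1 * θ (φ1 * φ2) * θ (θ φ2) = 1)
    (e2 : (σ φ1 * φ1 = 1 ∧ σ (φ1 * φ2) * φ2 = 1) ∨ (σ φ1 * (φ1 * z) = 1 ∧ σ (φ1 * φ2) * (φ2 * v) = 1)) :
    ((φ1 = 1 ∧ φ2 = 1) ∨ (φ1 = z ∧ φ2 = z * v)) ∧ σ φ1 * (φ1 * z) ≠ 1 := by
  have a1 : ∀ x, z * (z * x) = x := fun x => by rw [← mul_assoc, zz, one_mul]
  have a2 : ∀ x, v * (v * x) = x := fun x => by rw [← mul_assoc, vv, one_mul]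
  have a3 : ∀ x, v * (z * x) = z * (v * x) := fun x => by rw [← mul_assoc, c, mul_assoc]
  rcases h1 with h1 | h1 | h1 | h1 <;> rcases h2 with h2 | h2 | h2 | h2 <;> rw [h1, h2] at e1 e2 <;> rw [h1, h2] <;>
    simp only [map_mul, map_one, θz, θv, σz, σv, mul_assoc, a1, a2, a3, zz, vv, c, one_mul, mul_one, z1, v1, zv1,
      and_false, false_and, or_self, ne_eq, not_false_eq_true, and_true, true_or, or_true, and_self] at e1 e2 ⊢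

theorem fin1 {H : Type*} [Group H] {A E S W : H} (hA : A * A = 1) (hS : S * S = 1)
    (abc : A * (E * A * E⁻¹) * (E * (E * A * E⁻¹) * E⁻¹) = 1) (e3 : E * E * E * A * (E * E * E)⁻¹ * A⁻¹ = 1)
    (m1 : S * E * S * E * (E⁻¹ * (S * A * S) * E) * (S * E * S * E)⁻¹ * (E⁻¹ * (S * A * S) * E)⁻¹ = 1)
    (m2 : S * E * S * E * (E⁻¹ * (S * (E * A * E⁻¹) * S) * E) * (S * E * S * E)⁻¹ *
      (E⁻¹ * (S * (E * A * E⁻¹) * S) * E)⁻¹ = 1)
    (sa : (A * W)⁻¹ * (S * A * S) = 1) (ww : W * W = 1) (wa : A * W * A⁻¹ * W⁻¹ = 1) (we : E * W = W * E) :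
    S * A * S * A⁻¹ = 1 ∧ S * (E * A * E⁻¹) * S * (A * (E * A * E⁻¹))⁻¹ = 1 ∧
      A⁻¹ * (E * A * E⁻¹)⁻¹ * A * (E * A * E⁻¹) = 1 := by
  have si : S⁻¹ = S := inv_eq_of_mul_eq_one_right hS
  have ss : ∀ x, S * (S * x) = x := fun x => by rw [← mul_assoc, hS, one_mul]
  have cA : Commute A W := by
    rw [mul_inv_eq_one, mul_inv_eq_iff_eq_mul] at wa; exact wa
  have cE : Commute E W := we
  rw [inv_mul_eq_one] at sa
  rw [mul_inv_eq_one] at e3 m1 m2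
  obtain ⟨B, hB⟩ : ∃ B, B = E * A * E⁻¹ := ⟨_, rfl⟩
  obtain ⟨C, hC⟩ : ∃ C, C = E * B * E⁻¹ := ⟨_, rfl⟩
  have cB : Commute B W := hB ▸ (cE.mul_left cA).mul_left cE.inv_left
  have cC : Commute C W := hC ▸ (cE.mul_left cB).mul_left cE.inv_left
  have bb : B * B = 1 := hB ▸ cjsq hA E
  have cc : C * C = 1 := hC ▸ cjsq bb E
  have k1 : S * B * S = C * W := by
    calc S * B * S = S * E * S * E * (E⁻¹ * (S * A * S) * E) * (S * E * S * E)⁻¹ := by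
          rw [hB]; simp only [mul_inv_rev, si, mul_assoc, mul_inv_cancel_left, ss]
      _ = E⁻¹ * (A * W) * E := by rw [m1, sa]
      _ = E⁻¹ * (E * E * E * A * (E * E * E)⁻¹) * E * W := by rw [e3, mul_assoc _ E, we]; group
      _ = C * W := by rw [hC, hB]; group
  have k2 : S * C * S = B * W := by
    calc S * C * S = S * E * S * E * (E⁻¹ * (S * B * S) * E) * (S * E * S * E)⁻¹ := by
          rw [hC]; simp only [mul_inv_rev, si, mul_assoc, mul_inv_cancel_left, ss]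
      _ = E⁻¹ * (C * W) * E := by rw [hB, m2, ← hB, k1]
      _ = E⁻¹ * C * E * W := by rw [mul_assoc _ E, we]; group
      _ = B * W := by rw [hC]; group
  rw [← hB] at abc ⊢
  rw [← hC] at abc
  have ab : A * B = C := by rw [eq_inv_of_mul_eq_one_left abc, inv_eq_of_mul_eq_one_right cc]
  have ai : A⁻¹ = A := inv_eq_of_mul_eq_one_right hA
  have bi : B⁻¹ = B := inv_eq_of_mul_eq_one_right bb
  have w1 : W = 1 := by
    have e : S * (A * B * C) * S = S * A * S * (S * B * S) * (S * C * S) := by simp only [mul_assoc, ss]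
    rw [abc, mul_one, hS, ← sa, k1, k2, mul_assoc A, ← mul_assoc W, ← cC.eq, mul_assoc C, ww, mul_one, ← ab,
      ← mul_assoc A, hA, one_mul, ← mul_assoc, bb, one_mul] at e
    exact e.symm
  rw [w1, mul_one] at sa k1
  refine ⟨by rw [← sa, mul_inv_cancel], by rw [k1, ab, mul_inv_cancel], ?_⟩
  rw [ai, bi, mul_assoc, ab, cc]

theorem fin2 {N : Type*} [Group N] (K : Subgroup N) [K.Normal] {A E S W : N} (hA : A * A ∈ K) (hS : S * S = 1)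
    (abc : A * (E * A * E⁻¹) * (E * (E * A * E⁻¹) * E⁻¹) ∈ K) (e3 : E * E * E * A * (E * E * E)⁻¹ * A⁻¹ ∈ K)
    (m1 : S * E * S * E * (E⁻¹ * (S * A * S) * E) * (S * E * S * E)⁻¹ * (E⁻¹ * (S * A * S) * E)⁻¹ ∈ K)
    (m2 : S * E * S * E * (E⁻¹ * (S * (E * A * E⁻¹) * S) * E) * (S * E * S * E)⁻¹ *
      (E⁻¹ * (S * (E * A * E⁻¹) * S) * E)⁻¹ ∈ K)
    (sa : (A * W)⁻¹ * (S * A * S) ∈ K) (ww : W * W = 1) (wa : A * W * A⁻¹ * W⁻¹ ∈ K) (we : E * W = W * E) :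
    S * A * S * A⁻¹ ∈ K ∧ S * (E * A * E⁻¹) * S * (A * (E * A * E⁻¹))⁻¹ ∈ K ∧
      A⁻¹ * (E * A * E⁻¹)⁻¹ * A * (E * A * E⁻¹) ∈ K := by
  simp only [← QuotientGroup.eq_one_iff, QuotientGroup.mk_mul, QuotientGroup.mk_inv] at *
  exact fin1 hA (by rw [← QuotientGroup.mk_mul, hS]; rfl) abc e3 m1 m2 sa (by rw [← QuotientGroup.mk_mul, ww]; rfl) wa
    (by rw [← QuotientGroup.mk_mul, we]; rfl)

theorem fin0 {N : Type*} [Group N] (K : Subgroup N) [K.Normal] {A E W : N}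
    (abc : A * (E * A * E⁻¹) * (E * (E * A * E⁻¹) * E⁻¹) * W⁻¹ ∈ K) (ww : W * W = 1)
    (wa : A * W * A⁻¹ * W⁻¹ ∈ K) (we : E * W = W * E) :
    A * W * (E * A * E⁻¹ * W) * (E * (E * A * E⁻¹ * W) * E⁻¹) ∈ K := by
  simp only [← QuotientGroup.eq_one_iff, QuotientGroup.mk_mul, QuotientGroup.mk_inv] at *
  have w2 : (W : N ⧸ K) * W = 1 := by rw [← QuotientGroup.mk_mul, ww]; rfl
  have cE : Commute (E : N ⧸ K) W := by
    change (E : N ⧸ K) * W = W * E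
    rw [← QuotientGroup.mk_mul, we]; rfl
  rw [mul_inv_eq_one] at abc wa
  have cA : Commute (A : N ⧸ K) W := mul_inv_eq_iff_eq_mul.1 wa
  generalize (A : N ⧸ K) = A at *
  generalize (E : N ⧸ K) = E at *
  generalize (W : N ⧸ K) = W at *
  have cB := (cE.mul_left cA).mul_left cE.inv_left
  generalize E * A * E⁻¹ = B at *
  rw [mul_assoc A, ← mul_assoc W, ← cB.eq, mul_assoc B, w2, mul_one, ← mul_assoc E, mul_assoc _ W, ← cE.inv_left.eq,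
    ← mul_assoc, ← mul_assoc, mul_assoc (A * B), abc, w2]

/-- the elements that centralise `w` modulo `K` -/
def Cw (K : Subgroup G) (w : G) : Subgroup G where
  carrier := {x | x ∈ 𝐍(K) ∧ w⁻¹ * (x * w * x⁻¹) ∈ K}
  mul_mem' := by
    rintro x y ⟨h1, h2⟩ ⟨h3, h4⟩
    refine ⟨mul_mem h1 h3, ?_⟩
    have := mul_mem h2 ((mem_normalizer_iff.1 h1 _).1 h4)
    convert this using 1; group
  one_mem' := ⟨one_mem _, by simp⟩
  inv_mem' := by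
    rintro x ⟨h1, h2⟩
    refine ⟨inv_mem h1, ?_⟩
    have := (mem_normalizer_iff.1 (inv_mem h1) _).1 (inv_mem h2)
    convert this using 1; group

variable {F : Fr G} {g g' d1 d2 η1 η2 a b : G}

theorem gK (F : Fr G) : g ∈ F.K4 g d1 := subset_closure (by simp)
theorem dK (F : Fr G) : d1 ∈ F.K4 g d1 := subset_closure (by simp)

section zz
variable (h : F.ZZ 1 g g' 1 1 d1 d2 η1 η2)
include h

theorem uR : F.u1 ∈ F.R g 1 d1 := subset_closure (by simp)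

theorem KR : F.K4 g d1 ≤ F.R g 1 d1 := by
  refine (closure_le _).2 ?_
  rintro _ (rfl | rfl)
  exacts [h.zaG, h.zad]

theorem VK : F.V1 ≤ F.K4 g d1 := by
  refine (closure_le _).2 ?_
  rintro _ (rfl | rfl)
  · rw [← h.gg]; exact mul_mem (gK F) (gK F)
  · rw [← h.d11]; exact mul_mem (dK F) (dK F)

theorem sqK {x : G} (hx : x ∈ F.K4 g d1) (e : x * x = 1) : x ∈ F.V1 := by
  have VR : F.V1 ≤ F.R g 1 d1 := (VK h).trans (KR h)
  have P1 : F.V1 ⊔ zpowers g ≤ F.R g 1 d1 := sup_le VR (zpowers_le.2 h.zaG)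
  have : F.K4 g d1 ≤ F.V1 ⊔ zpowers g ⊔ zpowers d1 := by
    refine (closure_le _).2 ?_
    rintro _ (rfl | rfl)
    exacts [mem_sup_left (mem_sup_right (mem_zpowers _)), mem_sup_right (mem_zpowers _)]
  obtain ⟨p, hp, j, rfl⟩ := ZA.adj (h.zaN P1 h.zad) (h.d11 ▸ mem_sup_left (ZC.vV F)) (this hx)
  obtain ⟨w, hw, i, rfl⟩ := ZA.adj (h.zaN VR h.zaG) (h.gg ▸ ZC.zV F) hp
  have q := h.zasq (F.V1X1 hw) i j 0
  simp only [one_pow, mul_one] at q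
  obtain ⟨rfl, rfl, -⟩ := h.zaone (i := i) (j := j) (k := 0) (by rw [one_pow, mul_one, ← q, e])
  simpa using hw

theorem psi {n y : G} (h1 : n ∈ 𝐍(F.K4 g d1)) (h2 : n ∈ 𝐂(F.V1)) (hy : y ∈ F.K4 g d1) :
    ∃ φ ∈ F.V1, n * y * n⁻¹ = y * φ := by
  have m := (mem_normalizer_iff.1 h1 y).1 hy
  have q : y * y ∈ F.V1 := sqK h (mul_mem hy hy) (F.sqW1 (F.X1W1 (h.sq (KR h hy)).1))
  refine ⟨y⁻¹ * (n * y * n⁻¹), sqK h (mul_mem (inv_mem hy) m) ?_, by group⟩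
  rw [ZA.mm (h.zac (KR h (inv_mem hy)) (KR h m)), conj_mul, ← h2 _ q]
  group

theorem uc {x : G} (hx : x ∈ F.K4 g d1) : F.u1 * x = x * F.u1 := h.zac (uR h) (KR h hx)

theorem memR {x : G} (hx : x ∈ F.R g 1 d1) : x ∈ F.K4 g d1 ∨ x * F.u1 ∈ F.K4 g d1 := by
  obtain ⟨w, hw, i, j, k, rfl⟩ := h.memR.1 hx
  rw [one_pow, mul_one, mul_assoc]
  have m := mul_mem (pow_mem (gK F (d1 := d1)) (i : ℕ)) (pow_mem (dK F (g := g)) (j : ℕ))
  rcases ZD.Xmem F hw with e | e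
  · exact Or.inl (mul_mem (VK h e) m)
  · right
    rw [mul_assoc, ← uc h m, ← mul_assoc]
    exact mul_mem (VK h e) m

theorem sd : F.v2 * d1 * F.v2 = (g * d1)⁻¹ := by
  have c := h.zac h.zaG h.zad
  have d4 : d1 * d1 * (d1 * d1) = 1 := by rw [h.d11, F.v11]
  have e : F.v2 * d1⁻¹ * F.v2 = g * F.v1 * d1⁻¹ := by
    calc _ = F.v2 * (d1⁻¹ * F.v2 * d1) * d1⁻¹ := by group
      _ = F.v2 * F.v2 * g * F.v1 * d1⁻¹ := by rw [h.c1]; group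
      _ = _ := by rw [F.v22, one_mul]
  rw [ZA.ci F.v22, ← h.d11, ← mul_assoc g, mul_inv_cancel_right] at e
  rw [← e, inv_inv]

theorem sg : F.v2 * g * F.v2 = g := by
  rw [h.gT F.v2 (subset_closure (by simp)), mul_assoc, F.v22, mul_one]

theorem ηK : η1 ∈ 𝐍(F.K4 g d1) := ZA.nrm (by
  rintro _ (rfl | rfl)
  · rw [h.η1g]; exact dK F
  · rw [h.η1d]; exact inv_mem (mul_mem (gK F) (dK F)))

theorem sK : F.v2 ∈ 𝐍(F.K4 g d1) := ZA.nrm (by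
  rintro _ (rfl | rfl) <;> rw [B1.iv' F.v22]
  · rw [sg h]; exact gK F
  · rw [sd h]; exact inv_mem (mul_mem (gK F) (dK F)))

theorem tK : F.t ∈ 𝐍(F.K4 g d1) := ZA.nrm (by
  rintro _ (rfl | rfl) <;> rw [B1.iv' F.tt]
  · rw [h.tg]; exact inv_mem (gK F)
  · rw [h.td1]; exact inv_mem (dK F))

theorem uK : F.u1 ∈ 𝐍(F.K4 g d1) := h.zaN (KR h) (uR h)

theorem tV : F.t ∈ 𝐂(F.V1) := centralizer_le F.V1X1 (ZD.tX F)

theorem RV : F.R g 1 d1 ≤ 𝐂(F.V1) := h.ab.trans (centralizer_le ((VK h).trans (KR h)))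

theorem memQ {x : G} (hx : x ∈ F.R g 1 d1 ⊔ zpowers F.t) : ∃ w, (w = 1 ∨ w = F.u1 ∨ w = F.t ∨ w = F.u1 * F.t) ∧
    x * w⁻¹ ∈ F.K4 g d1 := by
  rcases ZD.memQ h hx with e | ⟨e, he, rfl⟩
  · rcases memR h e with k | k
    · exact ⟨1, by simp, by simpa using k⟩
    · exact ⟨F.u1, by simp, by rwa [B1.iv' F.u11]⟩
  · rcases memR h he with k | k
    · exact ⟨F.t, by simp, by simpa using k⟩
    · exact ⟨F.u1 * F.t, by simp, by simpa [B1.iv' F.u11] using k⟩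

end zz

variable (h : F.ZQ g g' d1 d2 η1 η2 a b)
include h

theorem bT : b * F.t * b⁻¹ = F.t * d1 := by
  rw [← h.ηa, ← h.zz.η1g]
  calc _ = η1 * (a * (η1⁻¹ * F.t * η1) * a⁻¹) * η1⁻¹ := by group
    _ = η1 * (F.t * g) * η1⁻¹ := by rw [mul_assoc η1⁻¹, ← h.zz.η1t, inv_mul_cancel_left, h.aT]
    _ = _ := by rw [← mul_assoc, h.zz.η1t]; group

theorem bK : b ∈ 𝐍(F.K4 g d1) := h.ηa ▸ mul_mem (mul_mem (ηK h.zz) h.aK) (inv_mem (ηK h.zz))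

theorem bV : b ∈ 𝐂(F.V1) := by
  have n := (ZC.SP1 h.zz (ZC.eta h.zz).1).2
  intro v hv
  have := h.aV _ ((mem_normalizer_iff.1 (inv_mem n) v).1 hv)
  rw [← h.ηa]
  calc v * (η1 * a * η1⁻¹) = η1 * (η1⁻¹ * v * η1⁻¹⁻¹ * a) * η1⁻¹ := by group
    _ = _ := by rw [this]; group

theorem au' : a * F.u1 * a⁻¹ = F.u1 * F.z := by rw [h.au, F.u2_eq F.hu1, F.zu1]

theorem bu : b * F.u1 * b⁻¹ = F.u1 * F.v1 := by
  have e : η1 * F.z * η1⁻¹ = F.v1 := (ZC.eta h.zz).2.1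
  rw [← h.ηa, ← e]
  calc _ = η1 * (a * (η1⁻¹ * F.u1 * η1) * a⁻¹) * η1⁻¹ := by group
    _ = η1 * (F.u1 * F.z) * η1⁻¹ := by rw [mul_assoc η1⁻¹, ← h.zz.η1u, inv_mul_cancel_left, au' h]
    _ = _ := by rw [← mul_assoc, h.zz.η1u]; group

theorem PV : F.PP g d1 a b ≤ 𝐂(F.V1) := by
  refine (closure_le _).2 ?_
  rintro _ (rfl | rfl | rfl | rfl | rfl | rfl)
  exacts [RV h.zz h.zz.zaG, RV h.zz h.zz.zad, h.aV, bV h, tV h.zz, RV h.zz (uR h.zz)]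

theorem Pt : F.PP g d1 a b ≤ Cw (F.K4 g d1) F.t := by
  have k : ∀ x ∈ F.K4 g d1, x ∈ Cw (F.K4 g d1) F.t := fun x hx =>
    ⟨le_normalizer hx, by rw [h.zz.zat (KR h.zz hx), inv_mul_cancel_left]; exact mul_mem hx hx⟩
  refine (closure_le _).2 ?_
  rintro _ (rfl | rfl | rfl | rfl | rfl | rfl)
  · exact k _ (gK F)
  · exact k _ (dK F)
  · exact ⟨h.aK, by rw [h.aT, inv_mul_cancel_left]; exact gK F⟩
  · exact ⟨bK h, by rw [bT h, inv_mul_cancel_left]; exact dK F⟩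
  · exact ⟨tK h.zz, by simp⟩
  · exact ⟨uK h.zz, by rw [← F.tu1]; simp⟩

theorem Pu : F.PP g d1 a b ≤ Cw (F.K4 g d1) F.u1 := by
  have k : ∀ x ∈ F.K4 g d1, x ∈ Cw (F.K4 g d1) F.u1 := fun x hx =>
    ⟨le_normalizer hx, by rw [← uc h.zz hx]; simp⟩
  refine (closure_le _).2 ?_
  rintro _ (rfl | rfl | rfl | rfl | rfl | rfl)
  · exact k _ (gK F)
  · exact k _ (dK F)
  · exact ⟨h.aK, by rw [au' h, inv_mul_cancel_left]; exact VK h.zz (ZC.zV F)⟩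
  · exact ⟨bK h, by rw [bu h, inv_mul_cancel_left]; exact VK h.zz (ZC.vV F)⟩
  · exact ⟨tK h.zz, by rw [F.tu1]; simp⟩
  · exact ⟨uK h.zz, by simp⟩

theorem PR {x : G} (hx : x ∈ F.PP g d1 a b) : x ∈ 𝐍(F.R g 1 d1) := ZA.nrm (by
  rintro _ (rfl | rfl | rfl | rfl)
  · exact KR h.zz ((mem_normalizer_iff.1 (Pt h hx).1 _).1 (gK F))
  · exact KR h.zz ((mem_normalizer_iff.1 (Pt h hx).1 _).1 (dK F))
  · simp
  · have := mul_mem (uR h.zz) (KR h.zz (Pu h hx).2)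
    rwa [mul_inv_cancel_left] at this)

omit h in
theorem aP : a ∈ F.PP g d1 a b := subset_closure (by simp)
omit h in
theorem bP : b ∈ F.PP g d1 a b := subset_closure (by simp)
omit h in
theorem tP : F.t ∈ F.PP g d1 a b := subset_closure (by simp)
omit h in
theorem uP : F.u1 ∈ F.PP g d1 a b := subset_closure (by simp)

omit h in
theorem QP : F.R g 1 d1 ⊔ zpowers F.t ≤ F.PP g d1 a b := by
  refine sup_le ((closure_le _).2 ?_) (zpowers_le.2 tP)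
  rintro _ (rfl | rfl | rfl | rfl)
  exacts [subset_closure (by simp), subset_closure (by simp), one_mem _, uP]

theorem inQ {x e : G} (hx : x ∈ F.PP g d1 a b) (he : e ∈ F.V1) (h1 : x * F.t * x⁻¹ = F.t * e) :
    x ∈ F.R g 1 d1 ⊔ zpowers F.t := by
  obtain ⟨q, hq, o, -, ho, rfl⟩ := h.zz.SP' (PR h hx) (KR h.zz (VK h.zz he)) h1
    (F.sqW1 (F.X1W1 (F.V1X1 he))) (PV h hx)
  rw [(P2.of_mem h.isP ((mul_mem_cancel_left (QP hq)).1 hx)).eq_one ho, mul_one]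
  exact hq

theorem wc {w x : G} (hw : w = 1 ∨ w = F.u1 ∨ w = F.t ∨ w = F.u1 * F.t) (hx : x ∈ F.PP g d1 a b) :
    x * w * x⁻¹ * w⁻¹ ∈ F.K4 g d1 := by
  have k1 : x * F.u1 * x⁻¹ * F.u1⁻¹ ∈ F.K4 g d1 := by
    have := (mem_normalizer_iff.1 (uK h.zz) _).1 (Pu h hx).2
    convert this using 1; group
  have k2 : x * F.t * x⁻¹ * F.t⁻¹ ∈ F.K4 g d1 := by
    have := (mem_normalizer_iff.1 (tK h.zz) _).1 (Pt h hx).2
    convert this using 1; group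
  rcases hw with rfl | rfl | rfl | rfl
  · simp
  · exact k1
  · exact k2
  · have := mul_mem k1 ((mem_normalizer_iff.1 (uK h.zz) _).1 k2)
    convert this using 1; group

theorem triv {m x : G} (hm : m ∈ 𝐍(F.PP g d1 a b)) (c1 : g * m = m * g) (c2 : d1 * m = m * d1)
    (c3 : F.u1 * m = m * F.u1) (c4 : m * F.t = F.t * m) (hx : x ∈ F.PP g d1 a b) :
    m * x * m⁻¹ * x⁻¹ ∈ F.K4 g d1 := by
  have cR : m ∈ 𝐂(F.R g 1 d1) := ZA.cen (by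
    rintro _ (rfl | rfl | rfl | rfl)
    exacts [c1, c2, by simp, c3])
  obtain ⟨q, hq, o, oc, ho, rfl⟩ := h.zz.SP' (centralizer_le_normalizer _ cR) (one_mem _) (by rw [c4]; simp)
    (mul_one 1) (centralizer_le ((VK h.zz).trans (KR h.zz)) cR)
  have on : o ∈ 𝐍(F.PP g d1 a b) := (mul_mem_cancel_left (le_normalizer (QP hq))).1 hm
  have oP : o ∈ 𝐂(F.PP g d1 a b) := odd_cent (ZD.isQ h.zz) ho oc fun y hy => by
    refine inQ h (mul_mem (inv_mem hy) ((mem_normalizer_iff.1 on y).1 hy)) (one_mem _) ?_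
    have e1 := oc F.t (mem_sup_right (mem_zpowers _))
    have e2 := oc (y * F.t * y⁻¹) (by
      have := mul_mem (mem_sup_right (mem_zpowers F.t) : F.t ∈ F.R g 1 d1 ⊔ zpowers F.t)
        (mem_sup_left (KR h.zz (Pt h hy).2))
      rwa [mul_inv_cancel_left] at this)
    calc _ = y⁻¹ * (o * y * (o⁻¹ * (F.t * o)) * y⁻¹) * o⁻¹ * y := by group
      _ = y⁻¹ * (o * (y * F.t * y⁻¹)) * o⁻¹ * y := by rw [e1]; group
      _ = _ := by rw [← e2]; group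
  obtain ⟨w, hw, k⟩ := memQ h.zz hq
  have e : q * o * x * (q * o)⁻¹ * x⁻¹ = q * w⁻¹ * ((x * w * x⁻¹ * w⁻¹)⁻¹ * (x * (q * w⁻¹)⁻¹ * x⁻¹)) := by
    rw [mul_assoc q o x, ← oP x hx]; group
  rw [e]
  exact mul_mem k (mul_mem (inv_mem (wc h hw hx)) ((mem_normalizer_iff.1 (Pt h hx).1 _).1 (inv_mem k)))

theorem step1 : ∃ a b, F.ZQ g g' d1 d2 η1 η2 a b ∧ a * b * (η1 * b * η1⁻¹) ∈ F.K4 g d1 := by
  have cP : η1 * b * η1⁻¹ ∈ F.PP g d1 a b := (mem_normalizer_iff.1 h.ηP b).1 bP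
  have cT : η1 * b * η1⁻¹ * F.t * (η1 * b * η1⁻¹)⁻¹ = F.t * (g * d1)⁻¹ := by
    rw [← h.zz.η1d]
    calc _ = η1 * (b * (η1⁻¹ * F.t * η1) * b⁻¹) * η1⁻¹ := by group
      _ = η1 * (F.t * d1) * η1⁻¹ := by rw [mul_assoc η1⁻¹, ← h.zz.η1t, inv_mul_cancel_left, bT h]
      _ = _ := by rw [← mul_assoc, h.zz.η1t]; group
  have eK := inv_mem (mul_mem (gK F (g := g) (d1 := d1)) (dK F))
  obtain ⟨φ, hφ, e1⟩ := psi h.zz h.aK h.aV (dK F)
  obtain ⟨φ', hφ', e2⟩ := psi h.zz (mul_mem h.aK (bK h)) (mul_mem h.aV (bV h)) eK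
  have q := inQ h (mul_mem (mul_mem aP bP) cP) (mul_mem hφ hφ') (by
    calc _ = a * b * (η1 * b * η1⁻¹ * F.t * (η1 * b * η1⁻¹)⁻¹) * (a * b)⁻¹ := by group
      _ = a * (b * F.t * b⁻¹) * a⁻¹ * (a * b * (g * d1)⁻¹ * (a * b)⁻¹) := by rw [cT]; group
      _ = a * F.t * a⁻¹ * (a * d1 * a⁻¹) * ((g * d1)⁻¹ * φ') := by rw [bT h, e2]; group
      _ = F.t * (g * d1) * (φ * (g * d1)⁻¹) * φ' := by rw [h.aT, e1]; group
      _ = _ := by rw [h.zz.zac (KR h.zz (VK h.zz hφ)) (KR h.zz eK)]; group)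
  obtain ⟨w, hw, k⟩ := memQ h.zz q
  have ⟨ww, wt, wu, wη, wV, wK, wP⟩ : w * w = 1 ∧ w * F.t = F.t * w ∧ w * F.u1 = F.u1 * w ∧ η1 * w = w * η1 ∧
      w ∈ 𝐂(F.V1) ∧ w ∈ 𝐍(F.K4 g d1) ∧ ∀ a b, w ∈ F.PP g d1 a b := by
    rcases hw with rfl | rfl | rfl | rfl
    · simp
    · exact ⟨F.u11, F.tu1.symm, rfl, h.zz.η1u, RV h.zz (uR h.zz), uK h.zz, fun _ _ => uP⟩
    · exact ⟨F.tt, rfl, F.tu1, h.zz.η1t, tV h.zz, tK h.zz, fun _ _ => tP⟩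
    · exact ⟨by rw [ZA.mm F.tu1.symm, F.u11, F.tt, one_mul], by rw [← mul_assoc, F.tu1], by rw [mul_assoc, F.tu1],
        (Commute.mul_right h.zz.η1u h.zz.η1t).eq, mul_mem (RV h.zz (uR h.zz)) (tV h.zz),
        mul_mem (uK h.zz) (tK h.zz), fun _ _ => mul_mem uP tP⟩
  have eP : F.PP g d1 (a * w) (b * w) = F.PP g d1 a b := by
    refine le_antisymm ((closure_le _).2 ?_) ((closure_le _).2 ?_) <;> rintro _ (rfl | rfl | rfl | rfl | rfl | rfl)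
    exacts [subset_closure (by simp), subset_closure (by simp), mul_mem aP (wP _ _), mul_mem bP (wP _ _), tP, uP,
      subset_closure (by simp), subset_closure (by simp), (mul_mem_cancel_right (wP _ _)).1 aP,
      (mul_mem_cancel_right (wP _ _)).1 bP, tP, uP]
  refine ⟨a * w, b * w, ⟨h.zz, h.c, mul_mem h.aV wV, mul_mem h.aK wK, ?_, ?_, ?_, eP ▸ h.isP, eP ▸ h.ηP, eP ▸ h.vP⟩, ?_⟩
  · rw [← h.aT, mul_assoc a, wt]; group
  · rw [← h.au, mul_assoc a, wu]; group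
  · rw [← h.ηa, mul_assoc _ _ w, (Commute.inv_left wη).eq]; group
  · rw [← h.ηa] at k ⊢
    exact fin0 ((F.K4 g d1).subgroupOf 𝐍(F.K4 g d1)) (A := ⟨a, h.aK⟩) (E := ⟨η1, ηK h.zz⟩) (W := ⟨w, wK⟩) k
      (Subtype.ext ww) (wc h hw aP) (Subtype.ext wη)

local notation "κ" => MulAut.conj

omit h in
theorem kV {x φ : G} (hx : x ∈ 𝐂(F.V1)) (hφ : φ ∈ F.V1) : κ x φ = φ := ZC.kfix (hx φ hφ).symm

omit h in
theorem sqV {φ : G} (hφ : φ ∈ F.V1) : φ * φ = 1 := F.sqW1 (F.X1W1 (F.V1X1 hφ))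

theorem θ3 : κ η1 (g * d1)⁻¹ = g := by
  have e1 : κ η1 g = d1 := h.zz.η1g
  have e2 : κ η1 d1 = (g * d1)⁻¹ := h.zz.η1d
  rw [map_inv, map_mul, e1, e2]; group

theorem σ3 : κ F.v2 g = g ∧ κ F.v2 d1 = (g * d1)⁻¹ ∧ κ F.v2 (g * d1)⁻¹ = d1 := by
  have e1 : κ F.v2 g = g := by rw [MulAut.conj_apply, B1.iv' F.v22, sg h.zz]
  have e2 : κ F.v2 d1 = (g * d1)⁻¹ := by rw [MulAut.conj_apply, B1.iv' F.v22, sd h.zz]
  refine ⟨e1, e2, ?_⟩
  rw [map_inv, map_mul, e1, e2, h.zz.zac h.zz.zaG h.zz.zad]; group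

theorem αgd {φ1 φ2 : G} (h1 : φ1 ∈ F.V1) (h2 : φ2 ∈ F.V1) (e1 : κ a g = g * φ1) (e2 : κ a d1 = d1 * φ2) :
    κ a (g * d1)⁻¹ = (g * d1)⁻¹ * (φ1 * φ2) := by
  have VR := (VK h.zz).trans (KR h.zz)
  have m := mul_mem h1 h2
  rw [map_inv, map_mul, e1, e2, ← h.zz.zac (VR m) (inv_mem (mul_mem h.zz.zaG h.zz.zad)), ← B1.iv' (sqV m),
    mul_assoc g, ← mul_assoc φ1, h.zz.zac (VR h1) h.zz.zad]
  group

theorem βg {φ1 φ2 : G} (h1 : φ1 ∈ F.V1) (h2 : φ2 ∈ F.V1) (e1 : κ a g = g * φ1) (e2 : κ a d1 = d1 * φ2) :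
    κ b g = g * κ η1 (φ1 * φ2) := by
  have βθ : ∀ x, κ b (κ η1 x) = κ η1 (κ a x) := fun x => by rw [← h.ηa]; simp only [MulAut.conj_apply]; group
  have := βθ (g * d1)⁻¹
  rwa [αgd h h1 h2 e1 e2, map_mul, θ3 h] at this

theorem step2 (abc : a * b * (η1 * b * η1⁻¹) ∈ F.K4 g d1) : a⁻¹ * (F.v2 * a * F.v2) ∈ F.R g 1 d1 ∧
    ∃ φ1 φ2, κ a g = g * φ1 ∧ κ a d1 = d1 * φ2 ∧ ((φ1 = 1 ∧ φ2 = 1) ∨ (φ1 = F.z ∧ φ2 = F.z * F.v1)) := by
  obtain ⟨φ1, h1, e1⟩ := psi h.zz h.aK h.aV (gK F)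
  obtain ⟨φ2, h2, e2⟩ := psi h.zz h.aK h.aV (dK F)
  change κ a g = _ at e1
  change κ a d1 = _ at e2
  have n := (ZC.SP1 h.zz (ZC.eta h.zz).1).2
  have θV : ∀ {φ}, φ ∈ F.V1 → κ η1 φ ∈ F.V1 := fun hφ => (mem_normalizer_iff.1 n _).1 hφ
  have βθ : ∀ x, κ b (κ η1 x) = κ η1 (κ a x) := fun x => by rw [← h.ηa]; simp only [MulAut.conj_apply]; group
  have γθ : ∀ x, κ (η1 * b * η1⁻¹) (κ η1 x) = κ η1 (κ b x) := fun x => by simp only [MulAut.conj_apply]; group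
  have θd : κ η1 d1 = (g * d1)⁻¹ := h.zz.η1d
  have γg : κ (η1 * b * η1⁻¹) g = g * κ η1 (κ η1 φ2) := by
    have b1 := βθ d1
    rw [e2, map_mul, θd] at b1
    have := γθ (g * d1)⁻¹
    rwa [b1, map_mul (κ η1), θ3 h] at this
  have E1 : φ1 * κ η1 (φ1 * φ2) * κ η1 (κ η1 φ2) = 1 := by
    have := ZC.kfix (h.zz.zac (KR h.zz abc) h.zz.zaG)
    rw [map_mul, map_mul, MulAut.mul_apply, MulAut.mul_apply, γg, map_mul, βg h h1 h2 e1 e2, kV (bV h) (θV (θV h2)),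
      map_mul, map_mul, e1, kV h.aV (θV (θV h2)), kV h.aV (θV (mul_mem h1 h2)), mul_assoc, mul_assoc,
      mul_eq_left, ← mul_assoc] at this
    exact this
  have sP : F.v2 * a * F.v2 ∈ F.PP g d1 a b := by
    have := (mem_normalizer_iff.1 h.vP a).1 aP
    rwa [B1.iv' F.v22] at this
  have q := inQ h (mul_mem (inv_mem aP) sP) (one_mem _) (by
    calc _ = a⁻¹ * (F.v2 * (a * (F.v2 * F.t * F.v2⁻¹) * a⁻¹) * F.v2⁻¹) * a := by group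
      _ = a⁻¹ * (F.v2 * F.t * F.v2⁻¹ * κ F.v2 g) * a := by
        rw [← F.tv2, mul_inv_cancel_right, h.aT, ← mul_assoc F.v2, ← F.tv2, MulAut.conj_apply]; group
      _ = _ := by rw [(σ3 h).1, ← F.tv2, mul_inv_cancel_right, ← h.aT]; group)
  have σα : ∀ x, κ F.v2 (κ a (κ F.v2 x)) = κ a (κ (a⁻¹ * (F.v2 * a * F.v2)) x) := fun x => by
    simp only [MulAut.conj_apply]; group
  have s1 := σα g
  have s2 := σα d1
  rw [(σ3 h).1, e1, map_mul, (σ3 h).1] at s1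
  rw [(σ3 h).2.1, αgd h h1 h2 e1 e2, map_mul, (σ3 h).2.2] at s2
  have P := phi (κ η1) (κ F.v2) F.zz F.v11 F.zv1.symm F.z1 F.b2_v1
    (fun e => F.b2_vz (by rw [← B1.iv' F.zz]; exact eq_inv_of_mul_eq_one_right e)) (ZC.eta h.zz).2.1
    (ZC.eta h.zz).2.2.1 (ZC.kfix F.B1zv2.symm) F.b2_v2v (F.memV1.1 h1) (F.memV1.1 h2) E1
  rcases ZD.memQ h.zz q with r | ⟨e, he, E⟩
  · rw [ZC.kfix (h.zz.zac r h.zz.zaG), e1, mul_right_inj] at s1
    rw [ZC.kfix (h.zz.zac r h.zz.zad), e2, mul_right_inj] at s2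
    exact ⟨r, φ1, φ2, e1, e2, (P (Or.inl ⟨by rw [s1, sqV h1], by rw [s2, sqV h2]⟩)).1⟩
  · have i : ∀ x ∈ F.R g 1 d1, ∀ y ∈ F.V1, x * x = y → κ (e * F.t) x = x * y := fun x hx y hy xy => by
      have : x⁻¹ = x * y := by rw [inv_eq_iff_mul_eq_one, ← mul_assoc, xy, sqV hy]
      rw [map_mul, MulAut.mul_apply, MulAut.conj_apply F.t, B1.iv' F.tt, h.zz.inv hx,
        ZC.kfix (h.zz.zac he (inv_mem hx)), this]
    rw [E, i g h.zz.zaG _ (ZC.zV F) h.zz.gg, map_mul, e1, kV h.aV (ZC.zV F), mul_assoc, mul_right_inj] at s1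
    rw [E, i d1 h.zz.zad _ (ZC.vV F) h.zz.d11, map_mul (κ a), e2, kV h.aV (ZC.vV F), mul_assoc, mul_right_inj] at s2
    have x1 : κ F.v2 φ1 * (φ1 * F.z) = 1 := by rw [s1, sqV (mul_mem h1 (ZC.zV F))]
    exact absurd x1 (P (Or.inr ⟨x1, by rw [s2, sqV (mul_mem h2 (ZC.vV F))]⟩)).2

theorem step3 {φ1 φ2 : G} (e1 : κ a g = g * φ1) (e2 : κ a d1 = d1 * φ2)
    (c : (φ1 = 1 ∧ φ2 = 1) ∨ (φ1 = F.z ∧ φ2 = F.z * F.v1)) : a * a ∈ F.K4 g d1 := by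
  have h1 : φ1 ∈ F.V1 := by
    rcases c with ⟨rfl, -⟩ | ⟨rfl, -⟩
    exacts [one_mem _, ZC.zV F]
  have tt : a * a * F.t * (a * a)⁻¹ = F.t * (F.z * φ1) := by
    calc _ = a * (a * F.t * a⁻¹) * a⁻¹ := by group
      _ = a * (F.t * g) * a⁻¹ := by rw [h.aT]
      _ = a * F.t * a⁻¹ * κ a g := by rw [MulAut.conj_apply]; group
      _ = _ := by rw [e1, h.aT, ← h.zz.gg]; group
  have q := inQ h (mul_mem aP aP) (mul_mem (ZC.zV F) h1) tt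
  rcases ZD.memQ h.zz q with r | ⟨e, he, E⟩
  · rcases memR h.zz r with k | k
    · exact k
    exfalso
    have kk : a * a * F.u1 * (a * a * F.u1) = F.z * φ1 := by
      rw [ZA.mm (h.zz.zac r (uR h.zz)), F.u11, mul_one]
      exact mul_left_cancel ((h.zz.zat r).symm.trans tt)
    have ak : a * a * F.u1 * a = a * (a * a * F.u1) := by
      rcases c with ⟨rfl, rfl⟩ | ⟨rfl, -⟩
      · refine ZA.cen (s := {g, d1}) ?_ _ k
        rintro _ (rfl | rfl)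
        exacts [(ZC.of_kfix (e1.trans (mul_one _))).symm, (ZC.of_kfix (e2.trans (mul_one _))).symm]
      · exact h.aV _ (sqK h.zz k (kk.trans F.zz))
    apply F.z1
    have := au' h
    simp only [mul_assoc, mul_right_inj] at ak
    rwa [← ak, mul_inv_cancel_right, left_eq_mul] at this
  · exfalso
    have : κ (a * a) g = g := by rw [map_mul, MulAut.mul_apply, e1, map_mul, e1, kV h.aV h1, mul_assoc, sqV h1, mul_one]
    rw [E, map_mul, MulAut.mul_apply, MulAut.conj_apply F.t, B1.iv' F.tt, h.zz.tg,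
      ZC.kfix (h.zz.zac he (inv_mem h.zz.zaG)), inv_eq_iff_mul_eq_one, h.zz.gg] at this
    exact F.z1 this

theorem step4 (abc : a * b * (η1 * b * η1⁻¹) ∈ F.K4 g d1) (r : a⁻¹ * (F.v2 * a * F.v2) ∈ F.R g 1 d1)
    (aa : a * a ∈ F.K4 g d1) : F.v2 * a * F.v2 * a⁻¹ ∈ F.K4 g d1 ∧ F.v2 * b * F.v2 * (a * b)⁻¹ ∈ F.K4 g d1 ∧
      a⁻¹ * b⁻¹ * a * b ∈ F.K4 g d1 := by
  have θg : κ η1 g = d1 := h.zz.η1g
  have θd : κ η1 d1 = (g * d1)⁻¹ := h.zz.η1d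
  have cu : Commute η1 F.u1 := h.zz.η1u
  have ct : Commute η1 F.t := h.zz.η1t
  have su : Commute F.v2 F.u1 := F.u1v2.symm
  have st : Commute F.v2 F.t := F.tv2.symm
  have e3 := triv h (mul_mem (mul_mem h.ηP h.ηP) h.ηP)
    (ZC.of_kfix (by simp only [map_mul, MulAut.mul_apply, θg, θd, θ3 h])).symm
    (ZC.of_kfix (by simp only [map_mul, MulAut.mul_apply, θg, θd, θ3 h])).symm
    ((cu.mul_left cu).mul_left cu).symm.eq ((ct.mul_left ct).mul_left ct).eq aP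
  have m : ∀ x ∈ F.PP g d1 a b, F.v2 * η1 * F.v2 * η1 * (η1⁻¹ * (F.v2 * x * F.v2) * η1) * (F.v2 * η1 * F.v2 * η1)⁻¹ *
      (η1⁻¹ * (F.v2 * x * F.v2) * η1)⁻¹ ∈ F.K4 g d1 := fun x hx => by
    refine triv h (mul_mem (mul_mem (mul_mem h.vP h.ηP) h.vP) h.ηP)
      (ZC.of_kfix (by simp only [map_mul, MulAut.mul_apply, θg, θd, θ3 h, σ3 h])).symm
      (ZC.of_kfix (by simp only [map_mul, MulAut.mul_apply, θg, θd, θ3 h, σ3 h])).symm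
      (((su.mul_left cu).mul_left su).mul_left cu).symm.eq (((st.mul_left ct).mul_left st).mul_left ct).eq ?_
    have := (mem_normalizer_iff.1 (inv_mem h.ηP) _).1 ((mem_normalizer_iff.1 h.vP x).1 hx)
    rwa [B1.iv' F.v22, inv_inv] at this
  have m1 := m a aP
  have m2 := m b bP
  obtain ⟨w, hw, wK, ww, wη, k⟩ : ∃ w, (w = 1 ∨ w = F.u1 ∨ w = F.t ∨ w = F.u1 * F.t) ∧ w ∈ 𝐍(F.K4 g d1) ∧ w * w = 1 ∧
      η1 * w = w * η1 ∧ (a * w)⁻¹ * (F.v2 * a * F.v2) ∈ F.K4 g d1 := by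
    rcases memR h.zz r with k | k
    · exact ⟨1, by simp, one_mem _, by simp, by simp, by rwa [mul_one]⟩
    · refine ⟨F.u1, by simp, uK h.zz, F.u11, cu, ?_⟩
      rwa [mul_inv_rev, B1.iv' F.u11, mul_assoc, h.zz.zac (uR h.zz) r]
  have wa := wc h hw aP
  rw [← h.ηa] at abc m2 ⊢
  exact fin2 ((F.K4 g d1).subgroupOf 𝐍(F.K4 g d1)) (A := ⟨a, h.aK⟩) (E := ⟨η1, ηK h.zz⟩) (S := ⟨F.v2, sK h.zz⟩)
    (W := ⟨w, wK⟩) aa (Subtype.ext F.v22) abc e3 m1 m2 k (Subtype.ext ww) wa (Subtype.ext wη)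

end Y5H

namespace Fr
variable {F : Fr G} {u0 g g' v d1 d2 η η1 η2 κ k a b γ : G}

open Y5H in
theorem ZQ.zp (h : F.ZQ g g' d1 d2 η1 η2 a b) : ∃ a b, F.ZP g g' d1 d2 η1 η2 a b := by
  obtain ⟨a, b, h, abc⟩ := step1 h
  obtain ⟨r, φ1, φ2, e1, e2, c⟩ := step2 h abc
  have aa := step3 h e1 e2 c
  obtain ⟨va, vb, y⟩ := step4 h abc r aa
  refine ⟨a, b, h, ?_, aa, ?_, abc, va, vb⟩
  · rcases c with ⟨rfl, rfl⟩ | ⟨rfl, rfl⟩
    · exact Or.inl ⟨ZC.of_kfix (e1.trans (mul_one _)), ZC.of_kfix (e2.trans (mul_one _))⟩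
    · exact Or.inr ⟨e1, e2.trans (mul_assoc _ _ _).symm⟩
  have bg : MulAut.conj b g = g * φ2 := by
    rcases c with ⟨rfl, rfl⟩ | ⟨rfl, rfl⟩
    · rw [βg h (one_mem _) (one_mem _) e1 e2, mul_one, map_one]
    · rw [βg h (ZC.zV F) (mul_mem (ZC.zV F) (ZC.vV F)) e1 e2, ← mul_assoc F.z, F.zz, one_mul, (ZC.eta h.zz).2.2.1]
  have e : a * b * F.t * (a * b)⁻¹ = b * a * F.t * (b * a)⁻¹ := by
    calc _ = a * (b * F.t * b⁻¹) * a⁻¹ := by group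
      _ = a * F.t * a⁻¹ * MulAut.conj a d1 := by rw [bT h, MulAut.conj_apply]; group
      _ = F.t * (g * d1) * φ2 := by rw [e2, h.aT]; group
      _ = b * F.t * b⁻¹ * MulAut.conj b g := by rw [bg, bT h, h.zz.zac h.zz.zaG h.zz.zad]; group
      _ = b * (a * F.t * a⁻¹) * b⁻¹ := by rw [h.aT, MulAut.conj_apply]; group
      _ = _ := by group
  have yt : a⁻¹ * b⁻¹ * a * b * F.t = F.t * (a⁻¹ * b⁻¹ * a * b) := by
    calc _ = (b * a)⁻¹ * (a * b * F.t * (a * b)⁻¹) * (a * b) := by group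
      _ = _ := by rw [e]; group
  have i := h.zz.inv (KR h.zz y)
  rw [← yt, mul_assoc, F.tt, mul_one, eq_inv_iff_mul_eq_one] at i
  have yV := sqK h.zz y i
  have := mul_mem h.aV (bV h) _ yV
  have e' : a * b * a⁻¹ * b⁻¹ = a⁻¹ * b⁻¹ * a * b := by
    calc _ = a * b * (a⁻¹ * b⁻¹ * a * b) * (a * b)⁻¹ := by group
      _ = _ := by rw [← this, mul_inv_cancel_right]
  rwa [e']

end Fr

end H60M.A6
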