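import Mathlib
import Cfsg.Agent.Lib.B6S.HX
import Cfsg.Agent.Lib.B6S.HS
import Cfsg.Agent.Lib.B6S.HB
import Cfsg.Agent.Lib.B6S.H2
import Cfsg.Agent.Lib.B6S.H3

/-! Case `IIb`: type `EE` is impossible. -/

set_option autoImplicit false

namespace H60M.A6

open Subgroup H69 H36.SW H60M.A7

variable {G : Type*} [Group G] [Finite G]

namespace Fr
variable {F : Fr G} {u0 g v d1 d2 η κ γ : G}

theorem CA.pureZ (c : F.CA) (d : F.dl ≠ 1) (xt : F.XT) :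
    ∃ g g' r r' d1 d2 η1 η2, F.ZZ F.u1 g g' r r' d1 d2 η1 η2 := by
  rcases c.split2' xt (F.xt_dl d xt) with ⟨g, v, d1, d2, η, h, tr⟩ | h
  · obtain ⟨d2, κ, e⟩ := h.esD tr d fun e => (F.hu1 e).elim
    obtain ⟨d2, κ, k, s, w⟩ := e.sy
    exact (s.nvE w (s.vE w)).elim
  · exact h

end Fr

end H60M.A6
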