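import Mathlib
import Cfsg.Agent.Lib.B6S.PA0

/-! Existence of `ZR`. -/

set_option autoImplicit false
set_option linter.unusedSectionVars false
set_option linter.unusedSimpArgs false

namespace H60M.A6

open Subgroup H69 H36.SW
open H60M.A7 H80.PC H54 H60M.PZ

variable {G : Type*} [Group G] [Finite G]

namespace Fr
variable {F : Fr G} {g g' r r' d1 d2 η1 η2 a b : G} {P : Subgroup G} {e : Bool}

/-- the elements of `N(Q)` that centralise `V1` -/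
def PAC (F : Fr G) (g r d : G) : Subgroup G := 𝐍(F.QZ g r d) ⊓ 𝐂(F.V1)

theorem PA_nC {n : G} (h1 : n ∈ 𝐍(F.R g r d1)) (h2 : n * F.t = F.t * n) (h3 : n ∈ 𝐍(F.V1)) :
    n ∈ 𝐍(F.QZ g r d1) ∧ n ∈ 𝐍(F.PAC g r d1) := by
  have q : n ∈ 𝐍(F.QZ g r d1) := by
    refine cj_eq_self_iff.1 ?_
    rw [cj_sup, cj_eq_of_mem_normalizer h1, cj_zpowers, h2, mul_inv_cancel_right]
  refine ⟨q, cj_eq_self_iff.1 ?_⟩
  rw [PAC, cj_inf, cj_normalizer, cj_centralizer, cj_eq_of_mem_normalizer q, cj_eq_of_mem_normalizer h3]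

theorem ZZ.PA_ex (h : F.ZZ F.u1 g g' r r' d1 d2 η1 η2) {c : G} (hc : c ∈ F.PAC g r d1) :
    ∃ s ∈ F.V1, c * F.u1 * c⁻¹ = F.u1 * s := by
  have m : c * F.u1 * c⁻¹ ∈ F.X1 := by
    refine (h.sq (conj_mem_of_mem_normalizer (h.NQ hc.1).1 (h.XR F.b2_uX))).2.1 ?_
    rw [← B2.cj_mul, F.u11]; simp
  obtain ⟨i, j, k, e⟩ := F.memX1.1 m
  have s : F.v1 ^ (i : ℕ) * F.z ^ (j : ℕ) ∈ F.V1 := mul_mem (pow_mem F.b2_vV _) (pow_mem F.b2_zV _)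
  generalize F.v1 ^ (i : ℕ) * F.z ^ (j : ℕ) = w at s e
  fin_cases k
  · simp only [Fin.zero_eta, Fin.val_zero, pow_zero, mul_one] at e
    refine (ZC.uV F F.hu1 ?_).elim
    have e2 : c * w * c⁻¹ = w := B2.cj_of_comm (hc.2 w s).symm
    rw [B2.cj_inj' (e.trans e2.symm)]
    exact s
  · simp only [Fin.mk_one, Fin.val_one, pow_one] at e
    exact ⟨w, s, e.trans (h.zac (h.XR (F.V1X1 s)) (h.XR F.b2_uX))⟩

theorem ZZ.PA_QC (h : F.ZZ F.u1 g g' r r' d1 d2 η1 η2) : F.QZ g r d1 ≤ F.PAC g r d1 :=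
  le_inf le_normalizer ((ZD.QX h).trans (centralizer_anti F.V1X1))

theorem PA_mul {x y s s' : G} (hx : x ∈ 𝐂(F.V1)) (hs : s' ∈ F.V1) (e : x * F.u1 * x⁻¹ = F.u1 * s)
    (e' : y * F.u1 * y⁻¹ = F.u1 * s') : x * y * F.u1 * (x * y)⁻¹ = F.u1 * (s * s') := by
  calc _ = x * (y * F.u1 * y⁻¹) * x⁻¹ := by group
    _ = _ := by rw [e', B2.cj_mul, e, B2.cj_of_comm (hx _ hs).symm, mul_assoc]

theorem PA_pow {x s : G} (hx : x ∈ 𝐂(F.V1)) (hs : s ∈ F.V1) (e : x * F.u1 * x⁻¹ = F.u1 * s) (i : ℕ) :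
    x ^ i * F.u1 * (x ^ i)⁻¹ = F.u1 * s ^ i := by
  induction i with
  | zero => simp
  | succ i ih => rw [pow_succ, pow_succ]; exact PA_mul (pow_mem hx _) hs ih e

theorem PA_inv {x s : G} (hx : x ∈ 𝐂(F.V1)) (hs : s ∈ F.V1) (e : x * F.u1 * x⁻¹ = F.u1 * s) :
    x⁻¹ * F.u1 * x⁻¹⁻¹ = F.u1 * s := by
  have ss := F.sqW1 (F.X1W1 (F.V1X1 hs))
  have e2 : x * (F.u1 * s) * x⁻¹ = F.u1 := by
    rw [B2.cj_mul, e, B2.cj_of_comm (hx _ hs).symm, mul_assoc, ss, mul_one]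
  calc _ = x⁻¹ * (x * (F.u1 * s) * x⁻¹) * x⁻¹⁻¹ := by rw [e2]
    _ = _ := by group

theorem ZZ.PA_P (h : F.ZZ F.u1 g g' r r' d1 d2 η1 η2) : ∃ P O : Subgroup G, IsPGroup 2 P ∧
    F.QZ g r d1 ≤ P ∧ P ≤ F.PAC g r d1 ∧ F.v2 ∈ 𝐍(P) ∧
    (∀ o, o ∈ O ↔ o ∈ 𝐂(F.QZ g r d1) ∧ Odd (orderOf o)) ∧ P ≤ 𝐍(O) ∧ F.PAC g r d1 ≤ P ⊔ O := by
  obtain ⟨O, hO, -, -⟩ := F.exO1
  have tQ : F.t ∈ F.QZ g r d1 := mem_sup_right (mem_zpowers _)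
  have WQ : F.W1 ≤ F.QZ g r d1 := fun x hx => (F.memW1'.1 hx).elim (fun a => mem_sup_left (h.XR a))
    fun a => (mul_mem_cancel_left tQ).1 (mem_sup_left (h.XR a))
  have mO : ∀ x, x ∈ O ⊓ 𝐂(F.QZ g r d1) ↔ x ∈ 𝐂(F.QZ g r d1) ∧ Odd (orderOf x) := fun x =>
    ⟨fun a => ⟨a.2, ((hO x).1 a.1).2⟩, fun a => ⟨(hO x).2 ⟨centralizer_le WQ a.1, a.2⟩, a.1⟩⟩
  have vV : F.v2 ∈ 𝐍(F.V1) := ZA.nrm (by
    rintro _ (rfl | rfl)
    · rw [B2.cj_of_comm F.B1zv2.symm]; exact F.b2_zV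
    · rw [F.b2_v2v]; exact mul_mem F.b2_zV F.b2_vV)
  obtain ⟨vQ, vC⟩ := PA_nC h.v2N F.tv2.symm vV
  obtain ⟨S, hS, le⟩ := exists_isSylowIn_le (isP_sup (ZD.isQ h) (H36.SW.P2.of_sq F.v22) vQ)
    (sup_le_sup_right h.PA_QC (zpowers F.v2))
  have vS : F.v2 ∈ S := le (mem_sup_right (mem_zpowers _))
  have QP : F.QZ g r d1 ≤ S ⊓ F.PAC g r d1 := le_inf (le_sup_left.trans le) h.PA_QC
  refine ⟨S ⊓ F.PAC g r d1, _, hS.isP.to_le inf_le_left, QP, inf_le_right, cj_eq_self_iff.1 (by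
    rw [cj_inf, cj_eq_of_mem_normalizer (le_normalizer vS), cj_eq_of_mem_normalizer vC]), mO,
    fun x hx => b2_normO mO hx.2.1, fun x hx => ?_⟩
  obtain ⟨n, hn, p2⟩ := exists_odd_P2 x
  obtain ⟨k, hk, e⟩ := hS.exists_cj_le p2.zpowers (zpowers_le.2 (mem_sup_left (pow_mem hx n)))
  obtain ⟨y, hy, i, rfl⟩ := ZA.adjL vC (F.v22 ▸ one_mem _) hk
  have m : y * x ^ n * y⁻¹ ∈ S := by
    have := conj_mem_of_mem_normalizer' (le_normalizer (pow_mem vS i)) (e (cj_mem _ (mem_zpowers _)))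
    simpa [mul_assoc] using this
  have mC : y * x ^ n * y⁻¹ ∈ F.PAC g r d1 := mul_mem (mul_mem hy (pow_mem hx n)) (inv_mem hy)
  obtain ⟨s, hs, px⟩ := h.PA_ex hx
  obtain ⟨s', hs', py⟩ := h.PA_ex hy
  have ss := F.sqW1 (F.X1W1 (F.V1X1 hs))
  have p1 := PA_pow hx.2 hs px n
  rw [pow_odd_of_sq ss hn] at p1
  have p3 := PA_mul (mul_mem hy.2 (pow_mem hx.2 n)) hs' (PA_mul hy.2 hs py p1) (PA_inv hy.2 hs' py)
  have e3 : s' * s * s' = s := by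
    rw [h.zac (h.XR (F.V1X1 hs')) (h.XR (F.V1X1 hs)), mul_assoc, F.sqW1 (F.X1W1 (F.V1X1 hs')), mul_one]
  rw [e3] at p3
  have p4 := PA_mul (inv_mem mC.2) hs (PA_inv mC.2 hs p3) px
  rw [ss, mul_one] at p4
  have wC := mul_mem (inv_mem mC) hx
  have wX : (y * x ^ n * y⁻¹)⁻¹ * x ∈ 𝐂(F.X1) := ZA.cen (by
    rintro _ (rfl | rfl | rfl)
    exacts [wC.2 _ F.b2_zV, wC.2 _ F.b2_vV, (B2.comm_of_cj p4).symm])
  obtain ⟨q, hq, o, ho, oo, eo⟩ := h.full wC.1 wX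
  rw [inv_mul_eq_iff_eq_mul] at eo
  rw [eo]
  exact mul_mem (mem_sup_left ⟨m, mC⟩) (mul_mem (mem_sup_left (QP hq)) (mem_sup_right ((mO o).2 ⟨ho, oo⟩)))

theorem ZZ.PA_tw (h : F.ZZ F.u1 g g' r r' d1 d2 η1 η2) {o : G} (ho : o ∈ 𝐂(F.QZ g r d1)) :
    F.ZZ F.u1 g g' r r' d1 d2 (o * η1) η2 := by
  have k : ∀ x ∈ F.QZ g r d1, ∀ y, η1 * y * η1⁻¹ = x → o * η1 * y * (o * η1)⁻¹ = x := fun x hx y e => by
    calc _ = o * (η1 * y * η1⁻¹) * o⁻¹ := by group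
      _ = _ := by rw [e, B2.cj_of_comm (ho x hx).symm]
  exact { h with
    η1t := B2.comm_of_cj (k _ (mem_sup_right (mem_zpowers _)) _ (B2.cj_of_comm h.η1t))
    η1u := B2.comm_of_cj (k _ (mem_sup_left (h.XR F.b2_uX)) _ (B2.cj_of_comm h.η1u))
    η1r := B2.comm_of_cj (k _ (mem_sup_left h.zaR) _ (B2.cj_of_comm h.η1r))
    η1g := k _ (mem_sup_left h.zad) _ h.η1g
    η1d := k _ (mem_sup_left (inv_mem (mul_mem h.zaG h.zad))) _ h.η1d }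

theorem ZZ.zr (h : F.ZZ F.u1 g g' r r' d1 d2 η1 η2) (d : F.dl ≠ 1) : ∃ η a P, F.ZR g g' r r' d1 d2 η η2 a P := by
  obtain ⟨f, fR, fV, ft, fu⟩ := h.exa
  obtain ⟨P, O, hP, QP, PC, vP, mO, PO, CP⟩ := h.PA_P
  have tQ : F.t ∈ F.QZ g r d1 := mem_sup_right (mem_zpowers _)
  have fC : f ∈ F.PAC g r d1 := ⟨mem_normalizer_of_cj_le (by
    rw [cj_sup, cj_eq_of_mem_normalizer fR, cj_zpowers, ft]
    exact sup_le le_sup_left (zpowers_le.2 (mul_mem tQ (mem_sup_left h.zaG)))), fV⟩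
  obtain ⟨a, ha, o, ho, rfl⟩ := (mem_sup_of_le_normalizer_right PO).1 (CP fC)
  have oQ := ((mO o).1 ho).1
  have ka : ∀ x ∈ F.QZ g r d1, a * o * x * (a * o)⁻¹ = a * x * a⁻¹ := fun x hx => by
    calc _ = a * (o * x * o⁻¹) * a⁻¹ := by group
      _ = _ := by rw [B2.cj_of_comm (oQ x hx).symm]
  rw [ka _ tQ] at ft
  rw [ka _ (mem_sup_left (h.XR F.b2_uX))] at fu
  have ηC : η1 ∈ 𝐍(F.PAC g r d1) := (PA_nC h.ηN h.η1t (ZC.SP1 h (ZC.eta h).1).2).2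
  obtain ⟨o', ho', hη⟩ := frat_odd (g := η1) hP (fun o ho => ((mO o).1 ho).2) PO
    (le_trans (le_trans (cj_mono η1 PC) (cj_eq_of_mem_normalizer ηC).le) CP)
  exact ⟨o' * η1, a, P, h.PA_tw ((mO o').1 ho').1, d, hP, QP, PC.trans inf_le_left, PC.trans inf_le_right, ha,
    vP, hη, ft, fu⟩

end Fr

end H60M.A6
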