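import Mathlib
import Cfsg.Agent.Lib.B6S.PA0

/-! Existence of `ZR1`. -/

set_option autoImplicit false

namespace H60M.A6

open Subgroup H69 H36.SW
open H60M.A7 H80.PC H54 H60M.PZ

variable {G : Type*} [Group G] [Finite G]

namespace PA2

omit [Finite G] in
theorem cjC {P : Subgroup G} {s c : G} (hs : s ∈ 𝐍(P)) (hc : c ∈ 𝐂(P)) : s * c * s⁻¹ ∈ 𝐂(P) :=
  conj_mem_of_mem_normalizer (normalizer_le_normalizer_centralizer _ hs) hc

omit [Finite G] in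
theorem cube {P : Subgroup G} {s c : G} (hs : s ∈ 𝐍(P)) (hc : c ∈ 𝐂(P)) (h : (c * s) ^ 3 ∈ 𝐂(P)) :
    s ^ 3 ∈ 𝐂(P) := by
  have e : (c * s) ^ 3 = c * (s * c * s⁻¹) * (s * (s * c * s⁻¹) * s⁻¹) * s ^ 3 := by
    simp only [pow_succ, pow_zero, one_mul, mul_assoc, inv_mul_cancel_left]
  rwa [e, mul_mem_cancel_left (mul_mem (mul_mem hc (cjC hs hc)) (cjC hs (cjC hs hc)))] at h

theorem oddp (x : G) : ∃ j : ℕ, Odd (orderOf (x ^ (3 * j + 1))) := by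
  obtain ⟨k, m, hm, e⟩ := Nat.exists_eq_two_pow_mul_odd (orderOf_pos x).ne'
  have h4 : 4 ^ k % 3 = 1 := by rw [Nat.pow_mod]; simp
  refine ⟨4 ^ k / 3, hm.of_dvd_nat (orderOf_dvd_of_pow_eq_one ?_)⟩
  rw [show 3 * (4 ^ k / 3) + 1 = 4 ^ k by omega, ← pow_mul, show 4 ^ k * m = 2 ^ k * m * 2 ^ k by
    rw [show (4 : ℕ) = 2 * 2 from rfl, mul_pow]; ring, pow_mul, ← e, pow_orderOf_eq_one, one_pow]

omit [Finite G] in
theorem sameCj {c x y : G} (e : G) (h : y * c = c * y) (k : x = e * c) : x * y * x⁻¹ = e * y * e⁻¹ := by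
  rw [k, show e * c * y * (e * c)⁻¹ = e * (c * y * c⁻¹) * e⁻¹ by group, ← h, mul_inv_cancel_right]

end PA2

namespace Fr
variable {F : Fr G} {g g' r r' d1 d2 η1 η2 a b : G} {P : Subgroup G} {e : Bool}

omit [Finite G] in
theorem pa2_cenQ {x : G} (hg : g * x = x * g) (hd : d1 * x = x * d1) (hr : r * x = x * r)
    (hu : F.u1 * x = x * F.u1) (ht : F.t * x = x * F.t) : x ∈ 𝐂(F.QZ g r d1) := fun y hy => by
  have : F.QZ g r d1 ≤ centralizer {x} := sup_le ((closure_le _).2 (by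
    rintro _ (rfl | rfl | rfl | rfl) <;> exact mem_centralizer_singleton_iff.2 ‹_›))
    (zpowers_le.2 (mem_centralizer_singleton_iff.2 ht))
  exact mem_centralizer_singleton_iff.1 (this hy)

theorem ZR.memQ (h : F.ZR g g' r r' d1 d2 η1 η2 a P) {p : G} (hp : p ∈ P) (hu : p * F.u1 = F.u1 * p) : p ∈ F.QZ g r d1 := by
  obtain ⟨q, hq, o, -, ho, e⟩ := h.toZZ.full (h.PN hp) (B2.cent_gen (by
    rintro _ (rfl | rfl | rfl)
    exacts [h.PV hp _ F.b2_zV, h.PV hp _ F.b2_vV, hu.symm]))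
  have : o ∈ P := by
    rw [← mul_mem_cancel_left (h.QP hq), ← e]; exact hp
  rwa [e, (P2.of_mem h.pP this).eq_one ho, mul_one]

theorem ZR.pa2_odd (h : F.ZR g g' r r' d1 d2 η1 η2 a P) {o : G} (ho : Odd (orderOf o)) (hN : o ∈ 𝐍(P))
    (hC : o ∈ 𝐂(F.QZ g r d1)) : o ∈ 𝐂(P) := by
  refine odd_cent (ZD.isQ h.toZZ) ho hC fun p hp => ?_
  have uQ : F.u1 ∈ F.QZ g r d1 := mem_sup_left (h.toZZ.XR F.b2_uX)
  refine h.memQ (mul_mem (inv_mem hp) (conj_mem_of_mem_normalizer hN hp)) (B2.comm_of_cj ?_)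
  calc _ = p⁻¹ * (o * (p * (o⁻¹ * F.u1 * o⁻¹⁻¹) * p⁻¹) * o⁻¹) * p := by group
    _ = F.u1 := by
      rw [B2.cj_of_comm (inv_mem hC _ uQ).symm,
        B2.cj_of_comm (hC _ (conj_mem_of_mem_normalizer (h.PN hp) uQ)).symm]
      group

theorem ZR.pa2_core (h : F.ZR g g' r r' d1 d2 η1 η2 a P) (ho : Odd (orderOf η1))
    (h3 : η1 ^ 3 ∈ 𝐂(F.QZ g r d1)) : F.ZR1 g g' r r' d1 d2 η1 η2 a P := by
  have z := h.toZZ
  have c3 : η1 ^ 3 ∈ 𝐂(P) := h.pa2_odd (ho.of_dvd_nat (orderOf_pow_dvd 3)) (pow_mem h.ηP 3) h3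
  refine ⟨h, c3, ?_⟩
  have gd := z.zac z.zaG z.zad
  have vi := F.b2_v2i
  have vg : F.v2 * g * F.v2⁻¹ = g := B2.cj_of_comm (z.gT _ (subset_closure (by simp)))
  have vr : F.v2 * r * F.v2⁻¹ = r := B2.cj_of_comm (z.rT _ (subset_closure (by simp)))
  have vd : F.v2 * d1 * F.v2⁻¹ = (g * d1)⁻¹ := by
    have : F.v2 * d1⁻¹ * F.v2⁻¹ = g * d1 := by
      calc _ = F.v2⁻¹ * (d1⁻¹ * F.v2 * d1) * d1⁻¹ := by rw [vi]; group
        _ = _ := by rw [z.c1, ← z.d11]; group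
    rw [← this]; group
  have cj : ∀ x, F.v2 * η1 * F.v2 * η1 * x * (F.v2 * η1 * F.v2 * η1)⁻¹ =
      F.v2 * (η1 * (F.v2 * (η1 * x * η1⁻¹) * F.v2⁻¹) * η1⁻¹) * F.v2⁻¹ := fun x => by group
  have ηgd : η1 * (g * d1)⁻¹ * η1⁻¹ = g := by
    rw [show η1 * (g * d1)⁻¹ * η1⁻¹ = (η1 * g * η1⁻¹ * (η1 * d1 * η1⁻¹))⁻¹ by group, z.η1g, z.η1d]; group
  have vgd : F.v2 * (g * d1)⁻¹ * F.v2⁻¹ = d1 := by
    rw [show F.v2 * (g * d1)⁻¹ * F.v2⁻¹ = (F.v2 * g * F.v2⁻¹ * (F.v2 * d1 * F.v2⁻¹))⁻¹ by group, vg, vd, gd]; group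
  have yN : F.v2 * η1 * F.v2 * η1 ∈ 𝐍(P) := mul_mem (mul_mem (mul_mem h.vN h.ηP) h.vN) h.ηP
  have yC : F.v2 * η1 * F.v2 * η1 ∈ 𝐂(F.QZ g r d1) := pa2_cenQ
    (B2.comm_of_cj (by rw [cj, z.η1g, vd, ηgd, vg])).symm
    (B2.comm_of_cj (by rw [cj, z.η1d, vgd, z.η1d, vgd])).symm
    (B2.comm_of_cj (by rw [cj, B2.cj_of_comm z.η1r, vr, B2.cj_of_comm z.η1r, vr])).symm
    (B2.comm_of_cj (by rw [cj, B2.cj_of_comm z.η1u, B2.cj_of_comm F.u1v2.symm, B2.cj_of_comm z.η1u,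
      B2.cj_of_comm F.u1v2.symm])).symm
    (B2.comm_of_cj (by rw [cj, B2.cj_of_comm z.η1t, B2.cj_of_comm F.tv2.symm, B2.cj_of_comm z.η1t,
      B2.cj_of_comm F.tv2.symm])).symm
  generalize hy : F.v2 * η1 * F.v2 * η1 = y at yN yC
  obtain ⟨m, h2, hodd⟩ := B2.split y
  have xC := pow_mem yC m
  have oC := h.pa2_odd hodd (mul_mem (inv_mem (pow_mem yN m)) yN) (mul_mem (inv_mem xC) yC)
  have tQ : F.t ∈ F.QZ g r d1 := mem_sup_right (mem_zpowers _)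
  have WQ : F.W1 ≤ F.QZ g r d1 := fun w hw => (F.memW1'.1 hw).elim (fun k => mem_sup_left (z.XR k)) fun k =>
    (mul_mem_cancel_left tQ).1 (mem_sup_left (z.XR k))
  have xX : y ^ m ∈ F.X1 := (F.memW1'.1 (F.p2W1 (centralizer_anti WQ xC) h2)).resolve_right fun k => by
    have c1 : Commute g (F.t * y ^ m) := z.zac z.zaG (z.XR k)
    have c2 : Commute g (y ^ m) := xC _ (mem_sup_left z.zaG)
    have c : g * F.t = F.t * g := by simpa using (c1.mul_right c2.inv_right).eq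
    have := z.zat z.zaG
    rw [B2.cj_of_comm c, z.gg] at this
    exact F.z1 (by simpa using this.symm)
  have VC : F.V1 ≤ 𝐂(P) := fun v hv p hp => (h.PV hp v hv).symm
  rcases ZD.Xmem F xX with k | k
  · simpa using mul_mem (VC k) oC
  · exfalso
    have uP : F.u1 ∈ 𝐍(P) := le_normalizer (h.QP (mem_sup_left (z.XR F.b2_uX)))
    have e : F.v2 * η1 * F.v2⁻¹ = y ^ m * F.u1 * (F.u1 * ((y ^ m)⁻¹ * y) * F.u1⁻¹) * (F.u1 * η1⁻¹) := by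
      calc _ = y ^ m * ((y ^ m)⁻¹ * y) * η1⁻¹ := by rw [mul_inv_cancel_left, ← hy, vi]; group
        _ = y ^ m * (F.u1 * F.u1) * ((y ^ m)⁻¹ * y) * η1⁻¹ := by rw [F.u11, mul_one]
        _ = _ := by group
    have k3 := PA2.cube (mul_mem uP (inv_mem h.ηP)) (mul_mem (VC k) (PA2.cjC uP oC))
      (by rw [← e, conj_pow]; exact PA2.cjC h.vN c3)
    rw [(show Commute F.u1 η1⁻¹ from (show Commute F.u1 η1 from z.η1u.symm).inv_right).mul_pow, inv_pow,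
      mul_mem_cancel_right (inv_mem c3), show F.u1 ^ 3 = F.u1 by rw [pow_succ, pow_two, F.u11, one_mul]] at k3
    have := h.au
    rw [B2.cj_of_comm (k3 a h.aP)] at this
    exact F.z1 (by simpa using this.symm)

theorem ZR.zr1 (h : F.ZR g g' r r' d1 d2 η1 η2 a P) : ∃ η, F.ZR1 g g' r r' d1 d2 η η2 a P := by
  have z := h.toZZ
  have cj : ∀ x, η1 ^ 3 * x * (η1 ^ 3)⁻¹ = η1 * (η1 * (η1 * x * η1⁻¹) * η1⁻¹) * η1⁻¹ := fun x => by
    simp only [pow_succ, pow_zero, one_mul, mul_assoc, mul_inv_rev]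
  have ηgd : η1 * (g * d1)⁻¹ * η1⁻¹ = g := by
    rw [show η1 * (g * d1)⁻¹ * η1⁻¹ = (η1 * g * η1⁻¹ * (η1 * d1 * η1⁻¹))⁻¹ by group, z.η1g, z.η1d]; group
  have h3 : η1 ^ 3 ∈ 𝐂(F.QZ g r d1) := pa2_cenQ
    (B2.comm_of_cj (by rw [cj, z.η1g, z.η1d, ηgd])).symm
    (B2.comm_of_cj (by rw [cj, z.η1d, ηgd, z.η1g])).symm
    ((show Commute r η1 from z.η1r.symm).pow_right 3) ((show Commute F.u1 η1 from z.η1u.symm).pow_right 3)
    ((show Commute F.t η1 from z.η1t.symm).pow_right 3)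
  obtain ⟨j, hj⟩ := PA2.oddp η1
  have k : η1 ^ (3 * j + 1) = η1 * (η1 ^ 3) ^ j := by rw [pow_succ', pow_mul]
  have cj' : ∀ x ∈ F.QZ g r d1, η1 ^ (3 * j + 1) * x * (η1 ^ (3 * j + 1))⁻¹ = η1 * x * η1⁻¹ := fun x hx =>
    PA2.sameCj η1 (pow_mem h3 j x hx) k
  refine ⟨η1 ^ (3 * j + 1), ZR.pa2_core ⟨{ z with
    η1t := ((show Commute η1 F.t from z.η1t).pow_left _).eq
    η1u := ((show Commute η1 F.u1 from z.η1u).pow_left _).eq
    η1r := ((show Commute η1 r from z.η1r).pow_left _).eq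
    η1g := (cj' _ (mem_sup_left z.zaG)).trans z.η1g
    η1d := (cj' _ (mem_sup_left z.zad)).trans z.η1d }, h.d, h.pP, h.QP, h.PN, h.PV, h.aP, h.vN,
    pow_mem h.ηP _, h.at', h.au⟩ hj ?_⟩
  rw [← pow_mul, mul_comm, pow_mul]
  exact pow_mem h3 _

end Fr

end H60M.A6
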