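import Mathlib
import Cfsg.Agent.Lib.B6S.PA2

/-! Existence of `ZR2`. -/

set_option autoImplicit false
set_option linter.unusedSectionVars false

namespace H60M.A6

open Subgroup H69 H36.SW
open H60M.A7 H80.PC H54 H60M.PZ

variable {G : Type*} [Group G] [Finite G]

namespace PB1

local notation "κ" => MulAut.conj

variable {F : Fr G} {g g' r r' d1 d2 η1 η2 a p q : G} {P : Subgroup G} {x y w x' y' w' : Fin 2 × Fin 2}

/-- coordinates on `V1` -/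
def pv (F : Fr G) (x : Fin 2 × Fin 2) : G := F.z ^ (x.1 : ℕ) * F.v1 ^ (x.2 : ℕ)
/-- the action of `η1` -/
def pth (x : Fin 2 × Fin 2) : Fin 2 × Fin 2 := (x.2, x.1 + x.2)
/-- the action of `v2` -/
def pnu (x : Fin 2 × Fin 2) : Fin 2 × Fin 2 := (x.1 + x.2, x.2)

theorem pv_add (F : Fr G) (x y : Fin 2 × Fin 2) : pv F (x + y) = pv F x * pv F y := by
  have c : Commute F.z F.v1 := F.zv1
  simp only [pv, Prod.fst_add, Prod.snd_add, B1.pw F.zz, B1.pw F.v11]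
  exact (c.pow_pow _ _).mul_mul_mul_comm _ _

theorem pv_mem (F : Fr G) (x : Fin 2 × Fin 2) : pv F x ∈ F.V1 :=
  mul_mem (pow_mem (ZC.zV F) _) (pow_mem (ZC.vV F) _)

theorem pv_0 (F : Fr G) : pv F 0 = 1 := by simp [pv]
theorem pv_z (F : Fr G) : pv F (1, 0) = F.z := by simp [pv]
theorem pv_v (F : Fr G) : pv F (0, 1) = F.v1 := by simp [pv]
theorem pv_zv (F : Fr G) : pv F (1, 1) = F.z * F.v1 := by simp [pv]

theorem pv_ex {v : G} (h : v ∈ F.V1) : ∃ x, v = pv F x := by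
  rcases F.memV1.1 h with rfl | rfl | rfl | rfl
  exacts [⟨_, (pv_0 F).symm⟩, ⟨_, (pv_z F).symm⟩, ⟨_, (pv_v F).symm⟩, ⟨_, (pv_zv F).symm⟩]

theorem sqV {v : G} (h : v ∈ F.V1) : v * v = 1 := F.sqW1 (F.X1W1 (F.V1X1 h))

theorem pv_inj (h : pv F x = pv F y) : x = y := by
  have e : pv F (x + y) = 1 := by rw [pv_add, h, sqV (pv_mem F y)]
  have c : Commute F.z F.v1 := F.zv1
  have := F.ind (a := 0) (b := (x + y).2) (c := 0) (d := (x + y).1) (e := 0) (by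
    rw [pv, (c.pow_pow _ _).eq] at e
    simpa using e)
  have k : ∀ x y : Fin 2 × Fin 2, (x + y).2 = 0 → (x + y).1 = 0 → x = y := by decide
  exact k x y this.2.1 this.2.2.2.1

theorem pv_th (h : F.ZZ F.u1 g g' r r' d1 d2 η1 η2) (x : Fin 2 × Fin 2) : κ η1 (pv F x) = pv F (pth x) := by
  obtain ⟨-, e1, e2, -⟩ := ZC.eta h
  have e3 : F.v1 * (F.z * F.v1) = F.z := by rw [F.zv1, ← mul_assoc, F.v11, one_mul]
  obtain ⟨i, j⟩ := x
  rw [pv, map_mul, map_pow, map_pow, e1, e2]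
  fin_cases i <;> fin_cases j <;> simp [pv, pth, e3]

theorem pv_nu (F : Fr G) (x : Fin 2 × Fin 2) : κ F.v2 (pv F x) = pv F (pnu x) := by
  have e1 : κ F.v2 F.z = F.z := ZC.kfix F.B1zv2.symm
  have e2 : κ F.v2 F.v1 = F.z * F.v1 := by
    rw [MulAut.conj_apply, inv_eq_of_mul_eq_one_right F.v22, F.zav2]
  have e3 : F.z * (F.z * F.v1) = F.v1 := by rw [← mul_assoc, F.zz, one_mul]
  obtain ⟨i, j⟩ := x
  rw [pv, map_mul, map_pow, map_pow, e1, e2]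
  fin_cases i <;> fin_cases j <;> simp [pv, pnu, e3]

theorem kk (s p m : G) : κ (s * p * s⁻¹) (κ s m) = κ s (κ p m) := by
  simp only [MulAut.conj_apply]; group

theorem km (p q m : G) : κ (p * q) m = κ p (κ q m) := by
  simp only [MulAut.conj_apply]; group

theorem fixV (h : F.ZR g g' r r' d1 d2 η1 η2 a P) (hp : p ∈ P) {v : G} (hv : v ∈ F.V1) : κ p v = v :=
  ZC.kfix (h.PV hp v hv).symm

/-- the action of `p` on `g, d, u1` -/
structure Ac (F : Fr G) (g d : G) (P : Subgroup G) (p : G) (x y w : Fin 2 × Fin 2) : Prop where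
  mem : p ∈ P
  hg : κ p g = g * pv F x
  hd : κ p d = d * pv F y
  hu : κ p F.u1 = F.u1 * pv F w

theorem Ac.mul (h : F.ZR g g' r r' d1 d2 η1 η2 a P) (k : Ac F g d1 P p x y w) (k' : Ac F g d1 P q x' y' w') :
    Ac F g d1 P (p * q) (x + x') (y + y') (w + w') := by
  refine ⟨mul_mem k.mem k'.mem, ?_, ?_, ?_⟩
  · rw [km, k'.hg, map_mul, k.hg, fixV h k.mem (pv_mem F _), pv_add, mul_assoc]
  · rw [km, k'.hd, map_mul, k.hd, fixV h k.mem (pv_mem F _), pv_add, mul_assoc]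
  · rw [km, k'.hu, map_mul, k.hu, fixV h k.mem (pv_mem F _), pv_add, mul_assoc]

theorem Ac.gd (h : F.ZZ F.u1 g g' r r' d1 d2 η1 η2) (k : Ac F g d1 P p x y w) :
    κ p (g * d1)⁻¹ = (g * d1)⁻¹ * pv F (x + y) := by
  have VR : ∀ x, pv F x ∈ F.R g r d1 := fun x => h.XR (F.V1X1 (pv_mem F x))
  have c : Commute (pv F x) d1 := h.zac (VR _) h.zad
  rw [map_inv, map_mul, k.hg, k.hd, c.mul_mul_mul_comm, ← pv_add, mul_inv_rev,
    inv_eq_of_mul_eq_one_right (sqV (pv_mem F _))]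
  exact h.zac (VR _) (inv_mem (mul_mem h.zaG h.zad))

theorem Ac.eta (h : F.ZR g g' r r' d1 d2 η1 η2 a P) (k : Ac F g d1 P p x y w) :
    Ac F g d1 P (η1 * p * η1⁻¹) (pth (x + y)) (pth x) (pth w) := by
  have e1 : κ η1 g = d1 := h.η1g
  have e2 : κ η1 d1 = (g * d1)⁻¹ := h.η1d
  have e3 : κ η1 (g * d1)⁻¹ = g := by
    rw [map_inv, map_mul, e1, e2]; group
  have e4 : κ η1 F.u1 = F.u1 := ZC.kfix h.η1u
  refine ⟨conj_mem_of_mem_normalizer h.ηP k.mem, ?_, ?_, ?_⟩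
  · conv_lhs => rw [← e3]
    rw [kk, k.gd h.toZZ, map_mul, e3, pv_th h.toZZ]
  · conv_lhs => rw [← e1]
    rw [kk, k.hg, map_mul, e1, pv_th h.toZZ]
  · conv_lhs => rw [← e4]
    rw [kk, k.hu, map_mul, e4, pv_th h.toZZ]

theorem Ac.nu (h : F.ZR g g' r r' d1 d2 η1 η2 a P) (k : Ac F g d1 P p x y w) :
    Ac F g d1 P (F.v2 * p * F.v2⁻¹) (pnu x) (pnu (x + y)) (pnu w) := by
  have e1 : κ F.v2 g = g := ZC.kfix (h.toZZ.zav (subset_closure (by simp)))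
  have e3 : κ F.v2 (g * d1)⁻¹ = d1 := by
    have c := h.c1
    rw [← h.d11] at c
    have c' : Commute g d1 := h.toZZ.zac h.toZZ.zaG h.toZZ.zad
    rw [MulAut.conj_apply, mul_inv_eq_iff_eq_mul]
    calc F.v2 * (g * d1)⁻¹ = d1 * (d1⁻¹ * F.v2 * d1) * (d1⁻¹ * d1⁻¹ * g⁻¹) := by group
      _ = d1 * F.v2 * (g * (d1 * d1 * d1⁻¹ * d1⁻¹) * g⁻¹) := by rw [c]; group
      _ = _ := by group
  have e4 : κ F.v2 F.u1 = F.u1 := ZC.kfix F.u1v2.symm
  refine ⟨conj_mem_of_mem_normalizer h.vN k.mem, ?_, ?_, ?_⟩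
  · conv_lhs => rw [← e1]
    rw [kk, k.hg, map_mul, e1, pv_nu]
  · conv_lhs => rw [← e3]
    rw [kk, k.gd h.toZZ, map_mul, e3, pv_nu]
  · conv_lhs => rw [← e4]
    rw [kk, k.hu, map_mul, e4, pv_nu]

theorem pm (h : F.ZR g g' r r' d1 d2 η1 η2 a P) (hp : p ∈ P) (hu : κ p F.u1 = F.u1) :
    (∀ m ∈ F.R g r d1, κ p m = m) ∨ ∀ m ∈ F.R g r d1, κ p m = m⁻¹ := by
  rcases ZD.memQ h.toZZ (h.memQ hp (ZC.of_kfix hu)) with e | ⟨e, he, rfl⟩
  · exact .inl fun m hm => ZC.kfix (h.toZZ.zac e hm)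
  · refine .inr fun m hm => ?_
    rw [km, MulAut.conj_apply F.t, inv_eq_of_mul_eq_one_right F.tt, h.toZZ.inv hm]
    exact ZC.kfix (h.toZZ.zac he (inv_mem hm))

theorem Ac.fix (h : F.ZR g g' r r' d1 d2 η1 η2 a P) (k : Ac F g d1 P p x y w) (hw : w = 0) :
    ((x = 0 ∧ y = 0) ∧ ∀ m ∈ F.R g r d1, κ p m = m) ∨ (x = (1, 0) ∧ y = (0, 1)) := by
  subst hw
  rcases pm h k.mem (by rw [k.hu, pv_0, mul_one]) with e | e
  · refine .inl ⟨⟨pv_inj (F := F) ?_, pv_inj (F := F) ?_⟩, e⟩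
    · have := k.hg
      rw [e g h.toZZ.zaG] at this
      rw [pv_0]; exact (mul_eq_left.1 this.symm)
    · have := k.hd
      rw [e d1 h.toZZ.zad] at this
      rw [pv_0]; exact (mul_eq_left.1 this.symm)
  · refine .inr ⟨pv_inj (F := F) ?_, pv_inj (F := F) ?_⟩
    · have := k.hg
      rw [e g h.toZZ.zaG] at this
      rw [pv_z, ← inv_eq_of_mul_eq_one_right F.zz, ← h.gg, mul_inv_rev, eq_mul_inv_iff_mul_eq,
        ← h.toZZ.zac h.toZZ.zaG (h.toZZ.XR (F.V1X1 (pv_mem F x))), this]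
    · have := k.hd
      rw [e d1 h.toZZ.zad] at this
      rw [pv_v, ← inv_eq_of_mul_eq_one_right F.v11, ← h.d11, mul_inv_rev, eq_mul_inv_iff_mul_eq,
        ← h.toZZ.zac h.toZZ.zad (h.toZZ.XR (F.V1X1 (pv_mem F y))), this]

theorem au' (h : F.ZR g g' r r' d1 d2 η1 η2 a P) : κ a F.u1 = F.u1 * F.z := h.au

theorem aau (h : F.ZR g g' r r' d1 d2 η1 η2 a P) : κ (a * a) F.u1 = F.u1 := by
  rw [km, au' h, map_mul, au' h, fixV h h.aP (ZC.zV F), mul_assoc, F.zz, mul_one]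

theorem tw (h : F.ZR g g' r r' d1 d2 η1 η2 a P) {f : G} (hf : f ∈ F.X1) :
    (f ∈ F.V1 ∧ f * κ a f = 1) ∨ ((∃ s ∈ F.V1, f = F.u1 * s) ∧ f * κ a f = F.z) := by
  rcases ZD.Xmem F hf with e | e
  · exact .inl ⟨e, by rw [fixV h h.aP e, sqV e]⟩
  · have uX : F.u1 ∈ F.X1 := subset_closure (by simp)
    have c : f * F.u1 = F.u1 * f := h.toZZ.zac (h.toZZ.XR hf) (h.toZZ.XR uX)
    have e1 : f = F.u1 * (f * F.u1) := by rw [c, ← mul_assoc, F.u11, one_mul]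
    refine .inr ⟨⟨_, e, e1⟩, ?_⟩
    have e2 : κ a f = f * F.z := by
      conv_lhs => rw [e1]
      rw [map_mul, au' h, fixV h h.aP e, mul_assoc, h.toZZ.zac (h.toZZ.XR (F.V1X1 (ZC.zV F)))
        (h.toZZ.XR (F.V1X1 e)), ← mul_assoc, ← e1]
    rw [e2, ← mul_assoc, F.sqW1 (F.X1W1 hf), one_mul]

theorem cjR (h : F.ZR g g' r r' d1 d2 η1 η2 a P) {m n : G} (hm : m ∈ F.R g r d1) (hn : n ∈ F.R g r d1)
    (e : κ a (m * m) = n * n) : ∃ f ∈ F.X1, κ a m = n * f := by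
  have aN := (h.toZZ.NQ (h.PN h.aP)).1
  have k : κ a m ∈ F.R g r d1 := conj_mem_of_mem_normalizer aN hm
  refine ⟨n⁻¹ * κ a m, (h.toZZ.sq (mul_mem (inv_mem hn) k)).2.1 ?_, (mul_inv_cancel_left _ _).symm⟩
  rw [ZA.mm (h.toZZ.zac (inv_mem hn) k), ← map_mul, e]; group

theorem exA (h : F.ZR g g' r r' d1 d2 η1 η2 a P) : ∃ x y, Ac F g d1 P a x y (1, 0) := by
  obtain ⟨f1, hf1, e1⟩ := cjR h h.toZZ.zaG h.toZZ.zaG (by rw [h.gg]; exact fixV h h.aP (ZC.zV F))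
  obtain ⟨f2, hf2, e2⟩ := cjR h h.toZZ.zad h.toZZ.zad (by rw [h.d11]; exact fixV h h.aP (ZC.vV F))
  have s1 : κ (a * a) g = g * (f1 * κ a f1) := by rw [km, e1, map_mul, e1, mul_assoc]
  have s2 : κ (a * a) d1 = d1 * (f2 * κ a f2) := by rw [km, e2, map_mul, e2, mul_assoc]
  rcases pm h (mul_mem h.aP h.aP) (aau h) with e | e
  · rw [e _ h.toZZ.zaG] at s1
    rw [e _ h.toZZ.zad] at s2
    have v1 : f1 ∈ F.V1 := ((tw h hf1).resolve_right fun k => F.z1 (k.2 ▸ mul_eq_left.1 s1.symm)).1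
    have v2 : f2 ∈ F.V1 := ((tw h hf2).resolve_right fun k => F.z1 (k.2 ▸ mul_eq_left.1 s2.symm)).1
    obtain ⟨x, rfl⟩ := pv_ex v1
    obtain ⟨y, rfl⟩ := pv_ex v2
    exact ⟨x, y, h.aP, e1, e2, by rw [pv_z]; exact au' h⟩
  · exfalso
    rw [e _ h.toZZ.zad] at s2
    have k : pv F (0, 1) = f2 * κ a f2 := by
      rw [pv_v, ← inv_eq_of_mul_eq_one_right F.v11, ← h.d11, mul_inv_rev, inv_mul_eq_iff_eq_mul, s2]
    rcases tw h hf2 with ⟨-, k'⟩ | ⟨-, k'⟩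
    · rw [k', ← pv_0 F] at k
      exact absurd (pv_inj k) (by decide)
    · rw [k', ← pv_z F] at k
      exact absurd (pv_inj k) (by decide)

theorem noC (h : F.ZR g g' r r' d1 d2 η1 η2 a P) (k : Ac F g d1 P a 0 0 (1, 0)) : False := by
  have hz := h.toZZ
  have uX : F.u1 ∈ F.X1 := subset_closure (by simp)
  have VR : ∀ {s}, s ∈ F.V1 → s ∈ F.R g r d1 := fun hs => hz.XR (F.V1X1 hs)
  obtain ⟨f, hf, e⟩ := cjR h hz.zaR (mul_mem hz.zaR hz.zaG) (by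
    rw [h.rr, au' h, ZA.mm (hz.zac hz.zaR hz.zaG), h.rr, h.gg])
  have ag : κ a g = g := by rw [k.hg, pv_0, mul_one]
  rcases tw h hf with ⟨fV, -⟩ | ⟨⟨s, hs, rfl⟩, -⟩
  · rcases (k.mul h k).fix h (by decide) with ⟨-, c⟩ | c
    · have := c r hz.zaR
      rw [km, e, map_mul, map_mul, e, ag, fixV h h.aP fV, mul_assoc, mul_assoc, mul_assoc, mul_eq_left,
        ← mul_assoc f, ← hz.zac hz.zaG (VR fV), mul_assoc, sqV fV, mul_one, h.gg] at this
      exact F.z1 this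
    · exact absurd c.1 (by decide)
  · have kb := k.eta h
    have kc := kb.eta h
    have ηr : κ η1 r = r := ZC.kfix h.η1r
    have ηu : κ η1 F.u1 = F.u1 := ZC.kfix h.η1u
    have ηg : κ η1 g = d1 := h.η1g
    have ηd : κ η1 d1 = (g * d1)⁻¹ := h.η1d
    obtain ⟨x, rfl⟩ := pv_ex hs
    have eb : κ (η1 * a * η1⁻¹) r = r * d1 * (F.u1 * pv F (pth x)) := by
      conv_lhs => rw [← ηr]
      rw [kk, e, map_mul, map_mul, map_mul, ηr, ηg, ηu, pv_th hz]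
    have ec : κ (η1 * (η1 * a * η1⁻¹) * η1⁻¹) r = r * (g * d1)⁻¹ * (F.u1 * pv F (pth (pth x))) := by
      conv_lhs => rw [← ηr]
      rw [kk, eb, map_mul, map_mul, map_mul, ηr, ηd, ηu, pv_th hz]
    have kab := k.mul h kb
    rcases (kab.mul h kc).fix h (by decide) with ⟨-, c⟩ | c
    · have := c r hz.zaR
      have m1 : ∀ p m n : G, κ p (m * n) = κ p m * κ p n := fun p m n => map_mul _ _ _
      rw [km, ec, m1, m1, m1, kab.gd hz, kab.hu, fixV h kab.mem (pv_mem F _), km, eb, m1,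
        m1, m1, e, k.hd, k.hu, fixV h h.aP (pv_mem F _)] at this
      have cu : ∀ y, pv F y * F.u1 = F.u1 * pv F y := fun y => hz.zac (VR (pv_mem F y)) (hz.XR uX)
      have key : ∀ y1 y2 y3 : G, y1 ∈ F.R g r d1 → y2 ∈ F.R g r d1 →
          r * g * y1 * (d1 * y2) * ((g * d1)⁻¹ * y3) = r * (y1 * y2 * y3) := fun y1 y2 y3 h1 h2 => by
        have c1 : y1 * d1 = d1 * y1 := hz.zac h1 hz.zad
        have c2 : y1 * y2 * (g * d1)⁻¹ = (g * d1)⁻¹ * (y1 * y2) :=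
          hz.zac (mul_mem h1 h2) (inv_mem (mul_mem hz.zaG hz.zad))
        calc _ = r * g * (y1 * d1) * y2 * ((g * d1)⁻¹ * y3) := by group
          _ = r * (g * d1) * (y1 * y2 * (g * d1)⁻¹) * y3 := by rw [c1]; group
          _ = _ := by rw [c2]; group
      have key2 : ∀ s1 s2 s3 : Fin 2 × Fin 2, F.u1 * pv F s1 * (F.u1 * pv F s2) * (F.u1 * pv F s3) ≠ 1 :=
        fun s1 s2 s3 e => ZC.uV F F.hu1 (by
          have e' : F.u1 * pv F s1 * (F.u1 * pv F s2) * (F.u1 * pv F s3) =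
              F.u1 * (pv F s1 * pv F s2 * pv F s3) := by
            calc _ = F.u1 * (pv F s1 * F.u1) * (pv F s2 * F.u1) * pv F s3 := by group
              _ = F.u1 * (F.u1 * pv F s1) * (F.u1 * pv F s2) * pv F s3 := by rw [cu s1, cu s2]
              _ = F.u1 * F.u1 * (pv F s1 * F.u1) * pv F s2 * pv F s3 := by group
              _ = _ := by rw [F.u11, cu s1]; group
          rw [e', mul_eq_one_iff_eq_inv] at e
          rw [e]
          exact inv_mem (mul_mem (mul_mem (pv_mem F _) (pv_mem F _)) (pv_mem F _)))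
      have uR : ∀ y, F.u1 * pv F y ∈ F.R g r d1 := fun y => mul_mem (hz.XR uX) (VR (pv_mem F y))
      refine key2 x ((1, 0) + pth x) ((1, 0) + pth (1, 0) + pth (pth x)) ((mul_eq_left (a := r)).1 ?_)
      rw [← key _ _ _ (uR _) (uR _)]
      refine Eq.trans ?_ this
      rw [show (0 : Fin 2 × Fin 2) + pth (0 + 0) + (0 + pth 0) = 0 by decide, pv_0, pv_add F _ (pth x),
        pv_add F _ (pth (pth x))]
      group
    · exact absurd c.1 (by decide)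

theorem att (h : F.ZR1 g g' r r' d1 d2 η1 η2 a P) (k : Ac F g d1 P a x y (1, 0)) :
    F.ZR1 g g' r r' d1 d2 η1 η2 (a * F.t) P ∧ Ac F g d1 P (a * F.t) (x + (1, 0)) (y + (0, 1)) (1, 0) := by
  have tP : F.t ∈ P := h.QP (mem_sup_right (mem_zpowers _))
  have ti : F.t⁻¹ = F.t := inv_eq_of_mul_eq_one_right F.tt
  have kt : Ac F g d1 P F.t (1, 0) (0, 1) 0 := by
    refine ⟨tP, ?_, ?_, ?_⟩
    · rw [MulAut.conj_apply, ti, h.tg, pv_z, ← h.gg, inv_eq_iff_mul_eq_one, ← mul_assoc, h.gg, F.zz]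
    · rw [MulAut.conj_apply, ti, h.td1, pv_v, ← h.d11, inv_eq_iff_mul_eq_one, ← mul_assoc, h.d11, F.v11]
    · rw [pv_0, mul_one]; exact ZC.kfix F.tu1
  have k' := k.mul h.toZR kt
  rw [add_zero] at k'
  refine ⟨{ h with aP := k'.mem, at' := ?_, au := ?_ }, k'⟩
  · rw [← h.at']; group
  · have := k'.hu
    rwa [pv_z] at this

end PB1

namespace Fr
variable {F : Fr G} {g g' r r' d1 d2 η1 η2 a b : G} {P : Subgroup G} {e : Bool}

theorem ZR1.zr2 (h : F.ZR1 g g' r r' d1 d2 η1 η2 a P) : ∃ a, F.ZR2 g g' r r' d1 d2 η1 η2 a P := by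
  obtain ⟨x, y, k⟩ := PB1.exA h.toZR
  have kb := k.eta h.toZR
  have kc := kb.eta h.toZR
  have c1 := (((k.mul h.toZR kb).mul h.toZR kc).fix h.toZR (by decide)).imp_left And.left
  have c2 := (((k.nu h.toZR).mul h.toZR k).fix h.toZR (by decide)).imp_left And.left
  have fin : ∀ {a}, F.ZR1 g g' r r' d1 d2 η1 η2 a P → PB1.Ac F g d1 P a (1, 0) (1, 1) (1, 0) →
      ∃ a, F.ZR2 g g' r r' d1 d2 η1 η2 a P := fun h k =>
    ⟨_, h, by have := k.hg; rwa [PB1.pv_z] at this, by have := k.hd; rwa [PB1.pv_zv] at this⟩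
  have c : (x = 0 ∧ y = 0) ∨ (x + (1, 0) = 0 ∧ y + (0, 1) = 0) ∨ (x = (1, 0) ∧ y = (1, 1)) ∨
      (x + (1, 0) = (1, 0) ∧ y + (0, 1) = (1, 1)) := by
    clear k kb kc
    obtain ⟨i, j⟩ := x
    obtain ⟨m, n⟩ := y
    revert c1 c2
    fin_cases i <;> fin_cases j <;> fin_cases m <;> fin_cases n <;> decide
  obtain ⟨h', k'⟩ := PB1.att h k
  rcases c with ⟨rfl, rfl⟩ | ⟨e1, e2⟩ | ⟨rfl, rfl⟩ | ⟨e1, e2⟩
  · exact (PB1.noC h.toZR k).elim
  · rw [e1, e2] at k'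
    exact (PB1.noC h'.toZR k').elim
  · exact fin h k
  · rw [e1, e2] at k'
    exact fin h' k'

end Fr

end H60M.A6
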