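import Mathlib
import Cfsg.Agent.Lib.B6S.PT

/-! `a u1` is conjugate to `u1`. -/

set_option autoImplicit false
set_option maxRecDepth 100000

namespace H60M.A6

open Subgroup H69 H36.SW
open H60M.A7 H80.PC H54 H60M.PZ

variable {G : Type*} [Group G] [Finite G]

namespace PF1

theorem k1 : allLt (fun c => bimp (Nat.beq (c &&& 1) 0) (bimp (Nat.beq (c &&& 2) 0)
    (bimp (Nat.beq (mu (PS true) c c) 0) (bor (Nat.beq (c &&& 255) 0) (allL (fun w => anyL (fun s =>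
      Nat.beq (H80.PC.cj (PS true) s c) (mu (PS true) c w)) [0, 8, 16, 24, 32, 64, 96]) [0, 256, 512, 768]))))) 1024 =
    true := by decide +kernel

theorem k2 : ∀ k < 1024, k &&& 255 = 0 → k ∈ [0, 256, 512, 768] := by decide +kernel

theorem k3 : mu (PS true) 136 136 = 0 ∧ mu (PS true) 136 512 = 648 ∧ mu (PS true) 512 136 = 648 ∧
    mu (PS true) 136 1 = 137 ∧ mu (PS true) 1 136 = 137 ∧ mu (PS true) 512 1 = 513 ∧
    mu (PS true) 512 128 = 640 ∧ mu (PS true) 640 1 = 641 ∧ H80.PC.cj (PS true) 24 137 = 641 := by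
  decide +kernel

end PF1

namespace Fr
variable {F : Fr G} {g g' r r' d1 d2 η1 η2 a b : G} {P : Subgroup G} {e : Bool}

theorem ZS.star (h : F.ZS g g' r r' d1 d2 η1 η2 a b true) (τE : F.t * r ∈ F.E) {y w : G} (hE : y ∈ F.E) (h2 : y * y = 1) (hC : y ∈ 𝐂(F.V1))
    (hV : y ∉ F.V1) (hw : w ∈ F.V1) : ∃ s, s * y * s⁻¹ = y * w := by
  obtain ⟨i255, -, -, -, -, i1, nV, -⟩ := h.ids
  have sy : IsSylowIn 2 (F.Sm g r d1 a b 1) 𝐂(F.V1) := i1 ▸
    (h.syl3.mono nV le_top).inf_normal (centralizer_le_normalizer _) (le_normalizer_centralizer le_rfl)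
  obtain ⟨c, hc, hle⟩ := sy.exists_cj_le (P2.of_sq h2).zpowers (zpowers_le.2 hC)
  have m1 : c * y * c⁻¹ ∈ F.Sm g r d1 a b 1 := hle (cj_mem c (mem_zpowers y))
  obtain ⟨k, hk, k1, ek⟩ := (h.memSm (by decide)).1 m1
  have m2 : c * y * c⁻¹ ∈ F.Sm g r d1 a b 2 := h.SE τE ▸ ⟨(i1 ▸ m1).1, F.En.conj_mem y hE c⟩
  have k2 := (h.elSm (by decide) hk).1 (ek ▸ m2)
  obtain ⟨j, hj, j1, ej⟩ := (h.memSm (by decide)).1 (i255 ▸ hw)
  have kk : mu (PS true) k k = 0 := h.inj (ZS.lt true k k).1 (by decide) (by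
    rw [h.mul, ← ek, conj_mul, h2, (ZS.gens F g r d1 a b).1]; group)
  have := (allLt_iff _ _).1 PF1.k1 k hk
  simp only [bimp_eq_true, bor_eq_true, Nat.beq_eq, allL_iff, anyL_iff] at this
  rcases this k1 k2 kk with q | q
  · have m3 : c * y * c⁻¹ ∈ F.V1 := i255 ▸ ek ▸ (h.elSm (by decide) hk).2 q
    refine absurd (?_ : y ∈ F.V1) hV
    have := hc _ m3
    rwa [show c * y * c⁻¹ = y from mul_left_cancel (a := c) (by rw [← this]; group)] at m3
  · obtain ⟨s, -, es⟩ := q j (PF1.k2 j hj j1)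
    have := congrArg (F.el g r d1 a b) es
    rw [h.cj, h.mul, ← ek, ← ej] at this
    refine ⟨c⁻¹ * F.el g r d1 a b s * c, ?_⟩
    calc _ = c⁻¹ * (F.el g r d1 a b s * (c * y * c⁻¹) * (F.el g r d1 a b s)⁻¹) * c := by group
      _ = y * (c⁻¹ * (w * c)) := by rw [this]; group
      _ = y * w := by rw [hc w hw]; group

theorem ZS.ux (h : F.ZS g g' r r' d1 d2 η1 η2 a b true) (τE : F.t * r ∈ F.E) : ∃ s, s * F.u1 * s⁻¹ = a * F.u1 := by
  obtain ⟨g0, g1, -, -, -, -, -, -, g128, -, g512, -, -, -, g136⟩ := ZS.gens F g r d1 a b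
  obtain ⟨c1, c2, c2', c3, c4, c5, c6, c7, c8⟩ := PF1.k3
  obtain ⟨-, dv, -⟩ := F.hdl.resolve_left h.d
  have dz := F.dlz
  have M : ∀ {c c' k : ℕ}, mu (PS true) c c' = k →
      F.el g r d1 a b k = F.el g r d1 a b c * F.el g r d1 a b c' := fun e => by rw [← e, h.mul]
  have C : ∀ {c c' k : ℕ}, H80.PC.cj (PS true) c c' = k → F.el g r d1 a b k =
      F.el g r d1 a b c * F.el g r d1 a b c' * (F.el g r d1 a b c)⁻¹ := fun e => by rw [← e, h.cj]
  rw [← g136]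
  have xE : F.el g r d1 a b 136 ∈ F.E := h.M1E ((h.elSm (by decide) (by decide)).2 (by decide))
  have x2 := M c1
  have xz := (M c2).symm.trans (M c2')
  have xv := (M c3).symm.trans (M c4)
  have e137 := M c3
  have e513 := M c5
  have e24 := C c8
  rw [g0] at x2
  rw [g512] at xz
  rw [g1] at xv
  rw [g1] at e137
  rw [g1, g512] at e513
  rw [M c7, M c6, g512, g128, g1, e137] at e24
  have ne : ∀ c < 1024, F.el g r d1 a b 136 = F.el g r d1 a b c → 136 = c := fun c hc => h.inj (by decide) hc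
  generalize F.el g r d1 a b 136 = x at *
  have yz : F.z * (F.dl * x * F.dl⁻¹) = F.dl * x * F.dl⁻¹ * F.z := by
    rw [← dz, conj_mul, conj_mul, xz]
  have yv : F.v1 * (F.dl * x * F.dl⁻¹) = F.dl * x * F.dl⁻¹ * F.v1 := by
    rw [← dv, conj_mul, conj_mul, xv]
  obtain ⟨s, es⟩ := h.star τE (F.En.conj_mem x xE F.dl) (by rw [conj_mul, ← x2]; group)
    (fun w hw => by
      rcases F.memV1.1 hw with rfl | rfl | rfl | rfl
      exacts [by rw [one_mul, mul_one], yz, yv, (Commute.mul_left yz yv :)])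
    (fun hy => by
      have cn : ∀ {p q : G}, F.dl * p * F.dl⁻¹ = F.dl * q * F.dl⁻¹ → p = q := fun e =>
        mul_left_cancel (mul_right_cancel e)
      rcases F.memV1.1 hy with q | q | q | q
      · exact absurd (ne 0 (by decide) (g0 ▸ cn (by rw [q]; group))) (by decide)
      · exact absurd (ne 512 (by decide) (g512 ▸ cn (q.trans dz.symm))) (by decide)
      · exact absurd (ne 1 (by decide) (g1 ▸ cn (q.trans dv.symm))) (by decide)
      · exact absurd (ne 513 (by decide) (e513 ▸ cn (by rw [q, ← conj_mul, dz, dv]))) (by decide))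
    (F.memV1.2 (Or.inr (Or.inr (Or.inl rfl))))
  have ey : F.y2 * F.u1 * F.y2⁻¹ = F.z * F.u1 * F.v2 := by
    rw [← F.u2_eq F.hu1, ← F.y2z, ← mul_assoc, ← mul_assoc, ← F.y2u, mul_assoc F.y2 F.u2, F.u2_eq F.hu1,
      F.zu1, mul_assoc F.u1, F.zz, mul_one]
  rw [← dv, conj_mul] at es
  refine ⟨F.dl⁻¹ * s⁻¹ * F.dl * (F.el g r d1 a b 24)⁻¹ * F.y2, ?_⟩
  calc _ = F.dl⁻¹ * s⁻¹ * F.dl * (F.el g r d1 a b 24)⁻¹ * (F.y2 * F.u1 * F.y2⁻¹) * F.el g r d1 a b 24 *
        F.dl⁻¹ * s * F.dl := by group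
    _ = F.dl⁻¹ * s⁻¹ * (F.dl * (x * F.v2) * F.dl⁻¹) * s * F.dl := by rw [ey, e24]; group
    _ = x := by rw [← es]; group

end Fr

end H60M.A6
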