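import Mathlib
import Cfsg.Agent.Lib.B6S.PC

/-! Subgroups given by masks. -/

set_option autoImplicit false
set_option maxRecDepth 100000
set_option linter.unusedSectionVars false

namespace H60M.A6

open Subgroup H69 H36.SW
open H60M.A7 H80.PC H54 H60M.PZ

variable {G : Type*} [Group G] [Finite G]

namespace PM

/-- the code set `p` is the group generated by `gs` -/
noncomputable def chk (e : Bool) (p : ℕ → Bool) (gs : List ℕ) : Bool :=
  band (p 0) (allLt (fun c => bimp (p c) (band (allL (fun s => p (mu (PS e) c s)) gs)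
    (bor (Nat.beq c 0) (anyL (fun s => band (Nat.blt (Nat.sub c s) c)
      (band (p (Nat.sub c s)) (Nat.beq (mu (PS e) s (Nat.sub c s)) c))) gs)))) 1024)

/-- avoiding a mask -/
def pm (m c : ℕ) : Bool := Nat.beq (Nat.land c m) 0
/-- the codes of `MM` -/
def pM (c : ℕ) : Bool := Nat.beq ((c / 2 + c / 4) % 2) 0
/-- the codes of `R` -/
noncomputable def pR (c : ℕ) : Bool := band (pm 25 c) (pM c)

theorem pm_iff {m c : ℕ} : pm m c = true ↔ c &&& m = 0 := Nat.beq_eq ▸ Iff.rfl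
theorem pM_iff {c : ℕ} : pM c = true ↔ (c / 2 + c / 4) % 2 = 0 := Nat.beq_eq ▸ Iff.rfl

theorem k1 : ∀ e, allL (fun m => chk e (pm m) (gl m)) ML = true := by decide +kernel
theorem k2 : ∀ e, chk e pM [1, 6, 8, 16, 32, 64, 128, 256, 512] = true := by decide +kernel
theorem k3 : ∀ e, chk e pR [6, 32, 64, 128, 256, 512] = true := by decide +kernel
theorem k4 : ∀ m ∈ ML, ((Finset.range 1024).filter fun c => pm m c = true).card = 2 ^ (gl m).length := by
  decide +kernel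
theorem k5 : ((Finset.range 1024).filter fun c => pM c = true).card = 512 := by decide +kernel
theorem k6 : ((Finset.range 1024).filter fun c => pR c = true).card = 64 := by decide +kernel
theorem k7 : ∀ e, allLt (fun c => bimp (Nat.beq (mu (PS e) 256 c) (mu (PS e) c 256)) (pm 1 c)) 1024 = true := by
  decide +kernel
theorem k8 : ∀ e, allL (fun s => band (Nat.beq (mu (PS e) 256 s) (mu (PS e) s 256))
    (Nat.beq (mu (PS e) 512 s) (mu (PS e) s 512))) (gl 1) = true := by decide +kernel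
theorem k9 : ∀ e, allL (fun m => allL (fun s => allL (fun c => pm m (H80.PC.cj (PS e) s c)) (gl m)) (gl 0))
    [255, 127, 25] = true := by decide +kernel

end PM

namespace Fr
variable {F : Fr G} {g g' r r' d1 d2 η1 η2 a b : G} {P : Subgroup G} {e : Bool}

open PM

theorem ZS.pm_mem (h : F.ZS g g' r r' d1 d2 η1 η2 a b e) {p : ℕ → Bool} {gs : List ℕ} (k : chk e p gs = true) {x : G} :
    x ∈ closure {x | ∃ s ∈ gs, x = F.el g r d1 a b s} ↔ ∃ c < 1024, p c = true ∧ x = F.el g r d1 a b c := by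
  simp only [chk, band_eq_true, allLt_iff, bimp_eq_true, allL_iff, bor_eq_true, anyL_iff, Nat.beq_eq, Nat.blt_eq,
    Nat.sub_eq] at k
  have e0 := (ZS.gens F g r d1 a b).1
  constructor
  · intro hx
    have hx' : x ∈ Submonoid.closure {x | ∃ s ∈ gs, x = F.el g r d1 a b s} := by
      rwa [← closure_toSubmonoid_of_finite]
    clear hx
    induction hx' using Submonoid.closure_induction_right with
    | one => exact ⟨0, by norm_num, k.1, e0.symm⟩
    | mul_right x _ y hy ih =>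
      obtain ⟨c, hc, pc, rfl⟩ := ih
      obtain ⟨s, hs, rfl⟩ := hy
      exact ⟨_, (ZS.lt e c s).1, (k.2 c hc pc).1 s hs, (h.mul c s).symm⟩
  · rintro ⟨c, hc, pc, rfl⟩
    induction c using Nat.strong_induction_on with
    | _ c ih =>
    rcases (k.2 c hc pc).2 with rfl | ⟨s, hs, l, q, e1⟩
    · rw [e0]; exact one_mem _
    · rw [← e1, h.mul]
      exact mul_mem (subset_closure ⟨s, hs, rfl⟩) (ih _ l (l.trans hc) q)

theorem ZS.pm_clo (h : F.ZS g g' r r' d1 d2 η1 η2 a b e) {p : ℕ → Bool} {gs : List ℕ} (k : chk e p gs = true)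
    {q : ℕ → Prop} (hq : ∀ c, p c = true ↔ q c) :
    closure {x | ∃ c < 1024, q c ∧ x = F.el g r d1 a b c} = closure {x | ∃ s ∈ gs, x = F.el g r d1 a b s} := by
  rw [← closure_eq (closure {x | ∃ s ∈ gs, x = F.el g r d1 a b s})]
  congr 1
  ext x
  simp only [SetLike.mem_coe, h.pm_mem k, hq, Set.mem_setOf_eq]

theorem ZS.pm_card (h : F.ZS g g' r r' d1 d2 η1 η2 a b e) {p : ℕ → Bool} {H : Subgroup G}
    (k : ∀ {x}, x ∈ H ↔ ∃ c < 1024, p c = true ∧ x = F.el g r d1 a b c) :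
    Nat.card H = ((Finset.range 1024).filter fun c => p c = true).card := by
  rw [← Nat.card_eq_finsetCard]
  refine (Nat.card_congr (Equiv.ofBijective (fun i : ((Finset.range 1024).filter fun c => p c = true) =>
    (⟨F.el g r d1 a b i, k.2 ⟨i, Finset.mem_range.1 (Finset.mem_filter.1 i.2).1, (Finset.mem_filter.1 i.2).2, rfl⟩⟩ : H))
    ⟨fun i j q => ?_, fun x => ?_⟩)).symm
  · exact Subtype.ext (h.inj (Finset.mem_range.1 (Finset.mem_filter.1 i.2).1)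
      (Finset.mem_range.1 (Finset.mem_filter.1 j.2).1) (congrArg Subtype.val q))
  · obtain ⟨c, hc, pc, q⟩ := k.1 x.2
    exact ⟨⟨c, Finset.mem_filter.2 ⟨Finset.mem_range.2 hc, pc⟩⟩, Subtype.ext q.symm⟩

theorem ZS.pm_cloSm (h : F.ZS g g' r r' d1 d2 η1 η2 a b e) {m : ℕ} (hm : m ∈ ML) :
    F.Sm g r d1 a b m = closure {x | ∃ s ∈ gl m, x = F.el g r d1 a b s} :=
  h.pm_clo ((allL_iff _ _).1 (k1 e) m hm) fun _ => pm_iff

theorem ZS.memSm (h : F.ZS g g' r r' d1 d2 η1 η2 a b e) {m : ℕ} (hm : m ∈ ML) {x : G} : x ∈ F.Sm g r d1 a b m ↔ ∃ c < 1024, c &&& m = 0 ∧ x = F.el g r d1 a b c := by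
  rw [h.pm_cloSm hm, h.pm_mem ((allL_iff _ _).1 (k1 e) m hm)]
  simp only [pm_iff]

theorem ZS.elSm (h : F.ZS g g' r r' d1 d2 η1 η2 a b e) {m : ℕ} (hm : m ∈ ML) {c : ℕ} (hc : c < 1024) : F.el g r d1 a b c ∈ F.Sm g r d1 a b m ↔ c &&& m = 0 := by
  rw [h.memSm hm]
  exact ⟨fun ⟨c', hc', k, q⟩ => h.inj hc hc' q ▸ k, fun k => ⟨c, hc, k, rfl⟩⟩

theorem ZS.cloSm (h : F.ZS g g' r r' d1 d2 η1 η2 a b e) {m : ℕ} (hm : m ∈ ML) : F.Sm g r d1 a b m = closure {x | ∃ s ∈ gl m, x = F.el g r d1 a b s} := by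
  exact h.pm_cloSm hm

theorem ZS.cardSm (h : F.ZS g g' r r' d1 d2 η1 η2 a b e) {m : ℕ} (hm : m ∈ ML) : Nat.card (F.Sm g r d1 a b m) = 2 ^ (gl m).length := by
  rw [← k4 m hm]
  exact h.pm_card fun {x} => by simp only [h.memSm hm, pm_iff]

theorem ZS.pSm (h : F.ZS g g' r r' d1 d2 η1 η2 a b e) (m : ℕ) : IsPGroup 2 (F.Sm g r d1 a b m) := by
  refine (IsPGroup.of_card (h.cardSm (m := 0) (by decide))).to_le (closure_mono ?_)
  rintro _ ⟨c, hc, -, rfl⟩
  exact ⟨c, hc, Nat.and_zero c, rfl⟩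

theorem ZS.memM (h : F.ZS g g' r r' d1 d2 η1 η2 a b e) {x : G} : x ∈ F.MM g r d1 a b ↔ ∃ c < 1024, (c / 2 + c / 4) % 2 = 0 ∧ x = F.el g r d1 a b c := by
  rw [MM, h.pm_clo (k2 e) fun _ => pM_iff, h.pm_mem (k2 e)]
  simp only [pM_iff]

theorem ZS.cardM (h : F.ZS g g' r r' d1 d2 η1 η2 a b e) : Nat.card (F.MM g r d1 a b) = 512 := by
  rw [← k5]
  exact h.pm_card fun {x} => by simp only [h.memM, pM_iff]

theorem ZS.pm_R (h : F.ZS g g' r r' d1 d2 η1 η2 a b e) : g ∈ F.R g r d1 ∧ d1 ∈ F.R g r d1 ∧ r ∈ F.R g r d1 ∧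
    F.u1 ∈ F.R g r d1 ∧ F.v1 ∈ F.R g r d1 ∧ F.z ∈ F.R g r d1 :=
  ⟨h.toZZ.zaG, h.toZZ.zad, h.toZZ.zaR, subset_closure (by simp), h.toZZ.XR (F.V1X1 (ZC.vV F)),
    h.toZZ.XR (F.V1X1 (ZC.zV F))⟩

theorem ZS.cardR (h : F.ZS g g' r r' d1 d2 η1 η2 a b e) : Nat.card (F.R g r d1) = 64 := by
  obtain ⟨-, -, -, -, -, -, e5, e6, e7, e8, e9, e10, -⟩ := ZS.gens F g r d1 a b
  obtain ⟨m1, m2, m3, m4, m5, m6⟩ := h.pm_R
  have : F.R g r d1 = closure {x | ∃ s ∈ [6, 32, 64, 128, 256, 512], x = F.el g r d1 a b s} := by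
    refine le_antisymm (closure_mono ?_) ((closure_le _).2 ?_)
    · rintro _ (rfl | rfl | rfl | rfl) <;> simp [e5, e6, e7, e10]
    · rintro _ ⟨s, hs, rfl⟩
      simp only [List.mem_cons, List.not_mem_nil, or_false] at hs
      rcases hs with rfl | rfl | rfl | rfl | rfl | rfl <;> simp [*]
  rw [← k6, this]
  exact h.pm_card (h.pm_mem (k3 e))

theorem ZS.pm_N (h : F.ZS g g' r r' d1 d2 η1 η2 a b e) {m : ℕ} (hm : m ∈ ML) (hm' : m ∈ [255, 127, 25]) :
    F.Sm g r d1 a b 0 ≤ 𝐍(F.Sm g r d1 a b m) := by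
  have k := (allL_iff _ _).1 (k9 e) m hm'
  simp only [allL_iff, pm_iff] at k
  rw [h.cloSm (m := 0) (by decide), closure_le]
  rintro _ ⟨s, hs, rfl⟩
  rw [h.cloSm hm]
  refine ZA.nrm ?_
  rintro _ ⟨c, hc, rfl⟩
  rw [← h.cloSm hm, ← h.cj]
  exact (h.elSm hm (ZS.lt e s c).2.2.1).2 (k s hs c hc)

theorem ZS.ids (h : F.ZS g g' r r' d1 d2 η1 η2 a b e) : F.Sm g r d1 a b 255 = F.V1 ∧ F.Sm g r d1 a b 127 = F.X1 ∧ F.Sm g r d1 a b 25 = F.QZ g r d1 ∧ F.Sm g r d1 a b 24 = F.SZ1 g r d1 ∧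
    F.R g r d1 ≤ F.MM g r d1 a b ∧ F.Sm g r d1 a b 1 = F.Sm g r d1 a b 0 ⊓ 𝐂(F.V1) ∧ F.Sm g r d1 a b 0 ≤ 𝐍(F.V1) ∧ F.Sm g r d1 a b 0 ≤ 𝐍(F.X1) ∧ F.Sm g r d1 a b 0 ≤ 𝐍(F.QZ g r d1) := by
  obtain ⟨-, e0, e1, e2, -, -, e5, e6, e7, e8, e9, e10, -⟩ := ZS.gens F g r d1 a b
  obtain ⟨m1, m2, m3, m4, m5, m6⟩ := h.pm_R
  have el : ∀ m c, c < 1024 → c &&& m = 0 → F.el g r d1 a b c ∈ F.Sm g r d1 a b m :=
    fun m c hc k => subset_closure ⟨c, hc, k, rfl⟩
  have RS : ∀ m, 6 &&& m = 0 → 32 &&& m = 0 → 64 &&& m = 0 → 128 &&& m = 0 → F.R g r d1 ≤ F.Sm g r d1 a b m :=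
    fun m k1 k2 k3 k4 => (closure_le _).2 (by
      rintro _ (rfl | rfl | rfl | rfl)
      exacts [subset_closure ⟨32, by norm_num, k2, e5.symm⟩, subset_closure ⟨64, by norm_num, k3, e6.symm⟩,
        subset_closure ⟨6, by norm_num, k1, e10.symm⟩, subset_closure ⟨128, by norm_num, k4, e7.symm⟩])
  have i1 : F.Sm g r d1 a b 255 = F.V1 := by
    rw [h.cloSm (by decide), V1, show gl 255 = [256, 512] by decide]
    congr 1; ext x; simp [e8, e9, or_comm]
  have i2 : F.Sm g r d1 a b 127 = F.X1 := by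
    rw [h.cloSm (by decide), X1, show gl 127 = [128, 256, 512] by decide]
    congr 1; ext x; simp only [List.mem_cons, List.not_mem_nil, or_false, exists_eq_or_imp, exists_eq_left, e7, e8, e9,
      Set.mem_setOf_eq, Set.mem_insert_iff, Set.mem_singleton_iff]; tauto
  have le : ∀ (L : Subgroup G), F.t ∈ F.R g r d1 ⊔ L → ∀ s ∈ gl 25, F.el g r d1 a b s ∈ F.R g r d1 ⊔ L := by
    intro L ht s hs
    rw [show gl 25 = [2, 4, 32, 64, 128, 256, 512] by decide] at hs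
    simp only [List.mem_cons, List.not_mem_nil, or_false] at hs
    rcases hs with rfl | rfl | rfl | rfl | rfl | rfl | rfl
    exacts [e1 ▸ ht, e2 ▸ mul_mem ht (mem_sup_left m3), e5.symm ▸ mem_sup_left m1, e6.symm ▸ mem_sup_left m2,
      e7 ▸ mem_sup_left m4, e8 ▸ mem_sup_left m5, e9 ▸ mem_sup_left m6]
  have i3 : F.Sm g r d1 a b 25 = F.QZ g r d1 := by
    refine le_antisymm ?_ (sup_le (RS _ (by decide) (by decide) (by decide) (by decide))
      (zpowers_le_of_mem (e1 ▸ el 25 2 (by norm_num) (by decide))))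
    rw [h.cloSm (by decide), closure_le]
    rintro _ ⟨s, hs, rfl⟩
    exact le _ (mem_sup_right (mem_zpowers _)) s hs
  have i4 : F.Sm g r d1 a b 24 = F.SZ1 g r d1 := by
    refine le_antisymm ?_ (sup_le (RS _ (by decide) (by decide) (by decide) (by decide)) ((closure_le _).2 ?_))
    · rw [h.cloSm (by decide), closure_le, show gl 24 = 1 :: gl 25 by decide]
      rintro _ ⟨s, hs, rfl⟩
      rcases List.mem_cons.1 hs with rfl | hs
      · exact e0 ▸ mem_sup_right (subset_closure (by simp))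
      · exact le _ (mem_sup_right (subset_closure (by simp))) s hs
    · rintro _ (rfl | rfl)
      exacts [e1 ▸ el 24 2 (by norm_num) (by decide), e0 ▸ el 24 1 (by norm_num) (by decide)]
  refine ⟨i1, i2, i3, i4, (closure_le _).2 ?_, le_antisymm (le_inf ?_ ?_) ?_, i1 ▸ h.pm_N (by decide) (by decide),
    i2 ▸ h.pm_N (by decide) (by decide), i3 ▸ h.pm_N (by decide) (by decide)⟩
  · rintro _ (rfl | rfl | rfl | rfl)
    exacts [h.memM.2 ⟨32, by norm_num, by norm_num, e5.symm⟩, h.memM.2 ⟨64, by norm_num, by norm_num, e6.symm⟩,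
      h.memM.2 ⟨6, by norm_num, by norm_num, e10.symm⟩, h.memM.2 ⟨128, by norm_num, by norm_num, e7.symm⟩]
  · refine closure_mono ?_
    rintro _ ⟨c, hc, -, rfl⟩
    exact ⟨c, hc, Nat.and_zero c, rfl⟩
  · have k := k8 e
    simp only [allL_iff, band_eq_true, Nat.beq_eq] at k
    rw [h.cloSm (by decide), closure_le]
    rintro _ ⟨s, hs, rfl⟩
    refine ZA.cen ?_
    rintro _ (rfl | rfl)
    · rw [← e9, ← h.mul, ← h.mul, (k s hs).2]
    · rw [← e8, ← h.mul, ← h.mul, (k s hs).1]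
  · rintro x ⟨h1, h2⟩
    obtain ⟨c, hc, -, rfl⟩ := (h.memSm (by decide)).1 h1
    have k := (allLt_iff _ _).1 (k7 e) c hc
    simp only [bimp_eq_true, Nat.beq_eq, pm_iff] at k
    refine el 1 c hc (k (h.inj (ZS.lt e _ _).1 (ZS.lt e _ _).1 ?_))
    rw [h.mul, h.mul, e8]
    exact mem_centralizer_iff.1 h2 _ (ZC.vV F)

end Fr

end H60M.A6
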