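import Mathlib
import Cfsg.Agent.Lib.B6S.PM
import Cfsg.Agent.Lib.B6S.PA0

/-! A Sylow subgroup of `C(u1)`. -/

set_option autoImplicit false
set_option maxRecDepth 100000

namespace H60M.A6

open Subgroup H69 H36.SW
open H60M.A7 H80.PC H54 H60M.PZ

variable {G : Type*} [Group G] [Finite G]

theorem ps1_sq : ∀ e : Bool, ∀ c < 1024, c &&& 24 = 0 →
    mu (PS e) (mu (PS e) c c) (mu (PS e) c c) = 0 → mu (PS e) c c &&& 127 = 0 := by decide +kernel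

theorem ps1_rt : ∀ e : Bool, ∀ c < 1024, c &&& 127 = 0 → ∃ w ∈ [0, 6, 64, 70, 32, 38, 96, 102],
    w &&& 24 = 0 ∧ w < 1024 ∧ mu (PS e) w w = c ∧ mu (PS e) c c = 0 := by decide +kernel

theorem ps1_u : ∀ e : Bool, ∀ c < 1024, c &&& 24 = 0 → mu (PS e) c 128 = mu (PS e) 128 c := by
  decide +kernel

theorem ps1_z : ∀ e : Bool, ∀ c < 1024, mu (PS e) c 512 = mu (PS e) 512 c := by decide +kernel

theorem ps1_cj : ∀ e : Bool, ∀ c < 1024, c &&& 127 = 0 → c &&& 255 = 0 ∨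
    ∃ s ∈ [0, 8, 16, 24], s < 1024 ∧ H80.PC.cj (PS e) s 128 = c := by decide +kernel

theorem ps1_m : ∀ c < 1024, (c &&& 25 = 0 ↔ c &&& 24 = 0 ∧ c &&& 1 = 0) := by decide +kernel

namespace Fr
variable {F : Fr G} {g g' r r' d1 d2 η1 η2 a b : G} {P : Subgroup G} {e : Bool}

theorem ZS.sqS1 (h : F.ZS g g' r r' d1 d2 η1 η2 a b e) {w : G} (hw : w ∈ F.Sm g r d1 a b 24) (h4 : w * w * (w * w) = 1) : w * w ∈ F.X1 := by
  obtain ⟨c, hc, hm, rfl⟩ := (h.memSm (by decide)).1 hw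
  rw [← h.mul, ← h.mul, ← (ZS.gens F g r d1 a b).1] at h4
  rw [← h.mul, ← h.ids.2.1, h.elSm (by decide) (ZS.lt e _ _).1]
  exact ps1_sq e c hc hm (h.inj (ZS.lt e _ _).1 (by decide) h4)

theorem ZS.ps1_Sz (h : F.ZS g g' r r' d1 d2 η1 η2 a b e) {x : G} (hx : x ∈ F.Sm g r d1 a b 0) :
    x * F.z = F.z * x := by
  obtain ⟨c, hc, -, rfl⟩ := (h.memSm (by decide)).1 hx
  rw [← (ZS.gens F g r d1 a b).2.2.2.2.2.2.2.2.2.2.1, ← h.mul, ← h.mul, ps1_z e c hc]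

theorem ZS.ps1_le (h : F.ZS g g' r r' d1 d2 η1 η2 a b e) (m : ℕ) :
    F.Sm g r d1 a b m ≤ F.Sm g r d1 a b 0 :=
  closure_mono fun _ ⟨c, hc, _, e⟩ => ⟨c, hc, Nat.and_zero c, e⟩

theorem ZS.ps1_Q (h : F.ZS g g' r r' d1 d2 η1 η2 a b e) :
    F.QZ g r d1 = F.Sm g r d1 a b 24 ⊓ 𝐂(F.X1) := by
  refine le_antisymm (le_inf ?_ (ZD.QX h.toZZ)) fun x hx => ?_
  · rw [← h.ids.2.2.1]
    exact closure_mono fun _ ⟨c, hc, hm, e⟩ => ⟨c, hc, ((ps1_m c hc).1 hm).1, e⟩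
  · have h1 : x ∈ F.Sm g r d1 a b 1 := by
      rw [h.ids.2.2.2.2.2.1]
      exact ⟨h.ps1_le 24 hx.1, centralizer_le F.V1X1 hx.2⟩
    obtain ⟨c, hc, hm, rfl⟩ := (h.memSm (by decide)).1 hx.1
    rw [← h.ids.2.2.1, h.elSm (by decide) hc]
    exact (ps1_m c hc).2 ⟨hm, (h.elSm (by decide) hc).1 h1⟩

theorem ZS.ps1_NX (h : F.ZS g g' r r' d1 d2 η1 η2 a b e) {n : G} (hn : n ∈ 𝐍(F.Sm g r d1 a b 24)) :
    n ∈ 𝐍(F.X1) := by
  refine mem_normalizer_of_cj_le fun y hy => ?_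
  obtain ⟨x, hx, rfl⟩ := mem_cj'.1 hy
  rw [← h.ids.2.1] at hx
  obtain ⟨c, hc, hm, rfl⟩ := (h.memSm (by decide)).1 hx
  obtain ⟨w, -, w1, w2, w3, w4⟩ := ps1_rt e c hc hm
  have k : F.el g r d1 a b c = F.el g r d1 a b w * F.el g r d1 a b w := by rw [← h.mul, w3]
  have k' : F.el g r d1 a b c * F.el g r d1 a b c = 1 := by
    rw [← h.mul, w4, (ZS.gens F g r d1 a b).1]
  rw [k, ← conj_mul]
  refine h.sqS1 (conj_mem_of_mem_normalizer hn ((h.elSm (by decide) w2).2 w1)) ?_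
  rw [conj_mul, conj_mul, ← k, k', mul_one, mul_inv_cancel]

theorem ZS.sylu (h : F.ZS g g' r r' d1 d2 η1 η2 a b e) : IsSylowIn 2 (F.Sm g r d1 a b 24) (centralizer {F.u1}) := by
  haveI : Fact (Nat.Prime 2) := ⟨Nat.prime_two⟩
  have gn := ZS.gens F g r d1 a b
  have hle : F.Sm g r d1 a b 24 ≤ centralizer {F.u1} := fun x hx => by
    obtain ⟨c, hc, hm, rfl⟩ := (h.memSm (by decide)).1 hx
    rw [mem_centralizer_singleton_iff, ← gn.2.2.2.2.2.2.2.2.1, ← h.mul, ← h.mul, ps1_u e c hc hm]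
  have v2S : F.v2 ∈ F.Sm g r d1 a b 24 := gn.2.1 ▸ (h.elSm (by decide) (by decide)).2 (by decide)
  have QS : F.QZ g r d1 ≤ F.Sm g r d1 a b 24 := h.ps1_Q.le.trans inf_le_left
  refine isSylowIn_of_normalizer hle ⟨le_inf hle le_normalizer, h.pSm 24, fun D h1 h2 hD => ?_⟩
  refine le_antisymm (fun n hn => ?_) h1
  have nS := (h2 hn).2
  have nu : n * F.u1 = F.u1 * n := mem_centralizer_singleton_iff.1 (h2 hn).1
  have nX := h.ps1_NX nS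
  have nQ : n ∈ 𝐍(F.QZ g r d1) := by
    refine mem_normalizer_of_cj_le fun y hy => ?_
    obtain ⟨x, hx, rfl⟩ := mem_cj'.1 hy
    rw [h.ps1_Q] at hx ⊢
    exact ⟨conj_mem_of_mem_normalizer nS hx.1,
      conj_mem_of_mem_normalizer (normalizer_le_normalizer_centralizer _ nX) hx.2⟩
  have nV := h.toZZ.NQV nQ
  have nz : n * F.z = F.z * n := by
    have c : F.v2 * (n * F.z * n⁻¹) = n * F.z * n⁻¹ * F.v2 := by
      have := h.ps1_Sz (h.ps1_le 24 (conj_mem_of_mem_normalizer' nS v2S))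
      calc F.v2 * (n * F.z * n⁻¹) = n * (n⁻¹ * F.v2 * n * F.z) * n⁻¹ := by group
        _ = n * F.z * n⁻¹ * F.v2 := by rw [this]; group
    rcases F.memV1.1 (conj_mem_of_mem_normalizer nV F.b2_zV) with k | k | k | k
    · exact absurd (by simpa using k) F.z1
    · exact mul_inv_eq_iff_eq_mul.1 k
    · rw [k] at c
      exact absurd c.symm F.B1nc
    · rw [k, ← mul_assoc, ← F.B1zv2, mul_assoc, mul_assoc, mul_right_inj] at c
      exact absurd c.symm F.B1nc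
  have key : ∀ m ∈ D, m ∈ 𝐍(F.QZ g r d1) → m ∈ 𝐂(F.X1) → m ∈ F.Sm g r d1 a b 24 := by
    intro m mD mQ mX
    obtain ⟨q, hq, o, -, oo, eq⟩ := h.toZZ.full mQ mX
    have oD : o ∈ D := (D.mul_mem_cancel_left (h1 (QS hq))).1 (eq ▸ mD)
    rw [eq, (P2.of_mem hD oD).eq_one oo, mul_one]
    exact QS hq
  rcases F.pure nz nu nV with k | k
  · exact key n hn nQ k
  · exact (Subgroup.mul_mem_cancel_right _ v2S).1 (key _ (mul_mem hn (h1 v2S))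
      (mul_mem nQ (h.ids.2.2.2.2.2.2.2.2 (h.ps1_le 24 v2S))) k)

theorem ZS.cjX (h : F.ZS g g' r r' d1 d2 η1 η2 a b e) {x : G} (hx : x ∈ F.X1) (hV : x ∉ F.V1) : ∃ s ∈ F.Sm g r d1 a b 0, s * F.u1 * s⁻¹ = x := by
  rw [← h.ids.2.1] at hx
  obtain ⟨c, hc, hm, rfl⟩ := (h.memSm (by decide)).1 hx
  rcases ps1_cj e c hc hm with k | ⟨s, -, s1, s2⟩
  · exact absurd (h.ids.1 ▸ (h.elSm (by decide) hc).2 k) hV
  · refine ⟨F.el g r d1 a b s, (h.elSm (by decide) s1).2 (Nat.and_zero s), ?_⟩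
    rw [← (ZS.gens F g r d1 a b).2.2.2.2.2.2.2.2.1, ← h.cj, s2]

theorem ZS.cjV (h : F.ZS g g' r r' d1 d2 η1 η2 a b e) {x : G} (hx : x ∈ F.V1) (h1 : x ≠ 1) : ∃ s, s * F.z * s⁻¹ = x := by
  rcases F.memV1.1 hx with rfl | rfl | rfl | rfl
  · exact absurd rfl h1
  · exact ⟨1, by simp⟩
  · exact ⟨F.y1, F.y1z⟩
  · exact ⟨F.y1 * F.y1, by rw [← F.y1v, ← F.y1z]; group⟩

theorem ZS.uz (h : F.ZS g g' r r' d1 d2 η1 η2 a b e) (s : G) : s * F.u1 * s⁻¹ ∉ F.V1 := by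
  haveI : Fact (Nat.Prime 2) := ⟨Nat.prime_two⟩
  intro m
  obtain ⟨k, hk⟩ := h.cjV m (by simpa using F.hu1)
  have e1 : s⁻¹ * k * F.z * (s⁻¹ * k)⁻¹ = F.u1 := by
    calc _ = s⁻¹ * (k * F.z * k⁻¹) * s := by group
      _ = F.u1 := by rw [hk]; group
  have := h.sylu.card_le (isPGroup_cj (h.pSm 0) (s⁻¹ * k)) fun y hy => by
    obtain ⟨x, hx, rfl⟩ := mem_cj'.1 hy
    rw [mem_centralizer_singleton_iff, ← e1, conj_mul, conj_mul, h.ps1_Sz hx]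
  rw [card_cj, h.cardSm (by decide), h.cardSm (by decide)] at this
  exact absurd this (by decide)

end Fr

end H60M.A6
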