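import Mathlib
import Cfsg.Agent.Lib.B6S.PT
import Cfsg.Agent.Lib.B6S.PS1

/-! An element of odd order in `N(Q0) ∩ C(V1)`. -/

set_option autoImplicit false
set_option maxRecDepth 100000
set_option linter.unusedSectionVars false

namespace H60M.A6

open Subgroup H69 H36.SW
open H60M.A7 H80.PC H54 H60M.PZ

variable {G : Type*} [Group G] [Finite G]

namespace PF3
variable {F : Fr G} {g g' r r' d1 d2 η1 η2 a b : G}

theorem d1' : mu (PZ.PS true) 160 136 = mu (PZ.PS true) 136 160 ∧ mu (PZ.PS true) 212 136 = mu (PZ.PS true) 136 212 ∧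
    mu (PZ.PS true) 160 160 = 512 ∧ mu (PZ.PS true) 212 212 = 256 := by decide +kernel

theorem d2' : ∀ c < 1024, c &&& 3 = 0 → H80.PC.cm (PZ.PS true) c 136 &&& 255 = 0 := by decide +kernel

theorem d3' : ∀ c < 1024, (c &&& 1 = 0 ∧ c &&& 2 = 0) ↔ c &&& 3 = 0 := by decide +kernel

theorem s0 (F : Fr G) (g r d a b : G) (m : ℕ) : F.Sm g r d a b m ≤ F.Sm g r d a b 0 :=
  closure_mono fun _ ⟨c, hc, _, e⟩ => ⟨c, hc, Nat.and_zero c, e⟩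

variable (h : F.ZS g g' r r' d1 d2 η1 η2 a b true)
include h

theorem inV {m w y : G} (hw : m * w * m⁻¹ ∈ F.Sm g r d1 a b 24) (e : w * w = y) (hy : y ∈ F.V1) :
    m * y * m⁻¹ ∈ F.V1 := by
  have e1 : m * w * m⁻¹ * (m * w * m⁻¹) = m * y * m⁻¹ := by rw [← e]; group
  have e2 := h.sqS1 hw (by
    rw [e1, ← B2.cj_mul, F.sqW1 (F.X1W1 (F.V1X1 hy)), mul_one, mul_inv_cancel])
  rw [e1] at e2
  by_contra hV
  obtain ⟨s, -, hs⟩ := h.cjX e2 hV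
  refine h.uz (m⁻¹ * s) ?_
  rw [show m⁻¹ * s * F.u1 * (m⁻¹ * s)⁻¹ = m⁻¹ * (s * F.u1 * s⁻¹) * m by group, hs]
  simpa [mul_assoc] using hy

theorem st1 (ux : ∃ s, s * F.u1 * s⁻¹ = a * F.u1) :
    ∃ m ∈ 𝐍(F.V1), m * (a * F.u1) * m⁻¹ = F.u1 := by
  obtain ⟨s, hs⟩ := ux
  obtain ⟨-, -, -, -, -, -, -, -, -, gv, gz, -, -, -, gx⟩ := Fr.ZS.gens F g r d1 a b
  obtain ⟨k1, k2, k3, k4⟩ := d1'
  have c1 := congrArg (F.el g r d1 a b) k1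
  have c2 := congrArg (F.el g r d1 a b) k2
  have c3 := congrArg (F.el g r d1 a b) k3
  have c4 := congrArg (F.el g r d1 a b) k4
  rw [h.mul, h.mul, gx] at c1 c2
  rw [h.mul, gz] at c3
  rw [h.mul, gv] at c4
  have hD : closure {F.el g r d1 a b 160, F.el g r d1 a b 212} ≤ F.Sm g r d1 a b 0 :=
    (closure_le _).2 (Set.pair_subset (subset_closure ⟨160, by norm_num, rfl, rfl⟩)
      (subset_closure ⟨212, by norm_num, rfl, rfl⟩))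
  have hC : closure {F.el g r d1 a b 160, F.el g r d1 a b 212} ≤ centralizer {a * F.u1} :=
    (closure_le _).2 (Set.pair_subset (mem_centralizer_singleton_iff.2 c1)
      (mem_centralizer_singleton_iff.2 c2))
  obtain ⟨c, hc, hle⟩ := h.sylu.exists_cj_le
    (R := closure {F.el g r d1 a b 160, F.el g r d1 a b 212} ^ᶜ s⁻¹) (((h.pSm 0).to_le hD).map _)
    (fun y hy => by
      have := mem_centralizer_singleton_iff.1 (hC (mem_cj.1 hy))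
      rw [← hs] at this
      rw [mem_centralizer_singleton_iff]
      calc y * F.u1 = s⁻¹ * (s⁻¹⁻¹ * y * s⁻¹ * (s * F.u1 * s⁻¹)) * s := by group
        _ = _ := by rw [this]; group)
  rw [cj_cj] at hle
  refine ⟨c * s⁻¹, B2.norm_gen ?_, ?_⟩
  · rintro _ (rfl | rfl)
    · exact inV h (hle (cj_mem _ (subset_closure (by simp)))) c3 F.b2_zV
    · exact inV h (hle (cj_mem _ (subset_closure (by simp)))) c4 F.b2_vV
  · rw [← hs]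
    calc _ = c * F.u1 * c⁻¹ := by group
      _ = _ := B2.cj_of_comm (mem_centralizer_singleton_iff.1 hc)

theorem st2 (ux : ∃ s, s * F.u1 * s⁻¹ = a * F.u1) :
    ∃ m ∈ 𝐍(F.V1), m * F.z = F.z * m ∧ m * (a * F.u1) * m⁻¹ = F.u1 := by
  obtain ⟨m, hm, e⟩ := st1 h ux
  have ez : η1 * F.z * η1⁻¹ = F.v1 := (ZC.eta h.toZZ).2.1
  have ev : η1 * F.v1 * η1⁻¹ = F.z * F.v1 := (ZC.eta h.toZZ).2.2.1
  have eu : η1 * F.u1 * η1⁻¹ = F.u1 := B2.cj_of_comm h.η1u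
  have hη : η1 ∈ 𝐍(F.V1) := B2.norm_gen (by
    rintro _ (rfl | rfl)
    · rw [ez]; exact F.b2_vV
    · rw [ev]; exact mul_mem F.b2_zV F.b2_vV)
  rcases F.memV1.1 ((mem_normalizer_iff.1 hm _).1 F.b2_zV) with k | k | k | k
  · exact absurd (by simpa using k) F.z1
  · exact ⟨m, hm, B2.comm_of_cj k, e⟩
  · refine ⟨η1⁻¹ * m, mul_mem (inv_mem hη) hm, B2.comm_of_cj ?_, ?_⟩
    · calc _ = η1⁻¹ * (m * F.z * m⁻¹) * η1 := by group
        _ = _ := by rw [k, ← ez]; group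
    · calc _ = η1⁻¹ * (m * (a * F.u1) * m⁻¹) * η1 := by group
        _ = η1⁻¹ * (η1 * F.u1 * η1⁻¹) * η1 := by rw [e, eu]
        _ = _ := by group
  · refine ⟨η1 * m, mul_mem hη hm, B2.comm_of_cj ?_, ?_⟩
    · calc _ = η1 * (m * F.z * m⁻¹) * η1⁻¹ := by group
        _ = _ := by rw [k, B2.cj_mul, ez, ev, F.zv1, ← mul_assoc, F.v11, one_mul]
    · calc _ = η1 * (m * (a * F.u1) * m⁻¹) * η1⁻¹ := by group
        _ = _ := by rw [e, eu]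

theorem st3 (ux : ∃ s, s * F.u1 * s⁻¹ = a * F.u1) :
    ∃ m ∈ 𝐂(F.V1), m * (a * F.u1) * m⁻¹ = F.u1 := by
  obtain ⟨m, hm, ez, e⟩ := st2 h ux
  rcases F.b2_pure ez hm with k | ⟨-, k⟩
  · refine ⟨m, B2.cent_gen ?_, e⟩
    rintro _ (rfl | rfl)
    · exact ez.symm
    · exact k.symm
  · refine ⟨F.v2⁻¹ * m, B2.cent_gen ?_, ?_⟩
    · rintro _ (rfl | rfl)
      · rw [F.b2_v2i, mul_assoc, ez, ← mul_assoc, F.B1zv2, mul_assoc]
      · exact k.symm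
    · calc _ = F.v2⁻¹ * (m * (a * F.u1) * m⁻¹) * F.v2 := by group
        _ = _ := by rw [e, mul_assoc, F.u1v2]; group

theorem st4 (ux : ∃ s, s * F.u1 * s⁻¹ = a * F.u1) :
    ∃ m ∈ 𝐂(F.V1) ⊓ F.E, m * (a * F.u1) * m⁻¹ = F.u1 := by
  obtain ⟨m, hm, e⟩ := st3 h ux
  rcases F.top m with k | k
  · exact ⟨m, ⟨hm, k⟩, e⟩
  · refine ⟨F.t * m, ⟨mul_mem (centralizer_le F.V1X1 (ZD.tX F)) hm, F.En.mem_comm k⟩, ?_⟩
    calc _ = F.t * (m * (a * F.u1) * m⁻¹) * F.t⁻¹ := by group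
      _ = _ := by rw [e, F.tu1]; group

theorem syl0 (τE : F.t * r ∈ F.E) : IsSylowIn 2 (F.Sm g r d1 a b 3) (𝐂(F.V1) ⊓ F.E) := by
  haveI := F.En
  have s := h.syl3.inf_of_le_normalizer (N := 𝐂(F.V1) ⊓ F.E) le_top
    (le_normalizer_inf (le_normalizer_centralizer h.ids.2.2.2.2.2.2.1) (by rw [normalizer_eq_top]; exact le_top))
  have e : F.Sm g r d1 a b 0 ⊓ (𝐂(F.V1) ⊓ F.E) = F.Sm g r d1 a b 3 := by
    rw [inf_inf_distrib_left, ← h.ids.2.2.2.2.2.1, h.SE τE]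
    ext x
    rw [mem_inf]
    constructor
    · rintro ⟨k1, k2⟩
      obtain ⟨c, hc, k3, rfl⟩ := (h.memSm (by decide)).1 k1
      exact (h.elSm (by decide) hc).2 ((d3' c hc).1 ⟨k3, (h.elSm (by decide) hc).1 k2⟩)
    · intro k1
      obtain ⟨c, hc, k3, rfl⟩ := (h.memSm (by decide)).1 k1
      exact ⟨(h.elSm (by decide) hc).2 ((d3' c hc).2 k3).1, (h.elSm (by decide) hc).2 ((d3' c hc).2 k3).2⟩
  rwa [e] at s

theorem cmx {q : G} (hq : q ∈ F.Sm g r d1 a b 3) : q * (a * F.u1) * q⁻¹ * (a * F.u1)⁻¹ ∈ F.V1 := by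
  obtain ⟨c, hc, k3, rfl⟩ := (h.memSm (by decide)).1 hq
  rw [← (Fr.ZS.gens F g r d1 a b).2.2.2.2.2.2.2.2.2.2.2.2.2.2, ← h.cm, ← h.ids.1]
  exact (h.elSm (by decide) (Fr.ZS.lt true c 136).2.2.2.1).2 (d2' c hc k3)

end PF3

namespace Fr
variable {F : Fr G} {g g' r r' d1 d2 η1 η2 a b : G} {P : Subgroup G} {e : Bool}

theorem ZS.odd (h : F.ZS g g' r r' d1 d2 η1 η2 a b true) (τE : F.t * r ∈ F.E) (ux : ∃ s, s * F.u1 * s⁻¹ = a * F.u1) :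
    ∃ o ∈ 𝐍(F.Sm g r d1 a b 3), o ∈ 𝐂(F.V1) ∧ Odd (orderOf o) ∧ F.u1 * (o * (a * F.u1) * o⁻¹) ∈ F.V1 := by
  obtain ⟨m, hm, e⟩ := PF3.st4 h ux
  have s := PF3.syl0 h τE
  have QX : F.Sm g r d1 a b 3 ≤ 𝐍(F.X1) := (PF3.s0 F g r d1 a b 3).trans h.ids.2.2.2.2.2.2.2.1
  have s' : IsSylowIn 2 (F.Sm g r d1 a b 3) (𝐂(F.V1) ⊓ F.E ⊓ 𝐍(F.X1)) :=
    s.mono (le_inf s.le QX) inf_le_left
  obtain ⟨c, hc, hle⟩ := s'.exists_cj_le (R := F.Sm g r d1 a b 3 ^ᶜ m) ((h.pSm 3).map _) (by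
    rintro _ ⟨q, hq, rfl⟩
    have k : m * q * m⁻¹ ∈ 𝐂(F.V1) ⊓ F.E := mul_mem (mul_mem hm (s.le hq)) (inv_mem hm)
    refine ⟨k, ?_⟩
    change m * q * m⁻¹ ∈ 𝐍(F.X1)
    refine B2.norm_gen ?_
    rintro _ (rfl | rfl | rfl)
    · rw [B2.cj_of_comm (k.1 _ F.b2_zV).symm]; exact F.b2_zX
    · rw [B2.cj_of_comm (k.1 _ F.b2_vV).symm]; exact F.b2_vX
    · have w := PF3.cmx h hq
      have k2 : m * q * m⁻¹ * F.u1 * (m * q * m⁻¹)⁻¹ =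
          m * (q * (a * F.u1) * q⁻¹ * (a * F.u1)⁻¹) * m⁻¹ * (m * (a * F.u1) * m⁻¹) := by
        conv_lhs => rw [← e]
        group
      rw [k2, B2.cj_of_comm (hm.1 _ w).symm, e]
      exact mul_mem (F.V1X1 w) F.b2_uX)
  rw [cj_cj] at hle
  have hn : c * m ∈ 𝐍(F.Sm g r d1 a b 3) := B2.norm_gen fun x hx => hle (cj_mem _ (subset_closure hx))
  have hn' : c * m ∈ 𝐂(F.V1) ⊓ F.E := mul_mem hc.1 hm
  obtain ⟨k, k1, k2⟩ := B2.split (c * m)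
  have hp := mem_of_P2_norm s (pow_mem hn' k) k1 (pow_mem hn k)
  refine ⟨_, mul_mem (inv_mem (pow_mem hn k)) hn, mul_mem (inv_mem (pow_mem hn'.1 k)) hn'.1, k2, ?_⟩
  have e2 : ((c * m) ^ k)⁻¹ * (c * m) * (a * F.u1) * (((c * m) ^ k)⁻¹ * (c * m))⁻¹ =
      ((c * m) ^ k)⁻¹ * c * F.u1 * (((c * m) ^ k)⁻¹ * c)⁻¹ := by
    conv_rhs => rw [← e]
    group
  rw [e2]
  have hX := (mem_normalizer_iff.1 (mul_mem (inv_mem (QX hp)) hc.2) _).1 F.b2_uX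
  have k3 := inv_mem ((ZD.Xmem F hX).resolve_left (h.uz _))
  rwa [mul_inv_rev, B1.iv' F.u11, B1.iv' (F.sqW1 (F.X1W1 hX))] at k3

end Fr

end H60M.A6
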