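import Mathlib
import Cfsg.Agent.Lib.B6S.PM

/-! `a d1` is conjugate to `a u1`. -/

set_option autoImplicit false
set_option maxRecDepth 100000

namespace H60M.A6

open Subgroup H69 H36.SW
open H60M.A7 H80.PC H54 H60M.PZ

variable {G : Type*} [Group G] [Finite G]

namespace H65F4

theorem dx1 : allLt (fun i => allLt (fun j => Nat.beq (Nat.mod (mu (PS true) (Nat.mul 4 i) (Nat.mul 4 j)) 256)
    (Nat.xor (Nat.mod (Nat.mul 4 i) 256) (Nat.mod (Nat.mul 4 j) 256))) 256) 256 = true := by decide +kernel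

theorem xr {c k : ℕ} (hc : c < 1024) (hk : k < 1024) (c4 : c % 4 = 0) (k4 : k % 4 = 0) :
    mu (PS true) c k % 256 = (c % 256) ^^^ (k % 256) := by
  have := (allLt_iff _ _).1 ((allLt_iff _ _).1 dx1 (c / 4) (by omega)) (k / 4) (by omega)
  rw [Nat.beq_eq] at this
  have e1 : Nat.mul 4 (c / 4) = c := by show 4 * (c / 4) = c; omega
  have e2 : Nat.mul 4 (k / 4) = k := by show 4 * (k / 4) = k; omega
  rw [e1, e2] at this
  exact this

/-- the commutators of `p` with `Q0` lie in `{0, w}` -/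
noncomputable def inP (w p : ℕ) : Bool :=
  allLt (fun i => force (H80.PC.cm (PS true) (Nat.mul 4 i) p) fun x => bor (Nat.beq x 0) (Nat.beq x w)) 256

theorem inP_iff {w p : ℕ} (h : inP w p = true) {s : ℕ} (hs : s < 1024) (s4 : s % 4 = 0) :
    H80.PC.cm (PS true) s p = 0 ∨ H80.PC.cm (PS true) s p = w := by
  have := (allLt_iff _ _).1 h (s / 4) (by omega)
  have e1 : Nat.mul 4 (s / 4) = s := by show 4 * (s / 4) = s; omega
  rw [e1, force_eq, bor_eq_true, Nat.beq_eq, Nat.beq_eq] at this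
  exact this

theorem dx2 : inP 512 160 = true ∧ inP 512 172 = true ∧ inP 256 212 = true ∧ inP 256 192 = true ∧
    inP 768 252 = true := by
  refine ⟨?_, ?_, ?_, ?_, ?_⟩ <;> decide +kernel

/-- the plane of `w` -/
noncomputable def pl (w : ℕ) (l : List ℕ) : Bool :=
  allLt (fun i => bimp (allL (fun s => force (H80.PC.cm (PS true) s (Nat.mul 4 i)) fun x => bor (Nat.beq x 0) (Nat.beq x w))
    [4, 8, 16, 32, 64]) (anyL (fun q => Nat.beq (Nat.mod (Nat.mul 4 i) 256) q) l)) 256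

theorem pl_iff {w : ℕ} {l : List ℕ} (h : pl w l = true) {k : ℕ} (hk : k < 1024) (k4 : k % 4 = 0)
    (q : ∀ s < 1024, s % 4 = 0 → H80.PC.cm (PS true) s k = 0 ∨ H80.PC.cm (PS true) s k = w) : k % 256 ∈ l := by
  have := (allLt_iff _ _).1 h (k / 4) (by omega)
  have e1 : Nat.mul 4 (k / 4) = k := by show 4 * (k / 4) = k; omega
  rw [e1, bimp_eq_true, allL_iff, anyL_iff] at this
  obtain ⟨x, hx, e⟩ := this (fun s hs => by
    rw [force_eq, bor_eq_true, Nat.beq_eq, Nat.beq_eq]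
    simp only [List.mem_cons, List.not_mem_nil, or_false] at hs
    exact q s (by omega) (by omega))
  rw [Nat.beq_eq] at e
  have e' : k % 256 = x := e
  rw [e']; exact hx

theorem dx3 : pl 512 [0, 12, 160, 172] = true ∧ pl 256 [0, 20, 192, 212] = true ∧ pl 768 [0, 28, 224, 252] = true := by
  refine ⟨?_, ?_, ?_⟩ <;> decide +kernel

theorem dx4 : Nat.beq (Nat.mod (eta true 136) 256) 144 = true ∧
    Nat.beq (H80.PC.cj (PS true) 13 (eta true 88)) 72 = true ∧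
    Nat.beq (H80.PC.cj (PS true) 9 (eta true 344)) 72 = true ∧
    Nat.beq (H80.PC.cj (PS true) 5 (eta true 600)) 72 = true ∧
    Nat.beq (H80.PC.cj (PS true) 1 (eta true 856)) 72 = true := by
  refine ⟨?_, ?_, ?_, ?_, ?_⟩ <;> decide +kernel

theorem and3 (c : ℕ) : c &&& 3 = c % 4 := Nat.and_two_pow_sub_one_eq_mod c 2
theorem and255 (c : ℕ) : c &&& 255 = c % 256 := Nat.and_two_pow_sub_one_eq_mod c 8

variable {F : Fr G} {g g' r r' d1 d2 η1 η2 a b : G}

/-- `y` conjugates the class `p` to the class `q` -/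
def Rb (E : ℕ → G) (y : G) (p q : ℕ) : Prop :=
  ∃ c k, c < 1024 ∧ k < 1024 ∧ c % 4 = 0 ∧ k % 4 = 0 ∧ y * E c * y⁻¹ = E k ∧ c % 256 = p ∧ k % 256 = q

theorem ex (h : F.ZS g g' r r' d1 d2 η1 η2 a b true) {y : G} (hN : y ∈ 𝐍(F.Sm g r d1 a b 3)) {c : ℕ} (hc : c < 1024)
    (c4 : c % 4 = 0) : ∃ k < 1024, k % 4 = 0 ∧ y * F.el g r d1 a b c * y⁻¹ = F.el g r d1 a b k := by
  have m : F.el g r d1 a b c ∈ F.Sm g r d1 a b 3 := (h.elSm (by decide) hc).2 (by rw [and3, c4])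
  obtain ⟨k, hk, k4, e⟩ := (h.memSm (by decide)).1 ((Subgroup.mem_normalizer_iff.1 hN _).1 m)
  exact ⟨k, hk, by rw [← and3, k4], e⟩

theorem inV (h : F.ZS g g' r r' d1 d2 η1 η2 a b true) {c : ℕ} (hc : c < 1024) :
    F.el g r d1 a b c ∈ F.V1 ↔ c % 256 = 0 := by
  rw [← h.ids.1, h.elSm (by decide) hc, and255]

theorem fixV (h : F.ZS g g' r r' d1 d2 η1 η2 a b true) {y : G} (hC : y ∈ 𝐂(F.V1)) {c : ℕ} (hc : c < 1024)
    (c0 : c % 256 = 0) : y * F.el g r d1 a b c * y⁻¹ = F.el g r d1 a b c := by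
  have := Subgroup.mem_centralizer_iff.1 hC _ ((inV h hc).2 c0)
  rw [← this, mul_inv_cancel_right]

theorem Rb.xor (h : F.ZS g g' r r' d1 d2 η1 η2 a b true) {y : G} {p q p' q' : ℕ} (A : Rb (F.el g r d1 a b) y p q)
    (B : Rb (F.el g r d1 a b) y p' q') : Rb (F.el g r d1 a b) y (p ^^^ p') (q ^^^ q') := by
  obtain ⟨c, k, hc, hk, c4, k4, e, rfl, rfl⟩ := A
  obtain ⟨c', k', hc', hk', c4', k4', e', rfl, rfl⟩ := B
  have cl : ∀ x x', x < 1024 → x' < 1024 → x % 4 = 0 → x' % 4 = 0 → mu (PS true) x x' % 4 = 0 := fun x x' l l' m m' => by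
    rw [← and3, ← h.elSm (by decide) (Fr.ZS.lt true x x').1, h.mul]
    exact mul_mem ((h.elSm (by decide) l).2 (by rw [and3, m])) ((h.elSm (by decide) l').2 (by rw [and3, m']))
  refine ⟨mu (PS true) c c', mu (PS true) k k', (Fr.ZS.lt true c c').1, (Fr.ZS.lt true k k').1, cl _ _ hc hc' c4 c4',
    cl _ _ hk hk' k4 k4', ?_, xr hc hc' c4 c4', xr hk hk' k4 k4'⟩
  rw [h.mul, h.mul, ← e, ← e']; group

theorem Rb.zero (h : F.ZS g g' r r' d1 d2 η1 η2 a b true) {y : G} (hC : y ∈ 𝐂(F.V1)) {p q : ℕ}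
    (A : Rb (F.el g r d1 a b) y p q) : p = 0 ↔ q = 0 := by
  obtain ⟨c, k, hc, hk, c4, k4, e, rfl, rfl⟩ := A
  constructor
  · intro c0
    rw [fixV h hC hc c0] at e
    rw [← h.inj hc hk e]; exact c0
  · intro k0
    rw [← fixV h hC hk k0, mul_left_inj, mul_right_inj] at e
    rw [h.inj hc hk e]; exact k0

theorem Rb.eq (h : F.ZS g g' r r' d1 d2 η1 η2 a b true) {y : G} (hC : y ∈ 𝐂(F.V1)) {p q p' q' : ℕ}
    (A : Rb (F.el g r d1 a b) y p q) (B : Rb (F.el g r d1 a b) y p' q') : p = p' ↔ q = q' := by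
  have := (A.xor h B).zero h hC
  rwa [Nat.xor_eq_zero_iff, Nat.xor_eq_zero_iff] at this

theorem Rb.comp (h : F.ZS g g' r r' d1 d2 η1 η2 a b true) {y y' : G} (hN : y' ∈ 𝐍(F.Sm g r d1 a b 3)) (hC : y' ∈ 𝐂(F.V1))
    {p q s : ℕ} (A : Rb (F.el g r d1 a b) y p q) (B : Rb (F.el g r d1 a b) y' q s) :
    Rb (F.el g r d1 a b) (y' * y) p s := by
  obtain ⟨c, k, hc, hk, c4, k4, e, rfl, rfl⟩ := A
  obtain ⟨m, hm, m4, e'⟩ := ex h hN hk k4
  have := (Rb.eq h hC ⟨k, m, hk, hm, k4, m4, e', rfl, rfl⟩ B).1 rfl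
  refine ⟨c, m, hc, hm, c4, m4, ?_, rfl, this⟩
  rw [← e', ← e]; group

theorem Rb.swap (h : F.ZS g g' r r' d1 d2 η1 η2 a b true) {o : G} (hN : o ∈ 𝐍(F.Sm g r d1 a b 3)) (hC : o ∈ 𝐂(F.V1))
    (ho : Odd (orderOf o)) {p q : ℕ} (A : Rb (F.el g r d1 a b) o p q) (B : Rb (F.el g r d1 a b) o q p) : p = q := by
  have A2 : Rb (F.el g r d1 a b) (o * o) p p := A.comp h hN hC B
  have An : ∀ n : ℕ, Rb (F.el g r d1 a b) ((o * o) ^ (n + 1)) p p := fun n => by
    induction n with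
    | zero => simpa using A2
    | succ n ih => rw [pow_succ']; exact ih.comp h (mul_mem hN hN) (mul_mem hC hC) A2
  obtain ⟨k, hk⟩ := ho
  have e : (o * o) ^ (k + 1) = o := by
    rw [← pow_two, ← pow_mul, show 2 * (k + 1) = (2 * k + 1) + 1 by ring, pow_succ, ← hk, pow_orderOf_eq_one, one_mul]
  have := An k
  rw [e] at this
  exact (this.eq h hC A).1 rfl

theorem plane (h : F.ZS g g' r r' d1 d2 η1 η2 a b true) {o : G} (hN : o ∈ 𝐍(F.Sm g r d1 a b 3)) (hC : o ∈ 𝐂(F.V1))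
    {w p : ℕ} {l : List ℕ} (hw : w < 1024) (w0 : w % 256 = 0) (hp : p < 256) (p4 : p % 4 = 0) (i : inP w p = true)
    (j : pl w l = true) : ∃ q ∈ l, Rb (F.el g r d1 a b) o p q := by
  obtain ⟨k, hk, k4, e⟩ := ex h hN (c := p) (by omega) p4
  refine ⟨k % 256, pl_iff j hk k4 fun s hs s4 => ?_, p, k, by omega, hk, p4, k4, e, by omega, rfl⟩
  obtain ⟨s', hs', s4', e'⟩ := ex h (inv_mem hN) hs s4
  have e2 : o * F.el g r d1 a b s' * o⁻¹ = F.el g r d1 a b s := by rw [← e']; group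
  have e3 : F.el g r d1 a b (H80.PC.cm (PS true) s k) = o * F.el g r d1 a b (H80.PC.cm (PS true) s' p) * o⁻¹ := by
    rw [h.cm, h.cm, ← e2, ← e]; group
  rcases inP_iff i hs' s4' with q | q
  · left
    rw [q, fixV h hC (by omega) (by omega)] at e3
    exact h.inj (Fr.ZS.lt true s k).2.2.2.1 (by omega) e3
  · right
    rw [q, fixV h hC hw w0] at e3
    exact h.inj (Fr.ZS.lt true s k).2.2.2.1 hw e3

end H65F4

namespace Fr
variable {F : Fr G} {g g' r r' d1 d2 η1 η2 a b : G} {P : Subgroup G} {e : Bool}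

open H65F4 in
theorem ZS.dx (h : F.ZS g g' r r' d1 d2 η1 η2 a b true) {o : G} (hN : o ∈ 𝐍(F.Sm g r d1 a b 3)) (hC : o ∈ 𝐂(F.V1)) (ho : Odd (orderOf o))
    (hx : F.u1 * (o * (a * F.u1) * o⁻¹) ∈ F.V1) : ∃ s, s * (a * F.u1) * s⁻¹ = a * d1 := by
  obtain ⟨-, -, -, -, -, -, -, -, g128, -, -, -, -, g72, g136⟩ := ZS.gens F g r d1 a b
  have X : Rb (F.el g r d1 a b) o 136 128 := by
    obtain ⟨k, hk, k4, e⟩ := ex h hN (c := 136) (by omega) (by omega)
    rw [← g136, e, ← g128, ← h.mul, inV h (ZS.lt true 128 k).1, xr (by omega) hk (by omega) k4,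
      Nat.xor_eq_zero_iff] at hx
    exact ⟨136, k, by omega, hk, by omega, k4, e, by omega, by omega⟩
  obtain ⟨q1, m1, A1⟩ := plane h hN hC (by omega) (by omega) (by omega) (by omega) dx2.1 dx3.1
  obtain ⟨q4, m4, A4⟩ := plane h hN hC (by omega) (by omega) (by omega) (by omega) dx2.2.1 dx3.1
  obtain ⟨q2, m2, A2⟩ := plane h hN hC (by omega) (by omega) (by omega) (by omega) dx2.2.2.1 dx3.2.1
  obtain ⟨q5, m5, A5⟩ := plane h hN hC (by omega) (by omega) (by omega) (by omega) dx2.2.2.2.1 dx3.2.1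
  obtain ⟨q3, m3, A3⟩ := plane h hN hC (by omega) (by omega) (by omega) (by omega) dx2.2.2.2.2 dx3.2.2
  have s : q1 ^^^ q2 ^^^ q3 = 128 := (((A1.xor h A2).xor h A3).eq h hC X).1 (by decide)
  have s' : q1 = 160 ∧ q2 = 192 ∧ q3 = 224 := by
    clear A1 A2 A3
    revert q1 q2 q3
    intro q1 m1 q2 m2 q3 m3
    revert q1 q2 q3
    decide
  obtain ⟨rfl, rfl, rfl⟩ := s'
  have t4 : q4 = 172 := by
    simp only [List.mem_cons, List.not_mem_nil, or_false] at m4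
    rcases m4 with rfl | rfl | rfl | rfl
    · exact absurd ((A4.zero h hC).2 rfl) (by decide)
    · exact absurd (A4.swap h hN hC ho (A1.xor h A4)) (by decide)
    · exact absurd ((A4.eq h hC A1).2 rfl) (by decide)
    · rfl
  have t5 : q5 = 20 := by
    simp only [List.mem_cons, List.not_mem_nil, or_false] at m5
    rcases m5 with rfl | rfl | rfl | rfl
    · exact absurd ((A5.zero h hC).2 rfl) (by decide)
    · rfl
    · exact absurd ((A5.eq h hC A2).2 rfl) (by decide)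
    · exact absurd (A5.swap h hN hC ho A2) (by decide)
  subst t4 t5
  have Y : Rb (F.el g r d1 a b) o 144 88 := (A5.xor h A3).xor h A4
  obtain ⟨f0, f1, f2, f3, f4⟩ := dx4
  rw [Nat.beq_eq] at f0 f1 f2 f3 f4
  have f0' : H60M.PZ.eta true 136 % 256 = 144 := f0
  have l0 : H60M.PZ.eta true 136 < 1024 := (ZS.lt true 136 0).2.2.2.2
  obtain ⟨k, hk, k4, e⟩ := ex h hN l0 (by omega)
  have k88 : k % 256 = 88 := (Rb.eq h hC ⟨_, k, l0, hk, by omega, k4, e, f0', rfl⟩ Y).1 rfl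
  have fin : ∀ s, H80.PC.cj (PS true) s (H60M.PZ.eta true k) = 72 → ∃ s, s * (a * F.u1) * s⁻¹ = a * d1 := fun s q => by
    refine ⟨F.el g r d1 a b s * η1 * o * η1, ?_⟩
    rw [← g72, ← q, h.cj, ← h.eta (c := k) (by omega), ← e, ← h.eta (c := 136) (by omega), g136]; group
  have : k = 88 ∨ k = 344 ∨ k = 600 ∨ k = 856 := by omega
  rcases this with rfl | rfl | rfl | rfl
  · exact fin _ f1
  · exact fin _ f2
  · exact fin _ f3
  · exact fin _ f4

end Fr

end H60M.A6
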