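import Mathlib
import Cfsg.Agent.Lib.B6S.PM
import Cfsg.Agent.Lib.B6S.PA0

/-! The group of order 1024 is a Sylow subgroup. -/

set_option autoImplicit false
set_option maxRecDepth 100000

namespace H60M.A6

open Subgroup H69 H36.SW
open H60M.A7 H80.PC H54 H60M.PZ

variable {G : Type*} [Group G] [Finite G]

theorem PS3_d0 : ∀ e, allLt (fun s => band (Nat.beq (Nat.land (cm (PS e) s 512) 1023) 0)
    (band (Nat.beq (Nat.land (cm (PS e) s 256) 511) 0) (Nat.beq (Nat.land (cm (PS e) s 128) 255) 0))) 1024 = true := by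
  decide +kernel

theorem PS3_d1 : ∀ e, allLt (fun c => bimp (allL (fun s => Nat.beq (Nat.land (cm (PS e) s c) 1023) 0)
    [1, 2, 4, 8, 16, 32, 64, 128, 256, 512]) (Nat.beq (Nat.land c 511) 0)) 1024 = true := by
  decide +kernel

theorem PS3_d2 : ∀ e, allLt (fun c => bimp (band (Nat.beq (mu (PS e) c c) 0)
    (allL (fun s => Nat.beq (Nat.land (cm (PS e) s c) 511) 0)
    [1, 2, 4, 8, 16, 32, 64, 128, 256, 512])) (Nat.beq (Nat.land c 255) 0)) 1024 = true := by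
  decide +kernel

theorem PS3_d3 : ∀ e, allLt (fun c => bimp (band (Nat.beq (mu (PS e) c c) 0)
    (allL (fun s => Nat.beq (Nat.land (cm (PS e) s c) 255) 0)
    [1, 2, 4, 8, 16, 32, 64, 128, 256, 512])) (Nat.beq (Nat.land c 127) 0)) 1024 = true := by
  decide +kernel

theorem PS3_d4 : ∀ e, allL (fun c1 => allL (fun c2 => anyL (fun s => band (Nat.beq (cj (PS e) s c1) 256)
    (band (Nat.beq (cj (PS e) s c2) 128) (Nat.beq (cj (PS e) s 512) 512))) [0, 1, 8, 9, 16, 17, 24, 25])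
    [128, 384, 640, 896]) [256, 768] = true := by
  decide +kernel

theorem PS3_d5 : ∀ e, allLt (fun c => band
    (bimp (Nat.beq (Nat.land c 25) 0) (band (Nat.beq (cj (PS e) c 128) 128) (Nat.beq (cj (PS e) c 256) 256)))
    (bimp (band (Nat.beq (cj (PS e) c 128) 128) (Nat.beq (cj (PS e) c 256) 256)) (Nat.beq (Nat.land c 25) 0))) 1024 = true := by
  decide +kernel

theorem PS3_d6 : ∀ e, mu (PS e) 512 512 = 0 ∧ mu (PS e) 256 256 = 0 ∧ mu (PS e) 128 128 = 0 ∧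
    mu (PS e) 256 512 = 768 ∧ mu (PS e) 768 512 = 256 := by
  decide +kernel

theorem PS3_m1 : allLt (fun c => band (bimp (Nat.beq (Nat.land c 1023) 0) (Nat.beq c 0))
    (band (bimp (Nat.beq (Nat.land c 511) 0) (anyL (Nat.beq c) [0, 512]))
    (band (bimp (Nat.beq (Nat.land c 255) 0) (anyL (Nat.beq c) [0, 256, 512, 768]))
    (bimp (Nat.beq (Nat.land c 127) 0) (bor (Nat.beq (Nat.land c 255) 0) (anyL (Nat.beq c) [128, 384, 640, 896])))))) 1024 = true := by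
  decide +kernel

theorem PS3_m2 {c : ℕ} (hc : c < 1024) : (c &&& 1023 = 0 → c = 0) ∧ (c &&& 511 = 0 → c = 0 ∨ c = 512) ∧
    (c &&& 255 = 0 → c = 0 ∨ c = 256 ∨ c = 512 ∨ c = 768) ∧
    (c &&& 127 = 0 → c &&& 255 = 0 ∨ c ∈ [128, 384, 640, 896]) := by
  have := (allLt_iff _ _).1 PS3_m1 c hc
  simp only [band_eq_true, bimp_eq_true, bor_eq_true, anyL_iff, Nat.beq_eq, Nat.land_eq] at this
  refine ⟨this.1, fun k => ?_, fun k => ?_, fun k => ?_⟩
  · simpa using this.2.1 k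
  · simpa using this.2.2.1 k
  · simpa using this.2.2.2 k

namespace Fr
variable {F : Fr G} {g g' r r' d1 d2 η1 η2 a b : G} {P : Subgroup G} {e : Bool}

theorem ZS.PS3_code (h : F.ZS g g' r r' d1 d2 η1 η2 a b e) {n : G} (hn : n ∈ 𝐍(F.Sm g r d1 a b 0)) {c : ℕ}
    (hc : c < 1024) : ∃ c' < 1024, n * F.el g r d1 a b c * n⁻¹ = F.el g r d1 a b c' := by
  have h0 : (0 : ℕ) ∈ ML := by decide
  have h1 : F.el g r d1 a b c ∈ F.Sm g r d1 a b 0 := (h.elSm h0 hc).2 (by simp)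
  obtain ⟨c', k1, -, k2⟩ := (h.memSm h0).1 ((mem_normalizer_iff.1 hn _).1 h1)
  exact ⟨c', k1, k2⟩

theorem ZS.PS3_step (h : F.ZS g g' r r' d1 d2 η1 η2 a b e) {n : G} (hn : n ∈ 𝐍(F.Sm g r d1 a b 0)) {m y : ℕ}
    (hK : ∀ c < 1024, c &&& m = 0 → ∃ c' < 1024, c' &&& m = 0 ∧ n * F.el g r d1 a b c * n⁻¹ = F.el g r d1 a b c')
    (hy : y < 1024) (hyy : mu (PS e) y y = 0) (hs : ∀ s < 1024, H80.PC.cm (PS e) s y &&& m = 0) :
    ∃ c < 1024, n * F.el g r d1 a b y * n⁻¹ = F.el g r d1 a b c ∧ mu (PS e) c c = 0 ∧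
      ∀ s < 1024, H80.PC.cm (PS e) s c &&& m = 0 := by
  obtain ⟨c, hc, k⟩ := h.PS3_code hn hy
  have g0 := (ZS.gens F g r d1 a b).1
  refine ⟨c, hc, k, ?_, fun s hs' => ?_⟩
  · refine h.inj (ZS.lt e c c).1 (by norm_num) ?_
    have q := h.mul y y
    rw [hyy, g0] at q
    rw [h.mul, ← k, g0]
    calc _ = n * (F.el g r d1 a b y * F.el g r d1 a b y) * n⁻¹ := by group
      _ = 1 := by rw [← q]; group
  · obtain ⟨s', k1, k2⟩ := h.PS3_code (inv_mem hn) hs'
    obtain ⟨c', k3, k4, k5⟩ := hK _ (ZS.lt e s' y).2.2.2.1 (hs s' k1)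
    have : H80.PC.cm (PS e) s c = c' := by
      refine h.inj (ZS.lt e s c).2.2.2.1 k3 ?_
      rw [← k5, h.cm, h.cm, ← k, ← k2]
      group
    rw [this]; exact k4

theorem ZS.PS3_z (h : F.ZS g g' r r' d1 d2 η1 η2 a b e) {n : G} (hn : n ∈ 𝐍(F.Sm g r d1 a b 0)) :
    n * F.el g r d1 a b 512 * n⁻¹ = F.el g r d1 a b 512 := by
  have g0 := (ZS.gens F g r d1 a b).1
  obtain ⟨c, hc, k, -, k2⟩ := h.PS3_step hn (m := 1023) (y := 512) (fun c hc k => by
    obtain rfl := (PS3_m2 hc).1 k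
    exact ⟨0, hc, k, by rw [g0]; group⟩) (by norm_num) (PS3_d6 e).1 (fun s hs => by
      have := (allLt_iff _ _).1 (PS3_d0 e) s hs
      simp only [band_eq_true, Nat.beq_eq, Nat.land_eq] at this
      exact this.1)
  have := (allLt_iff _ _).1 (PS3_d1 e) c hc
  simp only [bimp_eq_true, allL_iff, Nat.beq_eq, Nat.land_eq] at this
  rcases (PS3_m2 hc).2.1 (this fun s hs => k2 s (by
    simp only [List.mem_cons, List.not_mem_nil, or_false] at hs; omega)) with rfl | rfl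
  · exfalso
    rw [g0, mul_inv_eq_one, mul_eq_left, ← g0] at k
    exact absurd (h.inj (by norm_num) (by norm_num) k) (by norm_num)
  · exact k

theorem ZS.PS3_v (h : F.ZS g g' r r' d1 d2 η1 η2 a b e) {n : G} (hn : n ∈ 𝐍(F.Sm g r d1 a b 0)) :
    ∃ c ∈ [256, 768], n * F.el g r d1 a b 256 * n⁻¹ = F.el g r d1 a b c := by
  have g0 := (ZS.gens F g r d1 a b).1
  have hz := h.PS3_z hn
  obtain ⟨c, hc, k, k1, k2⟩ := h.PS3_step hn (m := 511) (y := 256) (fun c hc k => by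
    rcases (PS3_m2 hc).2.1 k with rfl | rfl
    · exact ⟨0, hc, k, by rw [g0]; group⟩
    · exact ⟨512, hc, k, hz⟩) (by norm_num) (PS3_d6 e).2.1 (fun s hs => by
      have := (allLt_iff _ _).1 (PS3_d0 e) s hs
      simp only [band_eq_true, Nat.beq_eq, Nat.land_eq] at this
      exact this.2.1)
  have := (allLt_iff _ _).1 (PS3_d2 e) c hc
  simp only [bimp_eq_true, band_eq_true, allL_iff, Nat.beq_eq, Nat.land_eq] at this
  rcases (PS3_m2 hc).2.2.1 (this ⟨k1, fun s hs => k2 s (by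
    simp only [List.mem_cons, List.not_mem_nil, or_false] at hs; omega)⟩) with rfl | rfl | rfl | rfl
  · exfalso
    rw [g0, mul_inv_eq_one, mul_eq_left, ← g0] at k
    exact absurd (h.inj (by norm_num) (by norm_num) k) (by norm_num)
  · exact ⟨256, by simp, k⟩
  · exfalso
    rw [← hz, mul_left_inj, mul_right_inj] at k
    exact absurd (h.inj (by norm_num) (by norm_num) k) (by norm_num)
  · exact ⟨768, by simp, k⟩

theorem ZS.PS3_V (h : F.ZS g g' r r' d1 d2 η1 η2 a b e) {n : G} (hn : n ∈ 𝐍(F.Sm g r d1 a b 0)) :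
    ∀ c < 1024, c &&& 255 = 0 → ∃ c' < 1024, c' &&& 255 = 0 ∧
      n * F.el g r d1 a b c * n⁻¹ = F.el g r d1 a b c' := by
  have g0 := (ZS.gens F g r d1 a b).1
  have hz := h.PS3_z hn
  obtain ⟨c1, hc1, hv⟩ := h.PS3_v hn
  have e1 := h.mul 256 512
  have e2 := h.mul 768 512
  rw [(PS3_d6 e).2.2.2.1] at e1
  rw [(PS3_d6 e).2.2.2.2] at e2
  have hw : n * F.el g r d1 a b 768 * n⁻¹ = F.el g r d1 a b c1 * F.el g r d1 a b 512 := by
    rw [e1, ← hv]
    conv_rhs => rw [← hz]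
    group
  simp only [List.mem_cons, List.not_mem_nil, or_false] at hc1
  intro c hc k
  rcases (PS3_m2 hc).2.2.1 k with rfl | rfl | rfl | rfl
  · exact ⟨0, hc, k, by rw [g0]; group⟩
  · rcases hc1 with rfl | rfl
    · exact ⟨256, by norm_num, by decide, hv⟩
    · exact ⟨768, by norm_num, by decide, hv⟩
  · exact ⟨512, hc, k, hz⟩
  · rcases hc1 with rfl | rfl
    · exact ⟨768, by norm_num, by decide, hw.trans e1.symm⟩
    · exact ⟨256, by norm_num, by decide, hw.trans e2.symm⟩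

theorem ZS.PS3_u (h : F.ZS g g' r r' d1 d2 η1 η2 a b e) {n : G} (hn : n ∈ 𝐍(F.Sm g r d1 a b 0)) :
    ∃ c ∈ [128, 384, 640, 896], n * F.el g r d1 a b 128 * n⁻¹ = F.el g r d1 a b c := by
  obtain ⟨c, hc, k, k1, k2⟩ := h.PS3_step hn (m := 255) (y := 128) (h.PS3_V hn) (by norm_num) (PS3_d6 e).2.2.1
    (fun s hs => by
      have := (allLt_iff _ _).1 (PS3_d0 e) s hs
      simp only [band_eq_true, Nat.beq_eq, Nat.land_eq] at this
      exact this.2.2)
  have := (allLt_iff _ _).1 (PS3_d3 e) c hc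
  simp only [bimp_eq_true, band_eq_true, allL_iff, Nat.beq_eq, Nat.land_eq] at this
  rcases (PS3_m2 hc).2.2.2 (this ⟨k1, fun s hs => k2 s (by
    simp only [List.mem_cons, List.not_mem_nil, or_false] at hs; omega)⟩) with q | q
  · exfalso
    obtain ⟨c', q1, q2, q3⟩ := h.PS3_V (inv_mem hn) c hc q
    rw [← k] at q3
    have : (128 : ℕ) = c' := h.inj (by norm_num) q1 (by rw [← q3]; group)
    subst this
    exact absurd q2 (by decide)
  · exact ⟨c, q, k⟩

theorem ZS.PS3_Q (h : F.ZS g g' r r' d1 d2 η1 η2 a b e) {n : G} (hn : n ∈ 𝐍(F.Sm g r d1 a b 0))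
    (hv : n * F.el g r d1 a b 256 * n⁻¹ = F.el g r d1 a b 256)
    (hu : n * F.el g r d1 a b 128 * n⁻¹ = F.el g r d1 a b 128) {x : G} (hx : x ∈ F.Sm g r d1 a b 25) :
    n * x * n⁻¹ ∈ F.Sm g r d1 a b 25 := by
  have h25 : (25 : ℕ) ∈ ML := by decide
  obtain ⟨c, hc, k, rfl⟩ := (h.memSm h25).1 hx
  obtain ⟨c', hc', k'⟩ := h.PS3_code hn hc
  rw [k', h.elSm h25 hc']
  have q := (allLt_iff _ _).1 (PS3_d5 e) c hc
  have q' := (allLt_iff _ _).1 (PS3_d5 e) c' hc'
  simp only [bimp_eq_true, band_eq_true, Nat.beq_eq, Nat.land_eq] at q q'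
  obtain ⟨q1, q2⟩ := q.1 k
  have p1 := h.cj c 128
  have p2 := h.cj c 256
  rw [q1] at p1
  rw [q2] at p2
  refine q'.2 ⟨h.inj (ZS.lt e c' 128).2.2.1 (by norm_num) ?_, h.inj (ZS.lt e c' 256).2.2.1 (by norm_num) ?_⟩
  · rw [h.cj, ← k', ← hu]
    conv_rhs => rw [p1]
    group
  · rw [h.cj, ← k', ← hv]
    conv_rhs => rw [p2]
    group

theorem ZS.syl3 (h : F.ZS g g' r r' d1 d2 η1 η2 a b e) : IsSylowIn 2 (F.Sm g r d1 a b 0) ⊤ := by
  have h0 : (0 : ℕ) ∈ ML := by decide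
  have h25 : (25 : ℕ) ∈ ML := by decide
  refine isSylowIn_of_normalizer le_top ⟨le_inf le_top le_normalizer, h.pSm 0, fun D hSD hD hDp =>
    le_antisymm (fun n hnD => ?_) hSD⟩
  have hn : n ∈ 𝐍(F.Sm g r d1 a b 0) := (hD hnD).2
  obtain ⟨c1, hc1, hv⟩ := h.PS3_v hn
  obtain ⟨c2, hc2, hu⟩ := h.PS3_u hn
  have hz := h.PS3_z hn
  have q := (allL_iff _ _).1 ((allL_iff _ _).1 (PS3_d4 e) c1 hc1) c2 hc2
  simp only [anyL_iff, band_eq_true, Nat.beq_eq] at q
  obtain ⟨s, hs, q1, q2, q3⟩ := q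
  have hs' : s < 1024 := by simp only [List.mem_cons, List.not_mem_nil, or_false] at hs; omega
  have hsS : F.el g r d1 a b s ∈ F.Sm g r d1 a b 0 := (h.elSm h0 hs').2 (by simp)
  set m := F.el g r d1 a b s * n with hm
  have mN : m ∈ 𝐍(F.Sm g r d1 a b 0) := mul_mem (le_normalizer hsS) hn
  have mv : m * F.el g r d1 a b 256 * m⁻¹ = F.el g r d1 a b 256 := by
    conv_rhs => rw [← q1, h.cj, ← hv]
    rw [hm]; group
  have mu' : m * F.el g r d1 a b 128 * m⁻¹ = F.el g r d1 a b 128 := by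
    conv_rhs => rw [← q2, h.cj, ← hu]
    rw [hm]; group
  have mz : m * F.el g r d1 a b 512 * m⁻¹ = F.el g r d1 a b 512 := by
    conv_rhs => rw [← q3, h.cj, ← hz]
    rw [hm]; group
  have mQ : m ∈ 𝐍(F.QZ g r d1) := by
    rw [← h.ids.2.2.1]
    refine mem_normalizer_iff.2 fun x => ⟨fun hx => h.PS3_Q mN mv mu' hx, fun hx => ?_⟩
    have := h.PS3_Q (inv_mem mN) (by conv_lhs => rw [← mv]
                                     group) (by conv_lhs => rw [← mu']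
                                                group) hx
    simpa [mul_assoc] using this
  obtain ⟨-, -, -, -, -, -, -, -, gu, gv, gz, -⟩ := ZS.gens F g r d1 a b
  rw [gu] at mu'
  rw [gv] at mv
  rw [gz] at mz
  have mX : m ∈ 𝐂(F.X1) := by
    have : F.X1 ≤ centralizer {m} := by
      unfold X1
      rw [closure_le]
      rintro x (rfl | rfl | rfl) <;> rw [SetLike.mem_coe, mem_centralizer_singleton_iff]
      · exact (mul_inv_eq_iff_eq_mul.1 mz).symm
      · exact (mul_inv_eq_iff_eq_mul.1 mv).symm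
      · exact (mul_inv_eq_iff_eq_mul.1 mu').symm
    intro x hx
    exact mem_centralizer_singleton_iff.1 (this hx)
  obtain ⟨q, hq, o, -, ho, e1⟩ := h.toZZ.full mQ mX
  have hqS : q ∈ F.Sm g r d1 a b 0 := by
    rw [← h.ids.2.2.1] at hq
    obtain ⟨c, hc, -, rfl⟩ := (h.memSm h25).1 hq
    exact (h.elSm h0 hc).2 (by simp)
  have oD : o ∈ D := by
    have : o = q⁻¹ * (F.el g r d1 a b s * n) := by rw [← hm, e1]; group
    rw [this]
    exact mul_mem (inv_mem (hSD hqS)) (mul_mem (hSD hsS) hnD)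
  have o1 : o = 1 := by
    obtain ⟨k, hk⟩ := hDp ⟨o, oD⟩
    have hk' : o ^ 2 ^ k = 1 := by simpa using congrArg Subtype.val hk
    have h1 : orderOf o ∣ 2 ^ k := orderOf_dvd_of_pow_eq_one hk'
    have h2 : Nat.Coprime (orderOf o) (2 ^ k) := Nat.Coprime.pow_right k (Nat.coprime_two_right.2 ho)
    exact orderOf_eq_one_iff.1 (Nat.Coprime.eq_one_of_dvd h2 h1)
  have : n = (F.el g r d1 a b s)⁻¹ * q := by
    rw [o1, mul_one] at e1
    rw [← e1, hm]; group
  rw [this]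
  exact mul_mem (inv_mem hsS) hqS

end Fr

end H60M.A6
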