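import Mathlib
import Cfsg.Agent.Lib.B6S.HN
import Cfsg.Agent.Lib.B6S.Y1
import Cfsg.Agent.Lib.B6S.Y2

/-! Type `ZZ` in case `SZ` is impossible. -/

set_option autoImplicit false

namespace H60M.A6

open Subgroup H69 H36.SW H60M.A7

variable {G : Type*} [Group G] [Finite G]

namespace Y3

omit [Finite G] in
theorem cc {S : Set G} {x a : G} (h : x ∈ 𝐂(closure S)) (ha : a ∈ S) : a * x = x * a :=
  mem_centralizer_iff_commute.1 h a (subset_closure ha)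

omit [Finite G] in
theorem cjc {y a b : G} (h : a * b = b * a) : y * a * y⁻¹ * (y * b * y⁻¹) = y * b * y⁻¹ * (y * a * y⁻¹) := by
  calc y * a * y⁻¹ * (y * b * y⁻¹) = y * (a * b) * y⁻¹ := by group
    _ = y * (b * a) * y⁻¹ := by rw [h]
    _ = _ := by group

variable {F : Fr G} {g g' d1 d2 η1 η2 γ y : G}

theorem gi (h : F.ZZ 1 g g' 1 1 d1 d2 η1 η2) : g⁻¹ = g * F.z := by
  rw [inv_eq_iff_mul_eq_one, ← mul_assoc, h.gg, F.zz]

theorem gt (h : F.ZZ 1 g g' 1 1 d1 d2 η1 η2) : g * F.t * g⁻¹ = F.t * F.z := by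
  have e := h.zat h.zaG
  rw [e, h.gg]

/-- all of `t g F0` lies in the class of `t` -/
theorem omg (h : F.ZZ 1 g g' 1 1 d1 d2 η1 η2) (c : F.SZ γ) {f : G} (hf : f ∈ F.F0) : F.Om (F.t * g * f) := by
  obtain ⟨ρ, hC, -, h3, -⟩ := h.rho
  set f' := (F.t * g * F.v1)⁻¹ * (ρ * F.t * ρ⁻¹) with hf'
  have hm : f'⁻¹ * f ∈ F.F0 := mul_mem (inv_mem h3) hf
  have o1 : F.Om (F.t * (f'⁻¹ * f)) := c.om hm
  have cm : (f'⁻¹ * f) * ρ = ρ * (f'⁻¹ * f) := mem_centralizer_iff_commute.1 hC _ (h.zaF hm)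
  have e1 : ρ * (F.t * (f'⁻¹ * f)) * ρ⁻¹ = F.t * g * F.v1 * f := by
    calc ρ * (F.t * (f'⁻¹ * f)) * ρ⁻¹ = ρ * F.t * ρ⁻¹ * (ρ * (f'⁻¹ * f)) * ρ⁻¹ := by group
      _ = ρ * F.t * ρ⁻¹ * ((f'⁻¹ * f) * ρ) * ρ⁻¹ := by rw [cm]
      _ = (F.t * g * F.v1) * f' * (f'⁻¹ * f) := by rw [hf']; group
      _ = _ := by group
  have o2 : F.Om (F.t * g * F.v1 * f) := e1 ▸ o1.cj ρ
  have fR : f ∈ F.R g 1 d1 := h.XR (F.F0X1 hf)
  have vR : F.v1 ∈ F.R g 1 d1 := h.XR F.b2_vX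
  have eR : g * F.v1 * f ∈ F.R g 1 d1 := mul_mem (mul_mem h.zaG vR) fR
  have e2 : d1 * F.t * d1⁻¹ = F.t * F.v1 := by rw [h.zat h.zad, h.d11]
  have e3 : d1 * (g * F.v1 * f) = (g * F.v1 * f) * d1 := h.zac h.zad eR
  have e4 : F.v1 * g = g * F.v1 := h.zac vR h.zaG
  have e5 : d1 * (F.t * g * F.v1 * f) * d1⁻¹ = F.t * g * f := by
    calc d1 * (F.t * g * F.v1 * f) * d1⁻¹ = d1 * F.t * d1⁻¹ * (d1 * (g * F.v1 * f)) * d1⁻¹ := by group
      _ = F.t * F.v1 * ((g * F.v1 * f) * d1) * d1⁻¹ := by rw [e2, e3]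
      _ = F.t * (F.v1 * g) * F.v1 * f := by group
      _ = F.t * g * (F.v1 * F.v1) * f := by rw [e4]; group
      _ = _ := by rw [F.v11]; group
  exact e5 ▸ o2.cj d1

/-- a square is not in the class of `t` if `dl = 1` -/
theorem nsq (d : F.dl = 1) (o : F.Om (y * y)) : False := by
  have p : P2 y := (P2.of_sq o.sq.1).of_mul_self
  have hs : zpowers y ≤ centralizer {y * y} := by
    rw [zpowers_le, mem_centralizer_singleton_iff]; group
  obtain ⟨k, hk, e⟩ := F.b2_into o p.zpowers hs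
  rw [F.TD1 d] at e
  have hm : k⁻¹ * y * k ∈ F.T := by
    apply e
    rw [mem_cj, show k⁻¹⁻¹ * (k⁻¹ * y * k) * k⁻¹ = y by group]
    exact mem_zpowers y
  have e2 : k⁻¹ * y * k * (k⁻¹ * y * k) = F.t := by
    calc k⁻¹ * y * k * (k⁻¹ * y * k) = k⁻¹ * (y * y) * k := by group
      _ = F.t := by rw [← hk]; group
  rcases F.sqT hm with e3 | e3
  · exact F.t1 (e2 ▸ e3)
  · exact F.nz ((e2 ▸ e3 : F.t = F.z) ▸ F.om_t)

/-- the structure `ZZ` with the second side obtained from the first one by the swap -/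
theorem zz' (h : F.ZZ 1 g g' 1 1 d1 d2 η1 η2) (c : F.SZ y) (h1 : y * F.v1 * y⁻¹ = F.v2)
    (h2 : y * F.v2 * y⁻¹ = F.v1) (hg : y * g * y⁻¹ = g ∨ y * g * y⁻¹ = g * F.z) :
    F.ZZ 1 g (y * g * y⁻¹) 1 1 d1 (y * d1 * y⁻¹) η1 (y * η1 * y⁻¹) := by
  have yz : y * F.z * y⁻¹ = F.z := B2.cj_of_comm (F.Nz c.γT)
  have zR : F.z ∈ F.R g 1 d1 := h.XR F.b2_zX
  have uR : F.u1 ∈ F.R g 1 d1 := h.XR F.b2_uX
  have u12 : F.u1 = F.z * F.u2 := by
    rw [F.u2_eq F.hu1, F.b2_zz]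
  have cz : F.z * (y * d1 * y⁻¹) = y * d1 * y⁻¹ * F.z := by
    have := cjc (y := y) (h.zac zR h.zad)
    rwa [yz] at this
  have cu : F.u2 * (y * d1 * y⁻¹) = y * d1 * y⁻¹ * F.u2 := by
    have := cjc (y := y) (h.zac uR h.zad)
    rwa [c.γu] at this
  have cg : g * (y * d1 * y⁻¹) = y * d1 * y⁻¹ * g := by
    have k := cjc (y := y) (h.zac h.zaG h.zad)
    rcases hg with e | e
    · rwa [e] at k
    · rw [e] at k
      calc g * (y * d1 * y⁻¹) = g * (y * d1 * y⁻¹ * F.z) * F.z⁻¹ := by group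
        _ = g * F.z * (y * d1 * y⁻¹) * F.z⁻¹ := by rw [← cz]; group
        _ = y * d1 * y⁻¹ * (g * F.z) * F.z⁻¹ := by rw [k]
        _ = _ := by group
  have eu : y * η1 * y⁻¹ * F.u2 = F.u2 * (y * η1 * y⁻¹) := by
    have := cjc (y := y) h.η1u
    rwa [c.γu] at this
  refine { h with
    hg' := ?_, d2M := ?_, d22 := ?_, td2 := ?_, c2 := ?_, η2t := ?_, η2u := eu, η2r := by simp,
    η2g := ?_, η2d := ?_, cs := ?_ }
  · rcases h.cs with k | k
    · exact Or.inl k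
    · exact absurd k.1.symm F.hu1
  · rcases hg with e | e
    · rw [e, inv_mul_cancel]; exact one_mem _
    · rw [e, inv_mul_cancel_left]; exact (TrB.mF F).1
  · refine ZB_cen_cl ?_
    intro s hs
    simp only [Set.mem_insert_iff, Set.mem_singleton_iff] at hs
    rcases hs with rfl | rfl | rfl
    · exact cg
    · simp
    · rw [u12]
      calc F.z * F.u2 * (y * d1 * y⁻¹) = F.z * (F.u2 * (y * d1 * y⁻¹)) := by group
        _ = F.z * (y * d1 * y⁻¹) * F.u2 := by rw [cu]; group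
        _ = _ := by rw [cz]; group
  · rw [← h1, ← h.d11]; group
  · have k : F.t * F.u2 * (y * d1 * y⁻¹) * (F.t * F.u2) = (y * d1 * y⁻¹)⁻¹ := by
      rw [← c.γt]
      calc y * F.t * y⁻¹ * (y * d1 * y⁻¹) * (y * F.t * y⁻¹) = y * (F.t * d1 * F.t) * y⁻¹ := by group
        _ = _ := by rw [h.td1]; group
    rw [← k]
    calc F.t * (y * d1 * y⁻¹) * F.t = F.t * (y * d1 * y⁻¹) * (F.u2 * F.u2) * F.t := by rw [F.u22]; group
      _ = F.t * (y * d1 * y⁻¹ * F.u2) * (F.u2 * F.t) := by group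
      _ = F.t * (F.u2 * (y * d1 * y⁻¹)) * (F.t * F.u2) := by rw [cu, F.tu2]
      _ = _ := by group
  · calc (y * d1 * y⁻¹)⁻¹ * F.v1 * (y * d1 * y⁻¹) = (y * d1 * y⁻¹)⁻¹ * (y * F.v2 * y⁻¹) * (y * d1 * y⁻¹) := by
          rw [h2]
      _ = y * (d1⁻¹ * F.v2 * d1) * y⁻¹ := by group
      _ = y * F.v2 * y⁻¹ * (y * g * y⁻¹) * (y * F.v1 * y⁻¹) := by rw [h.c1]; group
      _ = _ := by rw [h1, h2]
  · have k := cjc (y := y) h.η1t
    rw [c.γt] at k
    calc y * η1 * y⁻¹ * F.t = y * η1 * y⁻¹ * (F.t * F.u2) * F.u2⁻¹ := by group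
      _ = F.t * (F.u2 * (y * η1 * y⁻¹)) * F.u2⁻¹ := by rw [k]; group
      _ = _ := by rw [← eu]; group
  · calc y * η1 * y⁻¹ * (y * g * y⁻¹) * (y * η1 * y⁻¹)⁻¹ = y * (η1 * g * η1⁻¹) * y⁻¹ := by group
      _ = _ := by rw [h.η1g]
  · calc y * η1 * y⁻¹ * (y * d1 * y⁻¹) * (y * η1 * y⁻¹)⁻¹ = y * (η1 * d1 * η1⁻¹) * y⁻¹ := by group
      _ = _ := by rw [h.η1d]; group

end Y3

namespace Fr
variable {F : Fr G} {u0 g g' v d1 d2 η η1 η2 κ k a b γ : G}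

theorem ZZ.sz (h : F.ZZ 1 g g' 1 1 d1 d2 η1 η2) (c : F.SZ γ) : False := by
  obtain ⟨x, hx, hxT, hW⟩ := c.exT1 h.gT (Y3.gt h) (Or.inr h.gg)
  have hP : IsPGroup 2 (F.T ⊔ zpowers g : Subgroup G) := by
    refine h.isP.to_le (sup_le ?_ ?_)
    · rw [F.T_eq, closure_le]
      intro s hs
      simp only [Set.mem_insert_iff, Set.mem_singleton_iff] at hs
      rcases hs with rfl | rfl | rfl | rfl
      · exact mem_sup_right (subset_closure (by simp))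
      · exact mem_sup_left (h.XR F.b2_vX)
      · exact mem_sup_right (subset_closure (by simp))
      · exact mem_sup_left (h.XR F.b2_uX)
    · rw [zpowers_le]; exact mem_sup_left h.zaG
  obtain ⟨y, -, cy, h1, h2, h3, h4⟩ :=
    c.nrm hP le_sup_left hx hxT hW (mem_sup_right (mem_zpowers g)) h.gT (Y3.gt h)
  have yz : y * F.z * y⁻¹ = F.z := B2.cj_of_comm (F.Nz cy.γT)
  rcases F.memZT.1 h4 with hw | hw
  · have e0 : y * g * y⁻¹ = g * (g⁻¹ * (y * y)) * (y * (g⁻¹ * (y * y)) * y⁻¹)⁻¹ := by group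
    have hg : y * g * y⁻¹ = g ∨ y * g * y⁻¹ = g * F.z := by
      have u2 := F.u2_eq F.hu1
      have i1 : F.u1⁻¹ = F.u1 := inv_eq_of_mul_eq_one_right F.u11
      have iz : F.z⁻¹ = F.z := inv_eq_of_mul_eq_one_right F.zz
      rcases F.memF0.1 hw with e | e | e | e
      · left; rw [e0, e]; group
      · left; rw [e0, e, yz]; group
      · right; rw [e0, e, cy.γu, u2, mul_inv_rev, i1, iz]
        calc g * F.u1 * (F.u1 * F.z) = g * (F.u1 * F.u1) * F.z := by group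
          _ = _ := by rw [F.u11]; group
      · right; rw [e0, e, ← u2, h3, u2]; group
    have h' := Y3.zz' h cy h1 h2 hg
    obtain ⟨ρ, hρ⟩ := h'.rho
    obtain ⟨f, f1, f2, e, he, f3, f4⟩ := h'.exf hρ
    obtain ⟨k1, k2⟩ := h'.killB c f1 f2 he f3 f4
    obtain ⟨k3, -⟩ := h'.eps' f1 f2 he f3 f4 k1
    have k4 : g⁻¹ * (y * g * y⁻¹) * F.u1 ∈ F.V1 := by
      have := mul_mem k3 (inv_mem k2)
      convert this using 1
      group
    have k5 : g⁻¹ * (y * g * y⁻¹) ∈ F.V1 := by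
      rcases hg with e | e
      · rw [e, inv_mul_cancel]; exact one_mem _
      · rw [e, inv_mul_cancel_left]; exact F.b2_zV
    exact F.b2_uV F.hu1 ((mul_mem_cancel_left k5).1 k4)
  · have o := Y3.omg h c (mul_mem (TrB.mF F).1 hw)
    have e : F.t * g * (F.z * (F.t * (g⁻¹ * (y * y)))) = y * y := by
      calc F.t * g * (F.z * (F.t * (g⁻¹ * (y * y)))) = F.t * (g * F.z) * F.t * g⁻¹ * (y * y) := by group
        _ = (F.t * g * F.t)⁻¹⁻¹ * g * (F.t * (g * F.z) * F.t * g⁻¹) * (y * y) := by rw [h.tg]; group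
        _ = y * y := by
          rw [← Y3.gi h]
          have k : F.t * g⁻¹ * F.t = g := by
            have := ZA.ci F.tt g
            rw [this, h.tg, inv_inv]
          rw [k, h.tg]; group
    exact Y3.nsq c.d1 (e ▸ o)

end Fr

end H60M.A6
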