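import Mathlib
import Cfsg.Agent.Lib.B6S.Bas2

/-! The group `T2 = ⟨T, g, v⟩`. -/

set_option autoImplicit false
set_option linter.unusedSectionVars false

namespace H60M.A6

open Subgroup H69 H36.SW

variable {G : Type*} [Group G] [Finite G]

namespace TrB

omit [Finite G] in
theorem comm_cl {S : Set G} {Z : Subgroup G} (hc : closure S ≤ 𝐍(Z))
    (h : ∀ a ∈ S, ∀ b ∈ S, a * b * a⁻¹ * b⁻¹ ∈ Z) {x y : G} (hx : x ∈ closure S)
    (hy : y ∈ closure S) : x * y * x⁻¹ * y⁻¹ ∈ Z := by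
  have k : ∀ y, (∀ a ∈ S, a * y * a⁻¹ * y⁻¹ ∈ Z) → ∀ x ∈ closure S, x * y * x⁻¹ * y⁻¹ ∈ Z := by
    intro y h x hx
    induction hx using closure_induction with
    | mem x hx => exact h x hx
    | one => simp
    | mul a b ha _ e e' =>
      have := mul_mem (conj_mem_of_mem_normalizer (hc ha) e') e
      rwa [show a * (b * y * b⁻¹ * y⁻¹) * a⁻¹ * (a * y * a⁻¹ * y⁻¹) =
        a * b * y * (a * b)⁻¹ * y⁻¹ by group] at this
    | inv a ha e =>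
      have := conj_mem_of_mem_normalizer' (hc ha) (inv_mem e)
      rwa [show a⁻¹ * (a * y * a⁻¹ * y⁻¹)⁻¹ * a = a⁻¹ * y * a⁻¹⁻¹ * y⁻¹ by group] at this
  refine k y (fun a ha => ?_) x hx
  have := inv_mem (k a (fun b hb => h b hb a ha) y hy)
  rwa [show (y * a * y⁻¹ * a⁻¹)⁻¹ = a * y * a⁻¹ * y⁻¹ by group] at this

omit [Finite G] in
theorem cm {Z : Subgroup G} {a b f : G} (hf : f ∈ Z) (e : a * b = f * (b * a)) :
    a * b * a⁻¹ * b⁻¹ ∈ Z ∧ b * a * b⁻¹ * a⁻¹ ∈ Z := by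
  have : a * b * a⁻¹ * b⁻¹ = f := by rw [e]; group
  refine ⟨this ▸ hf, ?_⟩
  rw [show b * a * b⁻¹ * a⁻¹ = (a * b * a⁻¹ * b⁻¹)⁻¹ by group, this]
  exact inv_mem hf

omit [Finite G] in
theorem cm1 {Z : Subgroup G} {a b : G} (e : a * b = b * a) :
    a * b * a⁻¹ * b⁻¹ ∈ Z ∧ b * a * b⁻¹ * a⁻¹ ∈ Z := cm (one_mem Z) (by rw [e, one_mul])

theorem pw {Q : Type*} [Group Q] {x : Q} (h : x * x = 1) (a b : Fin 2) :
    x ^ ((a + b : Fin 2) : ℕ) = x ^ (a : ℕ) * x ^ (b : ℕ) := by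
  fin_cases a <;> fin_cases b <;> simp [h]

variable (F : Fr G)

omit [Finite G] in
theorem mX : F.z ∈ F.X1 ∧ F.v1 ∈ F.X1 ∧ F.u1 ∈ F.X1 :=
  ⟨subset_closure (by simp), subset_closure (by simp), subset_closure (by simp)⟩

omit [Finite G] in
theorem mF : F.z ∈ F.F0 ∧ F.u1 ∈ F.F0 := ⟨subset_closure (by simp), subset_closure (by simp)⟩

omit [Finite G] in
theorem mT : F.t ∈ F.T ∧ F.v1 ∈ F.T ∧ F.v2 ∈ F.T :=
  ⟨subset_closure (by simp), subset_closure (by simp), subset_closure (by simp)⟩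

theorem F0T : F.F0 ≤ F.T := F.F0X1.trans (F.X1W1.trans F.W1T)

theorem F0c {f : G} (hf : f ∈ F.F0) : f ∈ 𝐂(F.T) :=
  (F.cenT (F0T F hf)).2 (F.memZT.2 (.inl hf))

theorem tc {x : G} (hx : x ∈ F.T) : x * F.t = F.t * x :=
  mem_centralizer_singleton_iff.1 (F.TC hx)

variable {F} {u0 ub za zc g d v η : G}

theorem mem4 (h : F.Tr u0 ub za zc g d v η) : u0 ∈ F.F0 ∧ ub ∈ F.F0 ∧ za ∈ F.F0 ∧ zc ∈ F.F0 := by
  refine ⟨?_, ?_, ?_, ?_⟩
  · rcases h.h0 with e | e <;> rw [e.1]; exacts [one_mem _, (mF F).2]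
  · rcases h.hb with e | e <;> rw [e]; exacts [one_mem _, (mF F).2]
  · rcases h.ha with e | e <;> rw [e]; exacts [one_mem _, (mF F).1]
  · rcases h.hc with e | e <;> rw [e]; exacts [one_mem _, (mF F).1]

theorem f2 {f : G} (hf : f ∈ F.F0) : f * f = 1 := F.sqW1 (F.X1W1 (F.F0X1 hf))

/-- the action on `t` -/
theorem ct (h : F.Tr u0 ub za zc g d v η) {τ : G} (hτ : τ ∈ F.T) (i j : Fin 2) :
    τ * g ^ (i : ℕ) * v ^ (j : ℕ) * F.t * (τ * g ^ (i : ℕ) * v ^ (j : ℕ))⁻¹ =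
      F.t * (F.z ^ (i : ℕ) * u0 ^ (j : ℕ)) := by
  have m : F.z ^ (i : ℕ) * u0 ^ (j : ℕ) ∈ F.F0 := mul_mem (pow_mem (mF F).1 _) (pow_mem (mem4 h).1 _)
  have e1 : v ^ (j : ℕ) * F.t * (v ^ (j : ℕ))⁻¹ = F.t * u0 ^ (j : ℕ) := by
    fin_cases j <;> simp [h.vt]
  have e2 : g ^ (i : ℕ) * F.t * (g ^ (i : ℕ))⁻¹ = F.t * F.z ^ (i : ℕ) := by
    fin_cases i <;> simp [h.gt]
  have e3 := conj_eq_of_mem_centralizer (pow_mem h.gX (i : ℕ)) (F.F0X1 (pow_mem (mem4 h).1 (j : ℕ)))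
  calc _ = τ * (g ^ (i : ℕ) * (v ^ (j : ℕ) * F.t * (v ^ (j : ℕ))⁻¹) * (g ^ (i : ℕ))⁻¹) * τ⁻¹ := by group
    _ = τ * (F.t * (F.z ^ (i : ℕ) * u0 ^ (j : ℕ))) * τ⁻¹ := by
      rw [e1, ← conj_mul (b := g ^ (i : ℕ)), e2, e3, mul_assoc F.t]
    _ = _ := by rw [← mul_assoc τ, tc F hτ, mul_assoc F.t, F0c F m τ hτ]; group

theorem ct1 (h : F.Tr u0 ub za zc g d v η) {τ : G} (hτ : τ ∈ F.T) {i j : Fin 2}
    (e : τ * g ^ (i : ℕ) * v ^ (j : ℕ) * F.t = F.t * (τ * g ^ (i : ℕ) * v ^ (j : ℕ))) :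
    i = 0 ∧ (j = 0 ∨ v = 1) := by
  have k := ct h hτ i j
  rw [e, mul_inv_cancel_right, left_eq_mul] at k
  rcases h.h0 with ⟨rfl, rfl⟩ | ⟨rfl, u1⟩
  · exact ⟨(F.ind (a := 0) (b := 0) (c := 0) (d := i) (e := 0) (by simpa using k)).2.2.2.1, .inr rfl⟩
  · have := F.ind (a := 0) (b := 0) (c := 0) (d := i) (e := j) (by simpa using k)
    exact ⟨this.2.2.2.1, .inl (this.2.2.2.2.resolve_right u1)⟩

end TrB

namespace Fr
variable {F : Fr G} {u0 ub za zc g d v η : G}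

open TrB

theorem Tr.cj (h : F.Tr u0 ub za zc g d v η) {o : G} (ho : o ∈ 𝐂(F.T)) (h2 : Odd (orderOf o)) :
    F.Tr u0 ub za zc (o * g * o⁻¹) (o * d * o⁻¹) (o * v * o⁻¹) (o * η * o⁻¹) := by
  let φ := MulAut.conj o
  have k : ∀ τ ∈ F.T, φ τ = τ := fun τ hτ => conj_eq_of_mem_centralizer ho hτ
  obtain ⟨m0, mb, ma, mc⟩ := mem4 h
  have ft := k _ (mT F).1
  have f1 := k _ (mT F).2.1
  have f2 := k _ (mT F).2.2
  have fz := k _ (F0T F (mF F).1)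
  have fu := k _ (F0T F (mF F).2)
  have f0 := k _ (F0T F m0)
  have fb := k _ (F0T F mb)
  have fa := k _ (F0T F ma)
  have fc := k _ (F0T F mc)
  have oW : o ∈ 𝐂(F.W1) := centralizer_anti F.W1T ho
  have oX : o ∈ 𝐂(F.X1) := centralizer_anti F.X1W1 oW
  have s : ∀ {a b : G}, a = b → φ a = φ b := congrArg φ
  change F.Tr u0 ub za zc (φ g) (φ d) (φ v) (φ η)
  refine ⟨h.h0.imp (fun e => ⟨e.1, by rw [e.2, map_one]⟩) id, h.hb, h.ha, h.hc, ?_,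
    mul_mem (mul_mem oX h.gX) (inv_mem oX), mul_mem (mul_mem oX h.dX) (inv_mem oX),
    mul_mem (mul_mem oX h.vX) (inv_mem oX), by simpa only [map_mul, map_inv, ft, fz] using s h.gt,
    by simpa only [map_mul, map_inv, ft, f1] using s h.dt,
    by simpa only [map_mul, map_inv, ft, f0] using s h.vt,
    by simpa only [map_mul, map_inv] using s h.ηg, by simpa only [map_mul, map_inv] using s h.ηd,
    by simpa only [map_mul] using s h.ηv, by simpa only [map_mul, map_one] using s h.vv,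
    by simpa only [map_mul, fa, fb] using s h.gg, by simpa only [map_mul, fb] using s h.gd,
    by simpa only [map_mul, fc] using s h.vg, by simpa only [map_mul, f2, fb] using s h.v2g,
    by simpa only [map_mul, map_inv, f2, fb] using s h.v2d,
    h.v2v.imp (fun e => by simpa only [map_mul, f2] using s e)
      fun e => by simpa only [map_mul, f2, fu] using s e,
    F.En.conj_mem _ h.gE o, F.En.conj_mem _ h.dE o, (isPGroup_cj h.isP o).to_le ((closure_le _).2 ?_)⟩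
  · obtain ⟨o0, h0, h1, rfl⟩ := h.hη
    obtain ⟨O, hO, -, hn⟩ := F.exO1
    have m := (hO o).2 ⟨oW, h2⟩
    have := (hO _).1 (mul_mem (mul_mem (conj_mem_of_mem_normalizer' (hn F.y1N) m)
      ((hO o0).2 ⟨h0, h1⟩)) (inv_mem m))
    exact ⟨_, this.1, this.2, by rw [MulAut.conj_apply]; group⟩
  · have m : ∀ {x y}, φ x = y → x ∈ ({F.t, F.v1, F.v2, F.u1, g, d, v} : Set G) →
        y ∈ closure ({F.t, F.v1, F.v2, F.u1, g, d, v} : Set G) ^ᶜ o :=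
      fun e hx => e ▸ cj_mem o (subset_closure hx)
    rintro _ (rfl | rfl | rfl | rfl | rfl | rfl | rfl)
    exacts [m ft (by simp), m f1 (by simp), m f2 (by simp), m fu (by simp), m rfl (by simp),
      m rfl (by simp), m rfl (by simp)]

theorem Tr.act (h : F.Tr u0 ub za zc g d v η) {w : G} (hw : w ∈ F.W1) : η * w * η⁻¹ = F.y1 * w * F.y1⁻¹ := by
  obtain ⟨o, ho, -, rfl⟩ := h.hη
  conv_rhs => rw [← conj_eq_of_mem_centralizer ho hw]
  group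

theorem Tr.vu (h : F.Tr F.u1 ub za zc g d v η) (hu : F.u1 ≠ 1) : F.Tr F.u1 ub za zc g d (v * F.u1) η := by
  have uv := h.vX _ (mX F).2.2
  have ug := h.gX _ (mX F).2.2
  have ηu : η * F.u1 = F.u1 * η := by
    rw [← mul_inv_eq_iff_eq_mul, h.act (F.X1W1 (mX F).2.2), F.y1u, mul_inv_cancel_right]
  have e2 : F.v2 * (v * F.u1) * F.v2 = F.v2 * v * F.v2 * F.u1 := by
    rw [mul_assoc _ _ F.u1, ← F.u1v2]; group
  refine { h with h0 := .inr ⟨rfl, hu⟩, vX := mul_mem h.vX fun x hx => ?_, vt := ?_, ηv := ?_, vv := ?_, vg := ?_, v2v := ?_, isP := h.isP.to_le ((closure_le _).2 ?_) }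
  · exact comm_of_sq (A := F.W1) (fun _ => F.sqW1) (F.X1W1 hx) (F.X1W1 (mX F).2.2)
  · rw [← h.vt, mul_assoc v, ← F.tu1]; group
  · rw [← mul_assoc, h.ηv, mul_assoc, ηu, mul_assoc]
  · rw [mul_assoc, ← mul_assoc F.u1, uv, mul_assoc, F.u11, mul_one, h.vv]
  · rw [mul_assoc v, ug, mul_assoc, mul_assoc g, ← mul_assoc F.u1, uv, mul_assoc v, F.u11, mul_one,
      ← mul_assoc, h.vg]
  · rw [e2]
    exact h.v2v.imp (fun e => by rw [e]) fun e => by rw [e]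
  · rintro _ (rfl | rfl | rfl | rfl | rfl | rfl | rfl)
    iterate 6 exact subset_closure (by simp)
    exact mul_mem (subset_closure (by simp)) (subset_closure (by simp))

theorem Tr.dd (h : F.Tr u0 ub za zc g d v η) : (za = 1 ∧ d * d = ub) ∨ (za = F.z ∧ d * d = F.v1 * ub) := by
  have e : F.y1 * ub * F.y1⁻¹ = ub := by
    rcases h.hb with e | e <;> rw [e]
    · simp
    · rw [F.y1u, mul_inv_cancel_right]
  have : d * d = F.y1 * za * F.y1⁻¹ * ub := by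
    rw [← h.ηg, conj_mul, h.gg, h.act (F.X1W1 (F.F0X1 (mul_mem (mem4 h).2.2.1 (mem4 h).2.1))),
      ← conj_mul, e]
  exact h.ha.imp (fun e => ⟨e, by simp [this, e]⟩) fun e => ⟨e, by rw [this, e, F.y1z]⟩

theorem Tr.vd (h : F.Tr u0 ub za zc g d v η) : (zc = 1 ∧ v * d * v = d) ∨ (zc = F.z ∧ v * d * v = d * F.v1) := by
  have e : η * v * η⁻¹ = v := by rw [h.ηv, mul_inv_cancel_right]
  have : v * d * v = d * (F.y1 * zc * F.y1⁻¹) := by
    rw [← h.act (F.X1W1 (F.F0X1 (mem4 h).2.2.2)), ← h.ηg, conj_mul, ← h.vg, ← conj_mul, ← conj_mul, e]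
  exact h.hc.imp (fun e => ⟨e, by simp [this, e]⟩) fun e => ⟨e, by rw [this, e, F.y1z]⟩

theorem Tr.dv2 (h : F.Tr u0 ub za zc g d v η) : d⁻¹ * F.v2 * d = F.v2 * g * (d * d) * ub := by
  have mb := (mem4 h).2.1
  have c : ub * (g * d * d) = g * d * d * ub :=
    mul_mem (mul_mem h.gX h.dX) h.dX _ (F.F0X1 mb)
  have i2 := inv_eq_of_mul_eq_one_right F.v22
  calc _ = F.v2 * (F.v2⁻¹ * d * F.v2)⁻¹ * F.v2⁻¹ * F.v2 * d := by group
    _ = F.v2 * (ub⁻¹ * (g * d * d)) := by rw [i2, mul_assoc _ F.v2 F.v2, F.v22, h.v2d]; group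
    _ = _ := by rw [inv_eq_of_mul_eq_one_right (f2 mb), c]; group

theorem Tr.F0c (h : F.Tr u0 ub za zc g d v η) : F.F0 ≤ 𝐂(closure ({F.t, F.v1, F.v2, F.u1, g, v} : Set G)) := by
  refine le_centralizer_iff.1 ((closure_le _).2 ?_)
  have k : F.T ≤ 𝐂(F.F0) := le_centralizer_iff.1 fun _ => TrB.F0c F
  rintro _ (rfl | rfl | rfl | rfl | rfl | rfl)
  exacts [k (mT F).1, k (mT F).2.1, k (mT F).2.2, k (F0T F (mF F).2), centralizer_anti F.F0X1 h.gX,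
    centralizer_anti F.F0X1 h.vX]

theorem Tr.comm (h : F.Tr u0 ub za zc g d v η) {x y : G} (hx : x ∈ closure ({F.t, F.v1, F.v2, F.u1, g, v} : Set G)) (hy : y ∈ closure ({F.t, F.v1, F.v2, F.u1, g, v} : Set G)) : x * y * x⁻¹ * y⁻¹ ∈ F.F0 := by
  refine comm_cl (le_normalizer_of_le_centralizer (le_centralizer_iff.1 h.F0c)) ?_ hx hy
  obtain ⟨m0, mb, ma, mc⟩ := mem4 h
  have s : ∀ a : G, a * a * a⁻¹ * a⁻¹ ∈ F.F0 := fun a => (cm1 rfl).1
  have cg := fun {f} (hf : f ∈ F.F0) => h.gX f (F.F0X1 hf)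
  have cv := fun {f} (hf : f ∈ F.F0) => h.vX f (F.F0X1 hf)
  have a1 := cm1 (Z := F.F0) F.tv1
  have a2 := cm1 (Z := F.F0) F.tv2
  have a3 := cm1 (Z := F.F0) F.tu1
  have a4 := cm (mF F).1 (a := g) (b := F.t) (by rw [← mul_assoc, F.zt, ← h.gt]; group)
  have a5 := cm m0 (a := v) (b := F.t) (by
    rw [← mul_assoc, ← TrB.F0c F m0 _ (mT F).1, ← h.vt]; group)
  have a6 := cm (mF F).1 F.v21
  have a7 := cm1 (Z := F.F0) F.u1v1
  have a8 := cm1 (Z := F.F0) (h.gX _ (mX F).2.1)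
  have a9 := cm1 (Z := F.F0) (h.vX _ (mX F).2.1)
  have b1 := cm1 (Z := F.F0) F.u1v2
  have k : ∀ {x f : G}, f ∈ F.F0 → f * x = x * f → F.v2 * x * F.v2 = x * f →
      F.v2 * x = f * (x * F.v2) := fun _ c e => by
    rw [← mul_assoc, c, ← e, mul_assoc, F.v22, mul_one]
  have b2 := cm mb (k mb (cg mb) h.v2g)
  have b3 : F.v2 * v * F.v2⁻¹ * v⁻¹ ∈ F.F0 ∧ v * F.v2 * v⁻¹ * F.v2⁻¹ ∈ F.F0 := by
    rcases h.v2v with e | e
    · exact cm (one_mem _) (k (one_mem _) (by simp) (by rw [e, mul_one]))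
    · exact cm (mF F).2 (k (mF F).2 (cv (mF F).2) e)
  have b4 := cm1 (Z := F.F0) (cg (mF F).2)
  have b5 := cm1 (Z := F.F0) (cv (mF F).2)
  have b6 := cm mc (a := v) (b := g) (by
    rw [← mul_assoc, cg mc, ← h.vg, mul_assoc, h.vv, mul_one])
  simp only [Set.mem_insert_iff, Set.mem_singleton_iff, forall_eq_or_imp, forall_eq]
  exact ⟨⟨s _, a1.1, a2.1, a3.1, a4.2, a5.2⟩, ⟨a1.2, s _, a6.2, a7.2, a8.1, a9.1⟩,
    ⟨a2.2, a6.1, s _, b1.2, b2.1, b3.1⟩, ⟨a3.2, a7.1, b1.1, s _, b4.1, b5.1⟩,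
    ⟨a4.1, a8.2, b2.2, b4.2, s _, b6.2⟩, a5.1, a9.2, b3.2, b5.2, b6.1, s _⟩

theorem Tr.sq (h : F.Tr u0 ub za zc g d v η) {x : G} (hx : x ∈ closure ({F.t, F.v1, F.v2, F.u1, g, v} : Set G)) : x * x ∈ F.F0 := by
  induction hx using closure_induction with
  | mem x hx =>
    rcases hx with rfl | rfl | rfl | rfl | rfl | rfl
    exacts [F.tt ▸ one_mem _, F.v11 ▸ one_mem _, F.v22 ▸ one_mem _, F.u11 ▸ one_mem _,
      h.gg ▸ mul_mem (mem4 h).2.2.1 (mem4 h).2.1, h.vv ▸ one_mem _]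
  | one => simp
  | mul x y hx hy e e' =>
    have c := h.comm hy hx
    rw [show x * y * (x * y) = x * (y * x * y⁻¹ * x⁻¹) * x * (y * y) by group, h.F0c c _ hx,
      mul_assoc _ x x]
    exact mul_mem (mul_mem c e) e'
  | inv x _ e => rw [← mul_inv_rev]; exact inv_mem e

theorem Tr.TT (h : F.Tr u0 ub za zc g d v η) : F.T ≤ closure ({F.t, F.v1, F.v2, F.u1, g, v} : Set G) := by
  have := h.vv
  rw [F.T_eq]
  exact closure_mono fun x hx => by simp only [Set.mem_insert_iff, Set.mem_singleton_iff] at *; tauto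

theorem Tr.mem (h : F.Tr u0 ub za zc g d v η) {x : G} : x ∈ closure ({F.t, F.v1, F.v2, F.u1, g, v} : Set G) ↔ ∃ f ∈ F.F0, ∃ a b c i j : Fin 2,
    x = f * F.t ^ (a : ℕ) * F.v1 ^ (b : ℕ) * F.v2 ^ (c : ℕ) * g ^ (i : ℕ) * v ^ (j : ℕ) := by
  set P := closure ({F.t, F.v1, F.v2, F.u1, g, v} : Set G) with hP
  have mt : F.t ∈ P := h.TT (mT F).1
  have m1 : F.v1 ∈ P := h.TT (mT F).2.1
  have m2 : F.v2 ∈ P := h.TT (mT F).2.2
  have mg : g ∈ P := subset_closure (by simp)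
  have mv : v ∈ P := subset_closure (by simp)
  refine ⟨fun hx => ?_, ?_⟩
  · have : (F.F0.subgroupOf P).Normal := ⟨fun n hn p => by
      rw [mem_subgroupOf, coe_mul, coe_mul, h.F0c (mem_subgroupOf.1 hn) _ p.2, coe_inv, mul_inv_cancel_right]
      exact hn⟩
    let _ : CommGroup (P ⧸ F.F0.subgroupOf P) :=
      { (inferInstance : Group (P ⧸ F.F0.subgroupOf P)) with
        mul_comm := fun a b => by
          obtain ⟨a, rfl⟩ := QuotientGroup.mk_surjective a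
          obtain ⟨b, rfl⟩ := QuotientGroup.mk_surjective b
          rw [← mul_inv_eq_one, mul_inv_rev, ← mul_assoc]
          exact (QuotientGroup.eq_one_iff (a * b * a⁻¹ * b⁻¹)).2 (h.comm a.2 b.2) }
    let φ := QuotientGroup.mk' (F.F0.subgroupOf P)
    have sq : ∀ y : P, y.1 * y.1 ∈ F.F0 → φ y * φ y = 1 := fun y e =>
      (QuotientGroup.eq_one_iff (y * y)).2 e
    have s1 := fun {y} (hy : y ∈ P) (e : y * y = 1) => sq ⟨y, hy⟩ (e ▸ one_mem _)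
    have : ∃ a b c i j : Fin 2, φ ⟨x, hx⟩ = φ ⟨_, mt⟩ ^ (a : ℕ) * φ ⟨_, m1⟩ ^ (b : ℕ) *
        φ ⟨_, m2⟩ ^ (c : ℕ) * φ ⟨_, mg⟩ ^ (i : ℕ) * φ ⟨_, mv⟩ ^ (j : ℕ) := by
      induction hx using closure_induction with
      | mem x hx =>
        rcases hx with rfl | rfl | rfl | rfl | rfl | rfl
        exacts [⟨1, 0, 0, 0, 0, by simp⟩, ⟨0, 1, 0, 0, 0, by simp⟩, ⟨0, 0, 1, 0, 0, by simp⟩,
          ⟨0, 0, 0, 0, 0, ((QuotientGroup.eq_one_iff (N := F.F0.subgroupOf P) ⟨_, h.TT (F0T F (mF F).2)⟩).2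
            (mF F).2).trans (by simp)⟩,
          ⟨0, 0, 0, 1, 0, by simp⟩, ⟨0, 0, 0, 0, 1, by simp⟩]
      | inv x hx e =>
        obtain ⟨a, b, c, i, j, e⟩ := e
        exact ⟨a, b, c, i, j, (map_inv φ ⟨x, hx⟩).trans
          ((inv_eq_of_mul_eq_one_right (sq ⟨x, hx⟩ (h.sq hx))).trans e)⟩
      | one => exact ⟨0, 0, 0, 0, 0, (map_one φ).trans (by simp)⟩
      | mul x y hx hy e e' =>
        obtain ⟨a, b, c, i, j, e⟩ := e
        obtain ⟨a', b', c', i', j', e'⟩ := e'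
        refine ⟨a + a', b + b', c + c', i + i', j + j', (map_mul φ ⟨x, hx⟩ ⟨y, hy⟩).trans ?_⟩
        rw [e, e', pw (s1 mt F.tt), pw (s1 m1 F.v11), pw (s1 m2 F.v22), pw (s1 mv h.vv),
          pw (sq ⟨g, mg⟩ (h.gg ▸ mul_mem (mem4 h).2.2.1 (mem4 h).2.1))]
        ac_rfl
    obtain ⟨a, b, c, i, j, e⟩ := this
    simp only [← map_pow, ← map_mul] at e
    rw [← mul_inv_eq_one, ← map_inv, ← map_mul] at e
    exact ⟨_, mem_subgroupOf.1 ((QuotientGroup.eq_one_iff _).1 e), a, b, c, i, j, by simp [mul_assoc]⟩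
  · rintro ⟨f, hf, a, b, c, i, j, rfl⟩
    exact mul_mem (mul_mem (mul_mem (mul_mem (mul_mem (h.TT (F0T F hf)) (pow_mem mt _))
      (pow_mem m1 _)) (pow_mem m2 _)) (pow_mem mg _)) (pow_mem mv _)

theorem Tr.mem' (h : F.Tr u0 ub za zc g d v η) {x : G}
    (hx : x ∈ closure ({F.t, F.v1, F.v2, F.u1, g, v} : Set G)) :
    ∃ τ ∈ F.T, ∃ i j : Fin 2, x = τ * g ^ (i : ℕ) * v ^ (j : ℕ) := by
  obtain ⟨f, hf, a, b, c, i, j, rfl⟩ := h.mem.1 hx
  exact ⟨_, mul_mem (mul_mem (mul_mem (F0T F hf) (pow_mem (mT F).1 _)) (pow_mem (mT F).2.1 _))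
    (pow_mem (mT F).2.2 _), i, j, rfl⟩

theorem Tr.ind (h : F.Tr u0 ub za zc g d v η) {a b c i j : Fin 2}
    (e : F.t ^ (a : ℕ) * F.v1 ^ (b : ℕ) * F.v2 ^ (c : ℕ) * g ^ (i : ℕ) * v ^ (j : ℕ) ∈ F.F0) :
    a = 0 ∧ b = 0 ∧ c = 0 ∧ i = 0 ∧ (j = 0 ∨ v = 1) := by
  obtain ⟨rfl, hj⟩ := ct1 h (mul_mem (mul_mem (pow_mem (mT F).1 _) (pow_mem (mT F).2.1 _))
    (pow_mem (mT F).2.2 _)) (TrB.F0c F e _ (mT F).1).symm
  have e1 : v ^ (j : ℕ) = 1 := by rcases hj with rfl | rfl <;> simp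
  rw [e1, Fin.val_zero, pow_zero, mul_one, mul_one] at e
  obtain ⟨p, q, k⟩ : ∃ p q : Fin 2, F.t ^ (a : ℕ) * F.v1 ^ (b : ℕ) * F.v2 ^ (c : ℕ) *
      F.z ^ (p : ℕ) * F.u1 ^ (q : ℕ) = 1 := by
    rcases F.memF0.1 e with k | k | k | k <;> rw [k]
    exacts [⟨0, 0, by simp⟩, ⟨1, 0, by simp [F.zz]⟩, ⟨0, 1, by simp [F.u11]⟩,
      ⟨1, 1, by simpa [mul_assoc] using f2 (mul_mem (mF F).1 (mF F).2)⟩]
  have := F.ind k
  exact ⟨this.1, this.2.1, this.2.2.1, rfl, hj⟩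

theorem Tr.norm (h : F.Tr u0 ub za zc g d v η) : closure ({F.t, F.v1, F.v2, F.u1, g, v} : Set G) ≤ 𝐍(F.T) :=
  fun x hx => mem_normalizer_fintype fun τ hτ => by
    simpa using mul_mem (F0T F (h.comm hx (h.TT hτ))) hτ

theorem Tr.isP2 (h : F.Tr u0 ub za zc g d v η) : IsPGroup 2 (closure ({F.t, F.v1, F.v2, F.u1, g, v} : Set G)) :=
  h.isP.to_le (closure_mono fun x hx => by
    simp only [Set.mem_insert_iff, Set.mem_singleton_iff] at *; tauto)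

theorem Tr.dN (h : F.Tr u0 ub za zc g d v η) : d ∈ 𝐍(closure ({F.t, F.v1, F.v2, F.u1, g, v} : Set G)) := by
  have mX1 : F.X1 ≤ _ := F.X1W1.trans (F.W1T.trans h.TT)
  have mb := mX1 (F.F0X1 (mem4 h).2.1)
  have m1 := mX1 (mX F).2.1
  have mg : g ∈ closure ({F.t, F.v1, F.v2, F.u1, g, v} : Set G) := subset_closure (by simp)
  have mv : v ∈ closure ({F.t, F.v1, F.v2, F.u1, g, v} : Set G) := subset_closure (by simp)
  have k : ∀ x ∈ F.X1, d⁻¹ * x * d = x := fun x hx => by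
    rw [mul_assoc, h.dX x hx, inv_mul_cancel_left]
  refine inv_mem_iff.1 (mem_normalizer_of_cj_le (cj_le_iff.2 ((closure_le _).2 ?_)))
  simp only [inv_inv]
  rintro _ (rfl | rfl | rfl | rfl | rfl | rfl) <;> rw [SetLike.mem_coe, mem_cj]
  · rw [show d⁻¹ * F.t * d = F.t * F.v1⁻¹ by
      rw [eq_mul_inv_iff_mul_eq, mul_assoc, ← h.dX _ (mX F).2.1, mul_assoc, ← mul_assoc F.t, ← h.dt]
      group]
    exact mul_mem (h.TT (mT F).1) (inv_mem m1)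
  · rwa [k _ (mX F).2.1]
  · rw [h.dv2]
    refine mul_mem (mul_mem (mul_mem (h.TT (mT F).2.2) mg) ?_) mb
    rcases h.dd with e | e <;> rw [e.2]
    exacts [mb, mul_mem m1 mb]
  · rw [k _ (mX F).2.2]; exact mX1 (mX F).2.2
  · rw [mul_assoc, h.gd, mul_assoc, inv_mul_cancel_left]; exact mul_mem mg mb
  · rw [show ∀ v : G, d⁻¹ * v * d = d⁻¹ * (v * d * v) * v⁻¹ from fun v => by group]
    rcases h.vd with e | e <;> rw [e.2]
    · simpa using mv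
    · simpa using mul_mem m1 (inv_mem mv)

theorem Tr.Ct (h : F.Tr u0 ub za zc g d v η) : closure ({F.t, F.v1, F.v2, F.u1, g, v} : Set G) ⊓ centralizer {F.t} ≤ F.T := by
  rintro x ⟨hx, hc⟩
  obtain ⟨τ, hτ, i, j, rfl⟩ := h.mem' hx
  obtain ⟨rfl, rfl | rfl⟩ := ct1 h hτ (mem_centralizer_singleton_iff.1 hc) <;> simpa using hτ

theorem Tr.card (h : F.Tr u0 ub za zc g d v η) (hv : F.u1 ≠ 1) (h0 : u0 = F.u1) : Nat.card (closure ({F.t, F.v1, F.v2, F.u1, g, v} : Set G)) = 128 := by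
  have mg : g ∈ closure ({F.t, F.v1, F.v2, F.u1, g, v} : Set G) := subset_closure (by simp)
  have mv : v ∈ closure ({F.t, F.v1, F.v2, F.u1, g, v} : Set G) := subset_closure (by simp)
  have v1 : v ≠ 1 := fun e => hv (by simpa [e, h0] using h.vt)
  have gg := F0T F (h.sq mg)
  have le : F.T ⊔ zpowers g ≤ _ := sup_le h.TT (zpowers_le.2 mg)
  have e : closure ({F.t, F.v1, F.v2, F.u1, g, v} : Set G) = F.T ⊔ zpowers g ⊔ zpowers v := by
    refine le_antisymm (fun x hx => ?_) (sup_le le (zpowers_le.2 mv))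
    obtain ⟨τ, hτ, i, j, rfl⟩ := h.mem' hx
    exact mul_mem_sup (mul_mem_sup hτ (pow_mem (mem_zpowers g) _)) (pow_mem (mem_zpowers v) _)
  rw [e, card_adj (mem_normalizer_fintype fun x hx => by
      simpa using mul_mem (mem_sup_left (F0T F (h.comm mv (le hx)))) hx) (h.vv ▸ one_mem _),
    card_adj (h.norm mg) gg, F.cardT, (F.cardF0.resolve_left fun e => hv e.1).2]
  · intro e
    simpa using (ct1 h (one_mem _) (i := 1) (j := 0) (by simpa using tc F e)).1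
  · intro e
    rcases (mem_adj (h.norm mg) gg).1 e with e | e
    · simpa [v1] using (ct1 h (one_mem _) (i := 0) (j := 1) (by simpa using tc F e)).2
    · have := ct h e 1 0
      simp only [Fin.val_one, Fin.val_zero, pow_one, pow_zero, mul_one, inv_mul_cancel_right, h.vt,
        h0, mul_right_inj] at this
      simpa using (F.ind (a := 0) (b := 0) (c := 0) (d := 1) (e := 1) (by simp [this, F.zz])).2.2.2.1

theorem Tr.normN (h : F.Tr u0 ub za zc g d v η) :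
    closure ({F.t, F.v1, F.v2, F.u1, g, v} : Set G) ≤ F.NN := fun x hx => F.mem_NN (h.norm hx) (by
  have k : ∀ {a s : G}, a ∈ 𝐂(F.X1) → s ∈ F.X1 → a * F.t * a⁻¹ = F.t * s → a ∈ 𝐍(F.W1) := fun {a s} ha hs e =>
    B2.norm_gen (by
      rintro y (rfl | rfl | rfl | rfl)
      · rw [e]; exact mul_mem F.b2_tW (F.X1W1 hs)
      · rw [conj_eq_of_mem_centralizer ha F.b2_zX]; exact F.X1W1 F.b2_zX
      · rw [conj_eq_of_mem_centralizer ha F.b2_vX]; exact F.b2_vW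
      · rw [conj_eq_of_mem_centralizer ha F.b2_uX]; exact F.X1W1 F.b2_uX)
  refine (closure_le 𝐍(F.W1)).2 ?_ hx
  rintro y (rfl | rfl | rfl | rfl | rfl | rfl)
  exacts [F.TN1 F.b2_tT, F.TN1 F.b2_v1T, F.TN1 F.b2_v2T, F.TN1 F.b2_uT, k h.gX F.b2_zX h.gt,
    k h.vX (h.h0.elim (fun e => e.1 ▸ one_mem _) fun e => e.1 ▸ F.b2_uX) h.vt])

theorem Tr.orb (h : F.Tr u0 ub za zc g d v η) (c : (u0 = 1 ∧ F.CI) ∨ (u0 = F.u1 ∧ F.CA)) {k : G}
    (hk : k ∈ F.NN) : ∃ p ∈ closure ({F.t, F.v1, F.v2, F.u1, g, v} : Set G),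
      k * F.t * k⁻¹ = p * F.t * p⁻¹ := by
  have e : k * F.t * k⁻¹ = F.t * (F.t * (k * F.t * k⁻¹)) := by rw [← mul_assoc, F.tt, one_mul]
  suffices ∃ i j : Fin 2, F.t * (k * F.t * k⁻¹) = F.z ^ (i : ℕ) * u0 ^ (j : ℕ) by
    obtain ⟨i, j, e'⟩ := this
    exact ⟨1 * g ^ (i : ℕ) * v ^ (j : ℕ), mul_mem (mul_mem (one_mem _)
      (pow_mem (subset_closure (by simp)) _)) (pow_mem (subset_closure (by simp)) _),
      by rw [ct h (one_mem _), e, e']⟩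
  rcases c with ⟨-, c⟩ | ⟨rfl, c⟩
  · rcases c.tz hk with e' | e' <;> rw [e']
    · exact ⟨0, 0, by simp [F.tt]⟩
    · exact ⟨1, 0, by simp [F.b2_tt]⟩
  have hs : k * F.t * k⁻¹ ∈ F.ZT := conj_mem_of_mem_normalizer (F.NZT hk.1) (subset_closure (by simp))
  have m := (F.memZT.1 hs).resolve_left fun e => F.nX1 c.n1 c.n2 (F.F0X1 e) ⟨k, rfl⟩
  rcases F.memF0.1 m with e' | e' | e' | e' <;> rw [e']
  exacts [⟨0, 0, by simp⟩, ⟨1, 0, by simp⟩, ⟨0, 1, by simp⟩, ⟨1, 1, by simp⟩]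

theorem Tr.sylN (h : F.Tr u0 ub za zc g d v η) (c : (u0 = 1 ∧ F.CI) ∨ (u0 = F.u1 ∧ F.CA)) :
    IsSylowIn 2 (closure ({F.t, F.v1, F.v2, F.u1, g, v} : Set G)) F.NN := by
  refine syl_of_norm (t := F.t) h.isP2 h.normN ?_ fun k hk _ => h.orb c hk
  rw [le_antisymm h.Ct (le_inf h.TT F.TC)]
  exact F.sylT1.mono (le_inf F.TNN F.TC) fun x hx => ⟨hx.2, hx.1.2.1⟩

theorem Tr.align (h : F.Tr u0 ub za zc g d v η) (c : (u0 = 1 ∧ F.CI) ∨ (u0 = F.u1 ∧ F.CA))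
    {u0' ub' za' zc' g' d' v' η' : G} (h' : F.sw.Tr u0' ub' za' zc' g' d' v' η') :
    ∃ o ∈ 𝐂(F.T), Odd (orderOf o) ∧ o * g' * o⁻¹ ∈ closure ({F.t, F.v1, F.v2, F.u1, g, v} : Set G) ∧ o * v' * o⁻¹ ∈ closure ({F.t, F.v1, F.v2, F.u1, g, v} : Set G) := by
  obtain ⟨n, hn, le⟩ := (h.sylN c).exists_cj_le h'.isP2 (F.sw_NN ▸ h'.normN)
  obtain ⟨p, hp, e⟩ := h.orb c hn
  obtain ⟨τ, hτ, o, ho, h2, e'⟩ := F.nHT (g := p⁻¹ * n) (by
    rw [← mul_inv_eq_iff_eq_mul, show p⁻¹ * n * F.t * (p⁻¹ * n)⁻¹ = p⁻¹ * (n * F.t * n⁻¹) * p by group, e]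
    group) (mul_mem (inv_mem (h.normN hp)) hn)
  have m := mul_mem hp (h.TT hτ)
  have k : ∀ x, n * x * n⁻¹ ∈ closure ({F.t, F.v1, F.v2, F.u1, g, v} : Set G) →
      o * x * o⁻¹ ∈ closure ({F.t, F.v1, F.v2, F.u1, g, v} : Set G) := fun x hx => by
    have := mul_mem (mul_mem (inv_mem m) hx) m
    rwa [inv_mul_eq_iff_eq_mul.1 e', show (p * τ)⁻¹ * (p * (τ * o) * x * (p * (τ * o))⁻¹) * (p * τ) =
      o * x * o⁻¹ by group] at this
  exact ⟨o, ho, h2, k _ (le (cj_mem n (subset_closure (by simp)))),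
    k _ (le (cj_mem n (subset_closure (by simp))))⟩

end Fr

end H60M.A6
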