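import Mathlib
import Cfsg.Agent.Lib.B7S.Defs

/-! The configuration of `U₅(2)` in the frame of `A₇S`. -/

set_option autoImplicit false

namespace H60M.A7

open Subgroup H69 H36.SW

variable {G : Type*} [Group G]

namespace Fr
variable (F : Fr G)

/-- the unitary configuration inside one 2-group, with `V1 ^ h = ⟨u1, v z⟩` -/
structure UB (g d v η h : G) : Prop extends F.HB0 g d v η h where
  hv : h * F.v1 * h⁻¹ = v * F.z
  isP : IsPGroup 2 (closure ({F.t, F.v1, F.v2, g, d, v, h} : Set G))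

/-- the Sylow 2-subgroup `P` of `C(Y)`; `P / Y` has the basis `g, d, h d h⁻¹, e` -/
structure UP (g d v η h : G) (P : Subgroup G) (θ e : G) : Prop extends F.UB g d v η h where
  syl : IsSylowIn 2 P 𝐂(F.Y v)
  card : Nat.card P = 256
  sq : ∀ x ∈ P, x * x ∈ F.Y v
  gen : P = closure {F.z, F.v1, F.u1, v, g, d, h * d * h⁻¹, e}
  tN : F.t ∈ 𝐍(P)
  v2N : F.v2 ∈ 𝐍(P)
  hN : h ∈ 𝐍(P)
  θN : θ ∈ 𝐍(P)
  hθ : η⁻¹ * θ ∈ 𝐂(closure ({F.t, F.z, F.v1, F.u1, v, g, d} : Set G))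
  θ3 : θ ^ 3 ∈ 𝐂(P)
  he : e = θ * (h * d * h⁻¹) * θ⁻¹
  eE : e ∈ F.E

end Fr

end H60M.A7
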