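import Mathlib
import Cfsg.Agent.Lib.B6S.UDefs
import Cfsg.Agent.Lib.B7S.HC


/-! The Held case: `Y`, `U1` and a Sylow 2-subgroup of `C(Y)`. -/

set_option autoImplicit false
set_option linter.unusedSectionVars false

namespace H60M.A7

open Subgroup H69 H36.SW

variable {G : Type*} [Group G] [Finite G]

namespace Fr
variable {F : Fr G} {g d v η h : G}

theorem UB.hc_dd (b : F.UB g d v η h) : d * d = F.v1 * F.u1 :=
  (b.tr.dd.resolve_left fun e => F.z1 e.1).2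

theorem UB.hc_vd (b : F.UB g d v η h) : v * d * v = d :=
  (b.tr.vd.resolve_right fun e => F.z1 e.1.symm).2

theorem UB.hcR (b : F.UB g d v η h) : HcR F.z F.u1 F.v1 v g d F.t F.v2 := by
  have zz := F.zz
  have uu := F.u11
  have v11 := F.v11
  have vv := b.tr.vv
  have tt := F.tt
  have v22 := F.v22
  have gg := b.tr.gg
  have uz := F.zu1.symm
  have v1z := F.zv1.symm
  have v1u := F.u1v1.symm
  have dd : d * d = F.u1 * F.v1 := b.hc_dd.trans v1u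
  have gz := (b.tr.gX _ F.hc_zX).symm
  have gu := (b.tr.gX _ F.hc_uX).symm
  have gv1 := (b.tr.gX _ F.hc_v1X).symm
  have dz := (b.tr.dX _ F.hc_zX).symm
  have du := (b.tr.dX _ F.hc_uX).symm
  have dv1 := (b.tr.dX _ F.hc_v1X).symm
  have vu := (b.tr.vX _ F.hc_uX).symm
  have tz := F.zt.symm
  have gv : g * v = v * g := by
    have e := b.tr.vg
    rw [mul_one] at e
    conv_rhs => rw [← e]
    rw [← mul_assoc, ← mul_assoc, vv, one_mul]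
  have dv : d * v = v * d := by
    conv_rhs => rw [← b.hc_vd]
    rw [← mul_assoc, ← mul_assoc, vv, one_mul]
  have dg : d * g = F.u1 * (g * d) := by
    rw [b.tr.gd, mul_assoc d, gu, ← mul_assoc d, du]
    simp only [← mul_assoc, uu, one_mul]
  have conj : ∀ x w : G, x * F.t * x⁻¹ = F.t * w → F.t * w = w * F.t → w * w = 1 →
      F.t * x = w * (x * F.t) := fun x w e c w2 => by
    rw [mul_inv_eq_iff_eq_mul.1 e, c]
    simp only [← mul_assoc, w2, one_mul]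
  have gi : g⁻¹ = F.z * (F.u1 * g) := by
    refine inv_eq_of_mul_eq_one_left ?_
    rw [mul_assoc, mul_assoc, gg, ← mul_assoc F.u1, uz, mul_assoc, uu, mul_one, zz]
  have di : d⁻¹ = F.u1 * (F.v1 * d) := by
    refine inv_eq_of_mul_eq_one_left ?_
    rw [mul_assoc, mul_assoc, dd, ← mul_assoc F.v1, v1u, mul_assoc, v11, mul_one, uu]
  have v2u := F.u1v2.symm
  have c2 : ∀ x w : G, F.v2 * x * F.v2 = w → F.v2 * x = w * F.v2 := fun x w e => by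
    rw [← e, mul_assoc, v22, mul_one]
  refine ⟨zz, uu, v11, vv, tt, v22, gg, dd, uz, v1z, v1u, (b.tr.vX _ F.hc_zX).symm, vu,
    (b.tr.vX _ F.hc_v1X).symm, gz, gu, gv1, gv, dz, du, dv1, dv, dg, tz, F.tu1, F.tv1,
    conj _ _ b.tr.vt F.tu1 uu, conj _ _ b.tr.gt tz zz, conj _ _ b.tr.dt F.tv1 v11, F.sw.zv1.symm, v2u,
    F.v21, ?_, ?_, ?_, F.tv2.symm, inv_eq_of_mul_eq_one_left zz, inv_eq_of_mul_eq_one_left uu,
    inv_eq_of_mul_eq_one_left v11, inv_eq_of_mul_eq_one_left vv, inv_eq_of_mul_eq_one_left tt,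
    inv_eq_of_mul_eq_one_left v22, gi, di⟩
  · rw [c2 _ _ b.v2v, vu, mul_assoc]
  · rw [c2 _ _ b.tr.v2g, gu, mul_assoc]
  · rw [c2 _ _ b.tr.v2d, mul_inv_rev, gi, di]
    simp only [mul_assoc, hc_asc uu, hc_asc uz, hc_asc v1z, hc_asc v1u, hc_asc gu, hc_asc dz, hc_asc du,
      hc_asc dg, one_mul]

theorem UB.hc_vN (b : F.UB g d v η h) : v ∈ 𝐍(F.X1) := centralizer_le_normalizer _ b.tr.vX

theorem UB.memY (b : F.UB g d v η h) {x : G} : x ∈ F.Y v ↔ x ∈ F.X1 ∨ x * v ∈ F.X1 := by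
  rw [F.hc_Y_eq, mem_adj b.hc_vN (b.tr.vv ▸ one_mem _), b.hcR.vi]

theorem UB.vX (b : F.UB g d v η h) : v ∉ F.X1 := fun e => by
  have := b.tr.vt
  rw [F.hc_Xt e, mul_inv_cancel_right, left_eq_mul] at this
  exact b.ca.u1 this

theorem UB.sqY (b : F.UB g d v η h) {x : G} (hx : x ∈ F.Y v) : x * x = 1 := by
  rcases b.memY.1 hx with e | e
  · exact F.sqW1 (F.X1W1 e)
  · have h1 := F.sqW1 (F.X1W1 e)
    have h2 : x * v * v = v * (x * v) := b.tr.vX _ e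
    calc x * x = x * v * v * (x * v * v) := by rw [mul_assoc x v v, b.tr.vv, mul_one]
      _ = v * (x * v * (x * v)) * v := by
          conv_lhs => enter [1]; rw [h2]
          group
      _ = 1 := by rw [h1, mul_one, b.tr.vv]

theorem UB.hc_cardX (b : F.UB g d v η h) : Nat.card F.X1 = 8 := by
  rw [F.cardX1, (F.cardF0.resolve_left fun e => b.ca.u1 e.1).2]

theorem UB.cardY (b : F.UB g d v η h) : Nat.card (F.Y v) = 16 := by
  rw [F.hc_Y_eq, card_adj b.hc_vN (b.tr.vv ▸ one_mem _) b.vX, b.hc_cardX]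

theorem UB.hc_hh (b : F.UB g d v η h) : h * h = F.z * F.u1 := b.hh.trans (F.u2_eq b.ca.u1)

theorem UB.hv' (b : F.UB g d v η h) : h * v * h⁻¹ = F.v1 * F.u1 := by
  calc h * v * h⁻¹ = h * (v * F.z) * h⁻¹ * (h * F.z * h⁻¹)⁻¹ := by group
    _ = h * h * F.v1 * (h * h)⁻¹ * F.u1⁻¹ := by rw [← b.hv, b.hz]; group
    _ = F.v1 * F.u1 := by
      rw [b.hc_hh]
      simp only [mul_assoc, mul_inv_rev, one_mul, mul_one, b.hcR.nf]

theorem UB.hc_η (b : F.UB g d v η h) : η * F.z * η⁻¹ = F.v1 ∧ η * F.v1 * η⁻¹ = F.z * F.v1 ∧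
    η * F.u1 * η⁻¹ = F.u1 ∧ η * v * η⁻¹ = v ∧ η * F.t * η⁻¹ = F.t := by
  refine ⟨?_, ?_, ?_, ?_, ?_⟩
  · rw [b.tr.act (F.X1W1 F.hc_zX), F.y1z]
  · rw [b.tr.act (F.X1W1 F.hc_v1X), F.y1v]
  · rw [b.tr.act (F.X1W1 F.hc_uX), F.y1u, mul_inv_cancel_right]
  · rw [b.tr.ηv, mul_inv_cancel_right]
  · rw [b.tr.act (subset_closure (by simp)), F.y1t, mul_inv_cancel_right]

theorem UB.NY (b : F.UB g d v η h) : F.t ∈ 𝐍(F.Y v) ∧ F.v2 ∈ 𝐍(F.Y v) ∧ h ∈ 𝐍(F.Y v) ∧ η ∈ 𝐍(F.Y v) := by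
  have z := F.hc_zY v
  have u := F.hc_uY v
  have v1 := F.hc_v1Y v
  have v' := F.hc_vY v
  obtain ⟨e1, e2, e3, e4, -⟩ := b.hc_η
  refine ⟨hc_nrm ?_, hc_nrm ?_, hc_nrm ?_, hc_nrm ?_⟩ <;> rintro x (rfl | rfl | rfl | rfl)
  iterate 8
    simp only [mul_assoc, mul_inv_rev, one_mul, mul_one, b.hcR.nf]
    first | assumption | exact mul_mem (by assumption) (by assumption)
  · rwa [b.hz]
  · rw [b.hv]; exact mul_mem v' z
  · rwa [b.hu]
  · rw [b.hv']; exact mul_mem v1 u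
  · rwa [e1]
  · rw [e2]; exact mul_mem z v1
  · rwa [e3]
  · rwa [e4]

theorem UB.CY (b : F.UB g d v η h) : g ∈ 𝐂(F.Y v) ∧ d ∈ 𝐂(F.Y v) ∧ h * d * h⁻¹ ∈ 𝐂(F.Y v) := by
  have r := b.hcR
  have hd : d ∈ 𝐂(F.Y v) := hc_cen (by
    rintro x (rfl | rfl | rfl | rfl)
    exacts [r.dz.symm, r.dv1.symm, r.du.symm, r.dv.symm])
  refine ⟨hc_cen ?_, hd, conj_mem_of_mem_normalizer (normalizer_le_normalizer_centralizer _ b.NY.2.2.1) hd⟩
  rintro x (rfl | rfl | rfl | rfl)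
  exacts [r.gz.symm, r.gv1.symm, r.gu.symm, r.gv.symm]

theorem UB.hc_YC (b : F.UB g d v η h) : F.Y v ≤ 𝐂(F.Y v) := fun _ hx _ hy =>
  comm_of_sq (fun _ ha => b.sqY ha) hy hx

theorem UB.hc_UC (b : F.UB g d v η h) : F.U1 g d v ≤ 𝐂(F.Y v) := by
  rw [F.hc_U_eq]
  exact sup_le (sup_le b.hc_YC (zpowers_le_of_mem b.CY.1)) (zpowers_le_of_mem b.CY.2.1)

theorem UB.sqs (b : F.UB g d v η h) : g * g = F.z * F.u1 ∧ d * d = F.v1 * F.u1 ∧ g * d * (g * d) = F.z * F.v1 * F.u1 := by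
  refine ⟨b.tr.gg, b.hc_dd, ?_⟩
  simp only [mul_assoc, one_mul, mul_one, b.hcR.nf]

theorem UB.hc_ne (b : F.UB g d v η h) {a c e : Fin 2}
    (m : F.v1 ^ (a : ℕ) * F.z ^ (c : ℕ) * F.u1 ^ (e : ℕ) = 1) : a = 0 ∧ c = 0 ∧ e = 0 := by
  have := F.ind (a := 0) (b := a) (c := 0) (d := c) (e := e) (by simpa using m)
  exact ⟨this.2.1, this.2.2.2.1, this.2.2.2.2.resolve_right b.ca.u1⟩

theorem UB.indU1 (b : F.UB g d v η h) {i j : Fin 2} (e : g ^ (i : ℕ) * d ^ (j : ℕ) ∈ F.Y v) : i = 0 ∧ j = 0 := by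
  have := b.sqY e
  fin_cases i <;> fin_cases j
  · exact ⟨rfl, rfl⟩
  · simp only [Fin.zero_eta, Fin.mk_one, Fin.isValue, Fin.val_zero, Fin.val_one, pow_zero, pow_one, one_mul,
      b.sqs.2.1] at this
    exact absurd (b.hc_ne (a := 1) (c := 0) (e := 1) (by simpa using this)).1 (by decide)
  · simp only [Fin.zero_eta, Fin.mk_one, Fin.isValue, Fin.val_zero, Fin.val_one, pow_zero, pow_one, mul_one,
      b.sqs.1] at this
    exact absurd (b.hc_ne (a := 0) (c := 1) (e := 1) (by simpa using this)).2.1 (by decide)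
  · simp only [Fin.mk_one, Fin.isValue, Fin.val_one, pow_one, b.sqs.2.2] at this
    exact absurd (b.hc_ne (a := 1) (c := 1) (e := 1) (by
      rw [F.zv1] at this; simpa using this)).1 (by decide)

theorem UB.hc_gN (b : F.UB g d v η h) : g ∈ 𝐍(F.Y v) := centralizer_le_normalizer _ b.CY.1

theorem UB.hc_g2 (b : F.UB g d v η h) : g * g ∈ F.Y v :=
  b.sqs.1 ▸ mul_mem (F.hc_zY v) (F.hc_uY v)

theorem UB.hc_d2 (b : F.UB g d v η h) : d * d ∈ F.Y v :=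
  b.sqs.2.1 ▸ mul_mem (F.hc_v1Y v) (F.hc_uY v)

theorem UB.hc_dN (b : F.UB g d v η h) : d ∈ 𝐍(F.Y v ⊔ zpowers g) := by
  refine mem_normalizer_of_cj_le ?_
  rw [cj_sup, cj_eq_of_mem_centralizer b.CY.2.1, cj_zpowers]
  refine sup_le le_sup_left (zpowers_le_of_mem ?_)
  rw [b.hcR.dg, mul_assoc, mul_inv_cancel_right]
  exact mul_mem (mem_sup_left (F.hc_uY v)) (mem_sup_right (mem_zpowers g))

theorem UB.memU1 (b : F.UB g d v η h) {x : G} :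
    x ∈ F.U1 g d v ↔ ∃ y ∈ F.Y v, ∃ i j : Fin 2, x = y * g ^ (i : ℕ) * d ^ (j : ℕ) := by
  constructor
  · rw [F.hc_U_eq, mem_adj b.hc_dN (mem_sup_left b.hc_d2), mem_adj b.hc_gN b.hc_g2,
      mem_adj b.hc_gN b.hc_g2]
    rintro ((e | e) | (e | e))
    · exact ⟨_, e, 0, 0, by simp⟩
    · exact ⟨_, e, 1, 0, by simp⟩
    · exact ⟨_, e, 0, 1, by simp⟩
    · exact ⟨_, e, 1, 1, by simp⟩
  · rintro ⟨y, hy, i, j, rfl⟩
    exact mul_mem (mul_mem (F.hc_YU g d v hy) (pow_mem (F.hc_gU g d v) _)) (pow_mem (F.hc_dU g d v) _)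

theorem UB.hc_cardU (b : F.UB g d v η h) : Nat.card (F.U1 g d v) = 64 := by
  have hg : g ∉ F.Y v := fun e => absurd (b.indU1 (i := 1) (j := 0) (by simpa using e)).1 (by decide)
  have hd : d ∉ F.Y v ⊔ zpowers g := by
    rw [mem_adj b.hc_gN b.hc_g2]
    rintro (e | e)
    · exact absurd (b.indU1 (i := 0) (j := 1) (by simpa using e)).2 (by decide)
    · refine absurd (b.indU1 (i := 1) (j := 1) ?_).2 (by decide)
      have := mul_mem (F.hc_zY v) e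
      simpa only [mul_assoc, one_mul, mul_one, b.hcR.nf, Fin.val_one, pow_one] using this
  rw [F.hc_U_eq, card_adj b.hc_dN (mem_sup_left b.hc_d2) hd, card_adj b.hc_gN b.hc_g2 hg, b.cardY]

theorem UB.hc_isPU (b : F.UB g d v η h) : IsPGroup 2 (F.U1 g d v) :=
  haveI : Fact (Nat.Prime 2) := ⟨Nat.prime_two⟩
  IsPGroup.of_card (n := 6) b.hc_cardU

theorem UB.nOm (b : F.UB g d v η h) {s : G} (hs : s ∈ 𝐂(F.Y v)) : ¬ F.Om s := fun o => by
  have cF := (F.cardF0.resolve_left fun e => b.ca.u1 e.1).2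
  by_cases hY : s ∈ F.Y v
  · have := F.two_le o b.hc_isPU (fun x hx => mem_centralizer_singleton_iff.2 (b.hc_UC hx s hY).symm)
    rw [b.hc_cardU, F.cardT, cF] at this
    omega
  · have hn : s ∈ 𝐍(F.Y v) := centralizer_le_normalizer _ hs
    have s2 : s * s ∈ F.Y v := o.sq.1 ▸ one_mem _
    have := F.ea_le o (X := F.Y v ⊔ zpowers s) (fun x hx => by
      rcases (mem_adj hn s2).1 hx with e | e
      · exact b.sqY e
      · have c := hs _ e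
        calc x * x = x * s⁻¹ * (s * (x * s⁻¹)) * s := by group
          _ = x * s⁻¹ * (x * s⁻¹) * (s * s) := by rw [← c]; group
          _ = 1 := by rw [b.sqY e, o.sq.1, one_mul])
      (sup_le (fun x hx => mem_centralizer_singleton_iff.2 (hs x hx))
        (zpowers_le_of_mem (mem_centralizer_singleton_iff.2 rfl)))
    rw [card_adj hn s2 hY, b.cardY, F.cardW1, cF] at this
    omega

theorem UB.hc_d't (b : F.UB g d v η h) :
    h * d * h⁻¹ * F.t * (h * d * h⁻¹)⁻¹ = F.t * (h * g * h⁻¹) := by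
  have e1 : h⁻¹ * F.t * h = F.t * F.v2 := by
    have : F.t = h * (F.t * F.v2) * h⁻¹ := by
      calc F.t = F.t * F.v2 * F.v2 := by rw [mul_assoc, F.v22, mul_one]
        _ = h * F.t * h⁻¹ * (h * F.v2 * h⁻¹) := by rw [b.ht, b.hv2, mul_inv_cancel_right]
        _ = _ := by group
    conv_lhs => rw [this]
    group
  have e2 : d * (F.t * F.v2) * d⁻¹ = F.t * F.v2 * g := by
    simp only [mul_assoc, one_mul, mul_one, b.hcR.nf]
  calc _ = h * (d * (h⁻¹ * F.t * h) * d⁻¹) * h⁻¹ := by group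
    _ = (h * F.t * h⁻¹) * (h * F.v2 * h⁻¹) * (h * g * h⁻¹) := by rw [e1, e2]; group
    _ = _ := by rw [b.ht, b.hv2, mul_inv_cancel_right, mul_assoc F.t, F.v22, mul_one]

theorem UB.d't (b : F.UB g d v η h) :
    (F.t * g * v * F.v1)⁻¹ * (h * d * h⁻¹ * F.t * (h * d * h⁻¹)⁻¹) ∈ F.F0 := by
  have := b.hg
  rwa [b.hc_d't, show (F.t * g * v * F.v1)⁻¹ * (F.t * (h * g * h⁻¹)) = (g * v * F.v1)⁻¹ * (h * g * h⁻¹) by
    group]

theorem UB.Ct (b : F.UB g d v η h) {x : G} (hx : x ∈ 𝐂(F.Y v)) (c : x * F.t = F.t * x) (h2 : P2 x) : x ∈ F.X1 := by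
  have hW : x ∈ 𝐂(F.W1) := hc_cen (by
    rintro y (rfl | rfl | rfl | rfl)
    exacts [c.symm, hx _ (F.hc_zY v), hx _ (F.hc_v1Y v), hx _ (F.hc_uY v)])
  rcases F.memW1'.1 (F.p2W1 hW h2) with e | e
  · exact e
  · exfalso
    have e1 : F.t * x * v = v * (F.t * x) := b.tr.vX _ e
    rw [mul_assoc, ← hx v (F.hc_vY v), ← mul_assoc, ← mul_assoc, mul_left_inj, b.hcR.tv,
      mul_eq_right] at e1
    exact b.ca.u1 e1

/-- `h g h⁻¹ = g y0` -/
theorem UB.hc_hg (b : F.UB g d v η h) : ∃ y ∈ F.Y v, h * g * h⁻¹ = g * y :=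
  ⟨v * F.v1 * ((g * v * F.v1)⁻¹ * (h * g * h⁻¹)), mul_mem (mul_mem (F.hc_vY v) (F.hc_v1Y v))
    (F.hc_XY v (F.F0X1 b.hg)), by group⟩

theorem UB.hc_d'g (b : F.UB g d v η h) : h * d * h⁻¹ * g * (h * d * h⁻¹)⁻¹ = g * F.z := by
  obtain ⟨y, hy, e⟩ := b.hc_hg
  have c := b.CY.2.2 y hy
  have e1 : d * g * d⁻¹ = g * F.u1 := by simp only [mul_assoc, one_mul, mul_one, b.hcR.nf]
  calc h * d * h⁻¹ * g * (h * d * h⁻¹)⁻¹
      = h * d * h⁻¹ * (g * y) * (y⁻¹ * (h * d * h⁻¹)⁻¹) := by group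
    _ = h * d * h⁻¹ * (h * g * h⁻¹) * ((h * d * h⁻¹)⁻¹ * y⁻¹) := by
      rw [← e, ← mul_inv_rev, ← c, mul_inv_rev]
    _ = h * (d * g * d⁻¹) * h⁻¹ * y⁻¹ := by group
    _ = (h * g * h⁻¹) * (h * F.u1 * h⁻¹) * y⁻¹ := by rw [e1]; group
    _ = g * F.z := by
      rw [e, b.hu, mul_assoc g, b.hc_YC (F.hc_zY v) y hy]; group

theorem UB.hc_mem2 (b : F.UB g d v η h) : d ∈ closure ({F.t, F.v1, F.v2, g, d, v, h} : Set G) ∧
    v ∈ closure ({F.t, F.v1, F.v2, g, d, v, h} : Set G) ∧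
    h ∈ closure ({F.t, F.v1, F.v2, g, d, v, h} : Set G) :=
  ⟨subset_closure (by simp), subset_closure (by simp), subset_closure (by simp)⟩

theorem UB.hc_d'd (b : F.UB g d v η h) :
    (d * v)⁻¹ * (h * d * h⁻¹ * d * (h * d * h⁻¹)⁻¹) ∈ F.X1 := by
  obtain ⟨y, hy, e⟩ := b.hc_hg
  obtain ⟨m1, m2, m3⟩ := b.hc_mem2
  have hP := P2.of_mem b.isP (mul_mem (inv_mem (mul_mem m1 m2)) (mul_mem (mul_mem
    (mul_mem (mul_mem m3 m1) (inv_mem m3)) m1) (inv_mem (mul_mem (mul_mem m3 m1) (inv_mem m3)))))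
  have e1 := b.hc_d't
  have e2 := b.hc_d'g
  have cY := b.CY.2.2
  rw [e] at e1
  generalize h * d * h⁻¹ = d' at *
  have aY : d' * d * d'⁻¹ ∈ 𝐂(F.Y v) := mul_mem (mul_mem cY b.CY.2.1) (inv_mem cY)
  refine b.Ct (mul_mem (inv_mem (mul_mem b.CY.2.1 (b.hc_YC (F.hc_vY v)))) aY) ?_ hP
  have k1 : ∀ w ∈ F.Y v, d' * w * d'⁻¹ = w := fun w hw => conj_eq_of_mem_centralizer cY hw
  have a1 : d' * d * d'⁻¹ * (g * F.z) * (d' * d * d'⁻¹)⁻¹ = g * F.z * F.u1 := by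
    rw [← e2]
    calc _ = d' * (d * g * d⁻¹) * d'⁻¹ := by group
      _ = d' * (g * F.u1) * d'⁻¹ := by simp only [mul_assoc, one_mul, mul_one, b.hcR.nf]
      _ = d' * g * d'⁻¹ * (d' * F.u1 * d'⁻¹) := by group
      _ = _ := by rw [k1 _ (F.hc_uY v)]
  have a2 : d' * d * d'⁻¹ * (F.t * (g * y)) * (d' * d * d'⁻¹)⁻¹ = F.t * (g * y) * F.v1 := by
    rw [← e1]
    calc _ = d' * (d * F.t * d⁻¹) * d'⁻¹ := by group
      _ = d' * F.t * d'⁻¹ * (d' * F.v1 * d'⁻¹) := by rw [b.tr.dt]; group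
      _ = _ := by rw [k1 _ (F.hc_v1Y v)]
  generalize d' * d * d'⁻¹ = a at *
  have k2 : ∀ w ∈ F.Y v, a * w * a⁻¹ = w := fun w hw => conj_eq_of_mem_centralizer aY hw
  have a3 : a * F.t * a⁻¹ = F.t * (F.v1 * F.u1) := by
    calc a * F.t * a⁻¹ = a * (F.t * (g * y)) * a⁻¹ * (a * y * a⁻¹)⁻¹ * (a * F.z * a⁻¹) *
          (a * (g * F.z) * a⁻¹)⁻¹ := by group
      _ = F.t * g * (y * F.v1 * y⁻¹) * F.z * (g * F.z * F.u1)⁻¹ := by
        rw [a1, a2, k2 y hy, k2 _ (F.hc_zY v)]; group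
      _ = _ := by
        rw [b.hc_YC (F.hc_v1Y v) y hy, mul_inv_cancel_right]
        simp only [mul_assoc, mul_inv_rev, one_mul, mul_one, b.hcR.nf]
  have a4 : d * v * F.t * (d * v)⁻¹ = F.t * (F.v1 * F.u1) := by
    simp only [mul_assoc, mul_inv_rev, one_mul, mul_one, b.hcR.nf]
  rw [← a4] at a3
  calc (d * v)⁻¹ * a * F.t = (d * v)⁻¹ * (a * F.t * a⁻¹) * a := by group
    _ = _ := by rw [a3]; group

theorem UB.NU1 (b : F.UB g d v η h) : F.t ∈ 𝐍(F.U1 g d v) ∧ F.v2 ∈ 𝐍(F.U1 g d v) ∧ η ∈ 𝐍(F.U1 g d v) ∧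
    h * d * h⁻¹ ∈ 𝐍(F.U1 g d v) := by
  have YU := F.hc_YU g d v
  have z := YU (F.hc_zY v)
  have u := YU (F.hc_uY v)
  have v1 := YU (F.hc_v1Y v)
  have v' := YU (F.hc_vY v)
  have g' := F.hc_gU g d v
  have d' := F.hc_dU g d v
  have key : ∀ n ∈ 𝐍(F.Y v), n * g * n⁻¹ ∈ F.U1 g d v → n * d * n⁻¹ ∈ F.U1 g d v → n ∈ 𝐍(F.U1 g d v) :=
    fun n hn h1 h2 => hc_nrm (by
      rintro x (rfl | rfl | rfl | rfl | rfl | rfl)
      exacts [YU (conj_mem_of_mem_normalizer hn (F.hc_zY v)), YU (conj_mem_of_mem_normalizer hn (F.hc_v1Y v)),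
        YU (conj_mem_of_mem_normalizer hn (F.hc_uY v)), YU (conj_mem_of_mem_normalizer hn (F.hc_vY _)), h1, h2])
  refine ⟨key _ b.NY.1 ?_ ?_, key _ b.NY.2.1 ?_ ?_, key _ b.NY.2.2.2 ?_ ?_,
    key _ (centralizer_le_normalizer _ b.CY.2.2) ?_ ?_⟩
  iterate 4
    simp only [mul_assoc, mul_inv_rev, one_mul, mul_one, b.hcR.nf]
    repeat (first | assumption | refine mul_mem (by assumption) ?_)
  · rwa [b.tr.ηg]
  · rw [b.tr.ηd]; exact inv_mem (mul_mem g' d')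
  · rw [b.hc_d'g]; exact mul_mem g' z
  · have := mul_mem (mul_mem d' v') (YU (F.hc_XY v b.hc_d'd))
    rwa [mul_inv_cancel_left] at this

theorem UB.invU1 (b : F.UB g d v η h) {x : G} (hx : x ∈ F.U1 g d v) (h2 : F.t * x * (F.t * x) = 1) :
    x ∈ F.X1 ∨ (g * v)⁻¹ * x ∈ F.X1 ∨ (d * v)⁻¹ * x ∈ F.X1 ∨ (g * d * v)⁻¹ * x ∈ F.X1 := by
  obtain ⟨y, hy, i, j, rfl⟩ := b.memU1.1 hx
  obtain ⟨w, hw, k, rfl⟩ : ∃ w ∈ F.X1, ∃ k : Fin 2, y = w * v ^ (k : ℕ) := by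
    rcases b.memY.1 hy with e | e
    · exact ⟨y, e, 0, by simp⟩
    · exact ⟨_, e, 1, by simp [mul_assoc, b.tr.vv]⟩
  have wY := F.hc_XY v hw
  have c : ∀ a ∈ F.U1 g d v, a * w = w * a := fun a ha => (b.hc_UC ha w wY).symm
  have YU := F.hc_YU g d v
  have w1 := hc_asc (c _ (YU (F.hc_zY v)))
  have w2 := hc_asc (c _ (YU (F.hc_uY v)))
  have w3 := hc_asc (c _ (YU (F.hc_v1Y v)))
  have w4 := hc_asc (c _ (YU (F.hc_vY v)))
  have w5 := hc_asc (c _ (F.hc_gU g d v))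
  have w6 := hc_asc (c _ (F.hc_dU g d v))
  have w7 := hc_asc (F.hc_Xt hw).symm
  have w8 := hc_asc (b.sqY wY)
  have u1 := b.ca.u1
  fin_cases i <;> fin_cases j <;> fin_cases k <;>
    simp only [Fin.zero_eta, Fin.mk_one, Fin.isValue, Fin.val_zero, Fin.val_one, pow_zero, pow_one, mul_assoc,
      mul_inv_rev, one_mul, mul_one, b.hcR.nf, w1, w2, w3, w4, w5, w6, w7, w8] at h2 ⊢ <;>
    first | exact absurd h2 u1 | simp only [hw, true_or, or_true]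

theorem UB.trX (b : F.UB g d v η h) {w : G} (hw : w ∈ F.X1) : ∃ x ∈ F.U1 g d v, x * F.t * x⁻¹ = F.t * w := by
  induction hw using closure_induction with
  | mem x hx =>
    rcases hx with rfl | rfl | rfl
    · exact ⟨g, F.hc_gU g d v, b.tr.gt⟩
    · exact ⟨d, F.hc_dU g d v, b.tr.dt⟩
    · exact ⟨v, F.hc_YU g d v (F.hc_vY v), b.tr.vt⟩
  | one => exact ⟨1, one_mem _, by simp⟩
  | mul x y hx hy ih1 ih2 =>
    obtain ⟨a, ha, e1⟩ := ih1
    obtain ⟨c, hc, e2⟩ := ih2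
    refine ⟨a * c, mul_mem ha hc, ?_⟩
    calc a * c * F.t * (a * c)⁻¹ = a * (c * F.t * c⁻¹) * a⁻¹ := by group
      _ = a * F.t * a⁻¹ * (a * y * a⁻¹) := by rw [e2]; group
      _ = _ := by rw [e1, conj_eq_of_mem_centralizer (b.hc_UC ha) (F.hc_XY v hy), mul_assoc]
  | inv x hx ih =>
    rwa [inv_eq_of_mul_eq_one_left (F.sqW1 (F.X1W1 hx))]

end Fr

end H60M.A7
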