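import Mathlib
import Cfsg.Agent.Lib.B6S.UDefs
import Cfsg.Agent.Lib.B7S.HF
import Cfsg.Agent.Lib.B6S.UC


/-! The Held case: the structure of `P`. -/

set_option autoImplicit false
set_option linter.unusedSectionVars false

namespace H60M.A7

open Subgroup H69 H36.SW

variable {G : Type*} [Group G] [Finite G]

namespace Fr
variable {F : Fr G} {g d v η h θ e : G} {P : Subgroup G}

theorem UP.U1P (b : F.UP g d v η h P θ e) : F.U1 g d v ≤ P := by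
  rw [b.gen]
  exact closure_mono (by intro x; simp only [Set.mem_insert_iff, Set.mem_singleton_iff]; tauto)

theorem UP.YP (b : F.UP g d v η h P θ e) : F.Y v ≤ P := by
  exact HF_YU.trans b.U1P

theorem UP.cen (b : F.UP g d v η h P θ e) : P ≤ 𝐂(F.Y v) := by
  exact b.syl.le

theorem UP.gP (b : F.UP g d v η h P θ e) : g ∈ P := b.U1P HF_gU
theorem UP.dP (b : F.UP g d v η h P θ e) : d ∈ P := b.U1P HF_dU
theorem UP.d'P (b : F.UP g d v η h P θ e) : h * d * h⁻¹ ∈ P := conj_mem_of_mem_normalizer b.hN b.dP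
theorem UP.eP (b : F.UP g d v η h P θ e) : e ∈ P := b.he ▸ conj_mem_of_mem_normalizer b.θN b.d'P

theorem UP.comm (b : F.UP g d v η h P θ e) {x y : G} (hx : x ∈ P) (hy : y ∈ P) : x * y * x⁻¹ * y⁻¹ ∈ F.Y v := by
  exact HF_comm b.cen b.sq hx hy

theorem UP.wP (b : F.UP g d v η h P θ e) (m : HFV) : HFw g d (h * d * h⁻¹) e m ∈ P :=
  mul_mem (mul_mem (mul_mem (pow_mem b.gP _) (pow_mem b.dP _)) (pow_mem b.d'P _)) (pow_mem b.eP _)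

theorem UP.kP (b : F.UP g d v η h P θ e) {x : G} {m : HFV} (k : F.HFK g d v h e x m) : x ∈ P :=
  (mul_mem_cancel_right (inv_mem (b.wP m))).1 (b.YP k.1)

theorem UP.kmul (b : F.UP g d v η h P θ e) {x y : G} {m n : HFV} (k : F.HFK g d v h e x m)
    (k' : F.HFK g d v h e y n) : F.HFK g d v h e (x * y) (m + n) :=
  ⟨HF_mul b.cen b.YP b.sq b.gP b.dP b.d'P b.eP k.1 k'.1⟩

theorem UP.kinv (b : F.UP g d v η h P θ e) {x : G} {m : HFV} (k : F.HFK g d v h e x m) :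
    F.HFK g d v h e x⁻¹ m := by
  have := b.kmul (HFK.zero.2 (inv_mem (b.sq x (b.kP k)))) k
  rwa [zero_add, show (x * x)⁻¹ * x = x⁻¹ by group] at this

theorem UP.kpow (b : F.UP g d v η h P θ e) {x : G} {m : HFV} (k : F.HFK g d v h e x m) (i : Fin 2) :
    F.HFK g d v h e (x ^ (i : ℕ)) ((i : ℕ) • m) := by
  fin_cases i
  · simpa using HFK.zero.2 (one_mem _)
  · simpa using k

theorem UP.kex (b : F.UP g d v η h P θ e) {x : G} (hx : x ∈ P) : ∃ m, F.HFK g d v h e x m := by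
  rw [b.gen] at hx
  induction hx using closure_induction with
  | mem x hx =>
    simp only [Set.mem_insert_iff, Set.mem_singleton_iff] at hx
    rcases hx with rfl | rfl | rfl | rfl | rfl | rfl | rfl | rfl
    exacts [⟨0, HFK.zero.2 (HF_XY HF_zX)⟩, ⟨0, HFK.zero.2 (HF_XY HF_v1X)⟩, ⟨0, HFK.zero.2 (HF_XY HF_uX)⟩,
      ⟨0, HFK.zero.2 HF_vY⟩, ⟨_, HFK.kg⟩, ⟨_, HFK.kd⟩, ⟨_, HFK.kd'⟩, ⟨_, HFK.ke⟩]
  | one => exact ⟨0, HFK.zero.2 (one_mem _)⟩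
  | mul x y _ _ hx hy => exact hx.elim fun m hm => hy.elim fun n hn => ⟨_, b.kmul hm hn⟩
  | inv x _ hx => exact hx.imp fun m hm => b.kinv hm

theorem UP.memP (b : F.UP g d v η h P θ e) {x : G} : x ∈ P ↔ ∃ y ∈ F.Y v, ∃ i j k l : Fin 2,
    x = y * g ^ (i : ℕ) * d ^ (j : ℕ) * (h * d * h⁻¹) ^ (k : ℕ) * e ^ (l : ℕ) := by
  constructor
  · intro hx
    obtain ⟨m, hm⟩ := b.kex hx
    refine ⟨_, hm.1, m.1, m.2.1, m.2.2.1, m.2.2.2, ?_⟩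
    unfold HFw
    group
  · rintro ⟨y, hy, i, j, k, l, rfl⟩
    exact mul_mem (mul_mem (mul_mem (mul_mem (b.YP hy) (pow_mem b.gP _)) (pow_mem b.dP _)) (pow_mem b.d'P _))
      (pow_mem b.eP _)

theorem UP.kuniq (b : F.UP g d v η h P θ e) {x : G} {m n : HFV} (k : F.HFK g d v h e x m)
    (k' : F.HFK g d v h e x n) : m = n := by
  let f : F.Y v × HFV → P := fun p => ⟨p.1 * HFw g d (h * d * h⁻¹) e p.2, mul_mem (b.YP p.1.2) (b.wP _)⟩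
  have hf : Function.Surjective f := fun p => by
    obtain ⟨m, hm⟩ := b.kex p.2
    exact ⟨(⟨_, hm.1⟩, m), Subtype.ext (by simp [f])⟩
  have := (hf.bijective_of_nat_card_le (by rw [Nat.card_prod, b.toUB.cardY, b.card]; simp)).1
    (a₁ := (⟨_, k.1⟩, m)) (a₂ := (⟨_, k'.1⟩, n)) (Subtype.ext (by simp [f]))
  exact congrArg Prod.snd this

theorem UP.indP (b : F.UP g d v η h P θ e) {i j k l : Fin 2} (m : g ^ (i : ℕ) * d ^ (j : ℕ) * (h * d * h⁻¹) ^ (k : ℕ) * e ^ (l : ℕ) ∈ F.Y v) :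
    i = 0 ∧ j = 0 ∧ k = 0 ∧ l = 0 := by
  have := b.kuniq (m := (i, j, k, l)) ⟨by rw [HFw, mul_inv_cancel]; exact one_mem _⟩ (HFK.zero.2 m)
  simpa using this

theorem UP.kconj (b : F.UP g d v η h P θ e) {n : G} (hn : n ∈ 𝐍(F.Y v)) {A B C D : HFV}
    (hA : F.HFK g d v h e (n * g * n⁻¹) A) (hB : F.HFK g d v h e (n * d * n⁻¹) B)
    (hC : F.HFK g d v h e (n * (h * d * h⁻¹) * n⁻¹) C) (hD : F.HFK g d v h e (n * e * n⁻¹) D)
    {x : G} {m : HFV} (k : F.HFK g d v h e x m) : F.HFK g d v h e (n * x * n⁻¹)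
      ((m.1 : ℕ) • A + (m.2.1 : ℕ) • B + (m.2.2.1 : ℕ) • C + (m.2.2.2 : ℕ) • D) := by
  have := b.kmul (HFK.zero.2 (conj_mem_of_mem_normalizer hn k.1))
    (b.kmul (b.kmul (b.kmul (b.kpow hA m.1) (b.kpow hB m.2.1)) (b.kpow hC m.2.2.1)) (b.kpow hD m.2.2.2))
  rw [zero_add, conj_pow (a := n), conj_pow (a := n), conj_pow (a := n), conj_pow (a := n), conj_mul, conj_mul, conj_mul, conj_mul] at this
  rwa [show x * (HFw g d (h * d * h⁻¹) e m)⁻¹ * (g ^ (m.1 : ℕ) * d ^ (m.2.1 : ℕ) * (h * d * h⁻¹) ^ (m.2.2.1 : ℕ) *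
    e ^ (m.2.2.2 : ℕ)) = x from inv_mul_cancel_right _ _] at this

theorem UP.kconj2 (b : F.UP g d v η h P θ e) {n : G} (hn : n ∈ 𝐍(F.Y v)) (nn : n * n = 1) {A B C D : HFV}
    (hA : F.HFK g d v h e (n * g * n) A) (hB : F.HFK g d v h e (n * d * n) B)
    (hC : F.HFK g d v h e (n * (h * d * h⁻¹) * n) C) (hD : F.HFK g d v h e (n * e * n) D)
    {x : G} {m : HFV} (k : F.HFK g d v h e x m) : F.HFK g d v h e (n * x * n)
      ((m.1 : ℕ) • A + (m.2.1 : ℕ) • B + (m.2.2.1 : ℕ) • C + (m.2.2.2 : ℕ) • D) := by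
  have ni : n⁻¹ = n := inv_eq_of_mul_eq_one_left nn
  have := b.kconj hn (by rwa [ni]) (by rwa [ni]) (by rwa [ni]) (by rwa [ni]) k
  rwa [ni] at this

theorem UP.kof (b : F.UP g d v η h P θ e) {x y : G} {m : HFV} (k : F.HFK g d v h e x m)
    (c : x⁻¹ * y ∈ F.Y v) : F.HFK g d v h e y m := by
  simpa using b.kmul k (HFK.zero.2 c)

theorem UP.ofk (b : F.UP g d v η h P θ e) {x y : G} {m : HFV} (k : F.HFK g d v h e x m)
    (k' : F.HFK g d v h e y m) : x⁻¹ * y ∈ F.Y v := by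
  have := b.kmul (b.kinv k) k'
  rwa [(by decide : ∀ m : HFV, m + m = 0), HFK.zero] at this

theorem UP.kU (b : F.UP g d v η h P θ e) {x : G} {m : HFV} (k : F.HFK g d v h e x m)
    (c : m.2.2 = 0) : x ∈ F.U1 g d v := by
  obtain ⟨i, j, k', l⟩ := m
  obtain ⟨rfl, rfl⟩ : k' = 0 ∧ l = 0 := by simpa using c
  refine b.toUB.memU1.2 ⟨_, k.1, i, j, ?_⟩
  simp [HFw, mul_assoc]

theorem UP.θc (b : F.UP g d v η h P θ e) {x : G}
    (hx : x ∈ closure ({F.t, F.z, F.v1, F.u1, v, g, d} : Set G)) : θ * x * θ⁻¹ = η * x * η⁻¹ := by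
  have := conj_eq_of_mem_centralizer b.hθ hx
  nth_rewrite 2 [← this]
  group

theorem UP.θ7 (b : F.UP g d v η h P θ e) : θ * F.z * θ⁻¹ = F.v1 ∧ θ * F.v1 * θ⁻¹ = F.z * F.v1 ∧
    θ * F.u1 * θ⁻¹ = F.u1 ∧ θ * v * θ⁻¹ = v ∧
    θ * F.t * θ⁻¹ = F.t ∧ θ * g * θ⁻¹ = d ∧ θ * d * θ⁻¹ = (g * d)⁻¹ := by
  refine ⟨?_, ?_, ?_, ?_, ?_, ?_, ?_⟩ <;> rw [b.θc (subset_closure (by simp))]
  · rw [b.tr.act (subset_closure (by simp)), F.y1z]
  · rw [b.tr.act (subset_closure (by simp)), F.y1v]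
  · rw [b.tr.act (subset_closure (by simp)), F.y1u, mul_inv_cancel_right]
  · rw [b.tr.ηv, mul_inv_cancel_right]
  · rw [b.tr.act (subset_closure (by simp)), F.y1t, mul_inv_cancel_right]
  · exact b.tr.ηg
  · exact b.tr.ηd

theorem UP.θY (b : F.UP g d v η h P θ e) : θ ∈ 𝐍(F.Y v) := by
  have : η⁻¹ * θ ∈ 𝐂(F.Y v) := centralizer_anti (closure_mono (by
    intro x; simp only [Set.mem_insert_iff, Set.mem_singleton_iff]; tauto)) b.hθ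
  simpa using mul_mem b.toUB.NY.2.2.2 (centralizer_le_normalizer _ this)

theorem UP.θX (b : F.UP g d v η h P θ e) {x : G} (hx : x ∈ F.X1) : θ * x * θ⁻¹ ∈ F.X1 := by
  obtain ⟨h1, h2, h3, -⟩ := b.θ7
  obtain ⟨i, j, k, rfl⟩ := F.memX1.1 hx
  rw [← conj_mul, ← conj_mul, ← conj_pow, ← conj_pow, ← conj_pow, h1, h2, h3]
  exact mul_mem (mul_mem (pow_mem (mul_mem HF_zX HF_v1X) _) (pow_mem HF_v1X _)) (pow_mem HF_uX _)

theorem UP.d't (b : F.UP g d v η h P θ e) :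
    ∃ w ∈ F.X1, h * d * h⁻¹ * F.t * (h * d * h⁻¹)⁻¹ = F.t * (g * v * w) :=
  ⟨_, mul_mem HF_v1X (F.F0X1 b.toUB.d't), by group⟩

theorem UP.et (b : F.UP g d v η h P θ e) : ∃ w ∈ F.X1, e * F.t * e⁻¹ = F.t * (d * v * w) := by
  obtain ⟨w, hw, k⟩ := b.d't
  obtain ⟨-, -, -, h4, h5, h6, -⟩ := b.θ7
  refine ⟨_, b.θX hw, ?_⟩
  rw [← h4, ← h6, conj_mul, conj_mul]
  nth_rewrite 2 [← h5]
  rw [conj_mul, ← k, b.he]
  nth_rewrite 1 [← h5]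
  group

theorem UP.e't (b : F.UP g d v η h P θ e) :
    ∃ w ∈ F.X1, θ * e * θ⁻¹ * F.t * (θ * e * θ⁻¹)⁻¹ = F.t * (g * d * v * w) := by
  obtain ⟨w, hw, k⟩ := b.et
  obtain ⟨-, -, -, h4, h5, -, h7⟩ := b.θ7
  have m : F.z * F.v1 * F.u1 ∈ F.X1 := mul_mem (mul_mem HF_zX HF_v1X) HF_uX
  have c := comm_of_sq (fun a => b.toUB.sqY) (inv_mem (HF_XY m)) (HF_vY (F := F) (v := v))
  refine ⟨_, mul_mem (inv_mem m) (b.θX hw), ?_⟩
  calc _ = θ * e * θ⁻¹ * (θ * F.t * θ⁻¹) * (θ * e * θ⁻¹)⁻¹ := by rw [h5]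
    _ = θ * (e * F.t * e⁻¹) * θ⁻¹ := by group
    _ = θ * F.t * θ⁻¹ * (θ * d * θ⁻¹ * (θ * v * θ⁻¹) * (θ * w * θ⁻¹)) := by rw [k]; group
    _ = F.t * (g * d * ((g * d * (g * d))⁻¹ * v) * (θ * w * θ⁻¹)) := by rw [h4, h5, h7]; group
    _ = _ := by rw [b.toUB.sqs.2.2, c]; group

theorem UP.tk (b : F.UP g d v η h P θ e) : F.HFK g d v h e (F.t * g * F.t) (1, 0, 0, 0) ∧
    F.HFK g d v h e (F.t * d * F.t) (0, 1, 0, 0) ∧ F.HFK g d v h e (F.t * (h * d * h⁻¹) * F.t) (1, 0, 1, 0) ∧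
    F.HFK g d v h e (F.t * e * F.t) (0, 1, 0, 1) := by
  obtain ⟨w, hw, k⟩ := b.d't
  obtain ⟨w', hw', k'⟩ := b.et
  rw [HF_tc F.tt b.tr.gt, HF_tc F.tt b.tr.dt, HF_tc F.tt k, HF_tc F.tt k']
  exact ⟨(b.kmul (HFK.zero.2 (HF_XY HF_zX)) HFK.kg).cg (by decide),
    (b.kmul (HFK.zero.2 (HF_XY HF_v1X)) HFK.kd).cg (by decide),
    (b.kmul (b.kmul (b.kmul HFK.kg (HFK.zero.2 HF_vY)) (HFK.zero.2 (HF_XY hw))) HFK.kd').cg (by decide),
    (b.kmul (b.kmul (b.kmul HFK.kd (HFK.zero.2 HF_vY)) (HFK.zero.2 (HF_XY hw'))) HFK.ke).cg (by decide)⟩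

theorem UP.tact (b : F.UP g d v η h P θ e) : g⁻¹ * (F.t * g * F.t) ∈ F.Y v ∧ d⁻¹ * (F.t * d * F.t) ∈ F.Y v ∧
    (g * (h * d * h⁻¹))⁻¹ * (F.t * (h * d * h⁻¹) * F.t) ∈ F.Y v ∧ (d * e)⁻¹ * (F.t * e * F.t) ∈ F.Y v := by
  obtain ⟨h1, h2, h3, h4⟩ := b.tk
  exact ⟨b.ofk HFK.kg h1, b.ofk HFK.kd h2, b.ofk (b.kmul HFK.kg HFK.kd') (h3.cg (by decide)),
    b.ofk (b.kmul HFK.kd HFK.ke) (h4.cg (by decide))⟩

/-- the action of `t` on coordinates -/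
theorem UP.kt (b : F.UP g d v η h P θ e) {x : G} {m : HFV} (k : F.HFK g d v h e x m) :
    F.HFK g d v h e (F.t * x * F.t) (m + (m.2.2.1, m.2.2.2, 0, 0)) := by
  obtain ⟨h1, h2, h3, h4⟩ := b.tk
  refine (b.kconj2 b.toUB.NY.1 F.tt h1 h2 h3 h4 k).cg ?_
  clear k
  revert m; decide

theorem UP.hact (b : F.UP g d v η h P θ e) : g⁻¹ * (h * g * h⁻¹) ∈ F.Y v ∧ h * (h * d * h⁻¹) * h⁻¹ = d := by
  constructor
  · have := mul_mem (mul_mem HF_vY (HF_XY HF_v1X)) (HF_XY (v := v) (F.F0X1 b.hg))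
    rwa [show v * F.v1 * ((g * v * F.v1)⁻¹ * (h * g * h⁻¹)) = g⁻¹ * (h * g * h⁻¹) by group] at this
  · calc _ = h * h * d * (h * h)⁻¹ := by group
      _ = d := by rw [b.hh, mem_centralizer_iff.1 b.tr.dX _ F.u2X1, mul_inv_cancel_right]

theorem UP.vk (b : F.UP g d v η h P θ e) : F.HFK g d v h e (F.v2 * g * F.v2) (1, 0, 0, 0) ∧
    F.HFK g d v h e (F.v2 * d * F.v2) (1, 1, 0, 0) ∧ F.HFK g d v h e (F.v2 * (h * d * h⁻¹) * F.v2) (1, 0, 1, 0) ∧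
    ∃ a, F.HFK g d v h e (F.v2 * e * F.v2) (a, 1, 1, 1) := by
  have vi : F.v2⁻¹ = F.v2 := inv_eq_of_mul_eq_one_left F.v22
  have h1 : F.HFK g d v h e (F.v2 * g * F.v2) (1, 0, 0, 0) := by
    rw [b.tr.v2g]; exact (b.kmul HFK.kg (HFK.zero.2 (HF_XY HF_uX))).cg (by decide)
  have h2 : F.HFK g d v h e (F.v2 * d * F.v2) (1, 1, 0, 0) := by
    rw [b.tr.v2d]; exact (b.kmul (b.kinv (b.kmul HFK.kg HFK.kd)) (HFK.zero.2 (HF_XY HF_uX))).cg (by decide)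
  have h3 : F.HFK g d v h e (F.v2 * (h * d * h⁻¹) * F.v2) (1, 0, 1, 0) := by
    have c : F.v2 * (h * d * h⁻¹) * F.v2 = h * (F.v2 * d * F.v2) * h⁻¹ := by
      have c1 : h⁻¹ * F.v2 = F.v2 * h⁻¹ := (Commute.inv_left b.hv2).eq
      rw [mul_assoc F.v2, mul_assoc _ h⁻¹, c1, ← mul_assoc, ← mul_assoc, ← mul_assoc, ← b.hv2]; group
    rw [c, b.tr.v2d, ← conj_mul, ← conj_inv, ← conj_mul, b.hu]
    exact (b.kmul (b.kinv (b.kmul (b.kof HFK.kg b.hact.1) HFK.kd')) (HFK.zero.2 (HF_XY HF_zX))).cg (by decide)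
  refine ⟨h1, h2, h3, ?_⟩
  obtain ⟨m, hm⟩ := b.kex (show F.v2 * e * F.v2 ∈ P by
    have := conj_mem_of_mem_normalizer b.v2N b.eP
    rwa [vi] at this)
  have cj := @UP.kconj2 _ _ _ _ _ _ _ _ _ _ _ _ b _ b.toUB.NY.2.1 F.v22 _ _ _ _ h1 h2 h3 hm
  have e1 := b.kuniq (b.kt hm) (by
    rw [show F.t * (F.v2 * e * F.v2) * F.t = F.v2 * (F.t * e * F.t) * F.v2 by
      calc _ = F.t * F.v2 * e * (F.v2 * F.t) := by group
        _ = F.v2 * F.t * e * (F.t * F.v2) := by rw [F.tv2]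
        _ = _ := by group]
    exact cj b.tk.2.2.2)
  have e2 := b.kuniq (cj hm) (by
    rw [show F.v2 * (F.v2 * e * F.v2) * F.v2 = e by
      rw [← mul_assoc, ← mul_assoc, F.v22, one_mul, mul_assoc, F.v22, mul_one]]
    exact HFK.ke)
  refine ⟨m.1, hm.cg ?_⟩
  clear hm cj
  revert m; decide

theorem UP.vact (b : F.UP g d v η h P θ e) : g⁻¹ * (F.v2 * g * F.v2) ∈ F.Y v ∧ (g * d)⁻¹ * (F.v2 * d * F.v2) ∈ F.Y v ∧
    (g * (h * d * h⁻¹))⁻¹ * (F.v2 * (h * d * h⁻¹) * F.v2) ∈ F.Y v ∧ ((h * d * h⁻¹) * e)⁻¹ * (F.v2 * e * F.v2) ∈ F.U1 g d v := by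
  obtain ⟨h1, h2, h3, a, h4⟩ := b.vk
  exact ⟨b.ofk HFK.kg h1, b.ofk (b.kmul HFK.kg HFK.kd) (h2.cg (by decide)),
    b.ofk (b.kmul HFK.kg HFK.kd') (h3.cg (by decide)),
    b.kU (b.kmul (b.kinv (b.kmul HFK.kd' HFK.ke)) h4) (by clear h4; revert a; decide)⟩

theorem UP.θact (b : F.UP g d v η h P θ e) : θ * F.z * θ⁻¹ = F.v1 ∧ θ * F.v1 * θ⁻¹ = F.z * F.v1 ∧ θ * F.u1 * θ⁻¹ = F.u1 ∧ θ * v * θ⁻¹ = v ∧
    θ * F.t * θ⁻¹ = F.t ∧ θ * g * θ⁻¹ = d ∧ θ * d * θ⁻¹ = (g * d)⁻¹ ∧ ((h * d * h⁻¹) * e)⁻¹ * (θ * e * θ⁻¹) ∈ F.Y v := by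
  obtain ⟨h1, h2, h3, h4, h5, h6, h7⟩ := b.θ7
  refine ⟨h1, h2, h3, h4, h5, h6, h7, b.ofk (b.kmul HFK.kd' HFK.ke) ?_⟩
  obtain ⟨m, hm⟩ := b.kex (conj_mem_of_mem_normalizer b.θN b.eP)
  obtain ⟨w, hw, k⟩ := b.e't
  have e1 := b.kuniq (b.kt hm) (by
    rw [HF_tc F.tt k]
    exact b.kmul (b.kmul (b.kmul (b.kmul HFK.kg HFK.kd) (HFK.zero.2 HF_vY)) (HFK.zero.2 (HF_XY hw))) hm)
  have e2 := b.kuniq (b.kconj b.θY (by rw [h6]; exact HFK.kd) (by rw [h7]; exact b.kinv (b.kmul HFK.kg HFK.kd))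
    (by rw [← b.he]; exact HFK.ke) hm hm) (by
    rw [show θ * (θ * e * θ⁻¹) * θ⁻¹ = h * d * h⁻¹ by
      rw [← conj_eq_of_mem_centralizer b.θ3 b.d'P, b.he, pow_succ, pow_two]; group]
    exact HFK.kd')
  refine hm.cg ?_
  clear hm
  revert m; decide

theorem UP.invt (b : F.UP g d v η h P θ e) {p : G} (hp : p ∈ P) (h2 : F.t * p * (F.t * p) = 1) : ∃ q ∈ P, F.t * p = q * F.t * q⁻¹ := by
  obtain ⟨m, hm⟩ := b.kex hp
  have e1 := b.kuniq (b.kt hm) (by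
    rw [show F.t * p * F.t = p⁻¹ from eq_inv_of_mul_eq_one_left (by rw [mul_assoc]; exact h2)]
    exact b.kinv hm)
  have hU := b.kU hm (by clear hm; revert m; decide)
  have key : ∀ a q w, q ∈ P → w ∈ F.X1 → q * F.t * q⁻¹ = F.t * (a * w) → a⁻¹ * p ∈ F.X1 →
      ∃ q ∈ P, F.t * p = q * F.t * q⁻¹ := fun a q w hq hw k c => by
    have m := mul_mem (inv_mem hw) c
    obtain ⟨x, hx, k'⟩ := b.toUB.trX m
    refine ⟨q * x, mul_mem hq (b.U1P hx), ?_⟩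
    calc _ = F.t * (a * w) * (w⁻¹ * (a⁻¹ * p)) := by group
      _ = q * (F.t * (w⁻¹ * (a⁻¹ * p))) * q⁻¹ := by
        rw [← k, ← conj_mul, conj_eq_of_mem_centralizer (b.cen hq) (HF_XY m)]
      _ = _ := by rw [← k']; group
  rcases b.toUB.invU1 hU h2 with c | c | c | c
  · exact key 1 1 1 (one_mem _) (one_mem _) (by simp) (by simpa using c)
  · obtain ⟨w, hw, k⟩ := b.d't
    exact key _ _ w b.d'P hw k c
  · obtain ⟨w, hw, k⟩ := b.et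
    exact key _ _ w b.eP hw k c
  · obtain ⟨w, hw, k⟩ := b.e't
    exact key _ _ w (conj_mem_of_mem_normalizer b.θN b.eP) hw k c

theorem UP.cv2 (b : F.UP g d v η h P θ e) {y : G} (hy : y ∈ F.Y v) (c : F.v2 * y * F.v2 = y) : y ∈ F.F0 := by
  have u1 := b.ca.u1
  have cz : F.v2 * F.z * F.v2 = F.z := by
    rw [← show F.z * F.v2 = F.v2 * F.z from F.sw.zv1, mul_assoc, F.v22, mul_one]
  have cu : F.v2 * F.u1 * F.v2 = F.u1 := by rw [← F.u1v2, mul_assoc, F.v22, mul_one]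
  have cv : F.v2 * F.v1 * F.v2 = F.z * F.v1 := F.sw.v121
  have vi : F.v2⁻¹ = F.v2 := inv_eq_of_mul_eq_one_left F.v22
  have hx : ∀ i j k : Fin 2, F.v2 * (F.v1 ^ (i : ℕ) * F.z ^ (j : ℕ) * F.u1 ^ (k : ℕ)) * F.v2 =
      F.z ^ (i : ℕ) * (F.v1 ^ (i : ℕ) * F.z ^ (j : ℕ) * F.u1 ^ (k : ℕ)) := fun i j k => by
    nth_rewrite 2 [← vi]
    rw [← conj_mul, ← conj_mul, ← conj_pow, ← conj_pow, ← conj_pow, vi, cz, cu, cv,
      (show Commute F.z F.v1 from F.zv1).mul_pow]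
    group
  rcases b.toUB.memY.1 hy with k | k
  · obtain ⟨i, j, k, rfl⟩ := F.memX1.1 k
    rw [hx, mul_eq_right] at c
    fin_cases i
    · exact mul_mem (mul_mem (by simp) (pow_mem (subset_closure (by simp)) _)) (pow_mem (subset_closure (by simp)) _)
    · exact absurd (by simpa using c) F.z1
  · exfalso
    obtain ⟨i, j, k, e1⟩ := F.memX1.1 k
    have e2 := hx i j k
    rw [← e1, show F.v2 * (y * v) * F.v2 = F.v2 * y * F.v2 * (F.v2 * v * F.v2) by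
      rw [mul_assoc (F.v2 * y), ← mul_assoc F.v2 (F.v2 * v), ← mul_assoc F.v2 F.v2, F.v22]; group,
      c, b.v2v, comm_of_sq (fun a => b.toUB.sqY) (pow_mem (HF_XY HF_zX) _) (mul_mem hy HF_vY), ← mul_assoc,
      mul_right_inj] at e2
    have := F.ind (a := 0) (b := 0) (c := 0) (d := i) (e := 1) (by simp [← e2, F.u11])
    simp [u1] at this

theorem UP.invv (b : F.UP g d v η h P θ e) {p : G} (hp : p ∈ P) : ¬ F.Om (F.v2 * p) := by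
  intro o
  obtain ⟨h1, h2, h3, a, h4⟩ := b.vk
  have vi : F.v2⁻¹ = F.v2 := inv_eq_of_mul_eq_one_left F.v22
  have cj := @UP.kconj2 _ _ _ _ _ _ _ _ _ _ _ _ b _ b.toUB.NY.2.1 F.v22 _ _ _ _ h1 h2 h3 h4
  have iv : ∀ {x}, F.Om (F.v2 * x) → F.v2 * x * F.v2 = x⁻¹ := fun o =>
    eq_inv_of_mul_eq_one_left (by rw [mul_assoc]; exact o.sq.1)
  obtain ⟨m, hm⟩ := b.kex hp
  have e1 := b.kuniq (cj hm) (by rw [iv o]; exact b.kinv hm)
  obtain ⟨n, hn⟩ : ∃ n : HFV, (n.1 : ℕ) • ((1, 0, 0, 0) : HFV) + (n.2.1 : ℕ) • ((1, 1, 0, 0) : HFV) +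
      (n.2.2.1 : ℕ) • ((1, 0, 1, 0) : HFV) + (n.2.2.2 : ℕ) • ((a, 1, 1, 1) : HFV) + m + n = 0 := by
    clear hm cj h4
    revert a m; decide
  have kn : F.HFK g d v h e (HFw g d (h * d * h⁻¹) e n) n := by simp [HFK.iff]
  generalize HFw g d (h * d * h⁻¹) e n = q at kn
  have k := b.kmul (b.kmul (cj kn) hm) (b.kinv kn)
  rw [hn, HFK.zero] at k
  have o' := o.cj q
  rw [show q * (F.v2 * p) * q⁻¹ = F.v2 * (F.v2 * q * F.v2 * p * q⁻¹) by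
    simp only [← mul_assoc, F.v22, one_mul]] at o'
  generalize F.v2 * q * F.v2 * p * q⁻¹ = y at k o'
  have f := b.cv2 k ((iv o').trans (inv_eq_of_mul_eq_one_left (b.toUB.sqY k)))
  exact F.sw.nX1 b.ca.n2 b.ca.n1 (mul_mem HF_v1X (F.sw.F0X1 (F.sw_F0 ▸ f))) o'

theorem UP.Seq (b : F.UP g d v η h P θ e) : (P ⊔ closure {F.t, F.v2, h} : Subgroup G) =
    P ⊔ zpowers F.t ⊔ zpowers F.v2 ⊔ zpowers h ∧ F.v2 ∈ 𝐍(P ⊔ zpowers F.t) ∧
    h ∈ 𝐍(P ⊔ zpowers F.t ⊔ zpowers F.v2) := by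
  refine ⟨?_, HF_ns b.v2N (HF_nz F.tv2.symm), mem_normalizer_of_cj_le ?_⟩
  · simp only [zpowers_eq_closure, sup_assoc, ← Subgroup.closure_union, Set.union_assoc]
    rfl
  · rw [cj_sup, cj_sup, cj_eq_self_iff.2 b.hN, cj_eq_self_iff.2 (HF_nz b.hv2), cj_zpowers, b.ht]
    refine sup_le (sup_le (le_sup_left.trans le_sup_left) (zpowers_le.2 ?_)) le_sup_right
    exact mul_mem (mem_sup_left (mem_sup_right (mem_zpowers _))) (mem_sup_right (mem_zpowers _))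

theorem UP.memS (b : F.UP g d v η h P θ e) {x : G} : x ∈ (P ⊔ closure {F.t, F.v2, h} : Subgroup G) ↔
    ∃ p ∈ P, ∃ a c k : Fin 2, x = p * F.t ^ (a : ℕ) * F.v2 ^ (c : ℕ) * h ^ (k : ℕ) := by
  obtain ⟨h1, h2, h3⟩ := b.Seq
  rw [h1, HF_adj h3 (b.hh ▸ mem_sup_left (mem_sup_left (b.YP (HF_XY F.u2X1))))]
  simp only [HF_adj h2 (F.v22 ▸ one_mem _), HF_adj b.tN (F.tt ▸ one_mem _)]
  constructor
  · rintro ⟨_, ⟨_, ⟨p, hp, a, rfl⟩, c, rfl⟩, k, rfl⟩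
    exact ⟨p, hp, a, c, k, rfl⟩
  · rintro ⟨p, hp, a, c, k, rfl⟩
    exact ⟨_, ⟨_, ⟨p, hp, a, rfl⟩, c, rfl⟩, k, rfl⟩

theorem UP.indS (b : F.UP g d v η h P θ e) {a c k : Fin 2} (m : F.t ^ (a : ℕ) * F.v2 ^ (c : ℕ) * h ^ (k : ℕ) ∈ 𝐂(F.Y v)) :
    a = 0 ∧ c = 0 ∧ k = 0 := by
  have m1 := conj_eq_of_mem_centralizer m (HF_XY HF_zX)
  have m2 := conj_eq_of_mem_centralizer m (HF_XY HF_v1X)
  have cu : Commute (F.t ^ (a : ℕ) * F.v2 ^ (c : ℕ)) F.u1 :=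
    ((show Commute F.t F.u1 from F.tu1).pow_left _).mul_left ((show Commute F.v2 F.u1 from F.u1v2.symm).pow_left _)
  obtain rfl : k = 0 := by
    fin_cases k
    · rfl
    · exfalso
      have : F.u1 = F.z := by
        rw [← m1, ← cu.mul_inv_cancel, ← b.hz]; simp [mul_assoc]
      have := F.ind (a := 0) (b := 0) (c := 0) (d := 1) (e := 1) (by simp [this, F.zz])
      simp at this
  obtain rfl : c = 0 := by
    fin_cases c
    · rfl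
    · exfalso
      have vi : F.v2⁻¹ = F.v2 := inv_eq_of_mul_eq_one_left F.v22
      have cv : F.v2 * F.v1 * F.v2 = F.z * F.v1 := F.sw.v121
      have ct : Commute (F.t ^ (a : ℕ)) (F.z * F.v1) :=
        ((show Commute F.t F.z from F.zt.symm).mul_right (show Commute F.t F.v1 from F.tv1)).pow_left _
      have : F.z * F.v1 = F.v1 := by
        nth_rewrite 2 [← m2]
        rw [← ct.mul_inv_cancel, ← cv]; simp [mul_assoc, vi]
      exact F.z1 (by simpa using this)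
  fin_cases a
  · simp
  · exact absurd F.om_t (b.toUB.nOm (by simpa using m))

theorem UP.isPS (b : F.UP g d v η h P θ e) : IsPGroup 2 (P ⊔ closure {F.t, F.v2, h} : Subgroup G) := by
  obtain ⟨h1, h2, h3⟩ := b.Seq
  rw [h1]
  exact isP_sup (isP_sup (isP_sup b.syl.isP (.of_sq F.tt) b.tN) (.of_sq F.v22) h2)
    (.of_mul_self (b.hh ▸ .of_sq F.u22)) h3

theorem UP.SN (b : F.UP g d v η h P θ e) : (P ⊔ closure {F.t, F.v2, h} : Subgroup G) ≤ 𝐍(F.Y v) := by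
  obtain ⟨h1, h2, h3, -⟩ := b.toUB.NY
  refine sup_le (le_normalizer_of_le_centralizer b.cen) ((closure_le _).2 ?_)
  rintro x (rfl | rfl | rfl)
  exacts [h1, h2, h3]

end Fr

end H60M.A7
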