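import Mathlib
import Cfsg.Agent.Lib.B6S.UDefs
import Cfsg.Agent.Lib.B7S.HH
import Cfsg.Agent.Lib.B6S.UF


/-! The Held case: `Y` is characteristic in `S`. -/

set_option autoImplicit false
set_option linter.unusedSectionVars false

namespace H60M.A7

open Subgroup H69 H36.SW

variable {G : Type*} [Group G] [Finite G]

namespace UH
open HH

end UH

namespace Fr
variable {F : Fr G} {g d v η h θ e : G} {P : Subgroup G}

theorem UP.hh_main (b : F.UP g d v η h P θ e) {x : G} (hx : x ∈ (P ⊔ closure {F.t, F.v2, h} : Subgroup G))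
    (h2 : x * x = 1)
    (hc : ∀ s ∈ (P ⊔ closure {F.t, F.v2, h} : Subgroup G), x * s * x⁻¹ * s⁻¹ ∈ F.Y v) : x ∈ F.Y v := by
  have tS : F.t ∈ (P ⊔ closure {F.t, F.v2, h} : Subgroup G) := mem_sup_right (subset_closure (by simp))
  have hS : h ∈ (P ⊔ closure {F.t, F.v2, h} : Subgroup G) := mem_sup_right (subset_closure (by simp))
  have it : F.t⁻¹ = F.t := inv_eq_of_mul_eq_one_right F.tt
  have iv : F.v2⁻¹ = F.v2 := inv_eq_of_mul_eq_one_right F.v22
  obtain ⟨p, hp, a, c, k, rfl⟩ := b.memS.1 hx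
  have red : ∀ w s, s ∈ 𝐍(P) → p * w * s * (p * w)⁻¹ * s⁻¹ ∈ F.Y v → w * s * w⁻¹ * s⁻¹ ≠ F.v2 := by
    intro w s hs m e1
    rw [show p * w * s * (p * w)⁻¹ * s⁻¹ = p * (w * s * w⁻¹ * s⁻¹) * (s * p⁻¹ * s⁻¹) by group, e1] at m
    have m1 := (mul_mem_cancel_left hp).1 ((mul_mem_cancel_right (HH.cjm hs (inv_mem hp))).1 (b.YP m))
    have := b.indS (a := 0) (c := 1) (k := 0) (by simpa using b.cen m1)
    exact absurd this.2.1 (by decide)
  have ct : Commute F.t F.v2 := F.tv2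
  have cw : Commute (F.t ^ (a : ℕ) * F.v2 ^ (c : ℕ)) (F.t * F.v2) :=
    (((Commute.refl _).mul_right ct).pow_left _).mul_left ((ct.symm.mul_right (Commute.refl _)).pow_left _)
  obtain rfl : k = 0 := by
    by_contra hk
    obtain rfl : k = 1 := by omega
    refine red (F.t ^ (a : ℕ) * F.v2 ^ (c : ℕ) * h) F.t b.tN (by simpa [mul_assoc] using hc _ tS) ?_
    calc _ = F.t ^ (a : ℕ) * F.v2 ^ (c : ℕ) * (h * F.t * h⁻¹) * (F.t ^ (a : ℕ) * F.v2 ^ (c : ℕ))⁻¹ *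
          F.t⁻¹ := by group
      _ = _ := by rw [b.ht, cw.eq, mul_inv_cancel_right, ct.eq, mul_inv_cancel_right]
  obtain rfl : a = 0 := by
    by_contra hk
    obtain rfl : a = 1 := by omega
    refine red (F.t * F.v2 ^ (c : ℕ)) h b.hN (by simpa [mul_assoc] using hc _ hS) ?_
    have ch : Commute h (F.v2 ^ (c : ℕ)) := (show Commute h F.v2 from b.hv2).pow_right _
    calc _ = F.t * (F.v2 ^ (c : ℕ) * h) * (F.v2 ^ (c : ℕ))⁻¹ * h⁻¹ * (h * F.t * h⁻¹)⁻¹ := by group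
      _ = _ := by rw [← ch.eq, b.ht, ct.eq]; simp [iv, it, ← ct.eq, mul_assoc, ← mul_assoc F.t F.t, F.tt]
  obtain ⟨m, hm⟩ := b.kex hp
  obtain rfl : c = 0 := by
    by_contra hk
    obtain rfl : c = 1 := by omega
    have m1 := hc d (mem_sup_left b.dP)
    have k1 := b.kmul (b.kmul (b.kmul hm b.vk.2.1) (b.kinv hm)) (b.kinv HFK.kd)
    rw [show p * (F.v2 * d * F.v2) * p⁻¹ * d⁻¹ = p * F.v2 * d * (p * F.v2)⁻¹ * d⁻¹ by
      rw [mul_inv_rev, iv]; group] at k1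
    have := b.kuniq k1 (HFK.zero.2 (by simpa using m1))
    revert this
    generalize m = m
    revert m
    decide
  simp only [Fin.isValue, Fin.val_zero, pow_zero, mul_one] at h2 hc ⊢
  have k1 := b.kmul hm (b.kt (b.kinv hm))
  rw [show p * (F.t * p⁻¹ * F.t) = p * F.t * p⁻¹ * F.t⁻¹ by rw [it]; group] at k1
  have e1 := b.kuniq k1 (HFK.zero.2 (hc _ tS))
  have e2 : m.2.2 = 0 := by
    revert e1
    generalize m = m
    revert m
    decide
  obtain ⟨y, hy, i, j, rfl⟩ := b.toUB.memU1.1 (b.kU hm e2)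
  have cy : y * (g ^ (i : ℕ) * d ^ (j : ℕ)) = g ^ (i : ℕ) * d ^ (j : ℕ) * y :=
    mem_centralizer_iff.1 (b.cen (mul_mem (pow_mem b.gP _) (pow_mem b.dP _))) y hy
  have e3 : g ^ (i : ℕ) * d ^ (j : ℕ) * (g ^ (i : ℕ) * d ^ (j : ℕ)) = 1 := by
    rw [mul_assoc y] at h2
    generalize g ^ (i : ℕ) * d ^ (j : ℕ) = w at h2 cy ⊢
    rwa [show y * w * (y * w) = y * (w * y) * w by group, ← cy, ← mul_assoc, b.toUB.sqY hy, one_mul] at h2
  obtain ⟨s1, s2, s3⟩ := b.toUB.sqs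
  fin_cases i <;> fin_cases j <;> simp only [pow_zero, pow_one, mul_one, one_mul] at e3 ⊢
  · exact hy
  · exact absurd (b.toUB.hc_ne (a := 1) (c := 0) (e := 1) (by simpa using s2.symm.trans e3)).1 (by decide)
  · exact absurd (b.toUB.hc_ne (a := 0) (c := 1) (e := 1) (by simpa using s1.symm.trans e3)).2.1 (by decide)
  · exact absurd (b.toUB.hc_ne (a := 1) (c := 1) (e := 1) (by
      simpa [F.zv1] using s3.symm.trans e3)).1 (by decide)

theorem UB.hh_form (b : F.UB g d v η h) {x : G} (hx : x ∈ F.Y v) :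
    ∃ f ∈ F.F0, x = f ∨ x = f * F.v1 ∨ x = f * v ∨ x = f * (F.v1 * v) := by
  have zF : F.z ∈ F.F0 := subset_closure (by simp)
  have uF : F.u1 ∈ F.F0 := subset_closure (by simp)
  have X : ∀ x ∈ F.X1, ∃ f ∈ F.F0, x = f ∨ x = f * F.v1 := by
    intro x hx
    obtain ⟨i, j, k, rfl⟩ := F.memX1.1 hx
    refine ⟨F.z ^ (j : ℕ) * F.u1 ^ (k : ℕ), mul_mem (pow_mem zF _) (pow_mem uF _), ?_⟩
    have c : Commute F.v1 (F.z ^ (j : ℕ) * F.u1 ^ (k : ℕ)) :=
      ((show Commute F.v1 F.z from F.zv1.symm).pow_right _).mul_right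
        ((show Commute F.v1 F.u1 from F.u1v1.symm).pow_right _)
    fin_cases i
    · exact Or.inl (by simp)
    · exact Or.inr (by simpa [mul_assoc] using c.eq)
  rcases b.memY.1 hx with h1 | h1
  · obtain ⟨f, hf, e1 | e1⟩ := X x h1
    exacts [⟨f, hf, Or.inl e1⟩, ⟨f, hf, Or.inr (Or.inl e1)⟩]
  · have e0 : x = x * v * v := by rw [mul_assoc, b.tr.vv, mul_one]
    obtain ⟨f, hf, e1 | e1⟩ := X _ h1
    · exact ⟨f, hf, Or.inr (Or.inr (Or.inl (by rw [e0, e1])))⟩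
    · exact ⟨f, hf, Or.inr (Or.inr (Or.inr (by rw [e0, e1, mul_assoc])))⟩

theorem UP.char (b : F.UP g d v η h P θ e) : 𝐍((P ⊔ closure {F.t, F.v2, h} : Subgroup G)) ≤ 𝐍(F.Y v) := by
  have hB : (P ⊔ closure {F.t, F.v2, h} : Subgroup G) = closure ((P : Set G) ∪ {F.t, F.v2, h}) := by
    rw [Subgroup.closure_union, Subgroup.closure_eq]
  have tS : F.t ∈ (P ⊔ closure {F.t, F.v2, h} : Subgroup G) := mem_sup_right (subset_closure (by simp))
  have hS : h ∈ (P ⊔ closure {F.t, F.v2, h} : Subgroup G) := mem_sup_right (subset_closure (by simp))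
  have zY := hc_zY F v
  have uY := hc_uY F v
  have v1Y := hc_v1Y F v
  have vY := hc_vY F v
  have sq : ∀ x ∈ F.Y v, x * x = 1 := fun x hx => b.toUB.sqY hx
  have iY : ∀ x ∈ F.Y v, x⁻¹ = x := fun x hx => inv_eq_of_mul_eq_one_right (sq x hx)
  have cY : ∀ x ∈ F.Y v, ∀ y ∈ F.Y v, x * y = y * x := fun x hx y hy => comm_of_sq sq hx hy
  have it : F.t⁻¹ = F.t := inv_eq_of_mul_eq_one_right F.tt
  have iv : F.v2⁻¹ = F.v2 := inv_eq_of_mul_eq_one_right F.v22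
  have u2 : F.u2 = F.z * F.u1 := F.u2_eq b.ca.u1
  have zF : F.z ∈ F.F0 := subset_closure (by simp)
  have uF : F.u1 ∈ F.F0 := subset_closure (by simp)
  have FY : F.F0 ≤ F.Y v := F.F0X1.trans (hc_XY F v)
  have zv2 : F.z * F.v2 = F.v2 * F.z := F.sw.zv1
  have ch : ∀ x ∈ F.Y v, x * h * x⁻¹ * h⁻¹ = x * (h * x * h⁻¹) := fun x hx => by
    rw [iY x hx]; group
  have cvt : v * F.t * v⁻¹ * F.t⁻¹ = F.u1 := by rw [b.tr.vt, F.tu1, mul_inv_cancel_right]
  have cvv : v * F.v2 * v⁻¹ * F.v2⁻¹ = F.u1 := by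
    rw [iv, iY v vY, mul_assoc, mul_assoc, ← mul_assoc F.v2, b.v2v, ← mul_assoc, b.tr.vv, one_mul]
  have c12 : F.v1 * F.v2 * F.v1⁻¹ * F.v2⁻¹ = F.z := by rw [iv, iY _ v1Y, F.hz]
  have cmul : ∀ a c s : G, a * c * s * (a * c)⁻¹ * s⁻¹ =
      a * (c * s * c⁻¹ * s⁻¹) * a⁻¹ * (a * s * a⁻¹ * s⁻¹) := fun a c s => by group
  have cwt : F.v1 * v * F.t * (F.v1 * v)⁻¹ * F.t⁻¹ = F.u1 := by
    rw [cmul, cvt, ← F.u1v1, ← F.tv1]; group
  have gen : ∀ (Z : Subgroup G) (a : G), a ∈ F.Y v → a * F.t * a⁻¹ * F.t⁻¹ ∈ Z →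
      a * F.v2 * a⁻¹ * F.v2⁻¹ ∈ Z → a * (h * a * h⁻¹) ∈ Z →
      ∀ s ∈ (P : Set G) ∪ {F.t, F.v2, h}, a * s * a⁻¹ * s⁻¹ ∈ Z := by
    rintro Z a ha h1 h2 h3 s (hs | rfl | rfl | rfl)
    exacts [HH.one_of (mem_centralizer_iff.1 (b.cen hs) a ha), h1, h2, ch a ha ▸ h3]
  have hcj : ∀ a c : G, h * (a * c) * h⁻¹ = h * a * h⁻¹ * (h * c * h⁻¹) := fun a c => by group
  have hF : ∀ f ∈ F.F0, h * f * h⁻¹ ∈ F.F0 := by
    intro f hf
    rcases F.memF0.1 hf with rfl | rfl | rfl | rfl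
    · simp
    · rw [b.hz]; exact uF
    · rw [b.hu]; exact zF
    · rw [hcj, b.hz, b.hu]; exact mul_mem uF zF
  have YS : F.Y v ≤ (P ⊔ closure {F.t, F.v2, h} : Subgroup G) := b.YP.trans le_sup_left
  -- the four members of the chain
  have A1 : closure ({F.z * F.u1} : Set G) ≤ F.F0 := by
    rw [closure_le]; rintro _ rfl; exact mul_mem zF uF
  have A3 : closure ({F.z, F.u1, F.v1 * v} : Set G) ≤ F.Y v := by
    rw [closure_le]; rintro _ (rfl | rfl | rfl); exacts [zY, uY, mul_mem v1Y vY]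
  have z3 : F.z ∈ closure ({F.z, F.u1, F.v1 * v} : Set G) := subset_closure (by simp)
  have u3 : F.u1 ∈ closure ({F.z, F.u1, F.v1 * v} : Set G) := subset_closure (by simp)
  have w3 : F.v1 * v ∈ closure ({F.z, F.u1, F.v1 * v} : Set G) := subset_closure (by simp)
  have A2 : F.F0 ≤ closure ({F.z, F.u1, F.v1 * v} : Set G) := by
    intro f hf
    rcases F.memF0.1 hf with rfl | rfl | rfl | rfl
    exacts [one_mem _, z3, u3, mul_mem z3 u3]
  have w1 : F.z * F.u1 ∈ closure ({F.z * F.u1} : Set G) := subset_closure rfl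
  have B3 : ∀ x ∈ F.Y v, x * h * x⁻¹ * h⁻¹ ∈ F.F0 → ∃ f ∈ F.F0, x = f ∨ x = f * (F.v1 * v) := by
    intro x hx m
    rw [ch x hx] at m
    have nv : F.v1 * v ∉ F.F0 := fun c =>
      b.toUB.vX ((mul_mem_cancel_left (hc_v1X F)).1 (F.F0X1 c))
    obtain ⟨f, hf, rfl | rfl | rfl | rfl⟩ := b.toUB.hh_form hx
    · exact ⟨x, hf, Or.inl rfl⟩
    · rw [hcj, b.hv, mul_assoc f, ← mul_assoc F.v1, cY _ v1Y _ (FY (hF f hf)), mul_assoc _ F.v1] at m
      rw [← mul_assoc F.v1] at m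
      exact absurd ((mul_mem_cancel_right zF).1 ((mul_mem_cancel_left (hF f hf)).1 ((mul_mem_cancel_left hf).1 m))) nv
    · rw [hcj, b.toUB.hv', mul_assoc f, ← mul_assoc v, cY _ vY _ (FY (hF f hf)), mul_assoc _ v, ← mul_assoc v,
        cY _ vY _ v1Y] at m
      exact absurd ((mul_mem_cancel_right uF).1 ((mul_mem_cancel_left (hF f hf)).1 ((mul_mem_cancel_left hf).1 m))) nv
    · exact ⟨f, hf, Or.inr rfl⟩
  have m1 : ∀ x ∈ closure ({F.z * F.u1} : Set G), x = 1 ∨ x = F.z * F.u1 := by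
    intro x hx
    have s := sq _ (mul_mem zY uY)
    induction hx using closure_induction with
    | mem x hx => exact Or.inr hx
    | one => exact Or.inl rfl
    | mul a c _ _ ha hc => rcases ha with rfl | rfl <;> rcases hc with rfl | rfl <;> simp [s]
    | inv a _ ha =>
      rcases ha with rfl | rfl
      exacts [Or.inl inv_one, Or.inr (iY _ (mul_mem zY uY))]
  have zu : F.z * F.u1 ≠ 1 := u2 ▸ b.ca.u2
  have B2 : ∀ x ∈ F.Y v, x * h * x⁻¹ * h⁻¹ ∈ F.F0 →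
      x * F.t * x⁻¹ * F.t⁻¹ ∈ closure ({F.z * F.u1} : Set G) → x ∈ F.F0 := by
    intro x hx m m'
    obtain ⟨f, hf, rfl | rfl⟩ := B3 x hx m
    · exact hf
    · have ft : f * F.t = F.t * f := hc_Xt F (F.F0X1 hf)
      rw [cmul, cwt, cY _ (FY hf) _ uY, ft, mul_inv_cancel_right, mul_inv_cancel_right, mul_inv_cancel,
        mul_one] at m'
      rcases m1 _ m' with c | c
      · exact absurd c b.ca.u1
      · exact absurd (mul_right_cancel (c.symm.trans (one_mul _).symm)) F.z1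
  have S1 : 𝐍((P ⊔ closure {F.t, F.v2, h} : Subgroup G)) ≤ 𝐍(closure ({F.z * F.u1} : Set G)) := by
    refine HH.step (Z := ⊥) (le_top.trans (normalizer_eq_top (⊥ : Subgroup G)).ge) hB ((A1.trans FY).trans YS)
      (fun x hx => sq x (FY (A1 hx))) ?_ fun x hx h2 hc => ?_
    · rintro _ rfl
      refine gen _ _ (mul_mem zY uY) (HH.one_of (hc_Xt F (F.F0X1 (mul_mem zF uF))))
        (HH.one_of (by rw [mul_assoc, F.u1v2, ← mul_assoc, zv2, mul_assoc])) ?_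
      rw [hcj, b.hz, b.hu, ← F.zu1, sq _ (mul_mem zY uY)]
      exact one_mem _
    · have xY := b.hh_main hx h2 fun s hs => bot_le (a := F.Y v) (hc s hs)
      have m := mem_bot.1 (hc _ hS)
      have xF := B2 x xY (bot_le (a := F.F0) (hc _ hS))
        (bot_le (a := closure ({F.z * F.u1} : Set G)) (hc _ tS))
      rw [ch x xY] at m
      rcases F.memF0.1 xF with rfl | rfl | rfl | rfl
      · exact one_mem _
      · rw [b.hz] at m; exact absurd m zu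
      · rw [b.hu, ← F.zu1] at m; exact absurd m zu
      · exact w1
  have S2 : 𝐍((P ⊔ closure {F.t, F.v2, h} : Subgroup G)) ≤ 𝐍(F.F0) := by
    refine HH.step S1 hB (FY.trans YS) (fun x hx => sq x (FY hx)) ?_ fun x hx h2 hc => ?_
    · rintro _ (rfl | rfl | rfl)
      · exact gen _ _ zY (HH.one_of F.zt) (HH.one_of zv2) (by rw [b.hz]; exact w1)
      · exact gen _ _ uY (HH.one_of F.tu1.symm) (HH.one_of F.u1v2) (by rw [b.hu, ← F.zu1]; exact w1)
      · refine gen _ _ (u2 ▸ mul_mem zY uY) (HH.one_of F.tu2.symm) (HH.one_of F.u2v2) ?_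
        rw [u2, hcj, b.hz, b.hu, ← F.zu1, sq _ (mul_mem zY uY)]
        exact one_mem _
    · exact B2 x (b.hh_main hx h2 fun s hs => FY (A1 (hc s hs))) (A1 (hc _ hS)) (hc _ tS)
  have S3 : 𝐍((P ⊔ closure {F.t, F.v2, h} : Subgroup G)) ≤
      𝐍(closure ({F.z, F.u1, F.v1 * v} : Set G)) := by
    refine HH.step S2 hB (A3.trans YS) (fun x hx => sq x (A3 hx)) ?_ fun x hx h2 hc => ?_
    · rintro _ (rfl | rfl | rfl)
      · exact gen _ _ zY (HH.one_of F.zt) (HH.one_of zv2) (by rw [b.hz]; exact mul_mem zF uF)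
      · exact gen _ _ uY (HH.one_of F.tu1.symm) (HH.one_of F.u1v2) (by rw [b.hu]; exact mul_mem uF zF)
      · refine gen _ _ (mul_mem v1Y vY) (cwt ▸ uF) ?_ ?_
        · rw [cmul, cvv, c12, ← F.u1v1, mul_inv_cancel_right]; exact mul_mem uF zF
        · rw [hcj, b.hv, b.toUB.hv', mul_assoc v, ← mul_assoc F.z, cY _ zY _ v1Y, mul_assoc F.v1 F.z, ← mul_assoc v,
            cY _ vY _ v1Y, ← mul_assoc, sq _ (mul_mem v1Y vY), one_mul]
          exact mul_mem zF uF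
    · obtain ⟨f, hf, rfl | rfl⟩ := B3 x (b.hh_main hx h2 fun s hs => FY (hc s hs)) (hc _ hS)
      exacts [A2 hf, mul_mem (A2 hf) w3]
  refine HH.step S3 hB YS sq ?_ fun x hx h2 hc => b.hh_main hx h2 fun s hs => A3 (hc s hs)
  rintro _ (rfl | rfl | rfl | rfl)
  · exact gen _ _ zY (HH.one_of F.zt) (HH.one_of zv2) (by rw [b.hz]; exact mul_mem z3 u3)
  · exact gen _ _ v1Y (HH.one_of F.tv1.symm) (c12 ▸ z3) (by rw [b.hv, ← mul_assoc]; exact mul_mem w3 z3)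
  · exact gen _ _ uY (HH.one_of F.tu1.symm) (HH.one_of F.u1v2) (by rw [b.hu]; exact mul_mem u3 z3)
  · exact gen _ _ vY (cvt ▸ u3) (cvv ▸ u3) (by rw [b.toUB.hv', ← mul_assoc, cY _ vY _ v1Y]; exact mul_mem w3 u3)

end Fr

end H60M.A7
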