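import Mathlib
import Cfsg.Agent.Lib.B6S.UQ
import Cfsg.Agent.Lib.U52.TU52

/-! The unitary case: the relations of the Sylow 2-subgroup of `U₅(2)`. -/

set_option autoImplicit false
set_option synthInstance.maxSize 100000
set_option synthInstance.maxHeartbeats 400000
set_option maxRecDepth 100000
set_option linter.unusedSectionVars false

namespace H60M.A7

open Subgroup H69 H36.SW

namespace URH
open HQ

/-- the cocycle -/
def co (a b : V4) : V4 :=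
  (a.1 * b.1 + a.2.2.1 * b.1 + a.2.2.2 * b.1 + a.2.2.1 * b.2.1,
   a.2.1 * b.2.1 + a.2.2.2 * b.1 + a.2.2.1 * b.2.1 + a.2.2.2 * b.2.1,
   a.1 * b.1 + a.2.1 * b.2.1 + a.2.1 * b.1,
   a.2.2.1 * b.2.2.1 + a.2.2.2 * b.2.2.2 + a.2.2.2 * b.1 + a.2.2.1 * b.2.1 + a.2.2.2 * b.2.2.1)

/-- the product of the model -/
def mm (p q : V4 × V4) : V4 × V4 := (p.1 + q.1 + co p.2 q.2, p.2 + q.2)

/-- powers in the model -/
def pw (p : V4 × V4) (i : Fin 2) : V4 × V4 := if i = 0 then 0 else p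

/-- endomorphisms of the model -/
def au (L : V4 → V4) (p1 p2 p3 p4 p : V4 × V4) : V4 × V4 :=
  mm (mm (mm (mm (L p.1, 0) (pw p1 p.2.1)) (pw p2 p.2.2.1)) (pw p3 p.2.2.2.1)) (pw p4 p.2.2.2.2)

/-- the action of `v2` on `Y` -/
def La (y : V4) : V4 := (y.1 + y.2.1, y.2.1, y.2.2.1 + y.2.2.2, y.2.2.2)

/-- the action of `h` on `Y` -/
def Lh (y : V4) : V4 := (y.2.1 + y.2.2.1, y.2.2.2, y.1 + y.2.2.2, y.2.1)

/-- the action of `h z` -/
def Hm (f β : V4) : V4 × V4 → V4 × V4 :=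
  au Lh ((0, 1, 0, 1) + f, (1, 0, 0, 0)) (0, (0, 0, 1, 0)) (0, (0, 1, 0, 0)) (β, (1, 0, 0, 1))

/-- the action of `v2` -/
def Am (f α β : V4) : V4 × V4 → V4 × V4 :=
  au La ((0, 0, 1, 0), (1, 0, 0, 0)) ((1, 1, 0, 0), (1, 1, 0, 0)) (Hm f β ((1, 1, 0, 0), (1, 1, 0, 0)))
    (α, (1, 1, 1, 1))

/-- the relations in the model -/
def Rm (A H : V4 × V4 → V4 × V4) (c d : V4 × V4) : Prop :=
  mm (mm (mm c c) d) d = 0 ∧ mm (mm d c) d = c ∧ mm c (H c) = mm (A d) d ∧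
    mm (A (H d)) (H c) = mm (mm (mm (A c) (A d)) d) d ∧ mm (mm (mm d (A d)) (A c)) (A (H c)) ≠ 0

instance decRm (A H : V4 × V4 → V4 × V4) (c d : V4 × V4) : Decidable (Rm A H c d) := by
  unfold Rm; infer_instance

theorem key2 : ∀ f : V4, f = (1, 0, 0, 0) ∨ f = (0, 0, 1, 0) → ∀ β : V4,
    Hm f β (Hm f β (0, (0, 0, 0, 1))) = (0, (0, 0, 0, 1)) → ∀ α : V4,
    Am f α β (Am f α β (0, (0, 0, 0, 1))) = (0, (0, 0, 0, 1)) →
    Am f α β (Hm f β (0, (0, 0, 0, 1))) = Hm f β (Am f α β (0, (0, 0, 0, 1))) →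
    ∃ y y' : V4, Rm (Am f α β) (Hm f β) (y, (0, 0, 0, 1)) (y', (0, 0, 1, 0)) := by
  decide +kernel


variable {G : Type*} [Group G]

/-- normal forms -/
def nf (N : V4 → G) (g d D e : G) (p : V4 × V4) : G := N p.1 * n4 g d D e p.2

theorem eqns : True := by
  have := @co.eq_1
  have := @mm.eq_1
  have := @pw.eq_1
  have := @au.eq_1
  have := @La.eq_1
  have := @Lh.eq_1
  have := @Hm.eq_1
  have := @Am.eq_1
  have := @Rm.eq_1
  have := @nf.eq_1.{0}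
  trivial

/-- the presentation of `P` -/
structure Pr (N : V4 → G) (g d D e : G) : Prop where
  add : ∀ x y, N x * N y = N (x + y)
  zero : N 0 = 1
  cg : ∀ y, g * N y = N y * g
  cd : ∀ y, d * N y = N y * d
  cD : ∀ y, D * N y = N y * D
  ce : ∀ y, e * N y = N y * e
  gg : g * g = N (1, 0, 1, 0)
  dd : d * d = N (0, 1, 1, 0)
  DD : D * D = N (0, 0, 0, 1)
  ee : e * e = N (0, 0, 0, 1)
  dg : g * d = d * g * N (0, 0, 1, 0)
  Dg : g * D = D * g * N (1, 0, 0, 0)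
  eg : g * e = e * g * N (1, 1, 0, 1)
  Dd : d * D = D * d * N (1, 1, 0, 1)
  ed : d * e = e * d * N (0, 1, 0, 0)
  eD : D * e = e * D * N (0, 0, 0, 1)
  inj : ∀ p, nf N g d D e p = 1 → p = 0

theorem v2 : ∀ y : V4, y + y = 0 := by decide

namespace Pr
variable {N : V4 → G} {g d D e : G} (s : Pr N g d D e)
include s

theorem ad (x y : V4) (w : G) : N x * (N y * w) = N (x + y) * w := by rw [← mul_assoc, s.add]

omit s in
theorem mv {x : G} (hx : ∀ y, x * N y = N y * x) (i : Fin 2) (y : V4) (w : G) :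
    x ^ (i : ℕ) * (N y * w) = N y * (x ^ (i : ℕ) * w) := by
  rw [← mul_assoc, ← mul_assoc, (Commute.pow_left (hx y) _).eq]

theorem sq {x : G} {c : V4} (h : x * x = N c) (i j : Fin 2) (w : G) :
    x ^ (i : ℕ) * (x ^ (j : ℕ) * w) = N ((i * j) • c) * (x ^ ((i + j : Fin 2) : ℕ) * w) := by
  fin_cases i <;> fin_cases j <;> simp [s.zero]
  rw [← mul_assoc, h]

theorem sw {x y : G} {c : V4} (hx : ∀ y, x * N y = N y * x) (hy : ∀ x, y * N x = N x * y)
    (h : x * y = y * x * N c) (i j : Fin 2) (w : G) :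
    y ^ (i : ℕ) * (x ^ (j : ℕ) * w) = N ((i * j) • c) * (x ^ (j : ℕ) * (y ^ (i : ℕ) * w)) := by
  fin_cases i <;> fin_cases j <;> simp [s.zero]
  rw [← mul_assoc x, h, mul_assoc y x, hx, ← mul_assoc y (N c), hy, mul_assoc, mul_assoc, s.ad, v2, s.zero,
    one_mul]

theorem ww (a b : V4) (w : G) : n4 g d D e a * (n4 g d D e b * w) = N (co a b) * (n4 g d D e (a + b) * w) := by
  simp only [n4, mul_assoc, s.sw s.cg s.cd s.dg, s.sw s.cg s.cD s.Dg, s.sw s.cg s.ce s.eg,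
    s.sw s.cd s.cD s.Dd, s.sw s.cd s.ce s.ed, s.sw s.cD s.ce s.eD, s.sq s.gg, s.sq s.dd, s.sq s.DD,
    s.sq s.ee, mv s.cg, mv s.cd, mv s.cD, mv s.ce, s.ad, Prod.fst_add, Prod.snd_add]
  congr 2
  revert a b
  decide +kernel

theorem wn (a y : V4) (w : G) : n4 g d D e a * (N y * w) = N y * (n4 g d D e a * w) := by
  simp only [n4, mul_assoc, mv s.cg, mv s.cd, mv s.cD, mv s.ce]

theorem mul (p q : V4 × V4) : nf N g d D e p * nf N g d D e q = nf N g d D e (mm p q) := by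
  have := s.ww p.2 q.2 1
  rw [mul_one, mul_one] at this
  rw [nf, nf, nf, mul_assoc, s.wn, this, s.ad, s.ad]
  rfl

theorem one : nf N g d D e 0 = 1 := by
  rw [nf, Prod.fst_zero, Prod.snd_zero, s.zero, n4_zero, one_mul]

theorem pow (p : V4 × V4) (i : Fin 2) : nf N g d D e p ^ (i : ℕ) = nf N g d D e (pw p i) := by
  fin_cases i <;> simp [pw, s.one]

theorem eq {p q : V4 × V4} (h : nf N g d D e p = nf N g d D e q) : p = q := by
  have k : ∀ q : V4 × V4, mm q (co q.2 q.2 + q.1, q.2) = 0 := by decide +kernel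
  have l : ∀ p q : V4 × V4, mm p (co q.2 q.2 + q.1, q.2) = 0 → p = q := by
    rintro ⟨y, a⟩ ⟨x, b⟩ h
    have h2 : a + b = 0 := congrArg Prod.snd h
    obtain rfl : a = b := by clear h; revert a b; decide
    have h1 : y + (co a a + x) + co a a = 0 := congrArg Prod.fst h
    generalize co a a = c at h1
    obtain rfl : y = x := by clear h h2; revert y x c; decide +kernel
    rfl
  exact l p q (s.inj _ (by rw [← s.mul, h, s.mul, k, s.one]))

theorem cj {a : G} (aa : a * a = 1) {L : V4 → V4} {p1 p2 p3 p4 : V4 × V4} (h0 : ∀ y, a * N y * a = N (L y))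
    (h1 : a * g * a = nf N g d D e p1) (h2 : a * d * a = nf N g d D e p2)
    (h3 : a * D * a = nf N g d D e p3) (h4 : a * e * a = nf N g d D e p4) (p : V4 × V4) :
    a * nf N g d D e p * a = nf N g d D e (au L p1 p2 p3 p4 p) := by
  have ia : a⁻¹ = a := inv_eq_of_mul_eq_one_right aa
  have k : ∀ x, a * x * a = MulAut.conj a x := fun x => by rw [MulAut.conj_apply, ia]
  have n0 : nf N g d D e (L p.1, 0) = N (L p.1) := by rw [nf, n4_zero, mul_one]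
  rw [au, ← s.mul, ← s.mul, ← s.mul, ← s.mul, ← s.pow, ← s.pow, ← s.pow, ← s.pow, n0, ← h0, ← h1, ← h2,
    ← h3, ← h4]
  simp only [k, nf, n4, map_mul, map_pow, mul_assoc]

theorem gens : g = nf N g d D e (0, (1, 0, 0, 0)) ∧ d = nf N g d D e (0, (0, 1, 0, 0)) ∧
    D = nf N g d D e (0, (0, 0, 1, 0)) ∧ e = nf N g d D e (0, (0, 0, 0, 1)) := by
  simp [nf, n4, s.zero]

theorem fin {a b : G} (aa : a * a = 1) (bb : b * b = 1) (ab : a * b = b * a)
    (ya : ∀ y, a * N y * a = N (La y)) (yb : ∀ y, b * N y * b = N (Lh y)) {f α β : V4}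
    (f1 : f.2.1 = 0) (f2 : f.2.2.2 = 0) (ag : a * g * a = nf N g d D e ((0, 0, 1, 0), (1, 0, 0, 0)))
    (ad : a * d * a = nf N g d D e ((1, 1, 0, 0), (1, 1, 0, 0)))
    (ae : a * e * a = nf N g d D e (α, (1, 1, 1, 1)))
    (bg : b * g * b = nf N g d D e ((0, 1, 0, 1) + f, (1, 0, 0, 0))) (bd : b * d * b = D)
    (be : b * e * b = nf N g d D e (β, (1, 0, 0, 1))) :
    ∃ p q, H70.U52.Rel a b (nf N g d D e p) (nf N g d D e q) ∧
      nf N g d D e q * a * nf N g d D e q * nf N g d D e p * b * nf N g d D e p * b * a ≠ 1 := by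
  obtain ⟨g1, g2, g3, g4⟩ := s.gens
  have a2 : ∀ x, a * (a * x) = x := fun x => by rw [← mul_assoc, aa, one_mul]
  have b2 : ∀ x, b * (b * x) = x := fun x => by rw [← mul_assoc, bb, one_mul]
  have ba : ∀ x, b * (a * x) = a * (b * x) := fun x => by rw [← mul_assoc, ← ab, mul_assoc]
  have bD : b * D * b = d := by rw [← bd]; simp only [mul_assoc, b2, bb, mul_one]
  have hH : ∀ p, b * nf N g d D e p * b = nf N g d D e (Hm f β p) :=
    s.cj bb yb bg (bd.trans g3) (bD.trans g2) be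
  have aD : a * D * a = nf N g d D e (Hm f β ((1, 1, 0, 0), (1, 1, 0, 0))) := by
    rw [← hH, ← ad, ← bd]; simp only [mul_assoc, ba, ab]
  have hA : ∀ p, a * nf N g d D e p * a = nf N g d D e (Am f α β p) := s.cj aa ya ag ad aD ae
  have HH : ∀ p, Hm f β (Hm f β p) = p := fun p => s.eq (by
    rw [← hH, ← hH]; simp only [mul_assoc, b2, bb, mul_one])
  have AA : ∀ p, Am f α β (Am f α β p) = p := fun p => s.eq (by
    rw [← hA, ← hA]; simp only [mul_assoc, a2, aa, mul_one])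
  have AH : ∀ p, Am f α β (Hm f β p) = Hm f β (Am f α β p) := fun p => s.eq (by
    rw [← hA, ← hH, ← hH, ← hA]; simp only [mul_assoc, ba, ab])
  have hf : f = (1, 0, 0, 0) ∨ f = (0, 0, 1, 0) := by
    have := HH (0, (1, 0, 0, 0))
    have k : ∀ f β : V4, f.2.1 = 0 → f.2.2.2 = 0 →
        Hm f β (Hm f β (0, (1, 0, 0, 0))) = (0, (1, 0, 0, 0)) → f = (1, 0, 0, 0) ∨ f = (0, 0, 1, 0) := by
      decide +kernel
    exact k f β f1 f2 this
  obtain ⟨y, y', r1, r2, r3, r4, r5⟩ := key2 f hf β (HH _) α (AA _) (AH _)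
  refine ⟨(y, (0, 0, 0, 1)), (y', (0, 0, 1, 0)), ?_⟩
  generalize ((y, (0, 0, 0, 1)) : V4 × V4) = p at r1 r2 r3 r4 r5
  generalize ((y', (0, 0, 1, 0)) : V4 × V4) = q at r1 r2 r3 r4 r5
  replace r1 := congrArg (nf N g d D e) r1
  replace r2 := congrArg (nf N g d D e) r2
  replace r3 := congrArg (nf N g d D e) r3
  replace r4 := congrArg (nf N g d D e) r4
  replace r5 : nf N g d D e _ ≠ 1 := fun h => r5 (s.inj _ h)
  simp only [← s.mul, ← hA, ← hH, s.one] at r1 r2 r3 r4 r5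
  generalize nf N g d D e p = c at r1 r2 r3 r4 r5
  generalize nf N g d D e q = x at r1 r2 r3 r4 r5
  have ia : a⁻¹ = a := inv_eq_of_mul_eq_one_right aa
  refine ⟨⟨aa, bb, r1, ?_, ab, ?_, ?_⟩, ?_⟩
  · rw [eq_inv_mul_iff_mul_eq, ← mul_assoc, r2]
  · rw [show x⁻¹ * a * x⁻¹ * a * c * b * c * b = x⁻¹ * a * x⁻¹ * a * (c * (b * c * b)) by group, r3]
    simp only [mul_assoc, a2, inv_mul_cancel_left, inv_mul_cancel]
  · have : x⁻¹ * x⁻¹ * a * x⁻¹ * c⁻¹ * b * x * a * c * b =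
        x⁻¹ * x⁻¹ * a * x⁻¹ * c⁻¹ * a * (a * (b * x * b) * a * (b * c * b)) := by
      simp only [mul_assoc, a2, b2, ba]
    rw [this, r4]
    simp only [mul_assoc, a2, inv_mul_cancel_left, inv_mul_cancel]
  · intro h
    apply r5
    rw [← h]
    simp only [mul_assoc, a2]

end Pr

end URH

open HQ URH

variable {G : Type*} [Group G] [Finite G]

namespace Fr
variable {F : Fr G} {g d v η h θ e : G} {P : Subgroup G}

theorem UP.ur_add (b : F.UP g d v η h P θ e) (x y : V4) :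
    n4 F.z F.v1 F.u1 v x * n4 F.z F.v1 F.u1 v y = n4 F.z F.v1 F.u1 v (x + y) :=
  let ⟨h1, h2, h3, h4⟩ := F.HQm v
  (n4_add (fun _ hx => b.toUB.sqY hx) h1 h2 h3 h4 x y).symm

theorem ur_in (F : Fr G) (v : G) (y : V4) : n4 F.z F.v1 F.u1 v y ∈ F.Y v :=
  let ⟨h1, h2, h3, h4⟩ := F.HQm v
  mul_mem (mul_mem (mul_mem (pow_mem h1 _) (pow_mem h2 _)) (pow_mem h3 _)) (pow_mem h4 _)

theorem UP.ur_mem (b : F.UP g d v η h P θ e) {x : G} (hx : x ∈ F.Y v) :
    ∃ a, x = n4 F.z F.v1 F.u1 v a := by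
  induction hx using closure_induction with
  | mem x hx =>
    rcases hx with rfl | rfl | rfl | rfl
    exacts [⟨(1, 0, 0, 0), by simp [n4]⟩, ⟨(0, 1, 0, 0), by simp [n4]⟩, ⟨(0, 0, 1, 0), by simp [n4]⟩,
      ⟨(0, 0, 0, 1), by simp [n4]⟩]
  | one => exact ⟨0, (n4_zero _ _ _ _).symm⟩
  | mul x y _ _ hx hy =>
    obtain ⟨a, rfl⟩ := hx
    obtain ⟨c, rfl⟩ := hy
    exact ⟨_, b.ur_add a c⟩
  | inv x m hx => rwa [inv_eq_of_mul_eq_one_right (b.toUB.sqY m)]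

theorem UP.ur_one (b : F.UP g d v η h P θ e) {x : V4} (k : n4 F.z F.v1 F.u1 v x = 1) : x = 0 := by
  obtain ⟨i, j, l, m⟩ := x
  have h4 : m = 0 := by
    by_contra n
    obtain rfl : m = 1 := by omega
    apply b.toUB.vX
    have : v = (F.z ^ (i : ℕ) * F.v1 ^ (j : ℕ) * F.u1 ^ (l : ℕ))⁻¹ := by
      rw [eq_comm, inv_eq_iff_mul_eq_one, ← k]
      simp [n4]
    rw [this]
    exact inv_mem (mul_mem (mul_mem (pow_mem (subset_closure (by simp)) _)
      (pow_mem (subset_closure (by simp)) _)) (pow_mem (subset_closure (by simp)) _))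
  subst h4
  obtain ⟨-, h1, -, h2, h3⟩ := F.ind (a := 0) (b := j) (c := 0) (d := i) (e := l) (by
    rw [← k, n4, ((show Commute F.z F.v1 from F.zv1).pow_pow _ _).eq]
    simp)
  rw [h1, h2, h3.resolve_right b.ca.u1]
  rfl

theorem UP.ur_cc (b : F.UP g d v η h P θ e) {x y : G} (hx : x ∈ P) (hy : y ∈ F.Y v) : x * y = y * x :=
  (mem_centralizer_iff.1 (b.cen hx) y hy).symm

theorem UP.ur_pr (b : F.UP g d v η h P θ e) : Pr (n4 F.z F.v1 F.u1 v) g d (h * d * h⁻¹) e := by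
  obtain ⟨q1, q2, q3, q4⟩ := b.sqs
  obtain ⟨c1, c2, c3, c4, c5, c6⟩ := b.cms
  refine ⟨b.ur_add, n4_zero _ _ _ _, fun y => b.ur_cc b.gP (F.ur_in v y), fun y => b.ur_cc b.dP (F.ur_in v y),
    fun y => b.ur_cc b.d'P (F.ur_in v y), fun y => b.ur_cc b.eP (F.ur_in v y), by simpa [n4] using q1,
    by simpa [n4] using q2, by rw [q3]; simp [n4], by simpa [n4] using q4, by rw [c1]; simp [n4],
    by rw [c2]; simp [n4], by rw [c3]; simp [n4], by rw [c4]; simp [n4], by rw [c5]; simp [n4],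
    by rw [c6]; simp [n4], ?_⟩
  rintro ⟨y, i, j, k, l⟩ hp
  have m : n4 g d (h * d * h⁻¹) e (i, j, k, l) ∈ F.Y v := by
    rw [eq_inv_of_mul_eq_one_right hp]; exact inv_mem (F.ur_in v y)
  obtain ⟨rfl, rfl, rfl, rfl⟩ := b.indP m
  obtain rfl : y = 0 := b.ur_one (by simpa [nf, n4] using hp)
  rfl

theorem UP.ur_cj (b : F.UP g d v η h P θ e) {a : G} {L : V4 → V4} (L0 : L 0 = 0)
    (La : ∀ x y, L (x + y) = L x + L y) (h1 : a * F.z * a⁻¹ = n4 F.z F.v1 F.u1 v (L (1, 0, 0, 0)))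
    (h2 : a * F.v1 * a⁻¹ = n4 F.z F.v1 F.u1 v (L (0, 1, 0, 0)))
    (h3 : a * F.u1 * a⁻¹ = n4 F.z F.v1 F.u1 v (L (0, 0, 1, 0)))
    (h4 : a * v * a⁻¹ = n4 F.z F.v1 F.u1 v (L (0, 0, 0, 1))) (y : V4) :
    a * n4 F.z F.v1 F.u1 v y * a⁻¹ = n4 F.z F.v1 F.u1 v (L y) := by
  have k : ∀ {x y}, a * x * a⁻¹ = y → (MulAut.conj a) x = y := id
  have p : ∀ (x : V4) (i : Fin 2), i • L x = L (i • x) := fun x i => by
    fin_cases i
    · simp [L0]
    · simp
  change (MulAut.conj a) _ = _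
  conv_lhs => rw [n4]
  rw [map_mul, map_mul, map_mul, map_pow, map_pow, map_pow, map_pow, k h1, k h2, k h3, k h4, np, np, np, np,
    b.ur_add, b.ur_add, b.ur_add, p, p, p, p, ← La, ← La, ← La]
  congr 2
  revert y
  decide

theorem UP.rel (b : F.UP g d v η h P θ e) : ∃ a b' c d', a ∈ (P ⊔ closure {F.v2, h} : Subgroup G) ∧
    b' ∈ (P ⊔ closure {F.v2, h} : Subgroup G) ∧ c ∈ (P ⊔ closure {F.v2, h} : Subgroup G) ∧
    d' ∈ (P ⊔ closure {F.v2, h} : Subgroup G) ∧ H70.U52.Rel a b' c d' ∧ d' * a * d' * c * b' * c * b' * a ≠ 1 := by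
  have s := b.ur_pr
  have R := b.toUB.hcR
  obtain ⟨zY, v1Y, uY, vY⟩ := F.HQm v
  obtain ⟨k1, k2⟩ := b.acts
  have iv : F.v2⁻¹ = F.v2 := inv_eq_of_mul_eq_one_right F.v22
  have hh : h * h = F.z * F.u1 := b.toUB.hc_hh
  have ee : h * F.z * (h * F.z) = 1 := by
    rw [show h * F.z * (h * F.z) = h * F.z * h⁻¹ * (h * h) * F.z by group, b.hz, hh, F.zu1, ← mul_assoc,
      F.u11, one_mul, F.zz]
  have ve : F.v2 * (h * F.z) = h * F.z * F.v2 := by
    rw [← mul_assoc, ← b.hv2, mul_assoc, mul_assoc, F.B1zv2]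
  have bP : ∀ x ∈ P, h * F.z * x * (h * F.z) = h * x * h⁻¹ := fun x hx => by
    nth_rw 2 [← inv_eq_of_mul_eq_one_right ee]
    rw [mul_assoc h, ← b.ur_cc hx zY]
    group
  have v2c : ∀ {x y}, F.v2 * x = y * F.v2 → F.v2 * x * F.v2 = y := fun k => by
    rw [k, mul_assoc, F.v22, mul_one]
  have ya : ∀ y, F.v2 * n4 F.z F.v1 F.u1 v y * F.v2 = n4 F.z F.v1 F.u1 v (La y) := fun y => by
    have := b.ur_cj (a := F.v2) (L := La) (by decide) (by decide +kernel)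
      (by rw [iv, v2c R.v2z]; simp [n4, La]) (by rw [iv, v2c (R.v2v1.trans (mul_assoc _ _ _).symm)]; simp [n4, La])
      (by rw [iv, v2c R.v2u]; simp [n4, La]) (by rw [iv, v2c (R.v2v.trans (mul_assoc _ _ _).symm)]; simp [n4, La]) y
    rwa [iv] at this
  have yb : ∀ y, h * F.z * n4 F.z F.v1 F.u1 v y * (h * F.z) = n4 F.z F.v1 F.u1 v (Lh y) := fun y => by
    rw [bP _ (b.YP (F.ur_in v y))]
    exact b.ur_cj (L := Lh) (by decide) (by decide +kernel)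
      (by rw [b.hz]; simp [n4, Lh]) (by rw [b.hv, R.vz]; simp [n4, Lh])
      (by rw [b.hu]; simp [n4, Lh]) (by rw [b.toUB.hv']; simp [n4, Lh]) y
  obtain ⟨β, hβ⟩ := b.ur_mem k1
  obtain ⟨α, hα⟩ := b.ur_mem k2
  obtain ⟨f, f1, f2, hf⟩ : ∃ f : V4, f.2.1 = 0 ∧ f.2.2.2 = 0 ∧
      (g * v * F.v1)⁻¹ * (h * g * h⁻¹) = n4 F.z F.v1 F.u1 v f := by
    rcases F.memF0.1 b.hg with k | k | k | k <;> rw [k]
    exacts [⟨(0, 0, 0, 0), rfl, rfl, by simp [n4]⟩, ⟨(1, 0, 0, 0), rfl, rfl, by simp [n4]⟩,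
      ⟨(0, 0, 1, 0), rfl, rfl, by simp [n4]⟩, ⟨(1, 0, 1, 0), rfl, rfl, by simp [n4]⟩]
  obtain ⟨p, q, r1, r2⟩ := s.fin F.v22 ee ve ya yb (α := α) (β := β) f1 f2
    (by rw [v2c (R.v2g.trans (mul_assoc _ _ _).symm)]; simp [nf, n4])
    (by
      rw [v2c (y := F.z * F.v1 * (g * d)) (by rw [R.v2d]; simp only [mul_assoc])]
      simp [nf, n4])
    (by
      rw [nf, show n4 g d (h * d * h⁻¹) e (1, 1, 1, 1) = g * d * (h * d * h⁻¹) * e by
          simp only [n4, Fin.val_one, pow_one],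
        ← b.ur_cc (mul_mem (mul_mem (mul_mem b.gP b.dP) b.d'P) b.eP) (F.ur_in v _), ← hα,
        mul_inv_cancel_left])
    (by
      rw [bP _ b.gP, nf, ← b.ur_add, show n4 g d (h * d * h⁻¹) e (1, 0, 0, 0) = g by simp [n4],
        ← b.ur_cc b.gP (mul_mem (F.ur_in v _) (F.ur_in v _)), ← hf,
        show n4 F.z F.v1 F.u1 v (0, 1, 0, 1) = v * F.v1 by rw [R.vv1]; simp [n4]]
      group)
    (bP _ b.dP)
    (by
      rw [bP _ b.eP, nf, show n4 g d (h * d * h⁻¹) e (1, 0, 0, 1) = g * e by simp [n4],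
        ← b.ur_cc (mul_mem b.gP b.eP) (F.ur_in v _), ← hβ, mul_inv_cancel_left])
  have mP : ∀ p, nf (n4 F.z F.v1 F.u1 v) g d (h * d * h⁻¹) e p ∈ (P ⊔ closure {F.v2, h} : Subgroup G) :=
    fun p => mem_sup_left (mul_mem (b.YP (F.ur_in v _)) (mul_mem (mul_mem (mul_mem (pow_mem b.gP _)
      (pow_mem b.dP _)) (pow_mem b.d'P _)) (pow_mem b.eP _)))
  exact ⟨_, _, _, _, mem_sup_right (subset_closure (by simp)),
    mul_mem (mem_sup_right (subset_closure (by simp))) (mem_sup_left (b.YP zY)), mP p, mP q, r1, r2⟩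

end Fr

end H60M.A7
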