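import Mathlib
import Cfsg.Agent.Lib.B6S.Y1

/-! Type `ZZ` in case `IIa`: the group `N(R) ∩ C(V1)`. -/

set_option autoImplicit false
set_option linter.unusedSectionVars false
set_option linter.unusedSimpArgs false

namespace H60M.A6

open Subgroup H69 H36.SW H60M.A7

variable {G : Type*} [Group G] [Finite G]

namespace Fr
variable {F : Fr G} {u0 g g' v d1 d2 η η1 η2 κ k a b γ : G}

theorem y4_gK (F : Fr G) (g d : G) : g ∈ F.K4 g d := subset_closure (by simp)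
theorem y4_dK (F : Fr G) (g d : G) : d ∈ F.K4 g d := subset_closure (by simp)

theorem ZZ.y4_nv (h : F.ZZ 1 g g' 1 1 d1 d2 η1 η2) (c : F.IIa) (m : G)
    (hm : m ∈ closure ({g, 1, F.u1} : Set G)) (o : F.Om (F.t * m)) : m ∈ closure ({g, 1} : Set G) :=
  let ⟨_, hρ⟩ := h.rho
  h.nv hρ (fun _ => ⟨c.n3, c.n4⟩) hm o

theorem ZZ.y4_X (h : F.ZZ 1 g g' 1 1 d1 d2 η1 η2) {n w : G} (hn : n ∈ 𝐍(F.R g 1 d1)) (hw : w ∈ F.X1) :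
    n * w * n⁻¹ ∈ F.X1 :=
  (h.sq (conj_mem_of_mem_normalizer hn (h.XR hw))).2.1 (cjsq (F.sqW1 (F.X1W1 hw)) _)

theorem ZZ.y4_ηK (h : F.ZZ 1 g g' 1 1 d1 d2 η1 η2) : η1 ∈ 𝐍(F.K4 g d1) := ZA.nrm (by
  rintro _ (rfl | rfl)
  · exact h.η1g ▸ F.y4_dK _ _
  · exact h.η1d ▸ inv_mem (mul_mem (F.y4_gK _ _) (F.y4_dK _ _)))

theorem ZZ.y4_A (h : F.ZZ 1 g g' 1 1 d1 d2 η1 η2) (c : F.IIa) {w m : G} (hw : w ∈ F.X1)
    (hm : m ∈ closure ({g, 1, F.u1} : Set G)) (o : F.Om (F.t * (w * m))) : w * m ∈ F.K4 g d1 := by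
  have l : closure ({g, 1} : Set G) ≤ F.K4 g d1 := (closure_le _).2 (by
    rintro _ (rfl | rfl)
    exacts [F.y4_gK _ _, one_mem _])
  obtain ⟨i, j, k, rfl⟩ := F.memX1.1 hw
  have f : F.z ^ (j : ℕ) * F.u1 ^ (k : ℕ) * m ∈ closure ({g, 1, F.u1} : Set G) :=
    mul_mem (h.zaF (mul_mem (pow_mem (subset_closure (by simp)) _) (pow_mem (subset_closure (by simp)) _))) hm
  rw [mul_assoc (F.v1 ^ (i : ℕ)), mul_assoc (F.v1 ^ (i : ℕ))] at o ⊢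
  generalize F.z ^ (j : ℕ) * F.u1 ^ (k : ℕ) * m = x at f o ⊢
  fin_cases i
  · simp only [Fin.zero_eta, Fin.val_zero, pow_zero, one_mul] at o ⊢
    exact l (h.y4_nv c x f o)
  · simp only [Fin.mk_one, Fin.val_one, pow_one] at o ⊢
    refine mul_mem (h.d11 ▸ mul_mem (F.y4_dK _ _) (F.y4_dK _ _)) (l (h.y4_nv c x f (Om.of_cj d1 ?_)))
    have e : d1 * (F.t * x) * d1⁻¹ = F.t * (F.v1 * x) := by
      rw [B2.cj_mul, h.zat h.zad, h.d11, B2.cj_of_comm (h.zac h.zad (h.MR f)), mul_assoc]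
    rwa [e]

theorem ZZ.omK (h : F.ZZ 1 g g' 1 1 d1 d2 η1 η2) (c : F.IIa) {e : G} (he : e ∈ F.R g 1 d1) (o : F.Om (F.t * e)) : e ∈ F.K4 g d1 := by
  have gM : g ∈ closure ({g, 1, F.u1} : Set G) := subset_closure (by simp)
  obtain ⟨w, hw, i, j, k, rfl⟩ := h.memR.1 he
  rw [one_pow, mul_one] at o ⊢
  fin_cases j
  · simp only [Fin.zero_eta, Fin.val_zero, pow_zero, mul_one] at o ⊢
    exact h.y4_A c hw (pow_mem gM _) o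
  · simp only [Fin.mk_one, Fin.val_one, pow_one] at o ⊢
    fin_cases i
    · simp only [Fin.zero_eta, Fin.val_zero, pow_zero, mul_one] at o ⊢
      have e : η1 * (η1⁻¹ * w * η1⁻¹⁻¹ * g) * η1⁻¹ = w * d1 := by rw [← h.η1g]; group
      rw [← e]
      refine conj_mem_of_mem_normalizer h.y4_ηK (h.y4_A c (h.y4_X (inv_mem h.ηN) hw) gM (Om.of_cj η1 ?_))
      rwa [B2.cj_mul, e, B2.cj_of_comm h.η1t]
    · simp only [Fin.mk_one, Fin.val_one, pow_one] at o ⊢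
      have e : η1 * (w * g * d1) * η1⁻¹ = η1 * w * η1⁻¹ * g⁻¹ := by
        rw [B2.cj_mul, B2.cj_mul, h.η1g, h.η1d]; group
      have m := h.y4_A c (h.y4_X h.ηN hw) (inv_mem gM) (by
        have := o.cj η1
        rwa [B2.cj_mul, e, B2.cj_of_comm h.η1t] at this)
      rw [← e] at m
      simpa [mul_assoc] using conj_mem_of_mem_normalizer' h.y4_ηK m

/-- the elements of `N(R)` that normalise `Q` and centralise `V1` -/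
def y4_C (F : Fr G) (g d : G) : Subgroup G :=
  𝐍(F.R g 1 d) ⊓ (𝐍((F.R g 1 d ⊔ zpowers F.t : Subgroup G)) ⊓ 𝐂(F.V1))

theorem y4_nC {n : G} (h1 : n ∈ 𝐍(F.R g 1 d1)) (h2 : n * F.t = F.t * n) (h3 : n ∈ 𝐍(F.V1)) :
    n ∈ 𝐍((F.R g 1 d1 ⊔ zpowers F.t : Subgroup G)) ∧ n ∈ 𝐍(F.y4_C g d1) := by
  have q : n ∈ 𝐍((F.R g 1 d1 ⊔ zpowers F.t : Subgroup G)) := by
    refine cj_eq_self_iff.1 ?_
    rw [cj_sup, cj_eq_of_mem_normalizer h1, cj_zpowers, h2, mul_inv_cancel_right]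
  refine ⟨q, cj_eq_self_iff.1 ?_⟩
  rw [y4_C, cj_inf, cj_inf, cj_normalizer, cj_normalizer, cj_centralizer, cj_eq_of_mem_normalizer h1,
    cj_eq_of_mem_normalizer q, cj_eq_of_mem_normalizer h3]

theorem ZZ.y4_sqK (h : F.ZZ 1 g g' 1 1 d1 d2 η1 η2) {e : G} (he : e ∈ F.K4 g d1) : e * e ∈ F.V1 := by
  have l : F.K4 g d1 ≤ F.R g 1 d1 := (closure_le _).2 (Set.pair_subset h.zaG h.zad)
  induction he using closure_induction with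
  | mem x hx =>
    rcases hx with rfl | rfl
    exacts [h.gg ▸ F.b2_zV, h.d11 ▸ F.b2_vV]
  | one => simp
  | mul x y hx hy a b => rw [ZA.mm (h.zac (l hx) (l hy))]; exact mul_mem a b
  | inv x _ a => rw [← mul_inv_rev]; exact inv_mem a

theorem ZZ.y4_ex (h : F.ZZ 1 g g' 1 1 d1 d2 η1 η2) (c : F.IIa) {n : G} (hn : n ∈ F.y4_C g d1) :
    ∃ s ∈ F.V1, ZC.Pt (F.R g 1 d1) F.t n s := by
  have tQ : F.t ∈ F.R g 1 d1 ⊔ zpowers F.t := mem_sup_right (mem_zpowers _)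
  rcases ZD.memQ h (conj_mem_of_mem_normalizer hn.2.1 tQ) with m | ⟨e, he, m⟩
  · have m' := conj_mem_of_mem_normalizer' hn.1 m
    rw [show n⁻¹ * (n * F.t * n⁻¹) * n = F.t by group] at m'
    exact (F.tX1 ((h.sq m').2.1 F.tt)).elim
  · rw [h.ze_ti he] at m
    exact ⟨_, h.y4_sqK (h.omK c (inv_mem he) ⟨n, m⟩), hn.1, _, inv_mem he, m, rfl⟩

theorem ZZ.y4_mul (h : F.ZZ 1 g g' 1 1 d1 d2 η1 η2) {n m s s' : G} (hn : n ∈ 𝐂(F.V1)) (hs : s' ∈ F.V1)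
    (p : ZC.Pt (F.R g 1 d1) F.t n s) (q : ZC.Pt (F.R g 1 d1) F.t m s') :
    ZC.Pt (F.R g 1 d1) F.t (n * m) (s * s') :=
  (p.mul h.ab q).cg (by rw [ZC.kfix (hn _ hs).symm])

theorem ZZ.y4_inv (h : F.ZZ 1 g g' 1 1 d1 d2 η1 η2) {n s : G} (hn : n ∈ 𝐂(F.V1)) (hs : s ∈ F.V1)
    (p : ZC.Pt (F.R g 1 d1) F.t n s) : ZC.Pt (F.R g 1 d1) F.t n⁻¹ s :=
  (p.inv h.ab).cg (by
    rw [ZC.kfix (inv_mem hn _ hs).symm, inv_eq_of_mul_eq_one_right (F.sqW1 (F.X1W1 (F.V1X1 hs)))])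

theorem ZZ.y4_pow (h : F.ZZ 1 g g' 1 1 d1 d2 η1 η2) {n s : G} (hn : n ∈ 𝐂(F.V1)) (hs : s ∈ F.V1)
    (p : ZC.Pt (F.R g 1 d1) F.t n s) (i : ℕ) : ZC.Pt (F.R g 1 d1) F.t (n ^ i) (s ^ i) := by
  induction i with
  | zero => simpa using ZC.Pt.one (one_mem _) (by simp)
  | succ i ih => rw [pow_succ, pow_succ]; exact h.y4_mul (pow_mem hn _) hs ih p

theorem ZZ.y4_SP (h : F.ZZ 1 g g' 1 1 d1 d2 η1 η2) {n : G} (hn : n ∈ 𝐂(F.V1))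
    (p : ZC.Pt (F.R g 1 d1) F.t n 1) : ∃ q ∈ F.R g 1 d1 ⊔ zpowers F.t,
      ∃ o ∈ 𝐂((F.R g 1 d1 ⊔ zpowers F.t : Subgroup G)), Odd (orderOf o) ∧ n = q * o :=
  let ⟨_, he, e1, e2⟩ := p.ex; h.SP' p.nm he e1 e2 hn

theorem ZZ.y4_QC (h : F.ZZ 1 g g' 1 1 d1 d2 η1 η2) : F.R g 1 d1 ⊔ zpowers F.t ≤ F.y4_C g d1 :=
  le_inf (sup_le le_normalizer (zpowers_le.2 h.zatN))
    (le_inf le_normalizer ((ZD.QX h).trans (centralizer_anti F.V1X1)))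

theorem ZZ.y4_P (h : F.ZZ 1 g g' 1 1 d1 d2 η1 η2) (c : F.IIa) : ∃ P O : Subgroup G, IsPGroup 2 P ∧
    F.R g 1 d1 ⊔ zpowers F.t ≤ P ∧ P ≤ F.y4_C g d1 ∧ F.v2 ∈ 𝐍(P) ∧
    (∀ o, o ∈ O ↔ o ∈ 𝐂((F.R g 1 d1 ⊔ zpowers F.t : Subgroup G)) ∧ Odd (orderOf o)) ∧ P ≤ 𝐍(O) ∧
    F.y4_C g d1 ≤ P ⊔ O := by
  obtain ⟨O, hO, -, -⟩ := F.exO1
  have tQ : F.t ∈ F.R g 1 d1 ⊔ zpowers F.t := mem_sup_right (mem_zpowers _)
  have WQ : F.W1 ≤ F.R g 1 d1 ⊔ zpowers F.t := fun x hx => (F.memW1'.1 hx).elim (fun a => mem_sup_left (h.XR a))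
    fun a => (mul_mem_cancel_left tQ).1 (mem_sup_left (h.XR a))
  have mO : ∀ x, x ∈ O ⊓ 𝐂((F.R g 1 d1 ⊔ zpowers F.t : Subgroup G)) ↔
      x ∈ 𝐂((F.R g 1 d1 ⊔ zpowers F.t : Subgroup G)) ∧ Odd (orderOf x) := fun x =>
    ⟨fun a => ⟨a.2, ((hO x).1 a.1).2⟩, fun a => ⟨(hO x).2 ⟨centralizer_le WQ a.1, a.2⟩, a.1⟩⟩
  have vV : F.v2 ∈ 𝐍(F.V1) := ZA.nrm (by
    rintro _ (rfl | rfl)
    · rw [B2.cj_of_comm F.B1zv2.symm]; exact F.b2_zV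
    · rw [F.b2_v2v]; exact mul_mem F.b2_zV F.b2_vV)
  obtain ⟨vQ, vC⟩ := y4_nC h.v2N F.tv2.symm vV
  obtain ⟨S, hS, le⟩ := exists_isSylowIn_le (isP_sup (ZD.isQ h) (P2.of_sq F.v22) vQ)
    (sup_le_sup_right h.y4_QC (zpowers F.v2))
  have vS : F.v2 ∈ S := le (mem_sup_right (mem_zpowers _))
  have QP : F.R g 1 d1 ⊔ zpowers F.t ≤ S ⊓ F.y4_C g d1 := le_inf (le_sup_left.trans le) h.y4_QC
  refine ⟨S ⊓ F.y4_C g d1, _, hS.isP.to_le inf_le_left, QP, inf_le_right, cj_eq_self_iff.1 (by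
    rw [cj_inf, cj_eq_of_mem_normalizer (le_normalizer vS), cj_eq_of_mem_normalizer vC]), mO,
    fun x hx => b2_normO mO hx.2.2.1, fun x hx => ?_⟩
  obtain ⟨n, hn, p2⟩ := exists_odd_P2 x
  obtain ⟨k, hk, e⟩ := hS.exists_cj_le p2.zpowers (zpowers_le.2 (mem_sup_left (pow_mem hx n)))
  obtain ⟨y, hy, i, rfl⟩ := ZA.adjL vC (F.v22 ▸ one_mem _) hk
  have m : y * x ^ n * y⁻¹ ∈ S := by
    have := conj_mem_of_mem_normalizer' (le_normalizer (pow_mem vS i)) (e (cj_mem _ (mem_zpowers _)))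
    simpa [mul_assoc] using this
  have mC : y * x ^ n * y⁻¹ ∈ F.y4_C g d1 := mul_mem (mul_mem hy (pow_mem hx n)) (inv_mem hy)
  obtain ⟨s, hs, px⟩ := h.y4_ex c hx
  obtain ⟨s', hs', py⟩ := h.y4_ex c hy
  have ss := F.sqW1 (F.X1W1 (F.V1X1 hs))
  have p1 := (h.y4_pow hx.2.2 hs px n).cg (pow_odd_of_sq ss hn)
  have p3 := h.y4_mul (mul_mem hy.2.2 (pow_mem hx.2.2 n)) hs' (h.y4_mul hy.2.2 hs py p1) (h.y4_inv hy.2.2 hs' py)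
  have e3 : s' * s * s' = s := by
    rw [comm_of_sq (fun _ => F.sqW1) (F.X1W1 (F.V1X1 hs')) (F.X1W1 (F.V1X1 hs)), mul_assoc,
      F.sqW1 (F.X1W1 (F.V1X1 hs')), mul_one]
  have p4 := (h.y4_mul (inv_mem mC.2.2) hs (h.y4_inv mC.2.2 hs (p3.cg e3)) px).cg ss
  obtain ⟨q, hq, o, ho, oo, eo⟩ := h.y4_SP (mul_mem (inv_mem mC.2.2) hx.2.2) p4
  rw [inv_mul_eq_iff_eq_mul] at eo
  rw [eo]
  exact mul_mem (mem_sup_left ⟨m, mC⟩) (mul_mem (mem_sup_left (QP hq)) (mem_sup_right ((mO o).2 ⟨ho, oo⟩)))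

theorem ZZ.y4_tw (h : F.ZZ 1 g g' 1 1 d1 d2 η1 η2) {o : G}
    (ho : o ∈ 𝐂((F.R g 1 d1 ⊔ zpowers F.t : Subgroup G))) : F.ZZ 1 g g' 1 1 d1 d2 (o * η1) η2 := by
  have k : ∀ x ∈ F.R g 1 d1 ⊔ zpowers F.t, ∀ y, η1 * y * η1⁻¹ = x → o * η1 * y * (o * η1)⁻¹ = x := fun x hx y e => by
    calc _ = o * (η1 * y * η1⁻¹) * o⁻¹ := by group
      _ = _ := by rw [e, B2.cj_of_comm (ho x hx).symm]
  exact { h with
    η1t := B2.comm_of_cj (k _ (mem_sup_right (mem_zpowers _)) _ (B2.cj_of_comm h.η1t))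
    η1u := B2.comm_of_cj (k _ (mem_sup_left (h.XR F.b2_uX)) _ (B2.cj_of_comm h.η1u))
    η1r := by simp
    η1g := k _ (mem_sup_left h.zad) _ h.η1g
    η1d := k _ (mem_sup_left (inv_mem (mul_mem h.zaG h.zad))) _ h.η1d }

theorem ZZ.y4_ηC (h : F.ZZ 1 g g' 1 1 d1 d2 η1 η2) : η1 ∈ 𝐍(F.y4_C g d1) :=
  (y4_nC h.ηN h.η1t (ZC.SP1 h (ZC.eta h).1).2).2

theorem ZZ.zq (h : F.ZZ 1 g g' 1 1 d1 d2 η1 η2) (c : F.IIa) : ∃ η1 a b, F.ZQ g g' d1 d2 η1 η2 a b := by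
  obtain ⟨ρ, hρ⟩ := h.rho
  obtain ⟨f0, n1, n2, e, he, e1, e2⟩ := h.exf hρ
  obtain ⟨-, f, fR, fV, fK, ft, fu⟩ := h.eps' n1 n2 he e1 e2 (h.kill (h.y4_nv c) n1 n2 he e1 e2).2
  obtain ⟨P, O, hP, QP, PC, vP, mO, PO, CP⟩ := h.y4_P c
  have tQ : F.t ∈ F.R g 1 d1 ⊔ zpowers F.t := mem_sup_right (mem_zpowers _)
  have fC : f ∈ F.y4_C g d1 := ⟨fR, ⟨mem_normalizer_of_cj_le (by
    rw [cj_sup, cj_eq_of_mem_normalizer fR, cj_zpowers, ft]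
    exact sup_le le_sup_left (zpowers_le.2 (mul_mem tQ (mem_sup_left h.zaG)))), fV⟩⟩
  obtain ⟨a, ha, o, ho, rfl⟩ := (mem_sup_of_le_normalizer_right PO).1 (CP fC)
  have oQ := ((mO o).1 ho).1
  have ka : ∀ x ∈ F.R g 1 d1 ⊔ zpowers F.t, a * o * x * (a * o)⁻¹ = a * x * a⁻¹ := fun x hx => by
    calc _ = a * (o * x * o⁻¹) * a⁻¹ := by group
      _ = _ := by rw [B2.cj_of_comm (oQ x hx).symm]
  rw [ka _ tQ] at ft
  rw [ka _ (mem_sup_left (h.XR F.b2_uX))] at fu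
  have KQ : F.K4 g d1 ≤ F.R g 1 d1 ⊔ zpowers F.t :=
    le_trans ((closure_le _).2 (Set.pair_subset h.zaG h.zad)) le_sup_left
  have aK : a ∈ 𝐍(F.K4 g d1) :=
    (mul_mem_cancel_right (centralizer_le_normalizer _ (centralizer_anti KQ oQ))).1 fK
  obtain ⟨o', ho', hη⟩ := frat_odd (g := η1) hP (fun o ho => ((mO o).1 ho).2) PO
    (le_trans (le_trans (cj_mono η1 PC) (cj_eq_of_mem_normalizer h.y4_ηC).le) CP)
  have h' := h.y4_tw ((mO o').1 ho').1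
  generalize o' * η1 = η at hη h'
  have hb : η * a * η⁻¹ ∈ P := conj_mem_of_mem_normalizer hη ha
  have bt : η * a * η⁻¹ * F.t * (η * a * η⁻¹)⁻¹ = F.t * d1 := by
    calc _ = η * a * η⁻¹ * (η * F.t * η⁻¹) * (η * a * η⁻¹)⁻¹ := by rw [B2.cj_of_comm h'.η1t]
      _ = η * (a * F.t * a⁻¹) * η⁻¹ := by group
      _ = _ := by rw [ft, B2.cj_mul, h'.η1g, B2.cj_of_comm h'.η1t]
  obtain ⟨b, eb⟩ : ∃ b, η * a * η⁻¹ = b := ⟨_, rfl⟩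
  rw [eb] at hb bt
  have pa : ZC.Pt (F.R g 1 d1) F.t a F.z := ⟨(PC ha).1, g, h.zaG, ft, h.gg⟩
  have pb : ZC.Pt (F.R g 1 d1) F.t b F.v1 := ⟨(PC hb).1, d1, h.zad, bt, h.d11⟩
  have QPP : F.R g 1 d1 ⊔ zpowers F.t ≤ F.PP g d1 a b := sup_le ((closure_le _).2 (by
    rintro _ (rfl | rfl | rfl | rfl)
    exacts [subset_closure (by simp), subset_closure (by simp), one_mem _, subset_closure (by simp)]))
    (zpowers_le.2 (subset_closure (by simp)))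
  have PPP : F.PP g d1 a b ≤ P := (closure_le _).2 (by
    rintro _ (rfl | rfl | rfl | rfl | rfl | rfl)
    exacts [QP (mem_sup_left h.zaG), QP (mem_sup_left h.zad), ha, hb, QP tQ, QP (mem_sup_left (h.XR F.b2_uX))])
  have aP : a ∈ F.PP g d1 a b := subset_closure (by simp)
  have bP : b ∈ F.PP g d1 a b := subset_closure (by simp)
  have eP : F.PP g d1 a b = P := le_antisymm PPP fun x hx => by
    obtain ⟨s, hs, px⟩ := h.y4_ex c (PC hx)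
    obtain ⟨y, hy, py⟩ : ∃ y ∈ F.PP g d1 a b, ZC.Pt (F.R g 1 d1) F.t y s := by
      rcases F.memV1.1 hs with rfl | rfl | rfl | rfl
      exacts [⟨1, one_mem _, ZC.Pt.one (one_mem _) (by simp)⟩, ⟨a, aP, pa⟩, ⟨b, bP, pb⟩,
        ⟨a * b, mul_mem aP bP, h.y4_mul (PC ha).2.2 F.b2_vV pa pb⟩]
    have yx := mul_mem (PPP hy) hx
    obtain ⟨q, hq, o, -, oo, eo⟩ := h.y4_SP (PC yx).2.2
      ((h.y4_mul (PC (PPP hy)).2.2 hs py px).cg (F.sqW1 (F.X1W1 (F.V1X1 hs))))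
    rw [eo] at yx
    rw [(P2.of_mem hP ((mul_mem_cancel_left (QP hq)).1 yx)).eq_one oo, mul_one] at eo
    exact (mul_mem_cancel_left hy).1 (eo ▸ QPP hq)
  exact ⟨η, a, b, h', c, (PC ha).2.2, aK, ft, fu, eb, eP ▸ hP, eP ▸ hη, eP ▸ vP⟩

end Fr

end H60M.A6
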