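import Mathlib
import Cfsg.Agent.Lib.B6S.HD

/-! Normal forms for `ZP`. -/

set_option autoImplicit false
set_option linter.unusedSectionVars false
set_option linter.unusedVariables false

namespace H60M.A6

open Subgroup H69 H36.SW H60M.A7

variable {G : Type*} [Group G] [Finite G]

namespace Y6
variable {F : Fr G} {g g' d1 d2 η1 η2 a b : G}

theorem cl_snoc (s : Set G) (x : G) : closure (s ∪ {x}) = closure s ⊔ zpowers x := by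
  rw [Subgroup.closure_union, zpowers_eq_closure]

theorem peel {P : Subgroup G} {x y : G} (hx : x ∉ P) (hy : y ∈ P) {i : Fin 2}
    (h : y * x ^ (i : ℕ) ∈ P) : i = 0 := by
  fin_cases i
  · rfl
  · exact absurd ((mul_mem_cancel_left hy).1 (by simpa using h)) hx

theorem cjN {P : Subgroup G} {n x : G} (hn : n ∈ 𝐍(P)) (hx : x ∈ P) : n * x * n⁻¹ ∈ P :=
  (mem_normalizer_iff.1 hn x).1 hx

theorem cjc {x y : G} (h : x * y = y * x) : x * y * x⁻¹ = y := by rw [h, mul_inv_cancel_right]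

theorem nrm_sup {P : Subgroup G} {n x : G} (hn : n ∈ 𝐍(P)) (hx : n * x * n⁻¹ ∈ P ⊔ zpowers x) :
    n ∈ 𝐍((P ⊔ zpowers x : Subgroup G)) := by
  have e : P ⊔ zpowers x = closure ((P : Set G) ∪ {x}) := by rw [cl_snoc, closure_eq]
  rw [e]
  refine B2.norm_gen ?_
  rw [← e]
  rintro y (hy | rfl)
  · exact mem_sup_left (cjN hn hy)
  · exact hx

theorem eA (F : Fr G) (g d a b : G) : F.AA g d a b = F.K4 g d ⊔ zpowers a ⊔ zpowers b := by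
  rw [Fr.K4, ← cl_snoc, ← cl_snoc, Fr.AA]
  congr 1
  ext x
  simp only [Set.mem_insert_iff, Set.mem_singleton_iff, Set.mem_union]
  tauto

theorem eM0 (F : Fr G) (g d a b : G) : F.M0 g d a b = F.AA g d a b ⊔ zpowers F.t := by
  rw [Fr.AA, ← cl_snoc, Fr.M0]
  congr 1
  ext x
  simp only [Set.mem_insert_iff, Set.mem_singleton_iff, Set.mem_union]
  tauto

theorem eM1 (F : Fr G) (g d a b : G) : F.M1 g d a b = F.M0 g d a b ⊔ zpowers F.v2 := by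
  rw [Fr.M0, ← cl_snoc, Fr.M1]
  congr 1
  ext x
  simp only [Set.mem_insert_iff, Set.mem_singleton_iff, Set.mem_union]
  tauto

theorem eP (F : Fr G) (g d a b : G) : F.PP g d a b = F.M0 g d a b ⊔ zpowers F.u1 := by
  rw [Fr.M0, ← cl_snoc, Fr.PP]
  congr 1
  ext x
  simp only [Set.mem_insert_iff, Set.mem_singleton_iff, Set.mem_union]
  tauto

theorem eS (F : Fr G) (g d a b : G) : F.SP g d a b = F.PP g d a b ⊔ zpowers F.v2 := by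
  rw [Fr.PP, ← cl_snoc, Fr.SP]
  congr 1
  ext x
  simp only [Set.mem_insert_iff, Set.mem_singleton_iff, Set.mem_union]
  tauto

theorem eS' (F : Fr G) (g d a b : G) : F.SP g d a b = F.M1 g d a b ⊔ zpowers F.u1 := by
  rw [Fr.M1, ← cl_snoc, Fr.SP]
  congr 1
  ext x
  simp only [Set.mem_insert_iff, Set.mem_singleton_iff, Set.mem_union]
  tauto

theorem gK (F : Fr G) (g d : G) : g ∈ F.K4 g d := subset_closure (by simp)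
theorem dK (F : Fr G) (g d : G) : d ∈ F.K4 g d := subset_closure (by simp)
theorem KA (F : Fr G) (g d a b : G) : F.K4 g d ≤ F.AA g d a b := by
  rw [eA]; exact le_sup_left.trans le_sup_left
theorem aA (F : Fr G) (g d a b : G) : a ∈ F.AA g d a b := subset_closure (by simp)
theorem bA (F : Fr G) (g d a b : G) : b ∈ F.AA g d a b := subset_closure (by simp)
theorem AM (F : Fr G) (g d a b : G) : F.AA g d a b ≤ F.M0 g d a b := by rw [eM0]; exact le_sup_left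
theorem tM (F : Fr G) (g d a b : G) : F.t ∈ F.M0 g d a b := subset_closure (by simp)
theorem MP (F : Fr G) (g d a b : G) : F.M0 g d a b ≤ F.PP g d a b := by rw [eP]; exact le_sup_left
theorem uP (F : Fr G) (g d a b : G) : F.u1 ∈ F.PP g d a b := subset_closure (by simp)
theorem PS (F : Fr G) (g d a b : G) : F.PP g d a b ≤ F.SP g d a b := by rw [eS]; exact le_sup_left
theorem vS (F : Fr G) (g d a b : G) : F.v2 ∈ F.SP g d a b := subset_closure (by simp)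
theorem ti (F : Fr G) : F.t⁻¹ = F.t := B1.iv' F.tt
theorem ui (F : Fr G) : F.u1⁻¹ = F.u1 := B1.iv' F.u11
theorem zi (F : Fr G) : F.z⁻¹ = F.z := B1.iv' F.zz
theorem KR (F : Fr G) (g d : G) : F.K4 g d ≤ F.R g 1 d :=
  closure_mono (by rintro _ (rfl | rfl) <;> simp)
theorem uR (F : Fr G) (g d : G) : F.u1 ∈ F.R g 1 d := subset_closure (by simp)

theorem cardV (F : Fr G) : Nat.card F.V1 = 4 := by
  have e : F.V1 = ⊥ ⊔ zpowers F.z ⊔ zpowers F.v1 := by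
    rw [bot_sup_eq, zpowers_eq_closure F.z, ← cl_snoc]
    rfl
  have n0 : F.z ∈ 𝐍((⊥ : Subgroup G)) := by rw [normalizer_eq_top]; trivial
  have s0 : F.z * F.z ∈ (⊥ : Subgroup G) := by rw [F.zz]; exact one_mem _
  have n1 : F.v1 ∈ 𝐍((⊥ ⊔ zpowers F.z : Subgroup G)) :=
    nrm_sup (by rw [normalizer_eq_top]; trivial) (by rw [cjc F.zv1.symm]; exact ZA.zr _ _)
  rw [e, card_adj n1 (by rw [F.v11]; exact one_mem _), card_adj n0 s0 F.z1, card_bot]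
  intro h
  rcases (mem_adj n0 s0).1 h with h | h
  · exact F.b2_v1 h
  · exact F.b2_vz (mul_inv_eq_one.1 h)

variable (h : F.ZP g g' d1 d2 η1 η2 a b)
include h

theorem cR {x y : G} (hx : x ∈ F.R g 1 d1) (hy : y ∈ F.R g 1 d1) : x * y = y * x := h.zz.zac hx hy
theorem VR : F.V1 ≤ F.R g 1 d1 := F.V1X1.trans h.zz.XR
theorem zK : F.z ∈ F.K4 g d1 := h.zz.gg ▸ mul_mem (gK F g d1) (gK F g d1)
theorem vK : F.v1 ∈ F.K4 g d1 := h.zz.d11 ▸ mul_mem (dK F g d1) (dK F g d1)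
theorem VK : F.V1 ≤ F.K4 g d1 := (closure_le _).2 (Set.pair_subset (zK h) (vK h))
theorem RV : F.R g 1 d1 ≤ 𝐂(F.V1) := fun _ hx y hy => cR h (VR h hy) hx
theorem gd : g * d1 = d1 * g := cR h h.zz.zaG h.zz.zad

theorem eK : F.K4 g d1 = F.V1 ⊔ zpowers g ⊔ zpowers d1 := by
  refine le_antisymm ((closure_le _).2 (Set.pair_subset (ZA.l1 (ZA.zr _ _) _) (ZA.zr _ _))) ?_
  exact sup_le (sup_le (VK h) (zpowers_le_of_mem (gK F g d1))) (zpowers_le_of_mem (dK F g d1))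

theorem ηK : η1 ∈ 𝐍(F.K4 g d1) := B2.norm_gen (by
  rintro _ (rfl | rfl)
  · rw [h.zz.η1g]; exact dK F _ _
  · rw [h.zz.η1d]; exact inv_mem (mul_mem (gK F _ _) (dK F _ _)))

theorem ηz : η1 * F.z * η1⁻¹ = F.v1 := (ZC.eta h.zz).2.1
theorem ηv : η1 * F.v1 * η1⁻¹ = F.z * F.v1 := (ZC.eta h.zz).2.2.1

theorem ηV : η1 ∈ 𝐍(F.V1) := B2.norm_gen (by
  rintro _ (rfl | rfl)
  · rw [ηz h]; exact F.b2_vV
  · rw [ηv h]; exact mul_mem F.b2_zV F.b2_vV)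

theorem bcj {x y : G} (e : a * x * a⁻¹ = y) : b * (η1 * x * η1⁻¹) * b⁻¹ = η1 * y * η1⁻¹ := by
  rw [← h.ηa, ← e]; group

theorem bC : b ∈ 𝐂(F.V1) := h.ηa ▸ cjN (le_normalizer_centralizer le_rfl (ηV h)) h.aV
theorem bK : b ∈ 𝐍(F.K4 g d1) := h.ηa ▸ mul_mem (mul_mem (ηK h) h.aK) (inv_mem (ηK h))
theorem bt : b * F.t * b⁻¹ = F.t * d1 := by
  have := bcj h h.aT
  rwa [B2.cj_mul η1, cjc h.zz.η1t, h.zz.η1g] at this
theorem au : a * F.u1 * a⁻¹ = F.z * F.u1 := by rw [h.au, F.u2_eq F.hu1]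
theorem bu : b * F.u1 * b⁻¹ = F.v1 * F.u1 := by
  have := bcj h (au h)
  rwa [B2.cj_mul η1, cjc h.zz.η1u, ηz h] at this
theorem bb : b * b ∈ F.K4 g d1 := by
  have := cjN (ηK h) h.aa
  rwa [B2.cj_mul, h.ηa] at this

theorem tK : F.t ∈ 𝐍(F.K4 g d1) := B2.norm_gen (by
  rintro _ (rfl | rfl)
  · rw [ti, h.zz.tg]; exact inv_mem (gK F _ _)
  · rw [ti, h.zz.td1]; exact inv_mem (dK F _ _))

theorem RK : F.R g 1 d1 ≤ 𝐍(F.K4 g d1) := fun _ hx => h.zz.zaN (KR F g d1) hx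

theorem v2d : F.v2 * d1 * F.v2⁻¹ = (g * d1)⁻¹ := by
  have c := h.zz.c1
  rw [← h.zz.d11] at c
  have e : F.v2 * d1⁻¹ * F.v2⁻¹ = g * d1 := by
    calc F.v2 * d1⁻¹ * F.v2⁻¹ = F.v2⁻¹ * (d1⁻¹ * F.v2 * d1) * d1⁻¹ := by rw [F.b2_v2i]; group
      _ = _ := by rw [c]; group
  rw [← e]; group

theorem v2K : F.v2 ∈ 𝐍(F.K4 g d1) := B2.norm_gen (by
  rintro _ (rfl | rfl)
  · rw [cjc (h.zz.zav (subset_closure (by simp)))]; exact gK F _ _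
  · rw [v2d h]; exact inv_mem (mul_mem (gK F _ _) (dK F _ _)))

theorem bA1 : b ∈ 𝐍((F.K4 g d1 ⊔ zpowers a : Subgroup G)) := nrm_sup (bK h) (by
  rw [show b * a * b⁻¹ = (a * b * a⁻¹ * b⁻¹)⁻¹ * a by group]
  exact mul_mem (mem_sup_left (inv_mem (VK h h.ab))) (ZA.zr _ _))

theorem nA {n : G} (h1 : n ∈ 𝐍(F.K4 g d1)) (h2 : n * a * n⁻¹ ∈ F.AA g d1 a b)
    (h3 : n * b * n⁻¹ ∈ F.AA g d1 a b) : n ∈ 𝐍(F.AA g d1 a b) := B2.norm_gen (by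
  rintro _ (rfl | rfl | rfl | rfl)
  · exact KA F _ _ _ _ (cjN h1 (gK F _ _))
  · exact KA F _ _ _ _ (cjN h1 (dK F _ _))
  · exact h2
  · exact h3)

theorem inv_cj {s x y : G} (hs : s⁻¹ = s) (e : x * s * x⁻¹ = s * y) : s * x * s⁻¹ = y * x := by
  calc s * x * s⁻¹ = s⁻¹ * (x * s * x⁻¹) * x := by rw [hs]; group
    _ = _ := by rw [e]; group

theorem tA : F.t ∈ 𝐍(F.AA g d1 a b) := nA h (tK h)
  (by rw [inv_cj h (ti F) h.aT]; exact mul_mem (KA F _ _ _ _ (gK F _ _)) (aA F _ _ _ _))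
  (by rw [inv_cj h (ti F) (bt h)]; exact mul_mem (KA F _ _ _ _ (dK F _ _)) (bA F _ _ _ _))

theorem uA : F.u1 ∈ 𝐍(F.AA g d1 a b) := nA h (RK h (uR F _ _))
  (by rw [inv_cj h (ui F) ((au h).trans F.zu1)]; exact mul_mem (KA F _ _ _ _ (zK h)) (aA F _ _ _ _))
  (by rw [inv_cj h (ui F) ((bu h).trans F.u1v1.symm)]
      exact mul_mem (KA F _ _ _ _ (vK h)) (bA F _ _ _ _))

theorem vA : F.v2 ∈ 𝐍(F.AA g d1 a b) := nA h (v2K h)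
  (by rw [F.b2_v2i]
      exact (mul_mem_cancel_right (inv_mem (aA F _ _ _ _))).1 (KA F _ _ _ _ h.va))
  (by rw [F.b2_v2i]
      exact (mul_mem_cancel_right (inv_mem (mul_mem (aA F _ _ _ _) (bA F _ _ _ _)))).1
        (KA F _ _ _ _ h.vb))

theorem uM0 : F.u1 ∈ 𝐍(F.M0 g d1 a b) := by
  rw [eM0]; exact nrm_sup (uA h) (by rw [cjc F.tu1.symm]; exact ZA.zr _ _)
theorem vM0 : F.v2 ∈ 𝐍(F.M0 g d1 a b) := by
  rw [eM0]; exact nrm_sup (vA h) (by rw [cjc F.tv2.symm]; exact ZA.zr _ _)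
theorem uM1 : F.u1 ∈ 𝐍(F.M1 g d1 a b) := by
  rw [eM1]; exact nrm_sup (uM0 h) (by rw [cjc F.u1v2]; exact ZA.zr _ _)

theorem PV : F.PP g d1 a b ≤ 𝐂(F.V1) := (closure_le _).2 (by
  rintro _ (rfl | rfl | rfl | rfl | rfl | rfl)
  · exact RV h h.zz.zaG
  · exact RV h h.zz.zad
  · exact h.aV
  · exact bC h
  · exact centralizer_le F.V1X1 (ZD.tX F)
  · exact RV h (uR F _ _))

theorem vV : F.v2 ∉ 𝐂(F.V1) := fun e => F.B1nc (e _ F.b2_vV)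

theorem Ku {x : G} (hx : x ∈ F.K4 g d1) : x * F.u1 * x⁻¹ = F.u1 := cjc (cR h (KR F _ _ hx) (uR F _ _))

theorem aK : a ∉ F.K4 g d1 := fun e => F.z1 (by
  have := Ku h e
  rwa [au h, mul_eq_right] at this)

theorem A1u {x : G} (hx : x ∈ F.K4 g d1 ⊔ zpowers a) :
    (x ∈ F.K4 g d1 ∧ x * F.u1 * x⁻¹ = F.u1) ∨ x * F.u1 * x⁻¹ = F.z * F.u1 := by
  rcases (mem_adj h.aK h.aa).1 hx with e | e
  · exact Or.inl ⟨e, Ku h e⟩
  · right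
    calc x * F.u1 * x⁻¹ = x * a⁻¹ * (a * F.u1 * a⁻¹) * (x * a⁻¹)⁻¹ := by group
      _ = _ := by rw [au h, B2.cj_mul, Ku h e, cjc (cR h (KR F _ _ e) (KR F _ _ (zK h)))]

theorem bA' : b ∉ F.K4 g d1 ⊔ zpowers a := fun e => by
  rcases A1u h e with ⟨-, e⟩ | e
  · rw [bu h, mul_eq_right] at e; exact F.b2_v1 e
  · rw [bu h, mul_left_inj] at e; exact F.b2_vz e

theorem Au {x : G} (hx : x ∈ F.AA g d1 a b) (e : x * F.u1 * x⁻¹ = F.u1) : x ∈ F.K4 g d1 := by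
  have hP := PV h (MP F _ _ _ _ (AM F _ _ _ _ hx))
  rw [eA] at hx
  rcases (mem_adj (bA1 h) (mem_sup_left (bb h))).1 hx with e1 | e1
  · rcases A1u h e1 with e2 | e2
    · exact e2.1
    · rw [e, eq_comm, mul_eq_right] at e2; exact absurd e2 F.z1
  · exfalso
    have c : x * b⁻¹ * F.v1 * (x * b⁻¹)⁻¹ = F.v1 :=
      cjc ((mul_mem hP (inv_mem (bC h))) _ F.b2_vV).symm
    have e3 : F.u1 = F.v1 * (x * b⁻¹ * F.u1 * (x * b⁻¹)⁻¹) := by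
      calc F.u1 = x * F.u1 * x⁻¹ := e.symm
        _ = x * b⁻¹ * (b * F.u1 * b⁻¹) * (x * b⁻¹)⁻¹ := by group
        _ = _ := by rw [bu h, B2.cj_mul, c]
    rcases A1u h e1 with ⟨-, e2⟩ | e2
    · rw [e2, eq_comm, mul_eq_right] at e3; exact F.b2_v1 e3
    · rw [e2, ← mul_assoc, eq_comm, mul_eq_right, mul_eq_one_iff_eq_inv, zi] at e3
      exact F.b2_vz e3

theorem tR : F.t ∉ F.R g 1 d1 := fun e => by
  have := (h.zz.indS (a := 1) (b := 0) (by simpa using e)).1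
  exact absurd this (by decide)

theorem tA' : F.t ∉ F.AA g d1 a b := fun e => tR h (KR F _ _ (Au h e (cjc F.tu1)))

theorem gV : g ∈ 𝐍(F.V1) := centralizer_le_normalizer _ (RV h h.zz.zaG)
theorem ggV : g * g ∈ F.V1 := h.zz.gg ▸ F.b2_zV
theorem dV : d1 ∈ 𝐍((F.V1 ⊔ zpowers g : Subgroup G)) :=
  nrm_sup (centralizer_le_normalizer _ (RV h h.zz.zad)) (by rw [cjc (gd h).symm]; exact ZA.zr _ _)
theorem ddV : d1 * d1 ∈ F.V1 ⊔ zpowers g := h.zz.d11 ▸ mem_sup_left F.b2_vV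

theorem memK {x : G} (hx : x ∈ F.K4 g d1) :
    ∃ w ∈ F.V1, ∃ i j : Fin 2, x = w * g ^ (i : ℕ) * d1 ^ (j : ℕ) := by
  rw [eK h] at hx
  obtain ⟨p, hp, j, rfl⟩ := ZA.adj (dV h) (ddV h) hx
  obtain ⟨w, hw, i, rfl⟩ := ZA.adj (gV h) (ggV h) hp
  exact ⟨w, hw, i, j, rfl⟩

theorem sqK {w : G} (hw : w ∈ F.V1) (i j : Fin 2) :
    w * g ^ (i : ℕ) * d1 ^ (j : ℕ) * (w * g ^ (i : ℕ) * d1 ^ (j : ℕ)) = F.v1 ^ (j : ℕ) * F.z ^ (i : ℕ) := by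
  simpa using h.zz.zasq (F.V1X1 hw) i j 0

theorem uK : F.u1 ∉ F.K4 g d1 := fun e => by
  obtain ⟨w, hw, i, j, e1⟩ := memK h e
  have e2 := sqK h hw i j
  rw [← e1, F.u11] at e2
  obtain ⟨rfl, rfl, -⟩ := h.zz.zaone (i := i) (j := j) (k := 0) (by simpa using e2.symm)
  exact F.b2_uV F.hu1 (by rw [e1]; simpa using hw)

theorem gV' : g ∉ F.V1 := fun e => F.z1 (h.zz.gg ▸ F.sqW1 (F.X1W1 (F.V1X1 e)))

theorem dV' : d1 ∉ F.V1 ⊔ zpowers g := fun e => by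
  obtain ⟨w, hw, i, e1⟩ := ZA.adj (gV h) (ggV h) e
  have e2 := sqK h hw i 0
  simp only [Fin.isValue, Fin.coe_ofNat_eq_mod, Nat.zero_mod, pow_zero, mul_one, one_mul] at e2
  rw [← e1, h.zz.d11] at e2
  fin_cases i
  · exact F.b2_v1 (by simpa using e2)
  · exact F.b2_vz (by simpa using e2)

theorem ttA : F.t * F.t ∈ F.AA g d1 a b := by rw [F.tt]; exact one_mem _

theorem uM0' : F.u1 ∉ F.M0 g d1 a b := fun e => by
  rw [eM0] at e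
  rcases (mem_adj (tA h) (ttA h)).1 e with e | e
  · exact uK h (Au h e (by group))
  · rw [ti] at e
    have := KR F _ _ (Au h e (cjc (by rw [mul_assoc, F.tu1])))
    exact tR h ((mul_mem_cancel_left (uR F _ _)).1 this)

end Y6

namespace Fr
variable {F : Fr G} {u0 g g' v d1 d2 η η1 η2 κ k a b γ : G}

theorem ZP.bV (h : F.ZP g g' d1 d2 η1 η2 a b) : b ∈ 𝐂(F.V1) ∧ b ∈ 𝐍(F.K4 g d1) ∧ b * F.t * b⁻¹ = F.t * d1 ∧
    b * F.u1 * b⁻¹ = F.u1 * F.v1 ∧ b * b ∈ F.K4 g d1 := by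
  exact ⟨Y6.bC h, Y6.bK h, Y6.bt h, (Y6.bu h).trans F.u1v1.symm, Y6.bb h⟩

theorem ZP.φb (h : F.ZP g g' d1 d2 η1 η2 a b) : (a * g = g * a ∧ a * d1 = d1 * a ∧ b * g = g * b ∧ b * d1 = d1 * b) ∨
    (a * g * a⁻¹ = g * F.z ∧ a * d1 * a⁻¹ = d1 * F.z * F.v1 ∧ b * g * b⁻¹ = g * F.z * F.v1 ∧
      b * d1 * b⁻¹ = d1 * F.v1) := by
  have c := Y6.gd h
  rcases h.φ with ⟨e1, e2⟩ | ⟨e1, e2⟩
  · have k1 := Y6.bcj h (Y6.cjc e1)
    have k2 := Y6.bcj h (Y6.cjc e2)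
    rw [h.zz.η1g] at k1
    rw [h.zz.η1d] at k2
    refine Or.inl ⟨e1, e2, B2.comm_of_cj ?_, B2.comm_of_cj k1⟩
    calc b * g * b⁻¹ = (b * (g * d1)⁻¹ * b⁻¹)⁻¹ * (b * d1 * b⁻¹)⁻¹ := by group
      _ = g := by rw [k1, k2]; group
  · have k1 := Y6.bcj h e1
    have k2 := Y6.bcj h e2
    rw [B2.cj_mul η1, h.zz.η1g, Y6.ηz h] at k1
    rw [B2.cj_mul η1 (d1 * F.z), B2.cj_mul η1 d1, h.zz.η1d, Y6.ηz h, Y6.ηv h] at k2
    refine Or.inr ⟨e1, e2, ?_, k1⟩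
    have k3 : F.v1 * (F.z * F.v1) = F.z := by rw [F.zv1, ← mul_assoc, F.v11, one_mul]
    rw [mul_assoc (g * d1)⁻¹, k3] at k2
    have c1 : F.z * g = g * F.z := Y6.cR h (Y6.VR h F.b2_zV) h.zz.zaG
    have c2 : d1 * F.v1 = F.v1 * d1 := Y6.cR h h.zz.zad (Y6.VR h F.b2_vV)
    calc b * g * b⁻¹ = (b * (g * d1)⁻¹ * b⁻¹)⁻¹ * (b * d1 * b⁻¹)⁻¹ := by group
      _ = F.z⁻¹ * g * F.v1⁻¹ := by rw [k1, k2, c2]; group
      _ = _ := by rw [Y6.zi, B1.iv' F.v11, c1]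

theorem ZP.memK (h : F.ZP g g' d1 d2 η1 η2 a b) {x : G} : x ∈ F.K4 g d1 ↔ ∃ w ∈ F.V1, ∃ i j : Fin 2, x = w * g ^ (i : ℕ) * d1 ^ (j : ℕ) := by
  refine ⟨Y6.memK h, ?_⟩
  rintro ⟨w, hw, i, j, rfl⟩
  exact mul_mem (mul_mem (Y6.VK h hw) (pow_mem (Y6.gK F _ _) _)) (pow_mem (Y6.dK F _ _) _)

theorem ZP.memS (h : F.ZP g g' d1 d2 η1 η2 a b) {x : G} : x ∈ F.SP g d1 a b ↔ ∃ y ∈ F.K4 g d1, ∃ i j l m n : Fin 2,
    x = y * a ^ (i : ℕ) * b ^ (j : ℕ) * F.t ^ (l : ℕ) * F.u1 ^ (m : ℕ) * F.v2 ^ (n : ℕ) := by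
  constructor
  · intro hx
    rw [Y6.eS] at hx
    obtain ⟨p1, h1, n, rfl⟩ := ZA.adj h.vP (by rw [F.v22]; exact one_mem _) hx
    rw [Y6.eP] at h1
    obtain ⟨p2, h2, m, rfl⟩ := ZA.adj (Y6.uM0 h) (by rw [F.u11]; exact one_mem _) h1
    rw [Y6.eM0] at h2
    obtain ⟨p3, h3, l, rfl⟩ := ZA.adj (Y6.tA h) (Y6.ttA h) h2
    rw [Y6.eA] at h3
    obtain ⟨p4, h4, j, rfl⟩ := ZA.adj (Y6.bA1 h) (mem_sup_left (Y6.bb h)) h3
    obtain ⟨p, hp, i, rfl⟩ := ZA.adj h.aK h.aa h4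
    exact ⟨p, hp, i, j, l, m, n, rfl⟩
  · rintro ⟨y, hy, i, j, l, m, n, rfl⟩
    exact mul_mem (Y6.PS F _ _ _ _ (mul_mem (Y6.MP F _ _ _ _ (mul_mem (Y6.AM F _ _ _ _ (mul_mem (mul_mem
      (Y6.KA F _ _ _ _ hy) (pow_mem (Y6.aA F _ _ _ _) _)) (pow_mem (Y6.bA F _ _ _ _) _)))
      (pow_mem (Y6.tM F _ _ _ _) _))) (pow_mem (Y6.uP F _ _ _ _) _))) (pow_mem (Y6.vS F _ _ _ _) _)

theorem ZP.ind (h : F.ZP g g' d1 d2 η1 η2 a b) {i j l m n : Fin 2}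
    (e : a ^ (i : ℕ) * b ^ (j : ℕ) * F.t ^ (l : ℕ) * F.u1 ^ (m : ℕ) * F.v2 ^ (n : ℕ) ∈ F.K4 g d1) :
    i = 0 ∧ j = 0 ∧ l = 0 ∧ m = 0 ∧ n = 0 := by
  have m2 : a ^ (i : ℕ) * b ^ (j : ℕ) ∈ F.AA g d1 a b :=
    mul_mem (pow_mem (Y6.aA F _ _ _ _) _) (pow_mem (Y6.bA F _ _ _ _) _)
  have m3 := mul_mem (Y6.AM F _ _ _ _ m2) (pow_mem (Y6.tM F g d1 a b) (l : ℕ))
  have m4 := mul_mem (Y6.MP F _ _ _ _ m3) (pow_mem (Y6.uP F g d1 a b) (m : ℕ))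
  have eA := Y6.KA F g d1 a b e
  obtain rfl := Y6.peel (fun k => Y6.vV h (Y6.PV h k)) m4 (Y6.MP F _ _ _ _ (Y6.AM F _ _ _ _ eA))
  rw [Fin.val_zero, pow_zero, mul_one] at e eA
  obtain rfl := Y6.peel (Y6.uM0' h) m3 (Y6.AM F _ _ _ _ eA)
  rw [Fin.val_zero, pow_zero, mul_one] at e eA
  obtain rfl := Y6.peel (Y6.tA' h) m2 eA
  rw [Fin.val_zero, pow_zero, mul_one] at e
  obtain rfl := Y6.peel (Y6.bA' h) (pow_mem (ZA.zr _ a) (i : ℕ)) (mem_sup_left e)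
  rw [Fin.val_zero, pow_zero, mul_one] at e
  obtain rfl := Y6.peel (Y6.aK h) (one_mem _) (i := i) (by rwa [one_mul])
  exact ⟨rfl, rfl, rfl, rfl, rfl⟩

theorem ZP.memA (h : F.ZP g g' d1 d2 η1 η2 a b) {x : G} : x ∈ F.AA g d1 a b ↔ ∃ y ∈ F.K4 g d1, ∃ i j : Fin 2, x = y * a ^ (i : ℕ) * b ^ (j : ℕ) := by
  constructor
  · intro h3
    rw [Y6.eA] at h3
    obtain ⟨p4, h4, j, rfl⟩ := ZA.adj (Y6.bA1 h) (mem_sup_left (Y6.bb h)) h3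
    obtain ⟨p, hp, i, rfl⟩ := ZA.adj h.aK h.aa h4
    exact ⟨p, hp, i, j, rfl⟩
  · rintro ⟨y, hy, i, j, rfl⟩
    exact mul_mem (mul_mem (Y6.KA F _ _ _ _ hy) (pow_mem (Y6.aA F _ _ _ _) _))
      (pow_mem (Y6.bA F _ _ _ _) _)

theorem ZP.memM0 (h : F.ZP g g' d1 d2 η1 η2 a b) {x : G} : x ∈ F.M0 g d1 a b ↔ x ∈ F.AA g d1 a b ∨ x * F.t ∈ F.AA g d1 a b := by
  rw [Y6.eM0, mem_adj (Y6.tA h) (Y6.ttA h), Y6.ti]

theorem ZP.memM1 (h : F.ZP g g' d1 d2 η1 η2 a b) {x : G} : x ∈ F.M1 g d1 a b ↔ x ∈ F.M0 g d1 a b ∨ x * F.v2 ∈ F.M0 g d1 a b := by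
  rw [Y6.eM1, mem_adj (Y6.vM0 h) (by rw [F.v22]; exact one_mem _), F.b2_v2i]

theorem ZP.memP (h : F.ZP g g' d1 d2 η1 η2 a b) {x : G} : x ∈ F.PP g d1 a b ↔ x ∈ F.M0 g d1 a b ∨ x * F.u1 ∈ F.M0 g d1 a b := by
  rw [Y6.eP, mem_adj (Y6.uM0 h) (by rw [F.u11]; exact one_mem _), Y6.ui]

theorem ZP.memS' (h : F.ZP g g' d1 d2 η1 η2 a b) {x : G} : x ∈ F.SP g d1 a b ↔ x ∈ F.M1 g d1 a b ∨ x * F.u1 ∈ F.M1 g d1 a b := by
  rw [Y6.eS', mem_adj (Y6.uM1 h) (by rw [F.u11]; exact one_mem _), Y6.ui]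

theorem ZP.memS'' (h : F.ZP g g' d1 d2 η1 η2 a b) {x : G} : x ∈ F.SP g d1 a b ↔ x ∈ F.PP g d1 a b ∨ x * F.v2 ∈ F.PP g d1 a b := by
  rw [Y6.eS, mem_adj h.vP (by rw [F.v22]; exact one_mem _), F.b2_v2i]

theorem ZP.uM (h : F.ZP g g' d1 d2 η1 η2 a b) : F.u1 ∉ F.M1 g d1 a b := by
  intro e
  rcases h.memM1.1 e with e | e
  · exact Y6.uM0' h e
  · exact Y6.vV h ((mul_mem_cancel_left (Y6.PV h (Y6.uP F _ _ _ _))).1 (Y6.PV h (Y6.MP F _ _ _ _ e)))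

theorem ZP.nrm (h : F.ZP g g' d1 d2 η1 η2 a b) : F.SP g d1 a b ≤ 𝐍(F.K4 g d1) ∧ F.SP g d1 a b ≤ 𝐍(F.AA g d1 a b) ∧
    F.SP g d1 a b ≤ 𝐍(F.V1) ∧ F.SP g d1 a b ≤ 𝐍(F.R g 1 d1) ∧ F.PP g d1 a b ≤ 𝐂(F.V1) := by
  have k : ∀ {x : G}, x ∈ 𝐍(F.K4 g d1) → x * F.u1 * x⁻¹ ∈ F.R g 1 d1 → x ∈ 𝐍(F.R g 1 d1) :=
    fun h1 h2 => B2.norm_gen (by
      rintro _ (rfl | rfl | rfl | rfl)
      · exact Y6.KR F _ _ (Y6.cjN h1 (Y6.gK F _ _))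
      · exact Y6.KR F _ _ (Y6.cjN h1 (Y6.dK F _ _))
      · simp
      · exact h2)
  refine ⟨(closure_le _).2 ?_, ?_, ?_, (closure_le _).2 ?_, Y6.PV h⟩
  · rintro _ (rfl | rfl | rfl | rfl | rfl | rfl | rfl)
    · exact le_normalizer (Y6.gK F _ _)
    · exact le_normalizer (Y6.dK F _ _)
    · exact h.aK
    · exact Y6.bK h
    · exact Y6.tK h
    · exact Y6.RK h (Y6.uR F _ _)
    · exact Y6.v2K h
  · rw [Y6.eS, Y6.eP, Y6.eM0]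
    exact sup_le (sup_le (sup_le le_normalizer (zpowers_le_of_mem (Y6.tA h)))
      (zpowers_le_of_mem (Y6.uA h))) (zpowers_le_of_mem (Y6.vA h))
  · rw [Y6.eS]
    refine sup_le ((Y6.PV h).trans (centralizer_le_normalizer _)) (zpowers_le_of_mem (B2.norm_gen ?_))
    rintro _ (rfl | rfl)
    · rw [Y6.cjc F.B1zv2.symm]; exact F.b2_zV
    · rw [F.b2_v2v]; exact mul_mem F.b2_zV F.b2_vV
  · rintro _ (rfl | rfl | rfl | rfl | rfl | rfl | rfl)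
    · exact le_normalizer h.zz.zaG
    · exact le_normalizer h.zz.zad
    · exact k h.aK (by rw [Y6.au h]; exact mul_mem (Y6.VR h F.b2_zV) (Y6.uR F _ _))
    · exact k (Y6.bK h) (by rw [Y6.bu h]; exact mul_mem (Y6.VR h F.b2_vV) (Y6.uR F _ _))
    · exact h.zz.zatN
    · exact le_normalizer (Y6.uR F _ _)
    · exact h.zz.v2N

theorem ZP.card (h : F.ZP g g' d1 d2 η1 η2 a b) : Nat.card (F.K4 g d1) = 16 ∧ Nat.card (F.AA g d1 a b) = 64 ∧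
    Nat.card (F.M0 g d1 a b) = 128 ∧ Nat.card (F.PP g d1 a b) = 256 ∧ Nat.card (F.SP g d1 a b) = 512 := by
  have c1 : Nat.card (F.K4 g d1) = 16 := by
    rw [Y6.eK h, card_adj (Y6.dV h) (Y6.ddV h) (Y6.dV' h), card_adj (Y6.gV h) (Y6.ggV h) (Y6.gV' h),
      Y6.cardV]
  have c2 : Nat.card (F.AA g d1 a b) = 64 := by
    rw [Y6.eA, card_adj (Y6.bA1 h) (mem_sup_left (Y6.bb h)) (Y6.bA' h), card_adj h.aK h.aa (Y6.aK h), c1]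
  have c3 : Nat.card (F.M0 g d1 a b) = 128 := by
    rw [Y6.eM0, card_adj (Y6.tA h) (Y6.ttA h) (Y6.tA' h), c2]
  have c4 : Nat.card (F.PP g d1 a b) = 256 := by
    rw [Y6.eP, card_adj (Y6.uM0 h) (by rw [F.u11]; exact one_mem _) (Y6.uM0' h), c3]
  refine ⟨c1, c2, c3, c4, ?_⟩
  rw [Y6.eS, card_adj h.vP (by rw [F.v22]; exact one_mem _) (fun k => Y6.vV h (Y6.PV h k)), c4]

theorem ZP.isPS (h : F.ZP g g' d1 d2 η1 η2 a b) : IsPGroup 2 (F.SP g d1 a b) := by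
  exact IsPGroup.of_card (n := 9) h.card.2.2.2.2

end Fr

end H60M.A6
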