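import Mathlib
import Cfsg.Agent.Lib.B6S.Y6

/-! Involutions of `SP` with a large centraliser. -/

set_option autoImplicit false
set_option linter.unusedSectionVars false

namespace H60M.A6

open Subgroup H69 H36.SW H60M.A7

variable {G : Type*} [Group G] [Finite G]

namespace Y7

/-- the commutator -/
def c (x y : G) : G := x * y * x⁻¹ * y⁻¹

theorem cnt {S : Subgroup G} {y : G} (L : List G) (hL : L.Nodup) (h : ∀ e ∈ L, ∃ x ∈ S, c x y = e) :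
    L.length * Nat.card (S ⊓ centralizer {y} : Subgroup G) ≤ Nat.card S := by
  choose f hf e using fun i : Fin L.length => h (L.get i) (List.get_mem L i)
  have k : ∀ (i) (s : (S ⊓ centralizer {y} : Subgroup G)), c (f i * s) y = L.get i := fun i s => by
    have := mem_centralizer_singleton_iff.1 s.2.2
    rw [← e i]
    calc _ = f i * (s * y) * (s : G)⁻¹ * (f i)⁻¹ * y⁻¹ := by unfold c; group
      _ = _ := by rw [this]; unfold c; group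
  have := Nat.card_le_card_of_injective
    (fun p : Fin L.length × (S ⊓ centralizer {y} : Subgroup G) => (⟨f p.1 * p.2, mul_mem (hf _) p.2.2.1⟩ : S)) (by
      rintro ⟨i, s⟩ ⟨j, s'⟩ q
      have q' : f i * s = f j * s' := congrArg Subtype.val q
      obtain rfl : i = j := hL.injective_get (by rw [← k i s, q', k])
      rw [Subtype.ext (mul_left_cancel q')])
  simpa [Nat.card_prod] using this

theorem nd5 {x1 x2 x3 x4 x5 : G} (h12 : x1 ≠ x2) (h13 : x1 ≠ x3) (h14 : x1 ≠ x4) (h15 : x1 ≠ x5) (h23 : x2 ≠ x3)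
    (h24 : x2 ≠ x4) (h25 : x2 ≠ x5) (h34 : x3 ≠ x4) (h35 : x3 ≠ x5) (h45 : x4 ≠ x5) :
    [x1, x2, x3, x4, x5].Nodup := by
  simp [*]

theorem ns {x y s s' : G} (hx : x * x = s) (hy : y * y = s') (h : s ≠ s') : x ≠ y :=
  fun e => h (by rw [← hx, ← hy, e])

theorem c1 (y : G) : c 1 y = 1 := by simp [c]
theorem cmul (x y y' : G) : c x (y * y') = c x y * (y * c x y' * y⁻¹) := by unfold c; group
theorem cmul' (x x' y : G) : c (x * x') y = x * c x' y * x⁻¹ * c x y := by unfold c; group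
theorem cinv (x y : G) : c y x = (c x y)⁻¹ := by unfold c; group
theorem cone {x y : G} (h : x * y = y * x) : c x y = 1 := by unfold c; rw [h]; group

theorem fix {V : Subgroup G} {y w : G} (hy : y ∈ 𝐂(V)) (hw : w ∈ V) : y * w * y⁻¹ = w := by
  rw [← mem_centralizer_iff.1 hy w hw]; group

/-- the commutator lies in `K` and has the square `s` -/
def Q (K : Subgroup G) (x y s : G) : Prop := c x y ∈ K ∧ c x y * c x y = s

/-- `K` is abelian with squares in `V`; `H` normalises `K` and centralises `V` -/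
structure Ctx (K V H : Subgroup G) : Prop where
  ab : ∀ x ∈ K, ∀ y ∈ K, x * y = y * x
  sq : ∀ x ∈ K, x * x ∈ V
  N : H ≤ 𝐍(K)
  C : H ≤ 𝐂(V)
  le : K ≤ H

variable {K V H : Subgroup G} {x x' y y' s s' k : G}

theorem Ctx.cj (X : Ctx K V H) (hy : y ∈ H) (hk : k ∈ K) :
    y * k * y⁻¹ ∈ K ∧ y * k * y⁻¹ * (y * k * y⁻¹) = k * k :=
  ⟨(mem_normalizer_iff.1 (X.N hy) k).1 hk, by rw [← fix (X.C hy) (X.sq k hk)]; group⟩

theorem Ctx.mul (X : Ctx K V H) (hy : y ∈ H) (h : Q K x y s) (h' : Q K x y' s') : Q K x (y * y') (s * s') := by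
  obtain ⟨m, e⟩ := X.cj hy h'.1
  rw [Q, cmul]
  exact ⟨mul_mem h.1 m, by rw [ZA.mm (X.ab _ h.1 _ m), e, h.2, h'.2]⟩

theorem Q.symm (h : Q K x y s) : Q K y x s⁻¹ := by
  rw [Q, cinv]; exact ⟨inv_mem h.1, by rw [← h.2]; group⟩

theorem Ctx.mul' (X : Ctx K V H) (hx : x ∈ H) (h : Q K x y s) (h' : Q K x' y s') : Q K (x * x') y (s' * s) := by
  simpa using (X.mul hx h.symm h'.symm).symm

theorem Ctx.ofK (X : Ctx K V H) (hx : x ∈ H) (hk : k ∈ K) : Q K x k 1 := by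
  obtain ⟨m, e⟩ := X.cj hx hk
  refine ⟨mul_mem m (inv_mem hk), ?_⟩
  rw [c, ZA.mm (X.ab _ m _ (inv_mem hk)), e]; group

theorem Q.one (h : c x y = 1) : Q K x y 1 := by rw [Q, h]; exact ⟨one_mem _, mul_one _⟩

theorem Q.pow (h : Q K x y s) (i : Fin 2) : Q K x (y ^ (i : ℕ)) (s ^ (i : ℕ)) := by
  fin_cases i
  · simpa using Q.one (cone (by simp))
  · simpa using h

theorem cpow (h : c x y = s) (i : Fin 2) : c x (y ^ (i : ℕ)) = s ^ (i : ℕ) := by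
  fin_cases i
  · simpa using cone (by simp)
  · simpa using h

theorem Ctx.pm (X : Ctx K V H) (hy : y ∈ H) (h : c x y = s) (h' : c x y' = s') (hs : s' ∈ V) :
    c x (y * y') = s * s' := by
  rw [cmul, h, h', fix (X.C hy) hs]

variable {a b t u sa sb st su : G}

theorem Ctx.q5 (X : Ctx K V H) (hx : x ∈ H) (hk : k ∈ K) (ha : a ∈ H) (hb : b ∈ H) (ht : t ∈ H)
    (qa : Q K x a sa) (qb : Q K x b sb) (qt : Q K x t st) (qu : Q K x u su) (i j l m : Fin 2) :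
    Q K x (k * a ^ (i : ℕ) * b ^ (j : ℕ) * t ^ (l : ℕ) * u ^ (m : ℕ))
      (sa ^ (i : ℕ) * sb ^ (j : ℕ) * st ^ (l : ℕ) * su ^ (m : ℕ)) := by
  have h0 := X.le hk
  have h1 := mul_mem h0 (pow_mem ha i)
  have h2 := mul_mem h1 (pow_mem hb j)
  have h3 := mul_mem h2 (pow_mem ht l)
  simpa using X.mul h3 (X.mul h2 (X.mul h1 (X.mul h0 (X.ofK hx hk) (qa.pow i)) (qb.pow j)) (qt.pow l)) (qu.pow m)

theorem Ctx.p5 (X : Ctx K V H) (hx : x ∈ K) (hk : k ∈ K) (ha : a ∈ H) (hb : b ∈ H) (ht : t ∈ H)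
    (qa : c x a = sa) (qb : c x b = sb) (qt : c x t = st) (qu : c x u = 1) (va : sa ∈ V) (vb : sb ∈ V)
    (vt : st ∈ V) (i j l m : Fin 2) :
    c x (k * a ^ (i : ℕ) * b ^ (j : ℕ) * t ^ (l : ℕ) * u ^ (m : ℕ)) =
      sa ^ (i : ℕ) * sb ^ (j : ℕ) * st ^ (l : ℕ) := by
  have h0 := X.le hk
  have h1 := mul_mem h0 (pow_mem ha i)
  have h2 := mul_mem h1 (pow_mem hb j)
  have h3 := mul_mem h2 (pow_mem ht l)
  simpa using X.pm h3 (X.pm h2 (X.pm h1 (X.pm h0 (cone (X.ab _ hx _ hk)) (cpow qa i) (pow_mem va _)) (cpow qb j)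
    (pow_mem vb _)) (cpow qt l) (pow_mem vt _)) (cpow qu m) (pow_mem (one_mem _) _)

theorem cof {w : G} (hx : x ∈ 𝐂(V)) (hw : w ∈ V) (w2 : w * w = 1) (h : y * x * y⁻¹ = x * w) : c x y = w :=
  calc c x y = x * (y * x * y⁻¹)⁻¹ := by unfold c; group
    _ = x * w⁻¹ * x⁻¹ := by rw [h]; group
    _ = w := by rw [B1.iv' w2, fix hx hw]

end Y7

namespace Fr
variable {F : Fr G} {u0 g g' v d1 d2 η η1 η2 κ k a b γ : G}

open Y7

theorem y7ne (F : Fr G) : F.z ≠ 1 ∧ F.v1 ≠ 1 ∧ F.z ≠ F.v1 ∧ F.z * F.v1 ≠ 1 ∧ F.z ≠ F.z * F.v1 ∧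
    F.v1 ≠ F.z * F.v1 := by
  have h1 : F.v1 ≠ 1 := fun e => F.B1nc (by rw [e]; simp)
  have h2 : F.z ≠ F.v1 := fun e => F.B1nc (e ▸ F.B1zv2)
  refine ⟨F.z1, h1, h2, fun e => h2 ?_, fun e => h1 (by simpa using e), fun e => F.z1 (by simpa using e)⟩
  rw [eq_inv_of_mul_eq_one_left e, B1.iv' F.v11]

theorem y7sq (F : Fr G) {w : G} (hw : w ∈ F.V1) : w * w = 1 := F.sqW1 (F.X1W1 (F.V1X1 hw))

theorem ZP.y7K (h : F.ZP g g' d1 d2 η1 η2 a b) : g ∈ F.K4 g d1 ∧ d1 ∈ F.K4 g d1 ∧ F.V1 ≤ F.K4 g d1 ∧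
    F.K4 g d1 ≤ F.R g 1 d1 := by
  have hg : g ∈ F.K4 g d1 := subset_closure (by simp)
  have hd : d1 ∈ F.K4 g d1 := subset_closure (by simp)
  refine ⟨hg, hd, (closure_le _).2 ?_, closure_mono (by intro x; simp only [Set.mem_insert_iff, Set.mem_singleton_iff]; tauto)⟩
  rintro _ (rfl | rfl)
  · exact h.zz.gg ▸ mul_mem hg hg
  · exact h.zz.d11 ▸ mul_mem hd hd

theorem ZP.y7sq (h : F.ZP g g' d1 d2 η1 η2 a b) {x : G} (hx : x ∈ F.K4 g d1) :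
    x * x ∈ F.V1 ∧ (x * x = 1 → x ∈ F.V1) := by
  obtain ⟨w, hw, i, j, rfl⟩ := h.memK.1 hx
  have := h.zz.zasq (F.V1X1 hw) i j 0
  simp only [Fin.val_zero, pow_zero, mul_one] at this
  rw [this]
  refine ⟨mul_mem (pow_mem (ZC.vV F) _) (pow_mem (ZC.zV F) _), fun e => ?_⟩
  obtain ⟨rfl, rfl, -⟩ := h.zz.zaone (i := i) (j := j) (k := 0) (by simpa using e)
  simpa using hw

theorem ZP.y7P (_ : F.ZP g g' d1 d2 η1 η2 a b) : a ∈ F.PP g d1 a b ∧ b ∈ F.PP g d1 a b ∧ F.t ∈ F.PP g d1 a b ∧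
    F.u1 ∈ F.PP g d1 a b ∧ F.PP g d1 a b ≤ F.SP g d1 a b :=
  ⟨subset_closure (by simp), subset_closure (by simp), subset_closure (by simp), subset_closure (by simp),
    closure_mono (by intro x; simp only [Set.mem_insert_iff, Set.mem_singleton_iff]; tauto)⟩

theorem ZP.y7X (h : F.ZP g g' d1 d2 η1 η2 a b) : Ctx (F.K4 g d1) F.V1 (F.PP g d1 a b) :=
  ⟨fun _ hx _ hy => h.zz.zac (h.y7K.2.2.2 hx) (h.y7K.2.2.2 hy), fun _ hx => (h.y7sq hx).1,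
    h.y7P.2.2.2.2.trans h.nrm.1, h.nrm.2.2.2.2,
    closure_mono (by intro x; simp only [Set.mem_insert_iff, Set.mem_singleton_iff]; tauto)⟩

theorem ZP.y7c (h : F.ZP g g' d1 d2 η1 η2 a b) : c a F.t = g⁻¹ ∧ c b F.t = d1⁻¹ ∧ c a F.u1 = F.z ∧
    c b F.u1 = F.v1 ∧ c g F.t = F.z ∧ c d1 F.t = F.v1 ∧ c g F.u1 = 1 ∧ c d1 F.u1 = 1 := by
  have t' := B1.iv' F.tt
  have uR : F.u1 ∈ F.R g 1 d1 := subset_closure (by simp)
  refine ⟨?_, ?_, ?_, ?_, ?_, ?_, cone (h.zz.zac h.zz.zaG uR), cone (h.zz.zac h.zz.zad uR)⟩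
  · rw [c, h.aT, t', h.zz.tg]
  · rw [c, h.bV.2.2.1, t', h.zz.td1]
  · rw [c, h.au, F.u2_eq F.hu1]; group
  · rw [c, h.bV.2.2.2.1, F.u1v1]; group
  · calc _ = g * (F.t * g * F.t⁻¹)⁻¹ := by unfold c; group
      _ = _ := by rw [t', h.zz.tg, inv_inv, h.zz.gg]
  · calc _ = d1 * (F.t * d1 * F.t⁻¹)⁻¹ := by unfold c; group
      _ = _ := by rw [t', h.zz.td1, inv_inv, h.zz.d11]

theorem ZP.y7Q (h : F.ZP g g' d1 d2 η1 η2 a b) (hk : k ∈ F.K4 g d1) (i j l m : Fin 2) :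
    Q (F.K4 g d1) a (k * a ^ (i : ℕ) * b ^ (j : ℕ) * F.t ^ (l : ℕ) * F.u1 ^ (m : ℕ)) (F.z ^ (l : ℕ)) ∧
    Q (F.K4 g d1) b (k * a ^ (i : ℕ) * b ^ (j : ℕ) * F.t ^ (l : ℕ) * F.u1 ^ (m : ℕ)) (F.v1 ^ (l : ℕ)) ∧
    Q (F.K4 g d1) F.t (k * a ^ (i : ℕ) * b ^ (j : ℕ) * F.t ^ (l : ℕ) * F.u1 ^ (m : ℕ))
      (F.z ^ (i : ℕ) * F.v1 ^ (j : ℕ)) := by
  obtain ⟨ha, hb, ht, hu, -⟩ := h.y7P
  obtain ⟨gK, dK, VK, -⟩ := h.y7K
  obtain ⟨c1, c2, c3, c4, -⟩ := h.y7c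
  have qab : Q (F.K4 g d1) a b 1 := ⟨VK h.ab, F.y7sq h.ab⟩
  have qat : Q (F.K4 g d1) a F.t F.z := by
    rw [Q, c1]; exact ⟨inv_mem gK, by rw [← mul_inv_rev, h.zz.gg, B1.iv' F.zz]⟩
  have qbt : Q (F.K4 g d1) b F.t F.v1 := by
    rw [Q, c2]; exact ⟨inv_mem dK, by rw [← mul_inv_rev, h.zz.d11, B1.iv' F.v11]⟩
  have qau : Q (F.K4 g d1) a F.u1 1 := by rw [Q, c3]; exact ⟨VK (ZC.zV F), F.zz⟩
  have qbu : Q (F.K4 g d1) b F.u1 1 := by rw [Q, c4]; exact ⟨VK (ZC.vV F), F.v11⟩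
  refine ⟨?_, ?_, ?_⟩
  · simpa using h.y7X.q5 ha hk ha hb ht (Q.one (cone rfl)) qab qat qau i j l m
  · simpa using h.y7X.q5 hb hk ha hb ht qab.symm (Q.one (cone rfl)) qbt qbu i j l m
  · simpa [B1.iv' F.zz, B1.iv' F.v11] using
      h.y7X.q5 ht hk ha hb ht qat.symm qbt.symm (Q.one (cone rfl)) (Q.one (cone F.tu1)) i j l m

theorem ZP.y7φ (h : F.ZP g g' d1 d2 η1 η2 a b) (hk : k ∈ F.K4 g d1) (i j l m : Fin 2) {y : G}
    (e : y = k * a ^ (i : ℕ) * b ^ (j : ℕ) * F.t ^ (l : ℕ) * F.u1 ^ (m : ℕ)) :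
    (c g y = F.z ^ (l : ℕ) ∧ c d1 y = F.v1 ^ (l : ℕ)) ∨
    (c g y = F.z ^ (i : ℕ) * (F.z * F.v1) ^ (j : ℕ) * F.z ^ (l : ℕ) ∧
      c d1 y = (F.z * F.v1) ^ (i : ℕ) * F.v1 ^ (j : ℕ) * F.v1 ^ (l : ℕ)) := by
  subst e
  obtain ⟨ha, hb, ht, hu, -⟩ := h.y7P
  obtain ⟨gK, dK, VK, -⟩ := h.y7K
  obtain ⟨-, -, -, -, c1, c2, c3, c4⟩ := h.y7c
  have X := h.y7X
  have zV := ZC.zV F
  have vV := ZC.vV F
  have wV := mul_mem zV vV
  rcases h.φb with ⟨e1, e2, e3, e4⟩ | ⟨e1, e2, e3, e4⟩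
  · refine Or.inl ⟨?_, ?_⟩
    · simpa using X.p5 gK hk ha hb ht (cone e1.symm) (cone e3.symm) c1 c3 (one_mem _) (one_mem _) zV i j l m
    · simpa using X.p5 dK hk ha hb ht (cone e2.symm) (cone e4.symm) c2 c4 (one_mem _) (one_mem _) vV i j l m
  · have gC := X.C (X.le gK)
    have dC := X.C (X.le dK)
    exact Or.inr ⟨X.p5 gK hk ha hb ht (cof gC zV F.zz e1) (cof gC wV (F.y7sq wV) (by rw [e3, mul_assoc])) c1 c3
      zV wV zV i j l m, X.p5 dK hk ha hb ht (cof dC wV (F.y7sq wV) (by rw [e2, mul_assoc])) (cof dC vV F.v11 e4)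
      c2 c4 wV vV vV i j l m⟩

/-- outside `PP` -/
theorem ZP.y7n (h : F.ZP g g' d1 d2 η1 η2 a b) (hk : k ∈ F.K4 g d1) (i j l m : Fin 2) {p : G}
    (e : p = k * a ^ (i : ℕ) * b ^ (j : ℕ) * F.t ^ (l : ℕ) * F.u1 ^ (m : ℕ)) :
    5 * Nat.card (F.SP g d1 a b ⊓ centralizer {p * F.v2} : Subgroup G) ≤ Nat.card (F.SP g d1 a b) := by
  obtain ⟨ha, hb, ht, hu, PS⟩ := h.y7P
  obtain ⟨gK, dK, VK, KR⟩ := h.y7K
  obtain ⟨n1, n2, n3, n4, n5, n6⟩ := F.y7ne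
  have X := h.y7X
  have zV := ZC.zV F
  have vV := ZC.vV F
  have v' := B1.iv' F.v22
  have hp : p ∈ F.PP g d1 a b :=
    e ▸ mul_mem (mul_mem (mul_mem (mul_mem (X.le hk) (pow_mem ha _)) (pow_mem hb _)) (pow_mem ht _)) (pow_mem hu _)
  have e1 : c F.v1 (p * F.v2) = F.z := by
    have := X.pm hp (cone (mem_centralizer_iff.1 (X.C hp) _ vV)) (x := F.v1) (y' := F.v2) (s' := F.z)
      (by rw [c, v', B1.iv' F.v11, F.hz]) zV
    rwa [one_mul] at this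
  have e2 : c d1 F.v2 = g * F.v1 := by
    have := h.zz.c1
    calc _ = d1 * F.v2 * (d1⁻¹ * F.v2 * d1) * d1⁻¹ := by rw [c, v']; group
      _ = d1 * (F.v2 * F.v2) * (g * F.v1) * d1⁻¹ := by rw [this]; group
      _ = _ := by rw [F.v22, mul_one, X.ab _ dK _ (mul_mem gK (VK vV))]; group
  have q : Q (F.K4 g d1) d1 (p * F.v2) F.z := by
    have := X.mul hp (X.ofK hp dK).symm (y' := F.v2) (s' := F.z) (by
      rw [Q, e2]
      exact ⟨mul_mem gK (VK vV), by rw [ZA.mm (X.ab _ gK _ (VK vV)), h.zz.gg, F.v11, mul_one]⟩)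
    simpa using this
  have e3 : c (F.v1 * d1) (p * F.v2) = c d1 (p * F.v2) * F.z := by
    rw [cmul', e1, X.ab _ (VK vV) _ q.1]; group
  have q' : c d1 (p * F.v2) * F.z * (c d1 (p * F.v2) * F.z) = F.z := by
    rw [ZA.mm (X.ab _ q.1 _ (VK zV)), q.2, F.zz, mul_one]
  have e4 : c b (p * F.v2) ∉ F.K4 g d1 := fun m1 => by
    rw [cmul] at m1
    have m2 := (mul_mem_cancel_left (e ▸ (h.y7Q hk i j l m).2.1.1)).1 m1
    have m3 := (mem_normalizer_iff.1 (X.N hp) _).2 m2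
    have m4 : a ∈ F.K4 g d1 := by
      have : a = (F.v2 * b * F.v2⁻¹ * (a * b)⁻¹)⁻¹ * (c b F.v2)⁻¹ := by unfold c; group
      rw [this]; exact mul_mem (inv_mem (v'.symm ▸ h.vb)) (inv_mem m3)
    simpa using (h.ind (i := 1) (j := 0) (l := 0) (m := 0) (n := 0) (by simpa using m4)).1
  refine cnt [1, F.z, c d1 (p * F.v2), c d1 (p * F.v2) * F.z, c b (p * F.v2)] (nd5 n1.symm
    (ns (mul_one _) q.2 n1.symm) (ns (mul_one _) q' n1.symm) (fun e => e4 (e ▸ one_mem _))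
    (ns F.zz q.2 n1.symm) (ns F.zz q' n1.symm) (fun e => e4 (e ▸ VK zV)) (by simpa using n1)
    (fun e => e4 (e ▸ q.1)) (fun e => e4 (e ▸ mul_mem q.1 (VK zV)))) ?_
  simp only [List.mem_cons, List.not_mem_nil, or_false]
  rintro _ (rfl | rfl | rfl | rfl | rfl)
  · exact ⟨1, one_mem _, c1 _⟩
  · exact ⟨_, PS (X.le (VK vV)), e1⟩
  · exact ⟨_, PS (X.le dK), rfl⟩
  · exact ⟨_, PS (X.le (mul_mem (VK vV) dK)), e3⟩
  · exact ⟨_, PS hb, rfl⟩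

/-- `t` occurs -/
theorem ZP.y7l (h : F.ZP g g' d1 d2 η1 η2 a b) (hk : k ∈ F.K4 g d1) (i j m : Fin 2) {y : G}
    (e : y = k * a ^ (i : ℕ) * b ^ (j : ℕ) * F.t ^ ((1 : Fin 2) : ℕ) * F.u1 ^ (m : ℕ)) :
    5 * Nat.card (F.SP g d1 a b ⊓ centralizer {y} : Subgroup G) ≤ Nat.card (F.SP g d1 a b) := by
  obtain ⟨ha, hb, ht, hu, PS⟩ := h.y7P
  obtain ⟨gK, dK, VK, KR⟩ := h.y7K
  obtain ⟨n1, n2, n3, n4, n5, n6⟩ := F.y7ne
  obtain ⟨⟨r1, r2, -, r3, -⟩, r⟩ := ZC.xr F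
  have X := h.y7X
  obtain ⟨qa, qb, -⟩ := h.y7Q hk i j 1 m
  rw [← e] at qa qb
  simp only [Fin.val_one, pow_one] at qa qb
  have qc := X.mul' ha qa qb
  rw [r3] at qc
  obtain ⟨x, hx, w1, w2⟩ : ∃ x ∈ F.K4 g d1, c x y ≠ 1 ∧ c x y * c x y = 1 := by
    have r4 := fun x => (r x).1
    have r5 := fun x => (r x).2.1
    have r6 := fun x => (r x).2.2.2.1
    rcases h.y7φ hk i j 1 m e with ⟨e1, -⟩ | ⟨e1, e2⟩
    · exact ⟨g, gK, by simpa [e1] using n1, by simpa [e1] using r1⟩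
    · fin_cases i <;> fin_cases j
      · exact ⟨g, gK, by simpa [e1] using n1, by simpa [e1] using r1⟩
      · exact ⟨g, gK, by simpa [e1, mul_assoc, r1, r2, r3, r4, r5, r6] using n2,
          by simp [e1, mul_assoc, r1, r2, r3, r4, r5, r6]⟩
      · exact ⟨d1, dK, by simpa [e2, mul_assoc, r1, r2, r3, r4, r5, r6] using n1,
          by simp [e2, mul_assoc, r1, r2, r3, r4, r5, r6]⟩
      · exact ⟨g, gK, by simpa [e1, mul_assoc, r1, r2, r3, r4, r5, r6] using n4,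
          by simp [e1, mul_assoc, r1, r2, r3, r4, r5, r6]⟩
  refine cnt [1, c x y, c a y, c b y, c (a * b) y] (nd5 w1.symm (ns (mul_one _) qa.2 n1.symm)
    (ns (mul_one _) qb.2 n2.symm) (ns (mul_one _) qc.2 n4.symm) (ns w2 qa.2 n1.symm) (ns w2 qb.2 n2.symm)
    (ns w2 qc.2 n4.symm) (ns qa.2 qb.2 n3) (ns qa.2 qc.2 n5) (ns qb.2 qc.2 n6)) ?_
  simp only [List.mem_cons, List.not_mem_nil, or_false]
  rintro _ (rfl | rfl | rfl | rfl | rfl)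
  · exact ⟨1, one_mem _, c1 _⟩
  · exact ⟨_, PS (X.le hx), rfl⟩
  · exact ⟨_, PS ha, rfl⟩
  · exact ⟨_, PS hb, rfl⟩
  · exact ⟨_, PS (mul_mem ha hb), rfl⟩

/-- `t` does not occur, but `a` or `b` does -/
theorem ZP.y7a (h : F.ZP g g' d1 d2 η1 η2 a b) (hk : k ∈ F.K4 g d1) (i j m : Fin 2) (hij : ¬ (i = 0 ∧ j = 0)) {y : G}
    (e : y = k * a ^ (i : ℕ) * b ^ (j : ℕ) * F.t ^ ((0 : Fin 2) : ℕ) * F.u1 ^ (m : ℕ)) (y2 : y * y = 1) :
    5 * Nat.card (F.SP g d1 a b ⊓ centralizer {y} : Subgroup G) ≤ Nat.card (F.SP g d1 a b) := by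
  obtain ⟨ha, hb, ht, hu, PS⟩ := h.y7P
  obtain ⟨gK, dK, VK, KR⟩ := h.y7K
  obtain ⟨n1, n2, n3, n4, n5, n6⟩ := F.y7ne
  obtain ⟨⟨r1, r2, -, r3, -⟩, r⟩ := ZC.xr F
  have r4 := fun x => (r x).1
  have r5 := fun x => (r x).2.1
  have r6 := fun x => (r x).2.2.2.1
  have X := h.y7X
  have zV := ZC.zV F
  have vV := ZC.vV F
  obtain ⟨-, -, qt⟩ := h.y7Q hk i j 0 m
  rw [← e] at qt
  have n : (1 : G) ≠ F.z ^ (i : ℕ) * F.v1 ^ (j : ℕ) := by
    fin_cases i <;> fin_cases j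
    · exact absurd ⟨rfl, rfl⟩ hij
    · simpa using n2.symm
    · simpa using n1.symm
    · simpa using n4.symm
  rcases h.y7φ hk i j 0 m e with ⟨e1, e2⟩ | ⟨e1, e2⟩
  · exfalso
    have hy : y ∈ 𝐂(F.K4 g d1) := ZA.cen (by
      rintro _ (rfl | rfl)
      · simpa [c, mul_inv_eq_one, mul_inv_eq_iff_eq_mul] using e1
      · simpa [c, mul_inv_eq_one, mul_inv_eq_iff_eq_mul] using e2)
    have k1 := mem_centralizer_iff.1 hy _ qt.1
    have k2 := ZA.mm k1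
    rw [qt.2, y2, mul_one] at k2
    refine n (k2 ▸ ?_)
    calc (1 : G) = F.t * (y * y) * F.t⁻¹ := by rw [y2]; group
      _ = _ := by unfold c; group
  · have gC := X.C (X.le gK)
    have e3 : ∀ w ∈ F.V1, c d1 y = w → c (g * d1) y = w * c g y := fun w hw e => by rw [cmul', e, fix gC hw]
    refine cnt [1, F.z, F.v1, F.z * F.v1, c F.t y] (nd5 n1.symm n2.symm n4.symm (ns (mul_one _) qt.2 n) n3 n5
      (ns r1 qt.2 n) n6 (ns r2 qt.2 n) (ns (F.y7sq (mul_mem zV vV)) qt.2 n)) ?_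
    have sg := PS (X.le gK)
    have sd := PS (X.le dK)
    simp only [List.mem_cons, List.not_mem_nil, or_false]
    fin_cases i <;> fin_cases j
    · exact absurd ⟨rfl, rfl⟩ hij
    all_goals
      simp only [Fin.zero_eta, Fin.mk_one, Fin.val_zero, Fin.val_one, pow_zero, pow_one, mul_one, one_mul, mul_assoc,
        r1, r2, r3, r4, r5, r6] at e1 e2
      have e4 := e3 _ (by first | exact zV | exact vV | exact mul_mem zV vV) e2
      simp only [e1, mul_assoc, r1, r2, r3, r4, r5, r6, mul_one] at e4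
      rintro _ (rfl | rfl | rfl | rfl | rfl)
      · exact ⟨1, one_mem _, c1 _⟩
      · first | exact ⟨_, sg, e1⟩ | exact ⟨_, sd, e2⟩ | exact ⟨_, mul_mem sg sd, e4⟩
      · first | exact ⟨_, sg, e1⟩ | exact ⟨_, sd, e2⟩ | exact ⟨_, mul_mem sg sd, e4⟩
      · first | exact ⟨_, sg, e1⟩ | exact ⟨_, sd, e2⟩ | exact ⟨_, mul_mem sg sd, e4⟩
      · exact ⟨_, PS ht, rfl⟩

theorem ZP.y7 (h : F.ZP g g' d1 d2 η1 η2 a b) {y : G} (hy : y ∈ F.SP g d1 a b) (y2 : y * y = 1) :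
    y ∈ F.V1 ∨ (∃ w ∈ F.V1, y = w * F.u1) ∨
      5 * Nat.card (F.SP g d1 a b ⊓ centralizer {y} : Subgroup G) ≤ Nat.card (F.SP g d1 a b) := by
  obtain ⟨k, hk, i, j, l, m, n, e⟩ := h.memS.1 hy
  fin_cases n
  swap
  · rw [e]; exact Or.inr (Or.inr (by simpa using h.y7n hk i j l m rfl))
  replace e : y = k * a ^ (i : ℕ) * b ^ (j : ℕ) * F.t ^ (l : ℕ) * F.u1 ^ (m : ℕ) := by simpa using e
  fin_cases l
  swap
  · exact Or.inr (Or.inr (h.y7l hk i j m e))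
  by_cases hij : i = 0 ∧ j = 0
  swap
  · exact Or.inr (Or.inr (h.y7a hk i j m hij e y2))
  obtain ⟨rfl, rfl⟩ := hij
  fin_cases m
  · obtain rfl : y = k := by simpa using e
    exact Or.inl ((h.y7sq hk).2 y2)
  · obtain rfl : y = k * F.u1 := by simpa using e
    refine Or.inr (Or.inl ⟨k, (h.y7sq hk).2 ?_, rfl⟩)
    rwa [ZA.mm (h.zz.zac (h.y7K.2.2.2 hk) (subset_closure (by simp))), F.u11, mul_one] at y2

theorem ZP.small (h : F.ZP g g' d1 d2 η1 η2 a b) {y : G} (hy : y ∈ F.M1 g d1 a b) (y2 : y * y = 1)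
    (hc : 128 ≤ Nat.card (F.SP g d1 a b ⊓ centralizer {y} : Subgroup G)) : y ∈ F.V1 := by
  rcases h.y7 (h.memS'.2 (Or.inl hy)) y2 with k | ⟨w, hw, rfl⟩ | k
  · exact k
  · have : F.K4 g d1 ≤ F.M1 g d1 a b :=
      closure_mono (by intro x; simp only [Set.mem_insert_iff, Set.mem_singleton_iff]; tauto)
    exact absurd ((mul_mem_cancel_left (this (h.y7K.2.2.1 hw))).1 hy) h.uM
  · rw [h.card.2.2.2.2] at k; omega

theorem ZP.charV (h : F.ZP g g' d1 d2 η1 η2 a b) {y : G} (hy : y ∈ F.SP g d1 a b) (y2 : y * y = 1) :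
    256 ≤ Nat.card (F.SP g d1 a b ⊓ centralizer {y} : Subgroup G) ↔ y ∈ F.V1 := by
  obtain ⟨ha, hb, -, -, PS⟩ := h.y7P
  have X := h.y7X
  constructor
  · intro hc
    rcases h.y7 hy y2 with k | ⟨w, hw, rfl⟩ | k
    · exact k
    · obtain ⟨n1, n2, n3, -⟩ := F.y7ne
      obtain ⟨-, -, c3, c4, -⟩ := h.y7c
      have hw' := X.le (h.y7K.2.2.1 hw)
      have k := cnt (S := F.SP g d1 a b) (y := w * F.u1) [1, F.z, F.v1] (by simp [n1.symm, n2.symm, n3]) (by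
        simp only [List.mem_cons, List.not_mem_nil, or_false]
        rintro _ (rfl | rfl | rfl)
        · exact ⟨1, one_mem _, c1 _⟩
        · exact ⟨a, PS ha, by
            simpa using X.pm hw' (cone (mem_centralizer_iff.1 (X.C ha) w hw).symm) c3 (ZC.zV F)⟩
        · exact ⟨b, PS hb, by
            simpa using X.pm hw' (cone (mem_centralizer_iff.1 (X.C hb) w hw).symm) c4 (ZC.vV F)⟩)
      rw [h.card.2.2.2.2] at k
      simp only [List.length_cons, List.length_nil] at k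
      omega
    · rw [h.card.2.2.2.2] at k; omega
  · intro hV
    rw [← h.card.2.2.2.1]
    exact card_le_of_le (le_inf PS fun x hx =>
      mem_centralizer_singleton_iff.2 (mem_centralizer_iff.1 (X.C hx) y hV).symm)

end Fr

end H60M.A6
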