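import Mathlib
import Cfsg.Agent.Lib.B6S.Y7
import Cfsg.Agent.Lib.B6S.Y4

/-! `SP` is a Sylow subgroup. -/

set_option autoImplicit false

namespace H60M.A6

open Subgroup H69 H36.SW H60M.A7

variable {G : Type*} [Group G] [Finite G]

namespace Fr
variable {F : Fr G} {u0 g g' v d1 d2 η η1 η2 κ k a b γ : G}

open ZC

theorem y8_v1 (F : Fr G) : F.v1 ≠ 1 := fun e => F.zanc (by rw [e, mul_one, one_mul])

theorem y8_vz (F : Fr G) : F.v1 ≠ F.z := fun e => F.zanc (by rw [e, F.B1zv2])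

theorem y8_sqV (F : Fr G) {w : G} (hw : w ∈ F.V1) : w * w = 1 := F.sqW1 (F.X1W1 (F.V1X1 hw))

theorem ZZ.y8_sq (h : F.ZZ 1 g g' 1 1 d1 d2 η1 η2) {e : G} (he : e ∈ F.R g 1 d1) : e * e ∈ F.V1 := by
  obtain ⟨w, hw, i, j, l, rfl⟩ := h.memR.1 he
  rw [h.zasq hw, one_pow, mul_one]
  exact mul_mem (pow_mem (vV F) _) (pow_mem (zV F) _)

theorem ZZ.y8_u (_ : F.ZZ 1 g g' 1 1 d1 d2 η1 η2) : F.u1 ∈ F.R g 1 d1 := subset_closure (by simp)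

theorem ZZ.y8_NR (h : F.ZZ 1 g g' 1 1 d1 d2 η1 η2) {n : G} (hn : n ∈ 𝐍(F.QQ g d1)) : n ∈ 𝐍(F.R g 1 d1) := by
  have k : ∀ x ∈ F.R g 1 d1, x * x ≠ 1 → n * x * n⁻¹ ∈ F.R g 1 d1 := fun x hx h1 => by
    refine (ZD.memQ h (cm hn (mem_sup_left hx))).resolve_right ?_
    rintro ⟨e, he, e1⟩
    refine cjne h1 n ?_
    rw [← conj_mul, e1]
    calc e * F.t * (e * F.t) = e * (F.t * e * F.t) := by group
      _ = 1 := by rw [h.inv he, mul_inv_cancel]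
  have kg := k g h.zaG (h.gg ▸ F.z1)
  refine ZA.nrm ?_
  rintro _ (rfl | rfl | rfl | rfl)
  · exact kg
  · exact k _ h.zad (h.d11 ▸ F.y8_v1)
  · rw [mul_one, mul_inv_cancel]; exact one_mem _
  · have := mul_mem (inv_mem kg) (k _ (mul_mem h.zaG h.y8_u) (by
      rw [ZA.mm (h.zac h.zaG h.y8_u), h.gg, F.u11, mul_one]; exact F.z1))
    rwa [← conj_mul, inv_mul_cancel_left] at this

theorem ZZ.y8_Pt (h : F.ZZ 1 g g' 1 1 d1 d2 η1 η2) {n : G} (hn : n ∈ 𝐍(F.QQ g d1)) :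
    ∃ w ∈ F.V1, Pt (F.R g 1 d1) F.t n w := by
  have hR := h.y8_NR hn
  rcases ZD.memQ h (cm hn (ZA.zr _ _)) with e | ⟨e, he, e1⟩
  · exact (F.tX1 ((h.sq ((mem_normalizer_iff.1 hR _).2 e)).2.1 F.tt)).elim
  · exact ⟨_, h.y8_sq (inv_mem he), hR, e⁻¹, inv_mem he, e1.trans (h.ze_ti he), rfl⟩

theorem ZZ.y8_NQ (h : F.ZZ 1 g g' 1 1 d1 d2 η1 η2) {n w : G} (p : Pt (F.R g 1 d1) F.t n w) :
    n ∈ 𝐍(F.QQ g d1) := mem_normalizer_fintype fun x hx => by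
  rcases ZD.memQ h hx with e | ⟨e, he, rfl⟩
  · exact mem_sup_left (cm p.nm e)
  · obtain ⟨f, hf, f1, -⟩ := p.ex
    rw [← conj_mul, f1]
    exact mul_mem (mem_sup_left (cm p.nm he)) (mul_mem (ZA.zr _ _) (mem_sup_left hf))

theorem ZP.y8_QP (_ : F.ZP g g' d1 d2 η1 η2 a b) : F.QQ g d1 ≤ F.PP g d1 a b :=
  sup_le ((closure_le _).2 (by
    rintro _ (rfl | rfl | rfl | rfl)
    exacts [subset_closure (by simp), subset_closure (by simp), one_mem _, subset_closure (by simp)]))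
    (zpowers_le.2 (subset_closure (by simp)))

theorem ZP.y8_PS (h : F.ZP g g' d1 d2 η1 η2 a b) : F.PP g d1 a b ≤ F.SP g d1 a b := fun _ hx =>
  h.memS''.2 (.inl hx)

theorem ZP.y8_a (_ : F.ZP g g' d1 d2 η1 η2 a b) : a ∈ F.PP g d1 a b := subset_closure (by simp)

theorem ZP.y8_b (_ : F.ZP g g' d1 d2 η1 η2 a b) : b ∈ F.PP g d1 a b := subset_closure (by simp)

theorem ZP.y8_PR (h : F.ZP g g' d1 d2 η1 η2 a b) : F.PP g d1 a b ≤ 𝐍(F.R g 1 d1) :=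
  h.y8_PS.trans h.nrm.2.2.2.1

theorem ZP.y8_pa (h : F.ZP g g' d1 d2 η1 η2 a b) : Pt (F.R g 1 d1) F.t a F.z :=
  ⟨h.y8_PR h.y8_a, g, h.zz.zaG, h.aT, h.zz.gg⟩

theorem ZP.y8_pb (h : F.ZP g g' d1 d2 η1 η2 a b) : Pt (F.R g 1 d1) F.t b F.v1 :=
  ⟨h.y8_PR h.y8_b, d1, h.zz.zad, h.bV.2.2.1, h.zz.d11⟩

theorem ZP.y8_p (h : F.ZP g g' d1 d2 η1 η2 a b) {w : G} (hw : w ∈ F.V1) :
    ∃ p ∈ F.PP g d1 a b, Pt (F.R g 1 d1) F.t p w ∧ p * F.u1 * p⁻¹ = F.u1 * w := by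
  have au : a * F.u1 * a⁻¹ = F.u1 * F.z := by rw [h.au, F.u2_eq F.hu1, F.zu1]
  have av : a * F.v1 = F.v1 * a := (h.aV _ (vV F)).symm
  rcases F.memV1.1 hw with rfl | rfl | rfl | rfl
  · exact ⟨1, one_mem _, Pt.one (one_mem _) (by rw [one_mul, mul_one]), by simp⟩
  · exact ⟨a, h.y8_a, h.y8_pa, au⟩
  · exact ⟨b, h.y8_b, h.y8_pb, h.bV.2.2.2.1⟩
  · refine ⟨a * b, mul_mem h.y8_a h.y8_b, (Pt.mul h.zz.ab h.y8_pa h.y8_pb).cg (by rw [kfix av]), ?_⟩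
    calc a * b * F.u1 * (a * b)⁻¹ = a * (b * F.u1 * b⁻¹) * a⁻¹ := by group
      _ = a * F.u1 * a⁻¹ * (a * F.v1 * a⁻¹) := by rw [h.bV.2.2.2.1]; group
      _ = _ := by rw [au, av, mul_inv_cancel_right, mul_assoc]

theorem ZP.y8_adj (h : F.ZP g g' d1 d2 η1 η2 a b) {n w : G} (hw : w ∈ F.V1) (q : Pt (F.R g 1 d1) F.t n w) :
    ∃ p ∈ F.PP g d1 a b, Pt (F.R g 1 d1) F.t (p * n) 1 ∧ p * F.u1 * p⁻¹ = F.u1 * w := by
  obtain ⟨p, hp, p1, p2⟩ := h.y8_p hw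
  exact ⟨p, hp, (Pt.mul h.zz.ab p1 q).cg (by
    rw [kfix (h.nrm.2.2.2.2 hp _ hw).symm, F.y8_sqV hw]), p2⟩

theorem ZP.full (h : F.ZP g g' d1 d2 η1 η2 a b) {n : G} (hn : n ∈ 𝐍(F.QQ g d1)) (hV : n ∈ 𝐂(F.V1)) :
    ∃ p ∈ F.PP g d1 a b, ∃ o ∈ 𝐂(F.QQ g d1), Odd (orderOf o) ∧ n = p * o := by
  obtain ⟨w, hw, q⟩ := h.zz.y8_Pt hn
  obtain ⟨p, hp, ⟨p1, e, he, e1, e2⟩, -⟩ := h.y8_adj hw q
  obtain ⟨x, hx, o, ho, od, e3⟩ := h.zz.SP' p1 he e1 e2 (mul_mem (h.nrm.2.2.2.2 hp) hV)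
  exact ⟨p⁻¹ * x, mul_mem (inv_mem hp) (h.y8_QP hx), o, ho, od, by rw [mul_assoc, ← e3, inv_mul_cancel_left]⟩

theorem ZP.y8_Q1 (h : F.ZP g g' d1 d2 η1 η2 a b) {x : G} (hx : x ∈ F.PP g d1 a b)
    (q : Pt (F.R g 1 d1) F.t x 1) : x ∈ F.QQ g d1 := by
  obtain ⟨p1, e, he, e1, e2⟩ := q
  obtain ⟨y, hy, o, -, od, rfl⟩ := h.zz.SP' p1 he e1 e2 (h.nrm.2.2.2.2 hx)
  rw [(P2.of_mem h.isP ((mul_mem_cancel_left (h.y8_QP hy)).1 hx)).eq_one od, mul_one]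
  exact hy

theorem ZP.y8_PQ (h : F.ZP g g' d1 d2 η1 η2 a b) : F.PP g d1 a b ≤ 𝐍(F.QQ g d1) := (closure_le _).2 (by
  rintro _ (rfl | rfl | rfl | rfl | rfl | rfl)
  exacts [le_normalizer (mem_sup_left h.zz.zaG), le_normalizer (mem_sup_left h.zz.zad), h.zz.y8_NQ h.y8_pa,
    h.zz.y8_NQ h.y8_pb, le_normalizer (ZA.zr _ _), le_normalizer (mem_sup_left h.zz.y8_u)])

theorem ZP.y8_Cu (h : F.ZP g g' d1 d2 η1 η2 a b) {x : G} (hx : x ∈ F.PP g d1 a b)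
    (c : x * F.u1 = F.u1 * x) : x ∈ F.QQ g d1 := by
  obtain ⟨w, hw, q⟩ := h.zz.y8_Pt (h.y8_PQ hx)
  obtain ⟨p, hp, p1, p2⟩ := h.y8_adj hw q
  have c2 := ZD.QX h.zz (h.y8_Q1 (mul_mem hp hx) p1) F.u1 (subset_closure (by simp))
  have c3 : p * F.u1 * p⁻¹ = F.u1 := by
    calc p * F.u1 * p⁻¹ = p * (F.u1 * x) * (p * x)⁻¹ := by group
      _ = p * x * F.u1 * (p * x)⁻¹ := by rw [← c, ← mul_assoc p]
      _ = _ := by rw [← c2, mul_inv_cancel_right]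
  refine h.y8_Q1 hx (q.cg ?_)
  rw [c3] at p2
  exact left_eq_mul.1 p2

theorem ZP.y8_VS (h : F.ZP g g' d1 d2 η1 η2 a b) : F.V1 ≤ F.SP g d1 a b :=
  (F.V1X1.trans h.zz.XR).trans (le_sup_left.trans (h.y8_QP.trans h.y8_PS))

theorem ZP.y8_nV (h : F.ZP g g' d1 d2 η1 η2 a b) {n : G} (hn : n ∈ 𝐍(F.SP g d1 a b)) : n ∈ 𝐍(F.V1) :=
  mem_normalizer_fintype fun y hy => by
    refine (h.charV (cm hn (h.y8_VS hy)) (cjsq (F.y8_sqV hy) n)).1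
      (((h.charV (h.y8_VS hy) (F.y8_sqV hy)).2 hy).trans ?_)
    rw [← card_map_of_injective (f := (MulAut.conj n).toMonoidHom) (MulAut.conj n).injective]
    refine card_le_of_le ?_
    rintro _ ⟨x, ⟨h1, h2⟩, rfl⟩
    refine ⟨cm hn h1, mem_centralizer_singleton_iff.2 ?_⟩
    show n * x * n⁻¹ * _ = _ * (n * x * n⁻¹)
    rw [conj_mul, conj_mul, mem_centralizer_singleton_iff.1 h2]

theorem ZP.y8_nP (h : F.ZP g g' d1 d2 η1 η2 a b) {n : G} (hn : n ∈ 𝐍(F.SP g d1 a b)) :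
    n ∈ 𝐍(F.PP g d1 a b) := mem_normalizer_fintype fun x hx => by
  refine (h.memS''.1 (cm hn (h.y8_PS hx))).resolve_right fun e => F.zanc ?_
  have c : n * x * n⁻¹ ∈ 𝐂(F.V1) := fun w hw => by
    have := h.nrm.2.2.2.2 hx _ (cm (inv_mem (h.y8_nV hn)) hw)
    calc w * (n * x * n⁻¹) = n * (n⁻¹ * w * n⁻¹⁻¹ * x) * n⁻¹ := by group
      _ = _ := by rw [this]; group
  exact ((mul_mem_cancel_left c).1 (h.nrm.2.2.2.2 e) _ (vV F)).symm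

theorem ZP.y8_cu (h : F.ZP g g' d1 d2 η1 η2 a b) {p : G} (hp : p ∈ F.PP g d1 a b) :
    p * F.u1 * p⁻¹ * F.u1⁻¹ ∈ F.V1 := by
  rw [inv_eq_of_mul_eq_one_right F.u11]
  exact (ZD.Xmem F ((h.zz.sq (cm (h.y8_PR hp) h.zz.y8_u)).2.1 (cjsq F.u11 p))).resolve_left fun e =>
    uV F F.hu1 ((mem_normalizer_iff.1 (h.nrm.2.2.1 (h.y8_PS hp)) _).2 e)

theorem ZP.y8_nu (h : F.ZP g g' d1 d2 η1 η2 a b) {n : G} (hn : n ∈ 𝐍(F.SP g d1 a b)) :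
    n * F.u1 * n⁻¹ ∈ F.X1 := by
  have y2 := cjsq F.u11 n
  have yP := cm (h.y8_nP hn) (h.y8_QP (mem_sup_left h.zz.y8_u))
  have c : ∀ p ∈ F.PP g d1 a b, p * (n * F.u1 * n⁻¹) * p⁻¹ * (n * F.u1 * n⁻¹)⁻¹ ∈ F.V1 := fun p hp => by
    have := cm (h.y8_nV hn) (h.y8_cu (cm (inv_mem (h.y8_nP hn)) hp))
    convert this using 1
    group
  generalize n * F.u1 * n⁻¹ = y at *
  have ct := c F.t (h.y8_QP (ZA.zr _ _))
  have yQ := h.y8_Q1 yP ⟨h.y8_PR yP, _, h.zz.XR (F.V1X1 ct), by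
    calc y * F.t * y⁻¹ = F.t * F.t * (y * F.t⁻¹ * y⁻¹) := by
          rw [F.tt, one_mul, inv_eq_of_mul_eq_one_right F.tt]
      _ = _ := by group, F.y8_sqV ct⟩
  refine (h.zz.sq ((ZD.memQ h.zz yQ).resolve_right ?_)).2.1 y2
  rintro ⟨e, he, rfl⟩
  have ca := c a h.y8_a
  generalize hw : a * (e * F.t) * a⁻¹ * (e * F.t)⁻¹ = w at ca
  have wR := h.zz.XR (F.V1X1 ca)
  have e1 : a * e * a⁻¹ = w * e * g := by
    calc a * e * a⁻¹ = a * e * a⁻¹ * (F.t * g * F.t) * g := by rw [h.zz.tg]; group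
      _ = a * e * a⁻¹ * (a * F.t * a⁻¹ * F.t⁻¹) * g := by rw [h.aT, inv_eq_of_mul_eq_one_right F.tt]
      _ = _ := by rw [← hw]; group
  have e2 : a * e * a⁻¹ * (a * e * a⁻¹) = e * e := by
    rw [conj_mul, ← h.aV _ (h.zz.y8_sq he), mul_inv_cancel_right]
  rw [e1, ZA.mm (h.zz.zac (mul_mem wR he) h.zz.zaG), ZA.mm (h.zz.zac wR he), F.y8_sqV ca, one_mul,
    h.zz.gg] at e2
  exact F.z1 (mul_eq_left.1 e2)

theorem ZP.y8_nQ (h : F.ZP g g' d1 d2 η1 η2 a b) {n : G} (hn : n ∈ 𝐍(F.SP g d1 a b)) :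
    n ∈ 𝐍(F.QQ g d1) := mem_normalizer_fintype fun x hx => by
  refine h.y8_Cu (cm (h.y8_nP hn) (h.y8_QP hx)) ?_
  have := ZD.QX h.zz hx _ (h.y8_nu (inv_mem hn))
  calc n * x * n⁻¹ * F.u1 = n * (x * (n⁻¹ * F.u1 * n⁻¹⁻¹)) * n⁻¹ := by group
    _ = _ := by rw [← this]; group

theorem ZP.y8_Sz (h : F.ZP g g' d1 d2 η1 η2 a b) {x : G} (hx : x ∈ F.SP g d1 a b) : F.z * x = x * F.z := by
  rcases h.memS''.1 hx with e | e
  · exact h.nrm.2.2.2.2 e _ (zV F)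
  · have := h.nrm.2.2.2.2 e _ (zV F)
    rw [mul_assoc, ← F.B1zv2, ← mul_assoc, ← mul_assoc] at this
    exact mul_right_cancel this

theorem ZP.syl (h : F.ZP g g' d1 d2 η1 η2 a b) : IsSylowIn 2 (F.SP g d1 a b) ⊤ := by
  refine isSylowIn_of_normalizer le_top ⟨le_inf le_top le_normalizer, h.isPS, fun R hPR hR hRp =>
    le_antisymm (fun n hn => ?_) hPR⟩
  have key : ∀ m ∈ R, m ∈ 𝐂(F.V1) → m ∈ F.SP g d1 a b := fun m hm c => by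
    obtain ⟨p, hp, o, -, od, rfl⟩ := h.full (h.y8_nQ (hR hm).2) c
    rw [(P2.of_mem hRp ((mul_mem_cancel_left (hPR (h.y8_PS hp))).1 hm)).eq_one od, mul_one]
    exact h.y8_PS hp
  have v2 : F.v2 ∈ F.SP g d1 a b := subset_closure (by simp)
  have nS := (hR hn).2
  have nV := h.y8_nV nS
  have cz : n * F.z * n⁻¹ * F.v2 = F.v2 * (n * F.z * n⁻¹) := by
    have := h.y8_Sz (cm (inv_mem nS) v2)
    calc n * F.z * n⁻¹ * F.v2 = n * (F.z * (n⁻¹ * F.v2 * n⁻¹⁻¹)) * n⁻¹ := by group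
      _ = _ := by rw [this]; group
  have nz : n * F.z * n⁻¹ = F.z := by
    rcases F.memV1.1 (cm nV (zV F)) with e | e | e | e
    · exact (cjne F.z1 n e).elim
    · exact e
    · rw [e] at cz; exact (F.zanc cz.symm).elim
    · rw [e, ← mul_assoc, ← F.B1zv2, mul_assoc, mul_assoc] at cz
      exact (F.zanc (mul_left_cancel cz).symm).elim
  rcases F.memV1.1 (cm nV (vV F)) with e | e | e | e
  · exact (cjne F.y8_v1 n e).elim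
  · exact (F.y8_vz (by simpa using e.trans nz.symm)).elim
  · exact key n hn (cenV nz e)
  · refine (mul_mem_cancel_left v2).1 (key _ (mul_mem (hPR v2) hn) (cenV ?_ ?_))
    · rw [map_mul, MulAut.mul_apply, MulAut.conj_apply n, nz, kfix F.B1zv2.symm]
    · rw [map_mul, MulAut.mul_apply, MulAut.conj_apply n, e, map_mul, kfix F.B1zv2.symm, MulAut.conj_apply,
        inv_eq_of_mul_eq_one_right F.v22, F.zav2, ← mul_assoc, F.zz, one_mul]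

end Fr

end H60M.A6
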